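import Mathlib
import Cfsg.Agent.Lib.Quad.Types

/-!
# Free permutations, even functions, and counting values of quadratic forms
-/

set_option autoImplicit false
set_option linter.unusedVariables false
set_option linter.unusedSectionVars false
set_option linter.unusedSimpArgs false

namespace Cfsg.Agent.Lib.Known.BC

open Module

section Perm

/-- The sign of a permutation all of whose moved points have full orbits. -/
theorem sign_free {X : Type*} [Fintype X] [DecidableEq X] (σ : Equiv.Perm X) {M : ℕ} (hM : 0 < M) (hσ : σ ^ M = 1)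
    (hfree : ∀ x, σ x ≠ x → ∀ j, 0 < j → j < M → (σ ^ j) x ≠ x) :
    ∃ m, σ.support.card = M * m ∧ Equiv.Perm.sign σ = (-1) ^ (M * m + m) := by
  have hall : ∀ n ∈ σ.cycleType, n = M := by
    intro n hn
    rw [Equiv.Perm.cycleType_def] at hn
    obtain ⟨c, hc, rfl⟩ := Multiset.mem_map.1 hn
    have hc' : c ∈ σ.cycleFactorsFinset := hc
    have hcyc := (Equiv.Perm.mem_cycleFactorsFinset_iff.1 hc').1
    obtain ⟨a, ha⟩ : ∃ a, c a ≠ a := by
      obtain ⟨a, ha, -⟩ := hcyc
      exact ⟨a, ha⟩
    have ha' : a ∈ c.support := Equiv.Perm.mem_support.2 ha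
    have hca : c = σ.cycleOf a := Equiv.Perm.cycle_is_cycleOf ha' hc'
    have hσa : σ a ≠ a := by
      have h1 := (Equiv.Perm.mem_cycleFactorsFinset_iff.1 hc').2 a ha'
      rwa [← h1]
    have hn0 : 0 < c.support.card := Finset.card_pos.2 ⟨a, ha'⟩
    have hord : orderOf c = c.support.card := hcyc.orderOf
    have h1 : (σ ^ c.support.card) a = a := by
      have h2 : (c ^ c.support.card) a = a := by
        rw [← hord, pow_orderOf_eq_one]
        rfl
      rw [hca, Equiv.Perm.cycleOf_pow_apply_self] at h2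
      rwa [hca]
    have h2 : c.support.card ∣ M := by
      rw [← hord, hca]
      exact (Equiv.Perm.orderOf_cycleOf_dvd_orderOf σ a).trans (orderOf_dvd_of_pow_eq_one hσ)
    have h3 := Nat.le_of_dvd hM h2
    rcases Nat.lt_or_ge c.support.card M with h4 | h4
    · exact absurd h1 (hfree a hσa _ hn0 h4)
    · simp only [Function.comp]
      omega
  have hrep : σ.cycleType = Multiset.replicate (Multiset.card σ.cycleType) M := Multiset.eq_replicate.2 ⟨rfl, hall⟩
  refine ⟨Multiset.card σ.cycleType, ?_, ?_⟩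
  · rw [← Equiv.Perm.sum_cycleType]
    conv_lhs => rw [hrep]
    rw [Multiset.sum_replicate, smul_eq_mul, mul_comm]
  · rw [Equiv.Perm.sign_of_cycleType]
    congr 2
    conv_lhs => rw [hrep]
    rw [Multiset.sum_replicate, smul_eq_mul, mul_comm]

/-- Even functions on a group without `2`-torsion: the sum is the value at zero modulo two. -/
theorem sum_even_fn {A : Type*} [AddCommGroup A] [Fintype A] [DecidableEq A] (h2 : ∀ a : A, -a = a → a = 0) (f : A → ℕ)
    (hf : ∀ a, f (-a) = f a) : (((∑ a, f a : ℕ)) : ZMod 2) = f 0 := by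
  push_cast
  rw [← Finset.add_sum_erase Finset.univ _ (Finset.mem_univ (0 : A))]
  have h3 : ∑ a ∈ Finset.univ.erase (0 : A), ((f a : ℕ) : ZMod 2) = 0 := by
    apply Finset.sum_involution (fun a _ => -a)
    · intro a _
      rw [hf, CharTwo.add_self_eq_zero]
    · intro a ha _ h
      exact (Finset.mem_erase.1 ha).1 (h2 a h)
    · intro a _
      exact neg_neg a
    · intro a ha
      rw [Finset.mem_erase]
      refine ⟨?_, Finset.mem_univ _⟩
      intro h
      exact (Finset.mem_erase.1 ha).1 (neg_eq_zero.1 h)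
  rw [h3, add_zero]

end Perm

section Count

variable {F : Type*} [Field F] [Fintype F]

/-- The number of solutions of a nonzero linear equation. -/
theorem card_dot {m : ℕ} (x : Fin m → F) (hx : x ≠ 0) (b : F) :
    Nat.card {y : Fin m → F // ∑ i, x i * y i = b} * Fintype.card F = Fintype.card F ^ m := by
  classical
  let φ : (Fin m → F) →+ F :=
    { toFun := fun y => ∑ i, x i * y i
      map_zero' := by simp
      map_add' := fun a b => by simp [mul_add, Finset.sum_add_distrib] }
  obtain ⟨i₀, hi₀⟩ : ∃ i, x i ≠ 0 := by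
    by_contra h
    push Not at h
    exact hx (funext h)
  have hsurj : ∀ c : F, c ∈ Set.range φ := by
    intro c
    refine ⟨Pi.single i₀ (c / x i₀), ?_⟩
    change ∑ i, x i * (Pi.single i₀ (c / x i₀) : Fin m → F) i = c
    rw [Finset.sum_eq_single i₀]
    · simp
      field_simp
    · intro j _ hj
      simp [Pi.single_eq_of_ne hj]
    · simp
  have hfib : ∀ c : F, (Finset.univ.filter (fun y => φ y = c)).card = (Finset.univ.filter (fun y => φ y = b)).card := by
    intro c
    exact AddMonoidHom.card_fiber_eq_of_mem_range φ (hsurj c) (hsurj b)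
  have hsum : ∑ c : F, (Finset.univ.filter (fun y => φ y = c)).card = Fintype.card (Fin m → F) := by
    rw [← Finset.card_univ]
    exact (Finset.card_eq_sum_card_fiberwise (fun y _ => Finset.mem_univ _)).symm
  rw [Finset.sum_congr rfl (fun c _ => hfib c), Finset.sum_const, Finset.card_univ, smul_eq_mul] at hsum
  rw [Fintype.card_fun, Fintype.card_fin] at hsum
  rw [Nat.card_eq_fintype_card, Fintype.card_subtype]
  change (Finset.univ.filter (fun y => φ y = b)).card * _ = _
  rw [mul_comm]
  exact hsum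

/-- The count of `x·y + A z = 1`. -/
theorem count_gen {Z : Type*} [Fintype Z] (A : Z → F) {m : ℕ} (hm : 1 ≤ m) :
    Nat.card {t : (Fin m → F) × (Fin m → F) × Z // ∑ i, t.1 i * t.2.1 i + A t.2.2 = 1} =
      (Fintype.card F ^ m - 1) * Fintype.card F ^ (m - 1) * Fintype.card Z +
        Fintype.card F ^ m * Nat.card {z : Z // A z = 1} := by
  classical
  set q := Fintype.card F with hq
  have hq0 : 0 < q := Fintype.card_pos
  have hL : ∀ (x : Fin m → F), x ≠ 0 → ∀ b : F, Nat.card {y : Fin m → F // ∑ i, x i * y i = b} = q ^ (m - 1) := by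
    intro x hx b
    have h1 := card_dot x hx b
    rw [← hq] at h1
    have h2 : q ^ m = q ^ (m - 1) * q := by
      rw [← pow_succ, Nat.sub_add_cancel hm]
    rw [h2] at h1
    exact Nat.eq_of_mul_eq_mul_right hq0 h1
  -- sigma decomposition
  have e1 : {t : (Fin m → F) × (Fin m → F) × Z // ∑ i, t.1 i * t.2.1 i + A t.2.2 = 1} ≃
      Σ x : Fin m → F, Σ z : Z, {y : Fin m → F // ∑ i, x i * y i = 1 - A z} :=
    { toFun := fun t => ⟨t.1.1, t.1.2.2, t.1.2.1, by
        have := t.2
        linear_combination this⟩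
      invFun := fun s => ⟨(s.1, s.2.2.1, s.2.1), by
        have := s.2.2.2
        simp only
        linear_combination this⟩
      left_inv := fun t => rfl
      right_inv := fun s => rfl }
  rw [Nat.card_congr e1, Nat.card_sigma]
  have h2 : ∀ x : Fin m → F, Nat.card (Σ z : Z, {y : Fin m → F // ∑ i, x i * y i = 1 - A z}) =
      ∑ z : Z, Nat.card {y : Fin m → F // ∑ i, x i * y i = 1 - A z} := fun x => Nat.card_sigma
  simp_rw [h2]
  rw [← Finset.add_sum_erase Finset.univ _ (Finset.mem_univ (0 : Fin m → F))]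
  have h3 : ∑ x ∈ Finset.univ.erase (0 : Fin m → F), ∑ z : Z, Nat.card {y : Fin m → F // ∑ i, x i * y i = 1 - A z} =
      (q ^ m - 1) * q ^ (m - 1) * Fintype.card Z := by
    have h4 : ∀ x ∈ Finset.univ.erase (0 : Fin m → F), ∑ z : Z, Nat.card {y : Fin m → F // ∑ i, x i * y i = 1 - A z} =
        q ^ (m - 1) * Fintype.card Z := by
      intro x hx
      rw [Finset.sum_congr rfl (fun z _ => hL x (Finset.mem_erase.1 hx).1 (1 - A z)), Finset.sum_const, Finset.card_univ, smul_eq_mul, mul_comm]
    rw [Finset.sum_congr rfl h4, Finset.sum_const, smul_eq_mul, Finset.card_erase_of_mem (Finset.mem_univ _), Finset.card_univ, Fintype.card_fun, Fintype.card_fin, ← hq]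
    ring
  have h5 : ∑ z : Z, Nat.card {y : Fin m → F // ∑ i, (0 : Fin m → F) i * y i = 1 - A z} = q ^ m * Nat.card {z : Z // A z = 1} := by
    have h6 : ∀ z : Z, Nat.card {y : Fin m → F // ∑ i, (0 : Fin m → F) i * y i = 1 - A z} = if A z = 1 then q ^ m else 0 := by
      intro z
      split_ifs with h
      · have : ∀ y : Fin m → F, ∑ i, (0 : Fin m → F) i * y i = 1 - A z := by
          intro y
          simp [h]
        rw [Nat.card_eq_fintype_card, Fintype.card_subtype, Finset.filter_true_of_mem (fun y _ => this y), Finset.card_univ, Fintype.card_fun, Fintype.card_fin]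
      · have : IsEmpty {y : Fin m → F // ∑ i, (0 : Fin m → F) i * y i = 1 - A z} := by
          constructor
          rintro ⟨y, hy⟩
          simp only [Pi.zero_apply, zero_mul, Finset.sum_const_zero] at hy
          exact h (by linear_combination hy)
        exact Nat.card_of_isEmpty
    rw [Finset.sum_congr rfl (fun z _ => h6 z), Finset.sum_ite, Finset.sum_const, Finset.sum_const_zero, add_zero, smul_eq_mul, mul_comm, Nat.card_eq_fintype_card, Fintype.card_subtype]
  rw [h3, h5, add_comm]

/-- The count for the plus type form. -/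
theorem count_plus {m : ℕ} (hm : 1 ≤ m) :
    Nat.card {v : Fin m ⊕ Fin m → F // Cfsg.quadFormPlus m F v = 1} =
      (Fintype.card F ^ m - 1) * Fintype.card F ^ (m - 1) := by
  have h1 := count_gen (F := F) (Z := Unit) (fun _ => (0 : F)) hm
  have e : {v : Fin m ⊕ Fin m → F // Cfsg.quadFormPlus m F v = 1} ≃
      {t : (Fin m → F) × (Fin m → F) × Unit // ∑ i, t.1 i * t.2.1 i + (0 : F) = 1} :=
    { toFun := fun v => ⟨(fun i => v.1 (Sum.inl i), fun i => v.1 (Sum.inr i), ()), by
        have := v.2
        simp only [Cfsg.quadFormPlus] at this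
        simpa using this⟩
      invFun := fun t => ⟨Sum.elim t.1.1 t.1.2.1, by
        have := t.2
        simp only [Cfsg.quadFormPlus, Sum.elim_inl, Sum.elim_inr]
        simpa using this⟩
      left_inv := fun v => by
        apply Subtype.ext
        funext i
        cases i <;> rfl
      right_inv := fun t => rfl }
  rw [Nat.card_congr e, h1]
  have h2 : Nat.card {z : Unit // (0 : F) = 1} = 0 := by
    have : IsEmpty {z : Unit // (0 : F) = 1} := ⟨fun z => zero_ne_one z.2⟩
    exact Nat.card_of_isEmpty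
  rw [h2]
  simp

/-- The count for the minus type form. -/
theorem count_minus {m : ℕ} (hm : 1 ≤ m) (ζ : F) :
    Nat.card {v : (Fin m ⊕ Fin m) ⊕ Fin 2 → F // Cfsg.quadFormMinus m F 1 ζ v = 1} =
      (Fintype.card F ^ m - 1) * Fintype.card F ^ (m - 1) * Fintype.card F ^ 2 +
        Fintype.card F ^ m * Nat.card {z : Fin 2 → F // z 0 ^ 2 + 1 * z 0 * z 1 + ζ * z 1 ^ 2 = 1} := by
  have h1 := count_gen (F := F) (Z := Fin 2 → F) (fun z => z 0 ^ 2 + 1 * z 0 * z 1 + ζ * z 1 ^ 2) hm
  have e : {v : (Fin m ⊕ Fin m) ⊕ Fin 2 → F // Cfsg.quadFormMinus m F 1 ζ v = 1} ≃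
      {t : (Fin m → F) × (Fin m → F) × (Fin 2 → F) // ∑ i, t.1 i * t.2.1 i + (t.2.2 0 ^ 2 + 1 * t.2.2 0 * t.2.2 1 + ζ * t.2.2 1 ^ 2) = 1} :=
    { toFun := fun v => ⟨(fun i => v.1 (Sum.inl (Sum.inl i)), fun i => v.1 (Sum.inl (Sum.inr i)), fun i => v.1 (Sum.inr i)), by
        have := v.2
        simp only [Cfsg.quadFormMinus] at this
        simpa using this⟩
      invFun := fun t => ⟨Sum.elim (Sum.elim t.1.1 t.1.2.1) t.1.2.2, by
        have := t.2
        simp only [Cfsg.quadFormMinus, Sum.elim_inl, Sum.elim_inr]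
        simpa using this⟩
      left_inv := fun v => by
        apply Subtype.ext
        funext i
        rcases i with (i | i) | i <;> rfl
      right_inv := fun t => rfl }
  rw [Nat.card_congr e, h1]
  simp only [Fintype.card_fun, Fintype.card_fin]

/-- The exact number of vectors of value one, knowing that `q^k + 1` divides it. -/
theorem count_value {V : Type*} [AddCommGroup V] [Module F V] [FiniteDimensional F V] {k : ℕ} (hk : 2 ≤ k)
    (hq3 : 3 ≤ Fintype.card F) (hV : finrank F V = 2 * k) (Q : QuadraticForm F V)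
    (hQ : Cfsg.Agent.Lib.Quad.NondegQ Q) (hdiv : Fintype.card F ^ k + 1 ∣ Nat.card {v : V // Q v = 1}) :
    Nat.card {v : V // Q v = 1} = Fintype.card F ^ (k - 1) * (Fintype.card F ^ k + 1) := by
  classical
  set q := Fintype.card F with hq
  obtain ⟨j, rfl⟩ : ∃ j, k = j + 2 := ⟨k - 2, by omega⟩
  have hcop : Nat.Coprime (q ^ (j + 2) + 1) q := by
    have h1 : Nat.Coprime (q ^ (j + 2) + 1) (q ^ (j + 2)) :=
      Nat.Coprime.symm ((Nat.coprime_self_add_right).2 (Nat.coprime_one_right _))
    exact Nat.Coprime.coprime_dvd_right (dvd_pow_self q (by omega)) h1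
  have hq1 : 1 ≤ q ^ (j + 2) := Nat.one_le_pow _ _ (by omega)
  rcases Cfsg.Agent.Lib.Quad.exists_type_gen (m := j + 2) (by omega) hV Q hQ with ⟨g, hg⟩ | ⟨ζ, hζ, g, hg⟩
  · exfalso
    have e : {v : V // Q v = 1} ≃ {v : Fin (j + 2) ⊕ Fin (j + 2) → F // Cfsg.quadFormPlus (j + 2) F v = 1} :=
      g.toEquiv.subtypeEquiv (fun v => by
        change Q v = 1 ↔ _
        rw [hg]
        exact Iff.rfl)
    rw [Nat.card_congr e, count_plus (by omega), ← hq] at hdiv
    have h1 : q ^ (j + 2) + 1 ∣ q ^ (j + 2) - 1 := by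
      have h2 : Nat.Coprime (q ^ (j + 2) + 1) (q ^ (j + 2 - 1)) := Nat.Coprime.pow_right _ hcop
      exact h2.dvd_of_dvd_mul_right hdiv
    have h3 : 0 < q ^ (j + 2) - 1 := by
      have : 3 ^ 1 ≤ q ^ (j + 2) := (Nat.pow_le_pow_left hq3 1).trans (Nat.pow_le_pow_right (by omega) (by omega))
      omega
    have h4 := Nat.le_of_dvd h3 h1
    omega
  · have e : {v : V // Q v = 1} ≃ {v : (Fin (j + 2 - 1) ⊕ Fin (j + 2 - 1)) ⊕ Fin 2 → F // Cfsg.quadFormMinus (j + 2 - 1) F 1 ζ v = 1} :=
      g.toEquiv.subtypeEquiv (fun v => by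
        change Q v = 1 ↔ _
        rw [hg]
        exact Iff.rfl)
    rw [Nat.card_congr e, count_minus (by omega), ← hq] at hdiv ⊢
    set E := Nat.card {z : Fin 2 → F // z 0 ^ 2 + 1 * z 0 * z 1 + ζ * z 1 ^ 2 = 1} with hE
    have hEle : E ≤ q ^ 2 := by
      have h1 : E ≤ Nat.card (Fin 2 → F) := by
        rw [hE]
        exact Nat.card_le_card_of_injective _ Subtype.val_injective
      rwa [Nat.card_eq_fintype_card, Fintype.card_fun, Fintype.card_fin, ← hq] at h1
    have e2 : j + 2 - 1 = j + 1 := rfl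
    have e3 : j + 1 - 1 = j := rfl
    rw [e2, e3] at hdiv ⊢
    have hq1' : 1 ≤ q ^ (j + 1) := Nat.one_le_pow _ _ (by omega)
    obtain ⟨a, ha⟩ : ∃ a, q ^ (j + 1) = a + 1 := ⟨q ^ (j + 1) - 1, by omega⟩
    have hfac : (q ^ (j + 1) - 1) * q ^ j * q ^ 2 + q ^ (j + 1) * E = q ^ (j + 1) * (a * q + E) := by
      have : q ^ (j + 1) - 1 = a := by omega
      rw [this]
      ring
    rw [hfac] at hdiv ⊢
    have h1 : q ^ (j + 2) + 1 ∣ a * q + E := by
      have h2 : Nat.Coprime (q ^ (j + 2) + 1) (q ^ (j + 1)) := Nat.Coprime.pow_right _ hcop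
      exact h2.dvd_of_dvd_mul_left hdiv
    have hX : a * q + q = q ^ (j + 2) := by
      have : q ^ (j + 2) = q ^ (j + 1) * q := pow_succ _ _
      rw [this, ha]
      ring
    have hEq : E = q + 1 := by
      have hbig : q ^ 2 ≤ q ^ (j + 2) := Nat.pow_le_pow_right (by omega) (by omega)
      have hq2 : q ≤ q ^ 2 := by nlinarith
      rcases Nat.lt_trichotomy E (q + 1) with h2 | h2 | h2
      · exfalso
        have h3 : 0 < a * q + E := by
          have : 1 ≤ a := by
            have : 3 ^ 1 ≤ q ^ (j + 1) := (Nat.pow_le_pow_left hq3 1).trans (Nat.pow_le_pow_right (by omega) (by omega))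
            omega
          have : q ≤ a * q := Nat.le_mul_of_pos_left _ (by omega)
          omega
        have h4 := Nat.le_of_dvd h3 h1
        omega
      · exact h2
      · exfalso
        have h3 : a * q + E = (q ^ (j + 2) + 1) + (E - (q + 1)) := by omega
        rw [h3] at h1
        have h4 : q ^ (j + 2) + 1 ∣ E - (q + 1) := (Nat.dvd_add_right (dvd_refl _)).1 h1
        have h5 := Nat.le_of_dvd (by omega) h4
        have h6 : E - (q + 1) ≤ q ^ 2 := by omega
        omega
    congr 1
    rw [hEq]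
    omega

end Count

end Cfsg.Agent.Lib.Known.BC
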