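import Cfsg.Agent.Lib.Known.BC9

/-!
# Element orders in `Ω_{2n+1}(q)`, `q` odd: necessary conditions
-/

set_option autoImplicit false
set_option linter.unusedVariables false
set_option linter.unusedSectionVars false
set_option linter.unusedSimpArgs false

namespace Cfsg.Agent.Lib.Known.BC

open Polynomial Module Matrix Cfsg.Agent.Lib.Known.PG Cfsg.Agent.Lib.EigCount Cfsg.Agent.Lib.Classical Cfsg.Agent.Lib.KnownSimple Cfsg.Agent.Lib.Known.PSpPG Cfsg.Agent.Lib.Quad

variable {F : Type*} [Field F] [Fintype F] {ι : Type} [Fintype ι] [DecidableEq ι]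

/-- The lift of an element of `PΩ` of odd dimension. -/
theorem om_lift {f : (ι → F) → F} (hf : NDQ f) {n N : ℕ} (hn : 3 ≤ n) (hι : Fintype.card ι = 2 * n + 1)
    (hodd : Odd (Fintype.card F)) (g : Cfsg.POmega F f) (hg : orderOf g = N) (hN : 0 < N) :
    ∃ (Q : QuadraticForm F (ι → F)) (T : Module.End F (ι → F)),
      NondegQ Q ∧ (∀ v, Q (T v) = Q v) ∧ T ^ N = 1 ∧ (∀ j, ¬ N ∣ j → T ^ j ≠ 1) ∧
        (∀ j, ∃ v, v ≠ 0 ∧ (T ^ j) v = v) ∧
        ∀ j, ∃ σ : Equiv.Perm {v // Q v = 1}, (∀ v, ((σ v : {v // Q v = 1}) : ι → F) = (T ^ j) v) ∧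
          ∀ [Fintype {v // Q v = 1}] [DecidableEq {v // Q v = 1}], Equiv.Perm.sign σ = 1 := by
  classical
  obtain ⟨x, rfl⟩ := QuotientGroup.mk'_surjective _ g
  obtain ⟨Q, rfl, hnd⟩ := hf
  have h2 : (2 : F) ≠ 0 := two_ne_zero' hodd
  have hcen : x ^ N ∈ Subgroup.center (Cfsg.Omega F (⇑Q)) := by
    have h3 : (QuotientGroup.mk' (Subgroup.center (Cfsg.Omega F (⇑Q))) x) ^ N = 1 := by
      rw [← hg]
      exact pow_orderOf_eq_one _
    rw [← map_pow] at h3
    exact (QuotientGroup.eq_one_iff _).1 h3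
  have hdetΩ : ∀ y : Cfsg.Omega F (⇑Q), (oM y.1).det = 1 := by
    intro y
    have h3 := hom_comm_trivial ((Matrix.GeneralLinearGroup.det).comp (Cfsg.isometryGroup F (⇑Q)).subtype) y.2
    have h4 := congrArg (fun z : Fˣ => (z : F)) h3
    exact h4
  have hxN : x ^ N = 1 := by
    rcases center_eq_pm hnd (by omega) hcen with h3 | h3
    · exact Subtype.ext (Subtype.ext (Units.ext h3))
    · exfalso
      have h4 := hdetΩ (x ^ N)
      rw [h3, Matrix.det_neg, Matrix.det_one, mul_one] at h4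
      have h5 : Odd (Fintype.card ι) := by
        rw [hι]
        exact ⟨n, rfl⟩
      rw [h5.neg_one_pow] at h4
      apply h2
      linear_combination -h4
  have hord : orderOf x = N :=
    Nat.dvd_antisymm (orderOf_dvd_of_pow_eq_one hxN) (hg ▸ orderOf_map_dvd _ _)
  set A : Matrix ι ι F := oM x.1 with hA
  have hpow : ∀ j : ℕ, oM (x ^ j).1 = A ^ j := by
    intro j
    induction j with
    | zero => rfl
    | succ j ih =>
      rw [pow_succ, pow_succ, ← ih]
      rfl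
  set T : Module.End F (ι → F) := Matrix.toLin' A with hT
  have hTpow : ∀ j : ℕ, T ^ j = Matrix.toLin' (A ^ j) := fun j => (Matrix.toLin'_pow A j).symm
  have hTne : ∀ j : ℕ, ¬ N ∣ j → T ^ j ≠ 1 := by
    intro j hj h
    apply hj
    rw [← hord]
    apply orderOf_dvd_of_pow_eq_one
    apply Subtype.ext
    apply Subtype.ext
    apply Units.ext
    change oM (x ^ j).1 = 1
    rw [hpow]
    apply Matrix.toLin'.injective
    rw [← hTpow, h, Matrix.toLin'_one]
    rfl
  have hTN : T ^ N = 1 := by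
    rw [hTpow, ← hpow, hxN]
    change Matrix.toLin' (1 : Matrix ι ι F) = 1
    rw [Matrix.toLin'_one]
    rfl
  have hTQ : ∀ v, Q (T v) = Q v := by
    intro v
    rw [hT, Matrix.toLin'_apply]
    exact oM_Q x.1 v
  refine ⟨Q, T, NondegQ.of_polarBilin hnd, hTQ, hTN, hTne, ?_, ?_⟩
  · intro j
    obtain ⟨v, hv0, hv⟩ := exists_fixed_of_det Q hnd h2 (by rw [hι]; exact ⟨n, rfl⟩) (oM (x ^ j).1)
      (fun v => oM_Q (x ^ j).1 v) (hdetΩ _)
    refine ⟨v, hv0, ?_⟩
    rw [hTpow, ← hpow, Matrix.toLin'_apply]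
    exact hv
  · intro j
    refine ⟨permQ Q (x ^ j).1, ?_, ?_⟩
    · intro v
      rw [hTpow, ← hpow, Matrix.toLin'_apply]
      rfl
    · intro _ _
      have h3 := hom_comm_trivial ((Equiv.Perm.sign).comp (permQ Q)) (x ^ j).2
      rw [MonoidHom.comp_apply] at h3
      exact h3

section Nec

variable {f : (ι → F) → F} {n : ℕ}

theorem finrank_iota (hι : Fintype.card ι = 2 * n + 1) : finrank F (ι → F) = 2 * n + 1 := by
  rw [Module.finrank_fintype_fun_eq_card, hι]

theorem pow_comm' (T : Module.End F (ι → F)) (a b : ℕ) (v : ι → F) : (T ^ a) ((T ^ b) v) = (T ^ b) ((T ^ a) v) := by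
  rw [← Module.End.mul_apply, ← Module.End.mul_apply, ← pow_add, ← pow_add, add_comm]

theorem om_eta_of (hf : NDQ f) (hn : 3 ≤ n) (hι : Fintype.card ι = 2 * n + 1) (hodd : Odd (Fintype.card F))
    (g : Cfsg.POmega F f) {t N : ℕ} [Fact t.Prime] (ht2 : t ≠ 2) (htF : (t : F) ≠ 0) (hg : orderOf g = t * N) (hN : 0 < N) {η : ℕ}
    (hη : Conv (orderOf ((Fintype.card F : ℕ) : ZMod t)) η) : η ≤ n := by
  have htp : t.Prime := Fact.out
  obtain ⟨Q, T, hnd, hTQ, hTN, hTne, -, -⟩ := om_lift hf hn hι hodd g hg (by have := htp.pos; positivity)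
  have h3 := orth_two_eta_dim (x := T ^ N) ht2 hnd htF (by rw [← pow_mul, mul_comm]; exact hTN)
    (hTne _ (by
      intro h
      have := Nat.le_of_dvd hN h
      have h4 : 2 * N ≤ t * N := Nat.mul_le_mul_right _ htp.two_le
      omega)) (iso_pow Q hTQ N) hη
  rw [finrank_iota hι] at h3
  omega

theorem om_tp_of (hf : NDQ f) (hn : 3 ≤ n) (hι : Fintype.card ι = 2 * n + 1) (hodd : Odd (Fintype.card F))
    (g : Cfsg.POmega F f) {t p : ℕ} [Fact t.Prime] [Fact p.Prime] [CharP F p] (ht2 : t ≠ 2) (htp' : t ≠ p) (htF : (t : F) ≠ 0) (hg : orderOf g = t * p) {η : ℕ}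
    (hη : Conv (orderOf ((Fintype.card F : ℕ) : ZMod t)) η) : η + 1 ≤ n := by
  have htp : t.Prime := Fact.out
  have hpp : p.Prime := Fact.out
  obtain ⟨Q, T, hnd, hTQ, hTN, hTne, -, -⟩ := om_lift hf hn hι hodd g hg (by have := htp.pos; have := hpp.pos; positivity)
  have h3 := orth_rp (x := T ^ p) (y := T ^ t) (r := t) (p := p) htp' ht2 hnd htF (by rw [← pow_mul, mul_comm]; exact hTN)
    (hTne _ (by
      intro h
      have := Nat.le_of_dvd hpp.pos h
      have h4 : 2 * p ≤ t * p := Nat.mul_le_mul_right _ htp.two_le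
      have := hpp.pos
      omega)) (iso_pow Q hTQ p) (iso_pow Q hTQ t) (by rw [← pow_mul]; exact hTN) (hTne _ (by
      intro h
      have := Nat.le_of_dvd htp.pos h
      have h4 : t * 2 ≤ t * p := Nat.mul_le_mul_left _ hpp.two_le
      have := htp.pos
      omega)) (pow_comm' T _ _) hη
  rw [finrank_iota hι] at h3
  omega

theorem om_rs_of (hf : NDQ f) (hn : 3 ≤ n) (hι : Fintype.card ι = 2 * n + 1) (hodd : Odd (Fintype.card F))
    (g : Cfsg.POmega F f) {r s p : ℕ} [Fact r.Prime] [Fact s.Prime] [Fact p.Prime] [CharP F p] (hr2 : r ≠ 2) (hs2 : s ≠ 2) (hrp : r ≠ p) (hsp : s ≠ p) (hrs : r ≠ s)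
    (hrF : (r : F) ≠ 0) (hsF : (s : F) ≠ 0)
    (hg : orderOf g = r * s) {ηk ηl : ℕ}
    (hk : Conv (orderOf ((Fintype.card F : ℕ) : ZMod r)) ηk) (hl : Conv (orderOf ((Fintype.card F : ℕ) : ZMod s)) ηl)
    (hkl : ηk ≤ ηl) (hnn : n < ηk + ηl) :
    ∃ t : ℕ, Odd t ∧ orderOf ((Fintype.card F : ℕ) : ZMod s) = orderOf ((Fintype.card F : ℕ) : ZMod r) * t := by
  have hrr : r.Prime := Fact.out
  have hss : s.Prime := Fact.out
  obtain ⟨Q, T, hnd, hTQ, hTN, hTne, -, -⟩ := om_lift hf hn hι hodd g hg (by have := hrr.pos; have := hss.pos; positivity)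
  exact orth_rs (x₁ := T ^ s) (x₂ := T ^ r) (r := r) (s := s) (p := p) hrp hsp hrs hr2 hs2 hnd hrF hsF
    (by rw [← pow_mul, mul_comm]; exact hTN) (by rw [← pow_mul]; exact hTN)
    (hTne _ (by
      intro h
      have := Nat.le_of_dvd hss.pos h
      have h4 : 2 * s ≤ r * s := Nat.mul_le_mul_right _ hrr.two_le
      have := hss.pos
      omega))
    (hTne _ (by
      intro h
      have := Nat.le_of_dvd hrr.pos h
      have h4 : r * 2 ≤ r * s := Nat.mul_le_mul_left _ hss.two_le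
      have := hrr.pos
      omega)) (iso_pow Q hTQ s) (iso_pow Q hTQ r) (pow_comm' T _ _) hk hl (finrank_iota hι) hkl hnn

theorem om_two_of (hf : NDQ f) (hn : 3 ≤ n) (hι : Fintype.card ι = 2 * n + 1) (hodd : Odd (Fintype.card F))
    (g : Cfsg.POmega F f) {t : ℕ} [Fact t.Prime] (ht2 : t ≠ 2) (htF : (t : F) ≠ 0) (hg : orderOf g = 2 * t) {η : ℕ}
    (hη : Conv (orderOf ((Fintype.card F : ℕ) : ZMod t)) η) :
    C2 (Fintype.card F) (orderOf ((Fintype.card F : ℕ) : ZMod t)) η n := by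
  classical
  have htp : t.Prime := Fact.out
  have h2 : (2 : F) ≠ 0 := two_ne_zero' hodd
  have hbd : η ≤ n := om_eta_of hf hn hι hodd g ht2 htF (N := 2) (by rw [hg, mul_comm]) (by norm_num) hη
  by_cases hηn : η + 1 ≤ n
  · exact Or.inl hηn
  have hηe : n = η := by omega
  subst hηe
  right
  obtain ⟨Q, T, hnd, hTQ, hTN, hTne, hfix, hsig⟩ := om_lift hf hn hι hodd g hg (by have := htp.pos; positivity)
  haveI : Finite (ι → F) := Module.finite_of_finite F
  haveI : Fintype {v : ι → F // Q v = 1} := Fintype.ofFinite _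
  obtain ⟨σ, hσ, hsg⟩ := hsig t
  obtain ⟨v₀, hv₀, hv₀'⟩ := hfix (t + 2)
  obtain ⟨M₀, hM, h4M, hsM⟩ := four_dvd (x := T ^ 2) (i := T ^ t) (s := t) h2 hodd ht2 hnd (by omega) (finrank_iota hι) htF
    (by rw [← pow_mul]; exact hTN)
    (hTne _ (by
      intro h
      have h5 := Nat.le_of_dvd (by norm_num) h
      have := htp.two_le
      omega))
    (iso_pow Q hTQ 2) hη (by rw [← pow_mul, mul_comm]; exact hTN)
    (hTne _ (by
      intro h
      have := Nat.le_of_dvd htp.pos h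
      have := htp.pos
      omega)) (iso_pow Q hTQ t) (pow_comm' T _ _) ⟨v₀, hv₀, by
      rw [← Module.End.mul_apply, ← pow_add]
      exact hv₀'⟩ σ hσ hsg
  have := arith_crit ht2 hodd (by omega) hη hM h4M hsM
  rcases this with h5 | h5
  · exact Or.inl h5
  · exact Or.inr h5

end Nec

end Cfsg.Agent.Lib.Known.BC
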