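import Cfsg.Agent.Lib.Known.BC10
import Cfsg.Agent.Lib.AutPOm.OddForm
import Cfsg.Agent.Lib.Spinor.Cor

/-!
# Models of isometries of prescribed order
-/

set_option autoImplicit false
set_option linter.unusedVariables false
set_option linter.unusedSectionVars false
set_option linter.unusedSimpArgs false

namespace Cfsg.Agent.Lib.Known.BC

open Polynomial Module Matrix Cfsg.Agent.Lib.Known.PG Cfsg.Agent.Lib.EigCount Cfsg.Agent.Lib.Classical Cfsg.Agent.Lib.KnownSimple Cfsg.Agent.Lib.Known.PSpPG Cfsg.Agent.Lib.Quad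

section Mod

/-- An isometry with powers equal to one exactly at multiples of `d`, in dimension `m`. -/
def Mod (F : Type*) [Field F] (m d : ℕ) : Prop :=
  ∃ (Q : QuadraticForm F (Fin m → F)) (T : Module.End F (Fin m → F)),
    NondegQ Q ∧ (∀ v, Q (T v) = Q v) ∧ ∀ j, T ^ j = 1 ↔ d ∣ j

variable {F : Type*} [Field F]

theorem conj_pow {V W : Type*} [AddCommGroup V] [Module F V] [AddCommGroup W] [Module F W] (e : V ≃ₗ[F] W) (T : Module.End F V) (T' : Module.End F W)
    (h : ∀ v, T' v = e (T (e.symm v))) (j : ℕ) (v : W) : (T' ^ j) v = e ((T ^ j) (e.symm v)) := by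
  induction j generalizing v with
  | zero => simp
  | succ j ih =>
    rw [pow_succ, Module.End.mul_apply, ih, h, pow_succ, Module.End.mul_apply, LinearEquiv.symm_apply_apply]

theorem conj_pow_one {V W : Type*} [AddCommGroup V] [Module F V] [AddCommGroup W] [Module F W] (e : V ≃ₗ[F] W) (T : Module.End F V) (T' : Module.End F W)
    (h : ∀ v, T' v = e (T (e.symm v))) (j : ℕ) : T' ^ j = 1 ↔ T ^ j = 1 := by
  constructor
  · intro h1
    ext v
    have := LinearMap.congr_fun h1 (e v)
    rw [conj_pow e T T' h, LinearEquiv.symm_apply_apply] at this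
    exact e.injective this
  · intro h1
    ext v
    rw [conj_pow e T T' h, h1]
    simp

theorem nondeg_comp_symm {V W : Type*} [AddCommGroup V] [Module F V] [AddCommGroup W] [Module F W] (e : V ≃ₗ[F] W) (Q : QuadraticForm F V) (hnd : NondegQ Q) :
    NondegQ (Q.comp (e.symm : W →ₗ[F] V)) := by
  intro v hv
  have h6 : e.symm v = 0 := by
    refine hnd _ fun w => ?_
    have := hv (e w)
    simp only [QuadraticMap.polar, QuadraticMap.comp_apply, LinearEquiv.coe_coe, map_add, LinearEquiv.symm_apply_apply] at this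
    exact this
  simpa using h6

theorem Mod.of_form {V : Type*} [AddCommGroup V] [Module F V] [FiniteDimensional F V] {m d : ℕ} (hV : finrank F V = m)
    (Q : QuadraticForm F V) (T : Module.End F V) (hnd : NondegQ Q) (hT : ∀ v, Q (T v) = Q v) (hj : ∀ j, T ^ j = 1 ↔ d ∣ j) :
    Mod F m d := by
  let e : V ≃ₗ[F] (Fin m → F) := LinearEquiv.ofFinrankEq _ _ (by simp [hV])
  refine ⟨Q.comp (e.symm : (Fin m → F) →ₗ[F] V), (e : V →ₗ[F] (Fin m → F)) ∘ₗ T ∘ₗ (e.symm : (Fin m → F) →ₗ[F] V),
    nondeg_comp_symm e Q hnd, ?_, ?_⟩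
  · intro v
    simp [hT]
  · intro j
    rw [conj_pow_one e T _ (fun v => rfl), hj]

theorem prod_pow_apply {V W : Type*} [AddCommGroup V] [Module F V] [AddCommGroup W] [Module F W] (T₁ : Module.End F V) (T₂ : Module.End F W) (j : ℕ) (a : V) (b : W) :
    ((LinearMap.prodMap T₁ T₂ : Module.End F (V × W)) ^ j) (a, b) = ((T₁ ^ j) a, (T₂ ^ j) b) := by
  induction j generalizing a b with
  | zero => simp
  | succ j ih =>
    rw [pow_succ, Module.End.mul_apply, LinearMap.prodMap_apply, ih, pow_succ, pow_succ, Module.End.mul_apply, Module.End.mul_apply]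

theorem prod_pow_one {V W : Type*} [AddCommGroup V] [Module F V] [AddCommGroup W] [Module F W] (T₁ : Module.End F V) (T₂ : Module.End F W) (j : ℕ) :
    (LinearMap.prodMap T₁ T₂ : Module.End F (V × W)) ^ j = 1 ↔ T₁ ^ j = 1 ∧ T₂ ^ j = 1 := by
  constructor
  · intro h
    constructor
    · ext a
      have := LinearMap.congr_fun h (a, 0)
      rw [prod_pow_apply] at this
      exact congrArg Prod.fst this
    · ext b
      have := LinearMap.congr_fun h (0, b)
      rw [prod_pow_apply] at this
      exact congrArg Prod.snd this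
  · rintro ⟨h1, h2⟩
    apply LinearMap.ext
    rintro ⟨a, b⟩
    rw [prod_pow_apply, h1, h2]
    rfl

theorem Mod.prod {a b d₁ d₂ : ℕ} (h₁ : Mod F a d₁) (h₂ : Mod F b d₂) : Mod F (a + b) (Nat.lcm d₁ d₂) := by
  obtain ⟨Q₁, T₁, hn₁, hT₁, hj₁⟩ := h₁
  obtain ⟨Q₂, T₂, hn₂, hT₂, hj₂⟩ := h₂
  refine Mod.of_form (V := (Fin a → F) × (Fin b → F)) (by simp) (QuadraticMap.prod Q₁ Q₂) (LinearMap.prodMap T₁ T₂) ?_ ?_ ?_
  · rintro ⟨x, y⟩ h
    have hpol : ∀ u v : (Fin a → F) × (Fin b → F), QuadraticMap.polar (QuadraticMap.prod Q₁ Q₂) u v =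
        QuadraticMap.polar Q₁ u.1 v.1 + QuadraticMap.polar Q₂ u.2 v.2 := by
      intro u v
      simp only [QuadraticMap.polar, QuadraticMap.prod_apply, Prod.fst_add, Prod.snd_add]
      ring
    have hx : x = 0 := hn₁ x (fun w => by
      have := h (w, 0)
      rw [hpol] at this
      simpa using this)
    have hy : y = 0 := hn₂ y (fun w => by
      have := h (0, w)
      rw [hpol] at this
      simpa using this)
    rw [hx, hy]
    rfl
  · rintro ⟨x, y⟩
    simp [hT₁, hT₂]
  · intro j
    rw [prod_pow_one, hj₁, hj₂, Nat.lcm_dvd_iff]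

theorem Mod.of_bil {V : Type*} [AddCommGroup V] [Module F V] [FiniteDimensional F V] {m d : ℕ} (hV : finrank F V = m)
    (B : LinearMap.BilinForm F V) (T : Module.End F V) (hnd : ∀ u, (∀ v, B u v + B v u = 0) → u = 0)
    (hT : ∀ v, B (T v) (T v) = B v v) (hj : ∀ j, T ^ j = 1 ↔ d ∣ j) : Mod F m d := by
  refine Mod.of_form hV (LinearMap.BilinMap.toQuadraticMap B) T ?_ hT hj
  intro u hu
  apply hnd
  intro v
  have := hu v
  simp only [QuadraticMap.polar, LinearMap.BilinMap.toQuadraticMap_apply, map_add, LinearMap.add_apply] at this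
  linear_combination this

theorem mod_fill (h2 : (2 : F) ≠ 0) (m : ℕ) : Mod F m 1 := by
  classical
  let B : LinearMap.BilinForm F (Fin m → F) := LinearMap.mk₂ F (fun u v => ∑ i, u i * v i)
    (fun a a' w => by simp [add_mul, Finset.sum_add_distrib])
    (fun t a w => by simp [Finset.mul_sum, mul_assoc])
    (fun a w w' => by simp [mul_add, Finset.sum_add_distrib])
    (fun t a w => by
      simp only [Pi.smul_apply, smul_eq_mul, Finset.mul_sum]
      exact Finset.sum_congr rfl (fun i _ => by ring))
  refine Mod.of_bil (V := Fin m → F) (by simp) B 1 ?_ (by simp) (by simp)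
  intro u hu
  ext i
  have := hu (Pi.single i 1)
  change (∑ k, u k * (Pi.single i (1 : F) : Fin m → F) k) + (∑ k, (Pi.single i (1 : F) : Fin m → F) k * u k) = 0 at this
  simp only [Pi.single_apply, mul_ite, mul_one, mul_zero, ite_mul, one_mul, zero_mul, Finset.sum_ite_eq', Finset.sum_ite_eq, Finset.mem_univ, if_true] at this
  have h3 : (2 : F) * u i = 0 := by linear_combination this
  exact (mul_eq_zero.1 h3).resolve_left h2

theorem Mod.fill (h2 : (2 : F) ≠ 0) {a d m : ℕ} (h : Mod F a d) (ham : a ≤ m) : Mod F m d := by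
  have := h.prod (mod_fill h2 (m - a))
  rw [Nat.lcm_one_right, Nat.add_sub_cancel' ham] at this
  exact this

end Mod

section Tori

variable {F : Type*} [Field F] [Fintype F]

theorem mod_even (p : ℕ) [Fact p.Prime] [CharP F p] {η N : ℕ} (hη : 1 ≤ η) (hN : N ∣ Fintype.card F ^ η + 1) (h2 : (2 : F) ≠ 0) : Mod F (2 * η) N := by
  classical
  set q := Fintype.card F with hq
  have hq1 : 1 ≤ q ^ η := Nat.one_le_pow _ _ Fintype.card_pos
  have hd : N ∣ q ^ (2 * η) - 1 := by
    have e : q ^ (2 * η) - 1 = (q ^ η + 1) * (q ^ η - 1) := by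
      have h1 : q ^ (2 * η) = q ^ η * q ^ η := by rw [two_mul, pow_add]
      rw [h1]
      obtain ⟨c, hc⟩ := Nat.exists_eq_add_of_le hq1
      rw [hc]
      simp only [Nat.add_sub_cancel_left]
      have : (1 + c) * (1 + c) - 1 = (1 + c + 1) * c := by
        have h2 : (1 + c) * (1 + c) = (1 + c + 1) * c + 1 := by ring
        omega
      exact this
    rw [e]
    exact hN.mul_right _
  obtain ⟨K, _, _, _, u, hK, hu0, hu⟩ := exists_ext_elt (F := F) p (2 * η) N (by omega) hd
  have : FiniteDimensional F K := finiteDimensional_of_finrank hK (by omega)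
  have : Finite K := inferInstance
  obtain ⟨φ, hφ⟩ : ∃ φ : K ≃ₐ[F] K, φ = FiniteField.frobeniusAlgEquivOfAlgebraic F K ^ η := ⟨_, rfl⟩
  have hφx : ∀ x, φ x = x ^ (q ^ η) := by
    intro x
    rw [hφ]
    simp only [AlgEquiv.coe_pow]
    rw [FiniteField.coe_frobeniusAlgEquivOfAlgebraic_iterate]
  have hcard : Fintype.card K = q ^ (2 * η) := by
    rw [Module.card_eq_pow_finrank (K := F) (V := K), hK]
  have hφφ : ∀ x, φ (φ x) = x := by
    intro x
    rw [hφx, hφx, ← pow_mul, ← pow_add, ← two_mul, ← hcard]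
    exact FiniteField.pow_card x
  have hφu : u * φ u = 1 := by
    rw [hφx, ← pow_one u, ← pow_mul, one_mul, ← pow_add, add_comm]
    rw [← hu] at hN
    exact orderOf_dvd_iff_pow_eq_one.1 hN
  let B : LinearMap.BilinForm F K := LinearMap.mk₂ F (fun x y => Algebra.trace F K (x * φ y))
    (fun a a' w => by simp [mul_add, add_mul, map_add])
    (fun t a w => by
      rw [show t • a * φ w = t • (a * φ w) by rw [smul_mul_assoc]]
      simp)
    (fun a w w' => by simp [mul_add, add_mul, map_add])
    (fun t a w => by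
      rw [show a * φ (t • w) = t • (a * φ w) by rw [map_smul, mul_smul_comm]]
      simp)
  have hB : ∀ x y, B x y = Algebra.trace F K (x * φ y) := fun x y => rfl
  have htr : ∀ x, Algebra.trace F K (φ x) = Algebra.trace F K x := fun x => Algebra.trace_eq_of_algEquiv φ x
  have hsym : ∀ x y, B y x = B x y := by
    intro x y
    rw [hB, hB, ← htr (y * φ x), map_mul, hφφ, mul_comm]
  refine Mod.of_bil hK B (LinearMap.mulLeft F u) ?_ ?_ ?_
  · intro x hx
    have h1 : ∀ z, Algebra.trace F K (x * z) = 0 := by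
      intro z
      have h3 := hx (φ z)
      have h5 : B (φ z) x = B x (φ z) := hsym x (φ z)
      rw [h5, hB, hφφ] at h3
      have h4 : (2 : F) * Algebra.trace F K (x * z) = 0 := by linear_combination h3
      exact (mul_eq_zero.1 h4).resolve_left h2
    exact (traceForm_nondegenerate F K).1 x fun z => h1 z
  · intro x
    change Algebra.trace F K ((u * x) * φ (u * x)) = Algebra.trace F K (x * φ x)
    congr 1
    rw [map_mul]
    calc u * x * (φ u * φ x) = x * φ x * (u * φ u) := by ring
      _ = x * φ x := by rw [hφu, mul_one]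
  · intro j
    rw [← hu, orderOf_dvd_iff_pow_eq_one]
    constructor
    · intro h
      have := LinearMap.congr_fun h 1
      rw [LinearMap.pow_mulLeft, LinearMap.mulLeft_apply] at this
      simpa using this
    · intro h
      rw [LinearMap.pow_mulLeft, h]
      ext
      simp

theorem mod_odd (p : ℕ) [Fact p.Prime] [CharP F p] {η N : ℕ} (hη : 1 ≤ η) (hN : N ∣ Fintype.card F ^ η - 1) : Mod F (2 * η) N := by
  classical
  obtain ⟨K, _, _, _, u, hK, hu0, hu⟩ := exists_ext_elt (F := F) p η N hη hN
  have : FiniteDimensional F K := finiteDimensional_of_finrank hK hη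
  have : Finite K := inferInstance
  let B : LinearMap.BilinForm F (K × K) := LinearMap.mk₂ F (fun x y => Algebra.trace F K (x.1 * y.2))
    (fun a a' w => by simp [mul_add, add_mul, map_add])
    (fun t a w => by simp [smul_mul_assoc])
    (fun a w w' => by simp [mul_add, add_mul, map_add])
    (fun t a w => by simp [mul_smul_comm])
  have hB : ∀ x y, B x y = Algebra.trace F K (x.1 * y.2) := fun x y => rfl
  have hu1 : u * u⁻¹ = 1 := mul_inv_cancel₀ hu0
  have hpow : ∀ (j : ℕ) (a : K), ((LinearMap.mulLeft F u : Module.End F K) ^ j) a = u ^ j * a := by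
    intro j a
    rw [LinearMap.pow_mulLeft, LinearMap.mulLeft_apply]
  have hpow' : ∀ (j : ℕ) (a : K), ((LinearMap.mulLeft F u⁻¹ : Module.End F K) ^ j) a = (u⁻¹) ^ j * a := by
    intro j a
    rw [LinearMap.pow_mulLeft, LinearMap.mulLeft_apply]
  refine Mod.of_bil (V := K × K) (by simp [hK]; ring) B (LinearMap.prodMap (LinearMap.mulLeft F u) (LinearMap.mulLeft F u⁻¹)) ?_ ?_ ?_
  · rintro ⟨x, y⟩ hxy
    have h1 : x = 0 := (traceForm_nondegenerate F K).1 x fun z => by
      have := hxy (0, z)
      simp only [hB, zero_mul, map_zero, add_zero] at this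
      exact this
    have h2 : y = 0 := (traceForm_nondegenerate F K).1 y fun z => by
      have := hxy (z, 0)
      simp only [hB, mul_zero, map_zero, zero_add] at this
      change Algebra.trace F K (y * z) = 0
      rw [mul_comm]
      exact this
    rw [h1, h2]
    rfl
  · rintro ⟨x, y⟩
    change Algebra.trace F K ((u * x) * (u⁻¹ * y)) = Algebra.trace F K (x * y)
    congr 1
    calc u * x * (u⁻¹ * y) = x * y * (u * u⁻¹) := by ring
      _ = x * y := by rw [hu1, mul_one]
  · intro j
    rw [prod_pow_one, ← hu, orderOf_dvd_iff_pow_eq_one]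
    constructor
    · rintro ⟨h, -⟩
      have := LinearMap.congr_fun h 1
      rw [hpow] at this
      simpa using this
    · intro h
      constructor
      · rw [LinearMap.pow_mulLeft, h]
        ext
        simp
      · rw [LinearMap.pow_mulLeft, inv_pow, h, inv_one]
        ext
        simp

theorem mod_unip (p : ℕ) [Fact p.Prime] [CharP F p] (h2 : (2 : F) ≠ 0) : Mod F 3 p := by
  classical
  let T : Module.End F (F × F × F) :=
    { toFun := fun v => (v.1 + 2 * v.2.1 + v.2.2, v.2.1 + v.2.2, v.2.2)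
      map_add' := by
        intro a b
        ext <;> simp <;> ring
      map_smul' := by
        intro c a
        ext <;> simp <;> ring }
  have hT : ∀ v : F × F × F, T v = (v.1 + 2 * v.2.1 + v.2.2, v.2.1 + v.2.2, v.2.2) := fun v => rfl
  let B : LinearMap.BilinForm F (F × F × F) := LinearMap.mk₂ F (fun v w => v.2.1 * w.2.1 - v.1 * w.2.2)
    (fun a a' w => by simp; ring)
    (fun t a w => by simp; ring)
    (fun a w w' => by simp; ring)
    (fun t a w => by simp; ring)
  have hB : ∀ v w : F × F × F, B v w = v.2.1 * w.2.1 - v.1 * w.2.2 := fun v w => rfl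
  have hpow : ∀ (j : ℕ) (v : F × F × F), (T ^ j) v =
      (v.1 + 2 * (j : F) * v.2.1 + (j : F) ^ 2 * v.2.2, v.2.1 + (j : F) * v.2.2, v.2.2) := by
    intro j v
    induction j with
    | zero => simp
    | succ j ih =>
      rw [pow_succ', Module.End.mul_apply, ih, hT]
      push_cast
      ext <;> simp <;> ring
  refine Mod.of_bil (V := F × F × F) (by simp) B T ?_ ?_ ?_
  · rintro ⟨x, y, z⟩ h
    have h1 := h (0, 1, 0)
    have h3 := h (1, 0, 0)
    have h4 := h (0, 0, 1)
    simp only [hB] at h1 h3 h4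
    simp only [mul_one, mul_zero, zero_mul, sub_zero, add_zero, zero_add, zero_sub, one_mul, sub_self] at h1 h3 h4
    have hy : y = 0 := by
      have : (2 : F) * y = 0 := by linear_combination h1
      exact (mul_eq_zero.1 this).resolve_left h2
    have hz : z = 0 := by
      simpa using h3
    have hx : x = 0 := by
      simpa using h4
    rw [hx, hy, hz]
    rfl
  · rintro ⟨x, y, z⟩
    simp only [hT, hB]
    ring
  · intro j
    rw [← CharP.cast_eq_zero_iff F p j]
    constructor
    · intro h
      have := LinearMap.congr_fun h (0, 1, 0)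
      rw [hpow] at this
      have h3 := congrArg Prod.fst this
      simp at h3
      exact (h3.resolve_left h2)
    · intro h
      ext v
      all_goals simp [hpow, h]

theorem mod_prime (p : ℕ) [Fact p.Prime] [CharP F p] {t η : ℕ} [Fact t.Prime] (h2 : (2 : F) ≠ 0) (hη1 : 1 ≤ η) (hη : Conv (orderOf ((Fintype.card F : ℕ) : ZMod t)) η) :
    Mod F (2 * η) t := by
  rcases hη with ⟨_, h⟩ | ⟨_, h⟩
  · exact mod_odd p hη1 ((dvd_pow_sub_one_iff η).2 (by rw [h]))
  · exact mod_even p hη1 (half_dvd hη1 h) h2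

theorem mod_four (p : ℕ) [Fact p.Prime] [CharP F p] (hq : Odd (Fintype.card F)) : Mod F 2 4 := by
  have h2 : (2 : F) ≠ 0 := two_ne_zero' hq
  rcases four_dvd_one_or hq with h | h
  · exact mod_odd p (η := 1) le_rfl h
  · exact mod_even p (η := 1) le_rfl h h2

end Tori

end Cfsg.Agent.Lib.Known.BC
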