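import Cfsg.Agent.Lib.Known.BC11

/-!
# Element orders in `PΩ_{2n+1}(q)`, `q` odd: realization, and the comparison with `PSp_{2n}(q)`
-/

set_option autoImplicit false
set_option linter.unusedVariables false
set_option linter.unusedSectionVars false
set_option linter.unusedSimpArgs false

namespace Cfsg.Agent.Lib.Known.BC

open Polynomial Module Matrix Cfsg.Agent.Lib.Known.PG Cfsg.Agent.Lib.EigCount Cfsg.Agent.Lib.Classical Cfsg.Agent.Lib.KnownSimple Cfsg.Agent.Lib.Known.PSpPG Cfsg.Agent.Lib.Quad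

variable {F : Type*} [Field F] [Fintype F]

/-- The isometry of the standard form attached to a model. -/
theorem iso_of_mod {n d : ℕ} (hq : Odd (Fintype.card F)) (h : Mod F (2 * n + 1) d) :
    ∃ T : Module.End F (Unit ⊕ (Fin n ⊕ Fin n) → F), (∀ v, Cfsg.quadFormOdd n F (T v) = Cfsg.quadFormOdd n F v) ∧
      ∀ j, T ^ j = 1 ↔ d ∣ j := by
  classical
  have h2 : (2 : F) ≠ 0 := two_ne_zero' hq
  obtain ⟨Q₀, T₀, hn₀, hT₀, hj₀⟩ := h
  have hV : finrank F (Fin (2 * n + 1) → F) = finrank F (Unit ⊕ (Fin n ⊕ Fin n) → F) := by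
    simp
    ring
  let e : (Fin (2 * n + 1) → F) ≃ₗ[F] (Unit ⊕ (Fin n ⊕ Fin n) → F) := LinearEquiv.ofFinrankEq _ _ hV
  obtain ⟨Qs, hQs, hns⟩ := ndq_odd h2 n
  let q₀ : QuadraticForm F (Unit ⊕ (Fin n ⊕ Fin n) → F) := Q₀.comp (e.symm : _ →ₗ[F] (Fin (2 * n + 1) → F))
  have hq₀ : NondegQ q₀ := nondeg_comp_symm e Q₀ hn₀
  obtain ⟨y₀, c₀, hc₀, hy⟩ := Cfsg.Agent.Lib.AutPOm.odd_similar q₀ Qs hq₀ (fun v => by rw [hQs])
  let e'' : (Unit ⊕ (Fin n ⊕ Fin n) → F) ≃ₗ[F] (Unit ⊕ (Fin n ⊕ Fin n) → F) :=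
    { toFun := fun v => (y₀⁻¹).val *ᵥ v
      invFun := fun v => y₀.val *ᵥ v
      map_add' := Matrix.mulVec_add _
      map_smul' := fun c v => Matrix.mulVec_smul _ c v
      left_inv := fun v => by
        change y₀.val *ᵥ ((y₀⁻¹).val *ᵥ v) = v
        rw [Matrix.mulVec_mulVec]
        simp
      right_inv := fun v => by
        change (y₀⁻¹).val *ᵥ (y₀.val *ᵥ v) = v
        rw [Matrix.mulVec_mulVec]
        simp }
  let e₂ := e.trans e''
  have hsim : ∀ v, Q₀ (e₂.symm v) = c₀ * Cfsg.quadFormOdd n F v := by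
    intro v
    have := hy v
    rw [hQs] at this
    exact this
  refine ⟨(e₂ : _ →ₗ[F] _) ∘ₗ T₀ ∘ₗ (e₂.symm : _ →ₗ[F] _), ?_, ?_⟩
  · intro v
    have h3 := hsim ((((e₂ : _ →ₗ[F] _) ∘ₗ T₀ ∘ₗ (e₂.symm : _ →ₗ[F] _)) : Module.End F (Unit ⊕ (Fin n ⊕ Fin n) → F)) v)
    have h4 : e₂.symm ((((e₂ : _ →ₗ[F] _) ∘ₗ T₀ ∘ₗ (e₂.symm : _ →ₗ[F] _)) : Module.End F (Unit ⊕ (Fin n ⊕ Fin n) → F)) v) = T₀ (e₂.symm v) := by
      simp
    rw [h4, hT₀, hsim] at h3
    exact (mul_left_cancel₀ hc₀ h3).symm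
  · intro j
    rw [conj_pow_one e₂ T₀ _ (fun v => rfl), hj₀]

section Gen

variable {ι : Type} [Fintype ι] [DecidableEq ι]

theorem omega_center_triv (Q : QuadraticForm F (ι → F)) (hnd : (QuadraticMap.polarBilin Q).Nondegenerate) {n : ℕ} (hn : 3 ≤ n)
    (hι : Fintype.card ι = 2 * n + 1) (h2 : (2 : F) ≠ 0) (x : Cfsg.Omega F (⇑Q)) (hcen : x ∈ Subgroup.center (Cfsg.Omega F (⇑Q))) : x = 1 := by
  have hdetΩ : ∀ y : Cfsg.Omega F (⇑Q), (oM y.1).det = 1 := by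
    intro y
    have h3 := hom_comm_trivial ((Matrix.GeneralLinearGroup.det).comp (Cfsg.isometryGroup F (⇑Q)).subtype) y.2
    have h4 := congrArg (fun z : Fˣ => (z : F)) h3
    exact h4
  rcases center_eq_pm hnd (by omega) hcen with h3 | h3
  · exact Subtype.ext (Subtype.ext (Units.ext h3))
  · exfalso
    have h4 := hdetΩ x
    rw [h3, Matrix.det_neg, Matrix.det_one, mul_one] at h4
    have h5 : Odd (Fintype.card ι) := by
      rw [hι]
      exact ⟨n, rfl⟩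
    rw [h5.neg_one_pow] at h4
    apply h2
    linear_combination -h4

theorem om_of_iso {f : (ι → F) → F} (hf : NDQ f) {n d : ℕ} (hn : 3 ≤ n) (hι : Fintype.card ι = 2 * n + 1) (hq : Odd (Fintype.card F))
    (T : Module.End F (ι → F)) (hT : ∀ v, f (T v) = f v) (hj : ∀ j, T ^ j = 1 ↔ d ∣ j) (hd : 0 < d) :
    ∃ y : Cfsg.POmega F f, orderOf y = d / Nat.gcd d 2 := by
  classical
  have h2 : (2 : F) ≠ 0 := two_ne_zero' hq
  obtain ⟨Q, rfl, hnd⟩ := hf
  set A : Matrix ι ι F := LinearMap.toMatrix' T with hA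
  have hTA : Matrix.toLin' A = T := by
    rw [hA]
    exact Matrix.toLin'_toMatrix' T
  have hAj : ∀ j, A ^ j = 1 ↔ T ^ j = 1 := by
    intro j
    rw [← hTA, ← Matrix.toLin'_pow]
    constructor
    · intro h
      rw [h, Matrix.toLin'_one]
      rfl
    · intro h
      apply Matrix.toLin'.injective
      rw [h, Matrix.toLin'_one]
      rfl
  have hAd : A ^ d = 1 := (hAj d).2 ((hj d).2 dvd_rfl)
  have h1 : A * A ^ (d - 1) = 1 := by
    rw [← pow_succ', Nat.sub_add_cancel hd, hAd]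
  have h3 : A ^ (d - 1) * A = 1 := by
    rw [← pow_succ, Nat.sub_add_cancel hd, hAd]
  let u : Matrix.GeneralLinearGroup ι F := ⟨A, A ^ (d - 1), h1, h3⟩
  have hmem : u ∈ Cfsg.isometryGroup F (⇑Q) := by
    intro a b
    change Q (A *ᵥ a) = Q a
    rw [← hT a, ← hTA, Matrix.toLin'_apply]
  let g : Cfsg.isometryGroup F (⇑Q) := ⟨u, hmem⟩
  have hgv : ∀ j : ℕ, (((g ^ j : Cfsg.isometryGroup F (⇑Q)).1 : Matrix.GeneralLinearGroup ι F) : Matrix ι ι F) = A ^ j := by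
    intro j
    induction j with
    | zero => rfl
    | succ j ih =>
      rw [pow_succ, pow_succ, ← ih]
      rfl
  have hgj : ∀ j, g ^ j = 1 ↔ d ∣ j := by
    intro j
    rw [← hj, ← hAj, ← hgv]
    constructor
    · intro h
      rw [h]
      rfl
    · intro h
      exact Subtype.ext (Units.ext h)
  have hord : orderOf g = d :=
    Nat.dvd_antisymm (orderOf_dvd_of_pow_eq_one ((hgj d).2 dvd_rfl)) ((hgj _).1 (pow_orderOf_eq_one g))
  have hΩ : g ^ 2 ∈ Cfsg.Omega F (⇑Q) := by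
    have hk := Cfsg.Agent.Lib.Spinor.omega_eq_ker_invHom hnd (Or.inr (by omega) : Fintype.card F ≠ 2 ∨ Fintype.card ι ≠ 4)
    rw [hk, MonoidHom.mem_ker, map_pow]
    exact Prod.ext (Int.units_sq _) (Int.units_sq _)
  let ω : Cfsg.Omega F (⇑Q) := ⟨g ^ 2, hΩ⟩
  have hωord : orderOf ω = d / Nat.gcd d 2 := by
    have h5 : orderOf ω = orderOf (g ^ 2) := Subgroup.orderOf_mk _ _
    rw [h5, orderOf_pow' g (by norm_num), hord]
  refine ⟨QuotientGroup.mk' _ ω, ?_⟩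
  rw [← hωord]
  apply Nat.dvd_antisymm
  · exact orderOf_map_dvd _ _
  · apply orderOf_dvd_of_pow_eq_one
    apply omega_center_triv Q hnd hn hι h2
    have h6 := pow_orderOf_eq_one (QuotientGroup.mk' (Subgroup.center (Cfsg.Omega F (⇑Q))) ω)
    rw [← map_pow] at h6
    exact (QuotientGroup.eq_one_iff _).1 h6

end Gen

section Ex

variable {n : ℕ}

theorem card_iota : Fintype.card (Unit ⊕ (Fin n ⊕ Fin n)) = 2 * n + 1 := by
  simp
  ring

theorem om_mem {d : ℕ} (hq : Odd (Fintype.card F)) (hn : 3 ≤ n) (h : Mod F (2 * n + 1) d) (hd : 0 < d) :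
    d / Nat.gcd d 2 ∈ Set.range (orderOf : Cfsg.POmega F (Cfsg.quadFormOdd n F) → ℕ) := by
  obtain ⟨T, hT, hj⟩ := iso_of_mod hq h
  obtain ⟨y, hy⟩ := om_of_iso (ndq_odd (two_ne_zero' hq) n) hn card_iota hq T hT hj hd
  exact ⟨y, hy⟩

theorem om_mem_odd {d : ℕ} (hq : Odd (Fintype.card F)) (hn : 3 ≤ n) (h : Mod F (2 * n + 1) d) (hd : Odd d) :
    d ∈ Set.range (orderOf : Cfsg.POmega F (Cfsg.quadFormOdd n F) → ℕ) := by
  have := om_mem hq hn h hd.pos
  have hg : Nat.gcd d 2 = 1 := Nat.coprime_two_right.2 hd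
  rwa [hg, Nat.div_one] at this

theorem om_mem_dbl {N : ℕ} (hq : Odd (Fintype.card F)) (hn : 3 ≤ n) (h : Mod F (2 * n + 1) (2 * N)) (hN : 0 < N) :
    N ∈ Set.range (orderOf : Cfsg.POmega F (Cfsg.quadFormOdd n F) → ℕ) := by
  have := om_mem hq hn h (by omega)
  have hg : Nat.gcd (2 * N) 2 = 2 := Nat.gcd_eq_right (Nat.dvd_mul_right _ _)
  rw [hg] at this
  have h3 : 2 * N / 2 = N := by omega
  rwa [h3] at this

theorem om_ex_tp (p : ℕ) [Fact p.Prime] [CharP F p] (hq : Odd (Fintype.card F)) (hn : 3 ≤ n) {t η : ℕ} [Fact t.Prime] (ht2 : t ≠ 2) (htp : t ≠ p)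
    (hη1 : 1 ≤ η) (hη : Conv (orderOf ((Fintype.card F : ℕ) : ZMod t)) η) (hle : η + 1 ≤ n) :
    t * p ∈ Set.range (orderOf : Cfsg.POmega F (Cfsg.quadFormOdd n F) → ℕ) := by
  have h2 : (2 : F) ≠ 0 := two_ne_zero' hq
  have htt : t.Prime := Fact.out
  have hpp : p.Prime := Fact.out
  have hpodd : Odd p := by
    have h3 : ((Fintype.card F : ℕ) : F) = 0 := Nat.cast_card_eq_zero F
    have h4 := (CharP.cast_eq_zero_iff F p _).1 h3
    exact Odd.of_dvd_nat hq h4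
  have h3 := (mod_prime p h2 hη1 hη).prod (mod_unip p h2)
  have hco : Nat.Coprime t p := (Nat.coprime_primes htt hpp).2 htp
  rw [hco.lcm_eq_mul] at h3
  exact om_mem_odd hq hn (h3.fill h2 (by omega)) ((htt.odd_of_ne_two ht2).mul hpodd)

theorem om_ex_2p (p : ℕ) [Fact p.Prime] [CharP F p] (hq : Odd (Fintype.card F)) (hn : 3 ≤ n) :
    2 * p ∈ Set.range (orderOf : Cfsg.POmega F (Cfsg.quadFormOdd n F) → ℕ) := by
  have h2 : (2 : F) ≠ 0 := two_ne_zero' hq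
  have hpp : p.Prime := Fact.out
  have hpodd : Odd p := by
    have h3 : ((Fintype.card F : ℕ) : F) = 0 := Nat.cast_card_eq_zero F
    have h4 := (CharP.cast_eq_zero_iff F p _).1 h3
    exact Odd.of_dvd_nat hq h4
  have h3 := (mod_unip p h2 (F := F)).prod (mod_four p hq)
  have hco : Nat.Coprime p 4 := Nat.Coprime.pow_right 2 (Nat.coprime_two_right.2 hpodd)
  rw [hco.lcm_eq_mul, show p * 4 = 2 * (2 * p) by ring] at h3
  exact om_mem_dbl hq hn (h3.fill h2 (by omega)) (by have := hpp.pos; omega)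

theorem om_ex_2t (p : ℕ) [Fact p.Prime] [CharP F p] (hq : Odd (Fintype.card F)) (hn : 3 ≤ n) {t η : ℕ} [Fact t.Prime] (ht2 : t ≠ 2) (htp : t ≠ p)
    (hη1 : 1 ≤ η) (hη : Conv (orderOf ((Fintype.card F : ℕ) : ZMod t)) η)
    (hC : C2 (Fintype.card F) (orderOf ((Fintype.card F : ℕ) : ZMod t)) η n) :
    2 * t ∈ Set.range (orderOf : Cfsg.POmega F (Cfsg.quadFormOdd n F) → ℕ) := by
  have h2 : (2 : F) ≠ 0 := two_ne_zero' hq
  have htt : t.Prime := Fact.out
  have htodd : Odd t := htt.odd_of_ne_two ht2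
  rcases hC with hC | hC
  · have h3 := (mod_prime p h2 hη1 hη).prod (mod_four p hq)
    have hco : Nat.Coprime t 4 := Nat.Coprime.pow_right 2 (Nat.coprime_two_right.2 htodd)
    rw [hco.lcm_eq_mul, show t * 4 = 2 * (2 * t) by ring] at h3
    exact om_mem_dbl hq hn (h3.fill h2 (by omega)) (by have := htt.pos; omega)
  · rcases crit_dvd ht2 (by omega) hq hC with h | h
    · have h3 := mod_odd p (η := n) (by omega) h
      rw [show 4 * t = 2 * (2 * t) by ring] at h3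
      exact om_mem_dbl hq hn (h3.fill h2 (by omega)) (by have := htt.pos; omega)
    · have h3 := mod_even p (η := n) (by omega) h h2
      rw [show 4 * t = 2 * (2 * t) by ring] at h3
      exact om_mem_dbl hq hn (h3.fill h2 (by omega)) (by have := htt.pos; omega)

theorem om_ex_rs1 (p : ℕ) [Fact p.Prime] [CharP F p] (hq : Odd (Fintype.card F)) (hn : 3 ≤ n) {r s ηk ηl : ℕ} [Fact r.Prime] [Fact s.Prime] (hr2 : r ≠ 2) (hs2 : s ≠ 2)
    (hrs : r ≠ s) (hk1 : 1 ≤ ηk) (hl1 : 1 ≤ ηl)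
    (hk : Conv (orderOf ((Fintype.card F : ℕ) : ZMod r)) ηk) (hl : Conv (orderOf ((Fintype.card F : ℕ) : ZMod s)) ηl)
    (hle : ηk + ηl ≤ n) :
    r * s ∈ Set.range (orderOf : Cfsg.POmega F (Cfsg.quadFormOdd n F) → ℕ) := by
  have h2 : (2 : F) ≠ 0 := two_ne_zero' hq
  have hrr : r.Prime := Fact.out
  have hss : s.Prime := Fact.out
  have h3 := (mod_prime p h2 hk1 hk).prod (mod_prime p h2 hl1 hl)
  have hco : Nat.Coprime r s := (Nat.coprime_primes hrr hss).2 hrs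
  rw [hco.lcm_eq_mul] at h3
  exact om_mem_odd hq hn (h3.fill h2 (by omega)) ((hrr.odd_of_ne_two hr2).mul (hss.odd_of_ne_two hs2))

theorem om_ex_rs2 (p : ℕ) [Fact p.Prime] [CharP F p] (hq : Odd (Fintype.card F)) (hn : 3 ≤ n) {r s ηk ηl : ℕ} [Fact r.Prime] [Fact s.Prime] (hr2 : r ≠ 2) (hs2 : s ≠ 2)
    (hrs : r ≠ s) (hk1 : 1 ≤ ηk) (hl1 : 1 ≤ ηl)
    (hk : Conv (orderOf ((Fintype.card F : ℕ) : ZMod r)) ηk) (hl : Conv (orderOf ((Fintype.card F : ℕ) : ZMod s)) ηl)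
    (hle : ηl ≤ n) (ht : ∃ t : ℕ, Odd t ∧ orderOf ((Fintype.card F : ℕ) : ZMod s) = orderOf ((Fintype.card F : ℕ) : ZMod r) * t) :
    r * s ∈ Set.range (orderOf : Cfsg.POmega F (Cfsg.quadFormOdd n F) → ℕ) := by
  have h2 : (2 : F) ≠ 0 := two_ne_zero' hq
  have hrr : r.Prime := Fact.out
  have hss : s.Prime := Fact.out
  have hco : Nat.Coprime r s := (Nat.coprime_primes hrr hss).2 hrs
  obtain ⟨t, htodd, htt⟩ := ht
  have hmodd : Odd (r * s) := (hrr.odd_of_ne_two hr2).mul (hss.odd_of_ne_two hs2)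
  rcases hl with ⟨hlo, hle'⟩ | ⟨hle1, hle'⟩
  · -- the split case
    have h3 : r * s ∣ Fintype.card F ^ ηl - 1 := by
      apply hco.mul_dvd_of_dvd_of_dvd
      · exact (dvd_pow_sub_one_iff ηl).2 (by rw [hle', htt]; exact Dvd.intro _ rfl)
      · exact (dvd_pow_sub_one_iff ηl).2 (by rw [hle'])
    have h4 := mod_odd p hl1 h3
    exact om_mem_odd hq hn (h4.fill h2 (by omega)) hmodd
  · have hkeven : Even (orderOf ((Fintype.card F : ℕ) : ZMod r)) := by
      rw [htt] at hle1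
      rcases Nat.even_mul.1 hle1 with h | h
      · exact h
      · exact absurd htodd (Nat.not_odd_iff_even.2 h)
    have hk2 : 2 * ηk = orderOf ((Fintype.card F : ℕ) : ZMod r) := by
      rcases hk with ⟨h5, _⟩ | ⟨_, h5⟩
      · exact absurd h5 (Nat.not_odd_iff_even.2 hkeven)
      · exact h5
    have hlk : ηl = ηk * t := by
      have : 2 * ηl = 2 * (ηk * t) := by
        rw [hle', htt, ← hk2]
        ring
      omega
    have h3 : r * s ∣ Fintype.card F ^ ηl + 1 := by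
      apply hco.mul_dvd_of_dvd_of_dvd
      · have h5 : r ∣ Fintype.card F ^ ηk + 1 := half_dvd hk1 hk2
        apply h5.trans
        rw [hlk, pow_mul]
        have := htodd.nat_add_dvd_pow_add_pow (Fintype.card F ^ ηk) 1
        simpa using this
      · exact half_dvd hl1 hle'
    have h4 := mod_even p hl1 h3 h2
    exact om_mem_odd hq hn (h4.fill h2 (by omega)) hmodd

end Ex

section Main

variable {n : ℕ}

theorem exists_conv {k : ℕ} (hk : 0 < k) : ∃ η, 1 ≤ η ∧ Conv k η := by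
  rcases Nat.even_or_odd k with h | h
  · obtain ⟨c, hc⟩ := h
    exact ⟨c, by omega, Or.inr ⟨⟨c, hc⟩, by omega⟩⟩
  · exact ⟨k, hk, Or.inl ⟨h, rfl⟩⟩

theorem cast_ne_of_ne (p : ℕ) [Fact p.Prime] [CharP F p] {t : ℕ} (ht : t.Prime) (htp : t ≠ p) : (t : F) ≠ 0 := by
  intro h
  have h3 := (CharP.cast_eq_zero_iff F p t).1 h
  have hpp : p.Prime := Fact.out
  exact htp ((Nat.prime_dvd_prime_iff_eq hpp ht).1 h3).symm

theorem case_tp (p : ℕ) [Fact p.Prime] [CharP F p] (hq : Odd (Fintype.card F)) (hn : 3 ≤ n) {t : ℕ} [Fact t.Prime] (ht2 : t ≠ 2) (htp : t ≠ p) :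
    t * p ∈ Set.range (orderOf : Cfsg.POmega F (Cfsg.quadFormOdd n F) → ℕ) ↔ t * p ∈ Set.range (orderOf : Cfsg.PSp n F → ℕ) := by
  have htt : t.Prime := Fact.out
  have h2 : (2 : F) ≠ 0 := two_ne_zero' hq
  obtain ⟨η, hη1, hη⟩ := exists_conv (order_pos' (p := p) (F := F) rfl htt htp)
  have hadj := adj_rp (F := F) p n (by omega) t htt ht2 htp η hη
  constructor
  · rintro ⟨g, hg⟩
    have h3 := om_tp_of (ndq_odd h2 n) hn card_iota hq g ht2 htp (cast_ne_of_ne p htt htp) hg hη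
    by_contra hcon
    have := hadj.1 hcon
    omega
  · intro h
    apply om_ex_tp p hq hn ht2 htp hη1 hη
    by_contra hcon
    apply hadj.2 (by omega) h

theorem case_2t (p : ℕ) [Fact p.Prime] [CharP F p] (hq : Odd (Fintype.card F)) (hn : 3 ≤ n) {t : ℕ} [Fact t.Prime] (ht2 : t ≠ 2) (htp : t ≠ p) :
    2 * t ∈ Set.range (orderOf : Cfsg.POmega F (Cfsg.quadFormOdd n F) → ℕ) ↔ 2 * t ∈ Set.range (orderOf : Cfsg.PSp n F → ℕ) := by
  have htt : t.Prime := Fact.out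
  have h2 : (2 : F) ≠ 0 := two_ne_zero' hq
  obtain ⟨η, hη1, hη⟩ := exists_conv (order_pos' (p := p) (F := F) rfl htt htp)
  have htF := cast_ne_of_ne (F := F) p htt htp
  constructor
  · rintro ⟨g, hg⟩
    exact psp_two_ex p hq ht2 htp (by omega) hη (om_two_of (ndq_odd h2 n) hn card_iota hq g ht2 htF hg hη)
  · rintro ⟨g, hg⟩
    exact om_ex_2t p hq hn ht2 htp hη1 hη (psp_two_of (by omega) ht2 htF hq g hg hη)

theorem case_rs_le (p : ℕ) [Fact p.Prime] [CharP F p] (hq : Odd (Fintype.card F)) (hn : 3 ≤ n) {r s : ℕ} [Fact r.Prime] [Fact s.Prime]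
    (hr2 : r ≠ 2) (hs2 : s ≠ 2) (hrp : r ≠ p) (hsp : s ≠ p) (hrs : r ≠ s) {ηk ηl : ℕ} (hk1 : 1 ≤ ηk) (hl1 : 1 ≤ ηl)
    (hk : Conv (orderOf ((Fintype.card F : ℕ) : ZMod r)) ηk) (hl : Conv (orderOf ((Fintype.card F : ℕ) : ZMod s)) ηl) (hkl : ηk ≤ ηl) :
    r * s ∈ Set.range (orderOf : Cfsg.POmega F (Cfsg.quadFormOdd n F) → ℕ) ↔ r * s ∈ Set.range (orderOf : Cfsg.PSp n F → ℕ) := by
  have hrr : r.Prime := Fact.out
  have hss : s.Prime := Fact.out
  have h2 : (2 : F) ≠ 0 := two_ne_zero' hq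
  have hrF := cast_ne_of_ne (F := F) p hrr hrp
  have hsF := cast_ne_of_ne (F := F) p hss hsp
  constructor
  · rintro ⟨g, hg⟩
    have hηl : ηl ≤ n := om_eta_of (ndq_odd h2 n) hn card_iota hq g hs2 hsF (N := r) (by rw [hg, mul_comm]) hrr.pos hl
    obtain ⟨x, hx⟩ := exists_order_of_prime (F := F) (m := n) hl1 hηl hl
    obtain ⟨a, ha⟩ := mem_range_of_sp (F := F) (n := n) (by omega) x hx (Or.inl (hss.odd_of_ne_two hs2))
    have hsG : s ∣ Nat.card (Cfsg.PSp n F) := by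
      have : orderOf a = s := ha
      rw [← this]
      exact orderOf_dvd_natCard a
    have hadj := adj_rs (F := F) p n (by omega) r s hrr hss hr2 hs2 hrp hsp hrs hsG ηk ηl hk hl hkl
    by_contra hcon
    obtain ⟨h3, h4⟩ := hadj.1 hcon
    exact h4 (om_rs_of (ndq_odd h2 n) hn card_iota hq g hr2 hs2 hrp hsp hrs hrF hsF hg hk hl hkl h3)
  · intro h
    have hsG : s ∣ Nat.card (Cfsg.PSp n F) := by
      obtain ⟨a, ha⟩ := h
      have h5 : orderOf a = r * s := ha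
      have h6 := orderOf_dvd_natCard a
      rw [h5] at h6
      exact (Dvd.intro_left _ rfl).trans h6
    have hηl : ηl ≤ n := eta_le_of_dvd (F := F) p hss hsp hsG hl
    have hadj := adj_rs (F := F) p n (by omega) r s hrr hss hr2 hs2 hrp hsp hrs hsG ηk ηl hk hl hkl
    by_cases h3 : ηk + ηl ≤ n
    · exact om_ex_rs1 p hq hn hr2 hs2 hrs hk1 hl1 hk hl h3
    · by_cases h4 : ∃ t : ℕ, Odd t ∧ orderOf ((Fintype.card F : ℕ) : ZMod s) = orderOf ((Fintype.card F : ℕ) : ZMod r) * t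
      · exact om_ex_rs2 p hq hn hr2 hs2 hrs hk1 hl1 hk hl hηl h4
      · exact absurd h (hadj.2 ⟨by omega, h4⟩)

theorem om_psp_iff (hq : Odd (Fintype.card F)) (hn : 3 ≤ n) (r s : ℕ) (hr : r.Prime) (hs : s.Prime) (hrs : r ≠ s) :
    r * s ∈ Set.range (orderOf : Cfsg.POmega F (Cfsg.quadFormOdd n F) → ℕ) ↔ r * s ∈ Set.range (orderOf : Cfsg.PSp n F → ℕ) := by
  classical
  obtain ⟨p, hpc⟩ := CharP.exists F
  have hp' : p.Prime := CharP.char_is_prime F p
  haveI := Fact.mk hp'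
  haveI := Fact.mk hr
  haveI := Fact.mk hs
  have hcase2p : 2 * p ∈ Set.range (orderOf : Cfsg.POmega F (Cfsg.quadFormOdd n F) → ℕ) ↔ 2 * p ∈ Set.range (orderOf : Cfsg.PSp n F → ℕ) :=
    iff_of_true (om_ex_2p p hq hn) (psp_two_p p hq (by omega))
  by_cases hrp : r = p
  · subst hrp
    by_cases hs2 : s = 2
    · subst hs2
      rw [mul_comm]
      exact hcase2p
    · rw [mul_comm]
      exact case_tp r hq hn hs2 (Ne.symm hrs)
  by_cases hsp : s = p
  · subst hsp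
    by_cases hr2 : r = 2
    · subst hr2
      exact hcase2p
    · exact case_tp s hq hn hr2 hrs
  by_cases hr2 : r = 2
  · subst hr2
    exact case_2t p hq hn (Ne.symm hrs) hsp
  by_cases hs2 : s = 2
  · subst hs2
    rw [mul_comm]
    exact case_2t p hq hn hr2 hrp
  obtain ⟨ηk, hk1, hk⟩ := exists_conv (order_pos' (p := p) (F := F) rfl hr hrp)
  obtain ⟨ηl, hl1, hl⟩ := exists_conv (order_pos' (p := p) (F := F) rfl hs hsp)
  by_cases hkl : ηk ≤ ηl
  · exact case_rs_le p hq hn hr2 hs2 hrp hsp hrs hk1 hl1 hk hl hkl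
  · rw [mul_comm]
    exact case_rs_le p hq hn hs2 hr2 hsp hrp (Ne.symm hrs) hl1 hk1 hl hk (by omega)

end Main

end Cfsg.Agent.Lib.Known.BC
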