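import Cfsg.Agent.Lib.Known.BC1
import Cfsg.Agent.Lib.Known.PG1
import Cfsg.Agent.Lib.Known.SingerPSL
import Cfsg.Agent.Lib.LocalEven.Zsig

/-!
# Isometries of order `q^k + 1` of an odd dimensional orthogonal space commuting with a unipotent element
-/

set_option autoImplicit false
set_option linter.unusedVariables false
set_option linter.unusedSectionVars false
set_option linter.unusedSimpArgs false

namespace Cfsg.Agent.Lib.Known.BC

open Module Cfsg.Agent.Lib.Known.PG Cfsg.Agent.Lib.Quad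

theorem exists_r {q k : ℕ} (hq : 3 ≤ q) (hodd : Odd q) (hk : 2 ≤ k) :
    ∃ r, r.Prime ∧ r ∣ q ^ k + 1 ∧ orderOf ((q : ℕ) : ZMod r) = 2 * k ∧ ¬ r ∣ q := by
  obtain ⟨r, hr, h1, h2⟩ := Cfsg.Agent.Lib.LocalEven.Zsig.main_S2904 q (2 * k) (by omega) (by omega) (by omega) (by omega)
  haveI : Fact r.Prime := ⟨hr⟩
  have h3 := Cfsg.Agent.Lib.Known.Singer.ppd_order (q := q) (n := 2 * k) (r := r) (by omega) (by omega) h1 h2
  have hq1 : 1 ≤ q ^ k := Nat.one_le_pow _ _ (by omega)
  obtain ⟨b, hb⟩ : ∃ b, q ^ k = b + 1 := ⟨q ^ k - 1, by omega⟩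
  have e : q ^ (2 * k) - 1 = (q ^ k + 1) * (q ^ k - 1) := by
    rw [mul_comm 2 k, pow_mul, hb]
    have : b + 1 - 1 = b := rfl
    rw [this]
    apply Nat.sub_eq_of_eq_add
    ring
  refine ⟨r, hr, ?_, h3, ?_⟩
  · rw [e] at h1
    rcases (Nat.Prime.dvd_mul hr).1 h1 with h | h
    · exact h
    · exact absurd h (h2 k (by omega) (by omega))
  · intro h
    have h4 : r ∣ q ^ (2 * k) := dvd_pow h (by omega)
    have h5 : 1 ≤ q ^ (2 * k) := Nat.one_le_pow _ _ (by omega)
    have h6 := Nat.dvd_sub h4 h1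
    have h7 : q ^ (2 * k) - (q ^ (2 * k) - 1) = 1 := by omega
    rw [h7] at h6
    exact hr.one_lt.ne' (Nat.dvd_one.1 h6)

variable {F : Type*} [Field F] [Fintype F] {V : Type*} [AddCommGroup V] [Module F V] [FiniteDimensional F V]

theorem polar_iso' (Q : QuadraticForm F V) {t : Module.End F V} (ht : ∀ v, Q (t v) = Q v) (a b : V) :
    QuadraticMap.polar Q (t a) (t b) = QuadraticMap.polar Q a b := by
  simp only [QuadraticMap.polar, ← map_add, ht]

theorem iso_pow (Q : QuadraticForm F V) {t : Module.End F V} (ht : ∀ v, Q (t v) = Q v) (j : ℕ) (v : V) :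
    Q ((t ^ j) v) = Q v := by
  induction j with
  | zero => simp
  | succ j ih =>
    rw [pow_succ', Module.End.mul_apply, ht, ih]

theorem pow_comm_apply {a b : Module.End F V} (h : ∀ v, a (b v) = b (a v)) (j : ℕ) (v : V) :
    (a ^ j) (b v) = b ((a ^ j) v) := by
  induction j generalizing v with
  | zero => simp
  | succ j ih =>
    rw [pow_succ, Module.End.mul_apply, Module.End.mul_apply, h, ih]

theorem pow_fix {a : Module.End F V} {v : V} (h : a v = v) (j : ℕ) : (a ^ j) v = v := by
  induction j with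
  | zero => simp
  | succ j ih =>
    rw [pow_succ, Module.End.mul_apply, h, ih]

/-- Unipotent maps have fixed vectors in every invariant subspace. -/
theorem exists_fixed (p : ℕ) [Fact p.Prime] [CharP F p] {u : Module.End F V} (hu : u ^ p = 1) {K : Submodule F V}
    (hK : K ≠ ⊥) (hinv : ∀ w ∈ K, u w ∈ K) : ∃ b ∈ K, b ≠ 0 ∧ u b = b := by
  classical
  obtain ⟨w, hw, hw0⟩ := Submodule.exists_mem_ne_zero_of_ne_bot hK
  haveI : Nontrivial V := ⟨⟨w, 0, hw0⟩⟩
  haveI : CharP (Module.End F V) p :=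
    charP_of_injective_algebraMap (algebraMap F (Module.End F V)).injective p
  have h1 : (u - 1) ^ p ^ 1 = 0 := by
    rw [sub_pow_expChar_pow_of_commute (p := p) (h := Commute.one_right _), pow_one, hu]
    simp
  have hinv' : ∀ (j : ℕ), ((u - 1) ^ j) w ∈ K := by
    intro j
    induction j with
    | zero => simpa using hw
    | succ j ih =>
      rw [pow_succ', Module.End.mul_apply]
      simp only [LinearMap.sub_apply, Module.End.one_apply]
      exact K.sub_mem (hinv _ ih) ih
  have hex : ∃ e, ((u - 1 : Module.End F V) ^ e) w = 0 := ⟨p ^ 1, by rw [h1]; rfl⟩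
  have hfind := Nat.find_spec hex
  have hmin := fun j => Nat.find_min hex (m := j)
  set e := Nat.find hex with he
  have he0 : e ≠ 0 := by
    intro h0
    rw [h0] at hfind
    exact hw0 (by simpa using hfind)
  obtain ⟨e', he'⟩ : ∃ e', e = e' + 1 := ⟨e - 1, by omega⟩
  refine ⟨((u - 1) ^ e') w, hinv' e', hmin e' (by omega), ?_⟩
  rw [he', pow_succ', Module.End.mul_apply] at hfind
  simp only [LinearMap.sub_apply, Module.End.one_apply, sub_eq_zero] at hfind
  exact hfind

/-- There are no orthogonal transvections of odd order. -/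
theorem no_transvection (h2 : (2 : F) ≠ 0) {p : ℕ} (hp : Odd p) (Q : QuadraticForm F V) (hnd : NondegQ Q)
    {u : Module.End F V} (huQ : ∀ v, Q (u v) = Q v) (hup : u ^ p = 1) (hr : finrank F (LinearMap.range (u - 1)) = 1) : False := by
  obtain ⟨a₀, ha₀, hgen⟩ := finrank_eq_one_iff'.1 hr
  obtain ⟨a, x₀, hx₀⟩ : ∃ a : V, ∃ x₀ : V, a = a₀.1 ∧ u x₀ = x₀ + a := by
    obtain ⟨x₀, hx₀⟩ := a₀.2
    refine ⟨a₀.1, x₀, rfl, ?_⟩
    rw [← hx₀]
    simp
  obtain ⟨rfl, hx₀⟩ := hx₀
  set a : V := a₀.1 with ha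
  have ha0 : a ≠ 0 := fun h => ha₀ (Subtype.ext h)
  have hall : ∀ x, ∃ c : F, u x = x + c • a := by
    intro x
    obtain ⟨c, hc⟩ := hgen ⟨(u - 1) x, x, rfl⟩
    refine ⟨c, ?_⟩
    have h3 := congrArg Subtype.val hc
    simp only [Submodule.coe_smul, LinearMap.sub_apply, Module.End.one_apply] at h3
    rw [ha, h3]
    abel
  have hstar : ∀ x (c : F), u x = x + c • a → c ^ 2 * Q a + c * QuadraticMap.polar Q x a = 0 := by
    intro x c hc
    have h3 := huQ x
    rw [hc, QuadraticMap.map_add Q, QuadraticMap.map_smul, QuadraticMap.polar_smul_right] at h3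
    simp only [smul_eq_mul] at h3
    linear_combination h3
  have hpiso := polar_iso' Q huQ
  by_cases hQa : Q a = 0
  · apply ha0
    apply hnd
    intro w
    rw [QuadraticMap.polar_comm]
    obtain ⟨c, hc⟩ := hall w
    by_cases hc0 : c = 0
    · have h3 : u w = w := by rw [hc, hc0]; simp
      have h4 : a = u x₀ - x₀ := by rw [hx₀]; abel
      rw [h4, QuadraticMap.polar_sub_right, ← hpiso w x₀, h3, sub_self]
    · have h3 := hstar w c hc
      rw [hQa, mul_zero, zero_add] at h3
      exact (mul_eq_zero.1 h3).resolve_left hc0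
  · obtain ⟨c, hc⟩ := hall a
    have h3 := hstar a c hc
    rw [QuadraticMap.polar_self] at h3
    have h4 : c * (Q a * (c + 2)) = 0 := by
      simp only [nsmul_eq_mul] at h3
      push_cast at h3
      linear_combination h3
    rcases mul_eq_zero.1 h4 with h5 | h5
    · have h6 : u a = a := by rw [hc, h5]; simp
      have h7 := hpiso x₀ a
      rw [hx₀, h6, QuadraticMap.polar_add_left, QuadraticMap.polar_self] at h7
      have h8 : (2 : F) * Q a = 0 := by
        simp only [nsmul_eq_mul] at h7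
        push_cast at h7
        linear_combination h7
      exact hQa ((mul_eq_zero.1 h8).resolve_left h2)
    · have h6 : c = -2 := by
        have := (mul_eq_zero.1 h5).resolve_left hQa
        linear_combination this
      have h7 : u a = -a := by
        rw [hc, h6]
        have : (2 : F) • a = a + a := two_smul _ _
        rw [neg_smul, this]
        abel
      have h8 : ∀ j : ℕ, (u ^ j) a = (-1 : F) ^ j • a := by
        intro j
        induction j with
        | zero => simp
        | succ j ih =>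
          rw [pow_succ, Module.End.mul_apply, h7, map_neg, ih, pow_succ]
          simp
      have h9 := h8 p
      rw [hup, hp.neg_one_pow] at h9
      have h10 : (2 : F) • a = 0 := by
        have : a = -a := by simpa using h9
        rw [two_smul]
        nth_rw 1 [this]
        simp
      exact ha0 ((smul_eq_zero.1 h10).resolve_left h2)

/-- The structure of an isometry of order `q^k + 1` commuting with an element of order `p`. -/
theorem structure_thm (p : ℕ) [Fact p.Prime] [CharP F p] {k : ℕ} (hk : 2 ≤ k) (hq3 : 3 ≤ Fintype.card F)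
    (hodd : Odd (Fintype.card F)) (Q : QuadraticForm F V) (hnd : NondegQ Q) (hdim : finrank F V = 2 * k + 3)
    (s u : Module.End F V) (hsQ : ∀ v, Q (s v) = Q v) (huQ : ∀ v, Q (u v) = Q v) (hcomm : ∀ v, s (u v) = u (s v))
    (hsM : s ^ (Fintype.card F ^ k + 1) = 1) (hsne : ∀ j, 0 < j → j < Fintype.card F ^ k + 1 → s ^ j ≠ 1)
    (hup : u ^ p = 1) (hune : u ≠ 1) (hfix : ∃ v, v ≠ 0 ∧ s v = v) :
    ∃ W W' : Submodule F V, IsCompl W W' ∧ finrank F W = 2 * k ∧ (∀ w ∈ W, ∀ w' ∈ W', QuadraticMap.polar Q w w' = 0) ∧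
      (∀ w ∈ W, s w ∈ W) ∧ (∀ w' ∈ W', s w' = w') ∧
      ∀ j, 0 < j → j < Fintype.card F ^ k + 1 → ∀ w ∈ W, w ≠ 0 → (s ^ j) w ≠ w := by
  classical
  set q := Fintype.card F with hq
  have hqF : ((q : ℕ) : F) = 0 := Nat.cast_card_eq_zero F
  have hpq : p ∣ q := (CharP.cast_eq_zero_iff F p q).1 hqF
  have hpodd : Odd p := Odd.of_dvd_nat hodd hpq
  have h2 : (2 : F) ≠ 0 := by
    intro h
    have h3 : ((2 : ℕ) : F) = 0 := by exact_mod_cast h
    have h4 := (CharP.cast_eq_zero_iff F p 2).1 h3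
    have h5 := Nat.le_of_dvd (by omega) h4
    have h6 := (Fact.out : p.Prime).two_le
    have h7 : p = 2 := by omega
    rw [h7] at hpodd
    exact absurd hpodd (by decide)
  obtain ⟨r, hr, hrM, hrord, hrq⟩ := exists_r hq3 hodd hk
  haveI : Fact r.Prime := ⟨hr⟩
  have hrF : (r : F) ≠ 0 := by
    intro h
    have h3 := (CharP.cast_eq_zero_iff F p r).1 h
    have h4 := (Nat.prime_dvd_prime_iff_eq (Fact.out : p.Prime) hr).1 h3
    exact hrq (h4 ▸ hpq)
  obtain ⟨t, ht⟩ := hrM
  have hM0 : 0 < q ^ k + 1 := by omega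
  have ht0 : 0 < t := by
    rcases Nat.eq_zero_or_pos t with h | h
    · rw [h, mul_zero] at ht
      omega
    · exact h
  have htM : t < q ^ k + 1 := by
    rw [ht]
    exact lt_mul_of_one_lt_left ht0 hr.one_lt
  set y := s ^ t with hy
  have hyr : y ^ r = 1 := by
    rw [hy, ← pow_mul, mul_comm, ← ht]
    exact hsM
  have hyne : y ≠ 1 := hsne t ht0 htM
  have hys : ∀ v, y (s v) = s (y v) := pow_comm_apply (fun _ => rfl) t
  have hyu : ∀ v, y (u v) = u (y v) := pow_comm_apply hcomm t
  have hyQ : ∀ v, Q (y v) = Q v := iso_pow Q hsQ t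
  have hcompl : IsCompl (LinearMap.ker (y - 1)) (LinearMap.range (y - 1)) := ker_range_compl y hrF hyr
  set W := LinearMap.range (y - 1) with hW
  set W' := LinearMap.ker (y - 1) with hW'
  have hW'mem : ∀ v, v ∈ W' ↔ y v = v := by
    intro v
    rw [hW', LinearMap.mem_ker]
    simp [sub_eq_zero]
  have horth : ∀ w ∈ W, ∀ w' ∈ W', QuadraticMap.polar Q w w' = 0 := by
    rintro _ ⟨c, rfl⟩ w' hw'
    simp only [LinearMap.sub_apply, Module.End.one_apply]
    rw [QuadraticMap.polar_sub_left]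
    have h3 := polar_iso' Q hyQ c w'
    rw [(hW'mem w').1 hw'] at h3
    rw [h3, sub_self]
  have hWy : ∀ w ∈ W, y w ∈ W := range_invariant_of_commute y y (fun _ => rfl)
  have hdvd : ∀ Z : Submodule F V, Z ≤ W → (∀ z ∈ Z, y z ∈ Z) → 2 * k ∣ finrank F Z := by
    intro Z h3 h4
    rw [← hrord]
    exact dvd_finrank_range hrF hyr Z h3 h4
  have hWne : W ≠ ⊥ := range_ne_bot hyne
  have hfW : finrank F W = 2 * k := by
    have h3 := finrank_pos_of_ne_bot' hWne
    obtain ⟨c, hc⟩ := hdvd W le_rfl hWy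
    have h4 := Submodule.finrank_le W
    rw [hdim] at h4
    have h5 : c = 1 := by
      rcases c with _ | _ | c
      · omega
      · rfl
      · exfalso
        rw [hc] at h4
        nlinarith
    rw [hc, h5, mul_one]
  have hsub : ∀ Z : Submodule F V, Z ≤ W → (∀ z ∈ Z, y z ∈ Z) → Z ≠ ⊥ → Z = W := by
    intro Z h3 h4 h5
    apply Submodule.eq_of_le_of_finrank_eq h3
    rw [hfW]
    obtain ⟨c, hc⟩ := hdvd Z h3 h4
    have h6 := finrank_pos_of_ne_bot' h5
    have h7 := Submodule.finrank_mono h3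
    rw [hfW] at h7
    have h8 : c = 1 := by
      rcases c with _ | _ | c
      · omega
      · rfl
      · exfalso
        rw [hc] at h7
        nlinarith
    rw [hc, h8, mul_one]
  have hfixsub : ∀ t' : Module.End F V, (∀ v, t' (y v) = y (t' v)) → (∃ w ∈ W, w ≠ 0 ∧ t' w = w) → ∀ w ∈ W, t' w = w := by
    rintro t' h3 ⟨w₀, hw₀, hw₀0, hw₀f⟩
    have hZ : W ⊓ LinearMap.ker (t' - 1) = W := by
      apply hsub
      · exact inf_le_left
      · rintro z ⟨hz1, hz2⟩
        refine ⟨hWy z hz1, ?_⟩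
        have h4 : t' z = z := by
          have : (t' - 1) z = 0 := hz2
          simpa [sub_eq_zero] using this
        change (t' - 1) (y z) = 0
        simp only [LinearMap.sub_apply, Module.End.one_apply]
        rw [h3, h4, sub_self]
      · intro h4
        have h5 : w₀ ∈ W ⊓ LinearMap.ker (t' - 1) := by
          refine ⟨hw₀, ?_⟩
          change (t' - 1) w₀ = 0
          simp [hw₀f]
        rw [h4] at h5
        exact hw₀0 ((Submodule.mem_bot F).1 h5)
    intro w hw
    rw [← hZ] at hw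
    have : (t' - 1) w = 0 := hw.2
    simpa [sub_eq_zero] using this
  have hWu : ∀ w ∈ W, u w ∈ W := range_invariant_of_commute y u (fun v => (hyu v).symm)
  have hWs : ∀ w ∈ W, s w ∈ W := range_invariant_of_commute y s (fun v => (hys v).symm)
  have huW : ∀ w ∈ W, u w = w := by
    obtain ⟨b, hb, hb0, hbu⟩ := exists_fixed p hup hWne hWu
    exact hfixsub u (fun v => (hyu v).symm) ⟨b, hb, hb0, hbu⟩
  have hW'u : ∀ v ∈ W', u v ∈ W' := by
    intro v hv
    rw [hW'mem] at hv ⊢
    rw [hyu, hv]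
  have hW's : ∀ v ∈ W', s v ∈ W' := by
    intro v hv
    rw [hW'mem] at hv ⊢
    rw [hys, hv]
  have hdecomp : ∀ v : V, ∃ w ∈ W, ∃ w' ∈ W', v = w + w' := by
    intro v
    have h3 : v ∈ W ⊔ W' := by
      rw [sup_comm, hcompl.sup_eq_top]
      trivial
    obtain ⟨w, hw, w', hw', rfl⟩ := Submodule.mem_sup.1 h3
    exact ⟨w, hw, w', hw', rfl⟩
  have hinter : ∀ w ∈ W, w ∈ W' → w = 0 := by
    intro w h3 h4
    have h5 : w ∈ W' ⊓ W := ⟨h4, h3⟩
    rw [hcompl.inf_eq_bot] at h5
    exact (Submodule.mem_bot F).1 h5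
  have hfW' : finrank F W' = 3 := by
    have h3 := Submodule.finrank_add_eq_of_isCompl hcompl
    omega
  have hW'ne : W' ≠ ⊥ := by
    intro h
    rw [h] at hfW'
    simp at hfW'
  set U' := W' ⊓ LinearMap.ker (u - 1) with hU'
  have hU'mem : ∀ v, v ∈ U' ↔ v ∈ W' ∧ u v = v := by
    intro v
    rw [hU', Submodule.mem_inf, LinearMap.mem_ker]
    simp [sub_eq_zero]
  have hfU' : finrank F U' = 1 := by
    have h3 : LinearMap.ker (u - 1) = W ⊔ U' := by
      apply le_antisymm
      · intro v hv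
        obtain ⟨w, hw, w', hw', rfl⟩ := hdecomp v
        have h4 : (u - 1) (w + w') = 0 := hv
        simp only [LinearMap.sub_apply, Module.End.one_apply, map_add, huW w hw] at h4
        have h5 : u w' = w' := by
          simp only [sub_self, zero_add] at h4
          exact sub_eq_zero.1 h4
        exact Submodule.add_mem_sup hw ((hU'mem w').2 ⟨hw', h5⟩)
      · apply sup_le
        · intro w hw
          change (u - 1) w = 0
          simp [huW w hw]
        · exact inf_le_right
    have h4 : W ⊓ U' = ⊥ := by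
      rw [eq_bot_iff]
      rintro v ⟨h5, h6⟩
      exact (Submodule.mem_bot F).2 (hinter v h5 ((hU'mem v).1 h6).1)
    have h5 := Submodule.finrank_sup_add_finrank_inf_eq W U'
    rw [h4, ← h3] at h5
    have h6 := LinearMap.finrank_range_add_finrank_ker (u - 1)
    simp only [finrank_bot, add_zero] at h5
    have h7 : U' ≠ ⊥ := by
      obtain ⟨b, hb, hb0, hbu⟩ := exists_fixed p hup hW'ne hW'u
      intro h8
      have h9 := (hU'mem b).2 ⟨hb, hbu⟩
      rw [h8] at h9
      exact hb0 ((Submodule.mem_bot F).1 h9)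
    have h8 := finrank_pos_of_ne_bot' h7
    have h9 := finrank_pos_of_ne_bot' (range_ne_bot hune)
    have h10 : finrank F (LinearMap.range (u - 1)) ≠ 1 := fun h => no_transvection h2 hpodd Q hnd huQ hup h
    omega
  obtain ⟨a₀, ha₀, hagen⟩ := finrank_eq_one_iff'.1 hfU'
  have haU : a₀.1 ∈ U' := a₀.2
  set a : V := a₀.1 with ha
  have ha0 : a ≠ 0 := fun h => ha₀ (Subtype.ext h)
  have hgenU : ∀ b ∈ U', ∃ c : F, b = c • a := by
    intro b hb
    obtain ⟨c, hc⟩ := hagen ⟨b, hb⟩
    exact ⟨c, (congrArg Subtype.val hc).symm⟩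
  obtain ⟨hawp, haup⟩ := (hU'mem a).1 haU
  obtain ⟨α, hα⟩ : ∃ α : F, s a = α • a := by
    apply hgenU
    refine (hU'mem _).2 ⟨hW's a hawp, ?_⟩
    rw [← hcomm, haup]
  have hspow : ∀ j : ℕ, (s ^ j) a = α ^ j • a := by
    intro j
    induction j with
    | zero => simp
    | succ j ih =>
      rw [pow_succ, Module.End.mul_apply, hα, map_smul, ih, smul_smul, pow_succ']
  have hαM : α ^ (q ^ k + 1) = 1 := by
    have h3 := hspow (q ^ k + 1)
    rw [hsM, Module.End.one_apply] at h3
    have h4 : (α ^ (q ^ k + 1) - 1) • a = 0 := by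
      rw [sub_smul, ← h3, one_smul, sub_self]
    exact sub_eq_zero.1 ((smul_eq_zero.1 h4).resolve_right ha0)
  have hα0 : α ≠ 0 := by
    intro h
    rw [h, zero_pow (by omega)] at hαM
    exact zero_ne_one hαM
  have hMF : ((q ^ k + 1 : ℕ) : F) = 1 := by
    push_cast
    rw [hqF, zero_pow (by omega), zero_add]
  have hT : ∀ w' ∈ W', s w' = α • w' := by
    intro w' hw'
    by_contra hcon
    set T : Module.End F V := s - α • 1 with hTdef
    have hTapp : ∀ v, T v = s v - α • v := fun v => rfl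
    have hKne : W'.map T ≠ ⊥ := by
      intro h
      have h3 : T w' ∈ W'.map T := Submodule.mem_map_of_mem hw'
      rw [h] at h3
      have h4 := (Submodule.mem_bot F).1 h3
      rw [hTapp] at h4
      exact hcon (sub_eq_zero.1 h4)
    have hKinv : ∀ z ∈ W'.map T, u z ∈ W'.map T := by
      rintro _ ⟨d, hd, rfl⟩
      refine ⟨u d, hW'u d hd, ?_⟩
      simp only [hTapp, map_sub, map_smul]
      rw [hcomm]
    obtain ⟨b, ⟨d, hd, hdb⟩, hb0, hbu⟩ := exists_fixed p hup hKne hKinv
    have hbW' : b ∈ W' := by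
      rw [← hdb, hTapp]
      exact W'.sub_mem (hW's d hd) (W'.smul_mem _ hd)
    obtain ⟨c, hc⟩ := hgenU b ((hU'mem b).2 ⟨hbW', hbu⟩)
    have hc0 : c ≠ 0 := by
      rintro rfl
      rw [zero_smul] at hc
      exact hb0 hc
    have hTe : T (c⁻¹ • d) = a := by
      rw [map_smul]
      have : T d = b := hdb
      rw [this, hc, smul_smul, inv_mul_cancel₀ hc0, one_smul]
    have hcomm' : Commute s (α • (1 : Module.End F V)) := (Commute.one_right s).smul_right α
    have hgeom := hcomm'.geom_sum₂_mul (q ^ k + 1)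
    rw [hsM, smul_pow, one_pow, hαM, one_smul, sub_self] at hgeom
    -- evaluate at the image
    have h4 : ∀ e : V, (∑ i ∈ Finset.range (q ^ k + 1), s ^ i * (α • (1 : Module.End F V)) ^ (q ^ k + 1 - 1 - i)) (T e) = 0 := by
      intro e
      exact congrArg (fun L : Module.End F V => L e) hgeom
    have h5 := h4 (c⁻¹ • d)
    rw [hTe, LinearMap.sum_apply] at h5
    have h6 : ∀ i ∈ Finset.range (q ^ k + 1), (s ^ i * (α • (1 : Module.End F V)) ^ (q ^ k + 1 - 1 - i)) a = α ^ (q ^ k) • a := by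
      intro i hi
      have hi' := Finset.mem_range.1 hi
      rw [Module.End.mul_apply, smul_pow, one_pow]
      change (s ^ i) (α ^ (q ^ k + 1 - 1 - i) • a) = _
      rw [map_smul, hspow, smul_smul, ← pow_add]
      congr 2
      omega
    rw [Finset.sum_congr rfl h6, Finset.sum_const, Finset.card_range, ← Nat.cast_smul_eq_nsmul F, hMF, one_smul] at h5
    exact (smul_eq_zero.1 h5).elim (fun h => pow_ne_zero _ hα0 h) ha0
  have hα1 : α = 1 := by
    obtain ⟨v, hv0, hsv⟩ := hfix
    obtain ⟨w, hw, w', hw', rfl⟩ := hdecomp v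
    rw [map_add, hT w' hw'] at hsv
    have h3 : s w - w = w' - α • w' := by
      have : s w - w + (α • w' - w') = 0 := by
        have h4 : s w + α • w' - (w + w') = 0 := sub_eq_zero.2 hsv
        rw [← h4]
        abel
      have h5 : s w - w = -(α • w' - w') := eq_neg_of_add_eq_zero_left this
      rw [h5]
      abel
    have h4 : s w - w = 0 := by
      apply hinter _ (W.sub_mem (hWs w hw) hw)
      rw [h3]
      exact W'.sub_mem hw' (W'.smul_mem _ hw')
    have h5 : s w = w := sub_eq_zero.1 h4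
    have h6 : w = 0 := by
      by_contra hw0
      have h7 := hfixsub s (fun v => (hys v).symm) ⟨w, hw, hw0, h5⟩
      have h8 : y w = w := pow_fix h5 t
      exact hw0 (fix_of_mem_range hrF hyr w hw h8)
    rw [h6, zero_add] at hv0
    have h9 : (1 - α) • w' = 0 := by
      rw [sub_smul, one_smul]
      exact h3.symm.trans h4
    have h10 := (smul_eq_zero.1 h9).resolve_right hv0
    exact (sub_eq_zero.1 h10).symm
  have hsW' : ∀ w' ∈ W', s w' = w' := by
    intro w' hw'
    rw [hT w' hw', hα1, one_smul]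
  refine ⟨W, W', hcompl.symm, hfW, horth, hWs, hsW', ?_⟩
  intro j hj0 hjM w hw hw0 hfixw
  have h3 := hfixsub (s ^ j) (fun v => (pow_comm_apply (a := s) (b := y) (fun v => (hys v).symm) j v)) ⟨w, hw, hw0, hfixw⟩
  apply hsne j hj0 hjM
  apply LinearMap.ext
  intro v
  obtain ⟨w₁, hw₁, w₂, hw₂, rfl⟩ := hdecomp v
  rw [map_add, h3 w₁ hw₁, pow_fix (hsW' w₂ hw₂) j]
  rfl

end Cfsg.Agent.Lib.Known.BC
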