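import Cfsg.Agent.Lib.Known.BC2

/-!
# The sign of an isometry of order `q^k + 1` on the vectors of value one
-/

set_option autoImplicit false
set_option linter.unusedVariables false
set_option linter.unusedSectionVars false
set_option linter.unusedSimpArgs false

namespace Cfsg.Agent.Lib.Known.BC

open Module Cfsg.Agent.Lib.Quad

variable {F : Type*} [Field F] [Fintype F] {V : Type*} [AddCommGroup V] [Module F V] [FiniteDimensional F V]

theorem sign_core {k : ℕ} (hk : 2 ≤ k) (hq3 : 3 ≤ Fintype.card F) (hodd : Odd (Fintype.card F)) (h2 : (2 : F) ≠ 0)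
    (Q : QuadraticForm F V) (hnd : NondegQ Q) (s : Module.End F V) (hsQ : ∀ v, Q (s v) = Q v)
    (hsM : s ^ (Fintype.card F ^ k + 1) = 1) (W W' : Submodule F V) (hcompl : IsCompl W W') (hfW : finrank F W = 2 * k)
    (horth : ∀ w ∈ W, ∀ w' ∈ W', QuadraticMap.polar Q w w' = 0) (hWs : ∀ w ∈ W, s w ∈ W) (hsW' : ∀ w' ∈ W', s w' = w')
    (hfree : ∀ j, 0 < j → j < Fintype.card F ^ k + 1 → ∀ w ∈ W, w ≠ 0 → (s ^ j) w ≠ w)
    [Fintype {v : V // Q v = 1}] [DecidableEq {v : V // Q v = 1}] (π : Equiv.Perm {v : V // Q v = 1})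
    (hπ : ∀ v, (π v : V) = s v) : Equiv.Perm.sign π = -1 := by
  classical
  set q := Fintype.card F with hq
  haveI : Finite V := Module.finite_of_finite F
  haveI : Fintype V := Fintype.ofFinite V
  set M := q ^ k + 1 with hMdef
  have hM0 : 0 < M := by omega
  have hM1 : 1 < M := by
    have : 1 ≤ q ^ k := Nat.one_le_pow _ _ (by omega)
    omega
  have hdecomp : ∀ v : V, ∃ w ∈ W, ∃ w' ∈ W', v = w + w' := by
    intro v
    have h3 : v ∈ W ⊔ W' := by
      rw [hcompl.sup_eq_top]
      trivial
    obtain ⟨w, hw, w', hw', rfl⟩ := Submodule.mem_sup.1 h3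
    exact ⟨w, hw, w', hw', rfl⟩
  have hinter : ∀ w ∈ W, w ∈ W' → w = 0 := by
    intro w h3 h4
    have h5 : w ∈ W ⊓ W' := ⟨h3, h4⟩
    rw [hcompl.inf_eq_bot] at h5
    exact (Submodule.mem_bot F).1 h5
  have hQadd : ∀ w ∈ W, ∀ w' ∈ W', Q (w + w') = Q w + Q w' := by
    intro w hw w' hw'
    rw [QuadraticMap.map_add Q, horth w hw w' hw', add_zero]
  have hπpow : ∀ (j : ℕ) (x : {v : V // Q v = 1}), ((π ^ j) x : V) = (s ^ j) x := by
    intro j
    induction j with
    | zero => simp
    | succ j ih =>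
      intro x
      rw [pow_succ', Equiv.Perm.mul_apply, hπ, ih, pow_succ', Module.End.mul_apply]
  have hπM : π ^ M = 1 := by
    apply Equiv.ext
    intro x
    apply Subtype.ext
    rw [hπpow, hsM]
    rfl
  have hfix_iff : ∀ x : {v : V // Q v = 1}, π x ≠ x ↔ x.1 ∉ W' := by
    intro x
    constructor
    · intro h1 h2'
      apply h1
      apply Subtype.ext
      rw [hπ, hsW' _ h2']
    · intro h1 h2'
      obtain ⟨w, hw, w', hw', hx⟩ := hdecomp x.1
      have hw0 : w ≠ 0 := by
        rintro rfl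
        rw [zero_add] at hx
        exact h1 (hx ▸ hw')
      have h3 := congrArg Subtype.val h2'
      rw [hπ, hx, map_add, hsW' w' hw'] at h3
      have h4 : s w = w := add_right_cancel h3
      have h5 := hfree 1 one_pos hM1 w hw hw0
      rw [pow_one] at h5
      exact h5 h4
  have hfreeπ : ∀ x, π x ≠ x → ∀ j, 0 < j → j < M → (π ^ j) x ≠ x := by
    intro x hx j hj0 hjM h
    have h1 := (hfix_iff x).1 hx
    obtain ⟨w, hw, w', hw', hxw⟩ := hdecomp x.1
    have hw0 : w ≠ 0 := by
      rintro rfl
      rw [zero_add] at hxw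
      exact h1 (hxw ▸ hw')
    have h3 := congrArg Subtype.val h
    rw [hπpow, hxw, map_add, pow_fix (hsW' w' hw') j] at h3
    exact hfree j hj0 hjM w hw hw0 (add_right_cancel h3)
  obtain ⟨m, hm1, hm2⟩ := sign_free π hM0 hπM hfreeπ
  -- the counts in `W`
  let D : F → ℕ := fun a => Nat.card {w : W // w ≠ 0 ∧ Q (w : V) = a}
  have hDdvd : ∀ a, M ∣ D a := by
    intro a
    have hsinj : Function.Injective s := by
      intro x y hxy
      have h3 : (s ^ M) x = (s ^ M) y := by
        obtain ⟨M', hM'⟩ : ∃ M', M = M' + 1 := ⟨M - 1, by omega⟩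
        rw [hM', pow_succ, Module.End.mul_apply, Module.End.mul_apply, hxy]
      rwa [hsM, Module.End.one_apply, Module.End.one_apply] at h3
    let f : {w : W // w ≠ 0 ∧ Q (w : V) = a} → {w : W // w ≠ 0 ∧ Q (w : V) = a} := fun w =>
      ⟨⟨s w.1, hWs _ w.1.2⟩, by
        intro h0
        apply w.2.1
        apply Subtype.ext
        apply hsinj
        have h3 : s w.1.1 = 0 := congrArg Subtype.val h0
        rw [h3]
        simp, by
        change Q (s w.1.1) = a
        rw [hsQ]
        exact w.2.2⟩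
    have hfinj : Function.Injective f := by
      intro x y hxy
      apply Subtype.ext
      apply Subtype.ext
      apply hsinj
      exact congrArg (fun z => z.1.1) hxy
    let σ : Equiv.Perm {w : W // w ≠ 0 ∧ Q (w : V) = a} := Equiv.ofBijective f (Finite.injective_iff_bijective.1 hfinj)
    have hσ : ∀ x, (σ x).1.1 = s x.1.1 := fun x => rfl
    have hσpow : ∀ (j : ℕ) x, ((σ ^ j) x).1.1 = (s ^ j) x.1.1 := by
      intro j
      induction j with
      | zero => simp
      | succ j ih =>
        intro x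
        rw [pow_succ', Equiv.Perm.mul_apply, hσ, ih, pow_succ', Module.End.mul_apply]
    have hσM : σ ^ M = 1 := by
      apply Equiv.ext
      intro x
      apply Subtype.ext
      apply Subtype.ext
      rw [hσpow, hsM]
      rfl
    have hσfree : ∀ x, σ x ≠ x → ∀ j, 0 < j → j < M → (σ ^ j) x ≠ x := by
      intro x _ j hj0 hjM h
      have h3 := congrArg (fun z => z.1.1) h
      simp only [hσpow] at h3
      refine hfree j hj0 hjM x.1.1 x.1.2 ?_ h3
      intro h0
      exact x.2.1 (Subtype.ext h0)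
    obtain ⟨m', hm'1, -⟩ := sign_free σ hM0 hσM hσfree
    have hsupp : σ.support = Finset.univ := by
      apply Finset.eq_univ_of_forall
      intro x
      rw [Equiv.Perm.mem_support]
      intro h
      have h3 := congrArg (fun z => z.1.1) h
      have h4 := hfree 1 one_pos hM1 x.1.1 x.1.2 (fun h0 => x.2.1 (Subtype.ext h0))
      rw [pow_one] at h4
      exact h4 h3
    refine ⟨m', ?_⟩
    change Nat.card _ = _
    rw [Nat.card_eq_fintype_card, ← Finset.card_univ, ← hsupp, hm'1]
  -- counting the support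
  have hcount : π.support.card = ∑ w' : W', D (1 - Q (w' : V)) := by
    have h1 : π.support.card = Nat.card {x : {v : V // Q v = 1} // π x ≠ x} := by
      rw [Nat.card_eq_fintype_card]
      exact (Fintype.card_of_subtype π.support (fun x => Equiv.Perm.mem_support)).symm
    rw [h1]
    have h2' : ∑ w' : W', D (1 - Q (w' : V)) = Nat.card (Σ w' : W', {w : W // w ≠ 0 ∧ Q (w : V) = 1 - Q (w' : V)}) :=
      Nat.card_sigma.symm
    rw [h2']
    let f : (Σ w' : W', {w : W // w ≠ 0 ∧ Q (w : V) = 1 - Q (w' : V)}) → {x : {v : V // Q v = 1} // π x ≠ x} := fun t =>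
      ⟨⟨t.2.1.1 + t.1.1, by
        rw [hQadd _ t.2.1.2 _ t.1.2, t.2.2.2]
        ring⟩, by
        rw [hfix_iff]
        intro h3
        have h4 : t.2.1.1 ∈ W' := by
          have := W'.sub_mem h3 t.1.2
          simpa using this
        exact t.2.2.1 (Subtype.ext (hinter _ t.2.1.2 h4))⟩
    have hf : Function.Bijective f := by
      constructor
      · rintro ⟨a₁, b₁, hb₁⟩ ⟨a₂, b₂, hb₂⟩ h
        have h3 : b₁.1 + a₁.1 = b₂.1 + a₂.1 := congrArg (fun z => z.1.1) h
        have h4 : b₁.1 - b₂.1 = a₂.1 - a₁.1 := by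
          have : b₁.1 - b₂.1 - (a₂.1 - a₁.1) = (b₁.1 + a₁.1) - (b₂.1 + a₂.1) := by abel
          rw [← sub_eq_zero, this, h3, sub_self]
        have h5 : b₁.1 - b₂.1 = 0 := by
          apply hinter _ (W.sub_mem b₁.2 b₂.2)
          rw [h4]
          exact W'.sub_mem a₂.2 a₁.2
        have h6 : b₁ = b₂ := Subtype.ext (sub_eq_zero.1 h5)
        have h7 : a₁ = a₂ := by
          apply Subtype.ext
          rw [h5] at h4
          exact (sub_eq_zero.1 h4.symm).symm
        subst h6
        subst h7
        rfl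
      · rintro ⟨⟨v, hv⟩, hπv⟩
        obtain ⟨w, hw, w', hw', rfl⟩ := hdecomp v
        have hnot := (hfix_iff _).1 hπv
        simp only at hnot
        have hw0 : w ≠ 0 := by
          rintro rfl
          rw [zero_add] at hnot
          exact hnot hw'
        refine ⟨⟨⟨w', hw'⟩, ⟨w, hw⟩, fun h0 => hw0 (congrArg Subtype.val h0), ?_⟩, ?_⟩
        · have := hQadd w hw w' hw'
          rw [hv] at this
          simp only
          rw [this]
          ring
        · rfl
    exact (Nat.card_congr (Equiv.ofBijective f hf)).symm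
  let d : F → ℕ := fun a => D a / M
  have hDd : ∀ a, D a = M * d a := fun a => (Nat.mul_div_cancel' (hDdvd a)).symm
  have hm : m = ∑ w' : W', d (1 - Q (w' : V)) := by
    apply Nat.eq_of_mul_eq_mul_left hM0
    rw [← hm1, hcount, Finset.mul_sum]
    exact Finset.sum_congr rfl (fun w' _ => hDd _)
  -- the value at `1`
  have hQW : NondegQ (Q.comp W.subtype) := by
    intro v hv
    apply Subtype.ext
    apply hnd
    intro x
    obtain ⟨w, hw, w', hw', rfl⟩ := hdecomp x
    rw [QuadraticMap.polar_add_right, horth _ v.2 w' hw', add_zero]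
    exact hv ⟨w, hw⟩
  have hD1 : D 1 = Nat.card {v : W // (Q.comp W.subtype) v = 1} := by
    apply Nat.card_congr
    refine ⟨fun x => ⟨x.1, x.2.2⟩, fun x => ⟨x.1, ?_, x.2⟩, fun x => rfl, fun x => rfl⟩
    intro h0
    have h3 := x.2
    rw [h0] at h3
    simp at h3
  have hval := count_value hk hq3 hfW (Q.comp W.subtype) hQW (by
    rw [← hD1]
    exact hDdvd 1)
  rw [← hD1, ← hq, hDd 1, ← hMdef, mul_comm] at hval
  have hd1 : d 1 = q ^ (k - 1) := Nat.eq_of_mul_eq_mul_right hM0 hval
  -- parity
  have hparity : ((m : ℕ) : ZMod 2) = ((q ^ (k - 1) : ℕ) : ZMod 2) := by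
    have h3 := sum_even_fn (A := W') (fun a => by
      intro h
      apply Subtype.ext
      have h4 : (2 : F) • (a : V) = 0 := by
        have h5 := congrArg Subtype.val h
        simp only [Submodule.coe_neg] at h5
        rw [two_smul]
        nth_rw 1 [← h5]
        simp
      exact (smul_eq_zero.1 h4).resolve_left h2) (fun w' => d (1 - Q (w' : V))) (fun w' => by
        simp only [Submodule.coe_neg, QuadraticMap.map_neg])
    rw [hm, h3]
    simp only [ZeroMemClass.coe_zero, QuadraticMap.map_zero, sub_zero]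
    rw [hd1]
  have hmodd : Odd m := by
    have h3 : Odd (q ^ (k - 1)) := hodd.pow
    rw [← ZMod.natCast_eq_one_iff_odd] at h3 ⊢
    rw [hparity, h3]
  have hMeven : Even M := by
    have h3 : Odd (q ^ k) := hodd.pow
    exact h3.add_one
  rw [hm2]
  exact ((hMeven.mul_right m).add_odd hmodd).neg_one_pow

end Cfsg.Agent.Lib.Known.BC
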