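import Cfsg.Agent.Lib.Known.BC3
import Cfsg.Agent.Lib.EigCount.OrthMain
import Cfsg.Agent.Lib.Classical.OrthCenter
import Cfsg.Agent.Lib.NormH90.OrthConj

/-!
# No element of order `p (q^k + 1)` in `Ω_{2k+3}(q)`, `q` odd
-/

set_option autoImplicit false
set_option linter.unusedVariables false
set_option linter.unusedSectionVars false
set_option linter.unusedSimpArgs false

namespace Cfsg.Agent.Lib.Known.BC

open Module Matrix Cfsg.Agent.Lib.Quad Cfsg.Agent.Lib.Classical

theorem hom_comm_trivial {G A : Type*} [Group G] [CommGroup A] (φ : G →* A) {y : G} (hy : y ∈ commutator G) : φ y = 1 := by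
  have h : commutator G ≤ φ.ker := by
    rw [commutator_def, Subgroup.commutator_le]
    intro a _ b _
    rw [MonoidHom.mem_ker, map_commutatorElement, commutatorElement_def, mul_comm (φ a), mul_assoc, mul_assoc]
    simp
  exact h hy

variable {F : Type*} [Field F] [Fintype F] {ι : Type} [Fintype ι] [DecidableEq ι]

/-- An isometry of determinant one of an odd dimensional space has a fixed vector. -/
theorem exists_fixed_of_det (Q : QuadraticForm F (ι → F)) (hnd : (QuadraticMap.polarBilin Q).Nondegenerate)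
    (h2 : (2 : F) ≠ 0) (hι : Odd (Fintype.card ι)) (B : Matrix ι ι F) (hB : ∀ v, Q (B *ᵥ v) = Q v) (hdet : B.det = 1) :
    ∃ v, v ≠ 0 ∧ B *ᵥ v = v := by
  obtain ⟨Jn, hJ⟩ := Cfsg.Agent.Lib.NormH90.exists_polGram_inv Q hnd
  have h1 := Cfsg.Agent.Lib.NormH90.adj_of_iso Q hnd hJ hB
  rw [Cfsg.Agent.Lib.NormH90.adj] at h1
  set G := Cfsg.Agent.Lib.NormH90.polGram Q with hG
  have h2' : Bᵀ * G * B = G := by
    calc Bᵀ * G * B = (G * Jn) * (Bᵀ * G * B) := by rw [hJ.mul, one_mul]
      _ = G * (Jn * Bᵀ * G * B) := by noncomm_ring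
      _ = G := by rw [h1, mul_one]
  have hGdet : G.det ≠ 0 := by
    intro h
    have h3 := congrArg Matrix.det hJ.mul
    rw [Matrix.det_mul, h, zero_mul, Matrix.det_one] at h3
    exact zero_ne_one h3
  have h3 : Bᵀ * G * (B - 1) = (1 - Bᵀ) * G := by
    rw [mul_sub, h2', mul_one, sub_mul, one_mul]
  have h4 := congrArg Matrix.det h3
  rw [Matrix.det_mul, Matrix.det_mul, Matrix.det_mul, Matrix.det_transpose, hdet, one_mul] at h4
  have h5 : (1 - Bᵀ).det = (1 - B).det := by
    rw [← Matrix.det_transpose (1 - B)]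
    simp
  have h6 : (1 - B).det = - (B - 1).det := by
    have : (1 - B) = -(B - 1) := by abel
    rw [this, Matrix.det_neg, hι.neg_one_pow]
    simp
  rw [h5, h6] at h4
  have h7 : G.det * ((2 : F) * (B - 1).det) = 0 := by
    linear_combination h4
  have h8 : (B - 1).det = 0 := by
    have := (mul_eq_zero.1 h7).resolve_left hGdet
    exact (mul_eq_zero.1 this).resolve_left h2
  obtain ⟨v, hv0, hv⟩ := Matrix.exists_mulVec_eq_zero_iff.2 h8
  refine ⟨v, hv0, ?_⟩
  rw [Matrix.sub_mulVec, Matrix.one_mulVec] at hv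
  exact sub_eq_zero.1 hv

/-- The action on the vectors of value one. -/
noncomputable def permQ (Q : QuadraticForm F (ι → F)) : OG Q →* Equiv.Perm {v : ι → F // Q v = 1} where
  toFun g :=
    { toFun := fun v => ⟨oM g *ᵥ v.1, (oM_Q g v.1).trans v.2⟩
      invFun := fun v => ⟨oM g⁻¹ *ᵥ v.1, (oM_Q g⁻¹ v.1).trans v.2⟩
      left_inv := fun v => Subtype.ext (oM_inv_self g v.1)
      right_inv := fun v => Subtype.ext (oM_self_inv g v.1) }
  map_one' := by
    apply Equiv.ext
    intro v
    apply Subtype.ext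
    exact oM_one v.1
  map_mul' a b := by
    apply Equiv.ext
    intro v
    apply Subtype.ext
    exact oM_mul a b v.1

theorem omega_no_order (p : ℕ) [Fact p.Prime] [CharP F p] {f : (ι → F) → F} (hf : NDQ f) {k : ℕ} (hk : 2 ≤ k)
    (hι : Fintype.card ι = 2 * k + 3) (hodd : Odd (Fintype.card F)) (g : Cfsg.POmega F f) :
    orderOf g ≠ p * (Fintype.card F ^ k + 1) := by
  classical
  intro hg
  obtain ⟨x, rfl⟩ := QuotientGroup.mk'_surjective _ g
  obtain ⟨Q, rfl, hnd⟩ := hf
  set q := Fintype.card F with hq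
  have hq3 : 3 ≤ q := by
    have h1 : 1 < q := Fintype.one_lt_card
    obtain ⟨c, hc⟩ := hodd
    omega
  have hqF : ((q : ℕ) : F) = 0 := Nat.cast_card_eq_zero F
  have hpq : p ∣ q := (CharP.cast_eq_zero_iff F p q).1 hqF
  have hpodd : Odd p := Odd.of_dvd_nat hodd hpq
  have hp2 := (Fact.out : p.Prime).two_le
  have h2 : (2 : F) ≠ 0 := by
    intro h
    have h3 : ((2 : ℕ) : F) = 0 := by exact_mod_cast h
    have h4 := (CharP.cast_eq_zero_iff F p 2).1 h3
    have h5 := Nat.le_of_dvd (by omega) h4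
    have h7 : p = 2 := by omega
    rw [h7] at hpodd
    exact absurd hpodd (by decide)
  set M := q ^ k + 1 with hM
  have hM0 : 0 < M := by omega
  have hN0 : 0 < p * M := by positivity
  have hcen : x ^ (p * M) ∈ Subgroup.center (Cfsg.Omega F (⇑Q)) := by
    have h3 : (QuotientGroup.mk' (Subgroup.center (Cfsg.Omega F (⇑Q))) x) ^ (p * M) = 1 := by
      rw [← hg]
      exact pow_orderOf_eq_one _
    rw [← map_pow] at h3
    exact (QuotientGroup.eq_one_iff _).1 h3
  have hdetΩ : ∀ y : Cfsg.Omega F (⇑Q), (oM y.1).det = 1 := by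
    intro y
    have h3 := hom_comm_trivial ((Matrix.GeneralLinearGroup.det).comp (Cfsg.isometryGroup F (⇑Q)).subtype) y.2
    have h4 := congrArg (fun z : Fˣ => (z : F)) h3
    exact h4
  have hxN : x ^ (p * M) = 1 := by
    rcases center_eq_pm hnd (by omega) hcen with h3 | h3
    · exact Subtype.ext (Subtype.ext (Units.ext h3))
    · exfalso
      have h4 := hdetΩ (x ^ (p * M))
      rw [h3, Matrix.det_neg, Matrix.det_one, mul_one] at h4
      have h5 : Odd (Fintype.card ι) := by
        rw [hι]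
        exact ⟨k + 1, by ring⟩
      rw [h5.neg_one_pow] at h4
      apply h2
      linear_combination -h4
  have hord : orderOf x = p * M :=
    Nat.dvd_antisymm (orderOf_dvd_of_pow_eq_one hxN) (hg ▸ orderOf_map_dvd _ _)
  set A : Matrix ι ι F := oM x.1 with hA
  have hpow : ∀ j : ℕ, oM (x ^ j).1 = A ^ j := by
    intro j
    induction j with
    | zero => rfl
    | succ j ih =>
      rw [pow_succ, pow_succ, ← ih]
      rfl
  set T : Module.End F (ι → F) := Matrix.toLin' A with hT
  have hTpow : ∀ j : ℕ, T ^ j = Matrix.toLin' (A ^ j) := fun j => (Matrix.toLin'_pow A j).symm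
  have hTne : ∀ j : ℕ, 0 < j → j < p * M → T ^ j ≠ 1 := by
    intro j hj0 hjN h
    apply pow_ne_one_of_lt_orderOf (x := x) (n := j) (by omega) (by rw [hord]; exact hjN)
    apply Subtype.ext
    apply Subtype.ext
    apply Units.ext
    change oM (x ^ j).1 = 1
    rw [hpow]
    apply Matrix.toLin'.injective
    rw [← hTpow, h, Matrix.toLin'_one]
    rfl
  have hTN : T ^ (p * M) = 1 := by
    rw [hTpow, ← hpow, hxN]
    change Matrix.toLin' (1 : Matrix ι ι F) = 1
    rw [Matrix.toLin'_one]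
    rfl
  have hTQ : ∀ v, Q (T v) = Q v := by
    intro v
    rw [hT, Matrix.toLin'_apply]
    exact oM_Q x.1 v
  have hsu : ∀ (a b : ℕ) (v : ι → F), (T ^ a) ((T ^ b) v) = (T ^ b) ((T ^ a) v) := by
    intro a b v
    rw [← Module.End.mul_apply, ← Module.End.mul_apply, ← pow_add, ← pow_add, add_comm]
  have hdim : finrank F (ι → F) = 2 * k + 3 := by
    rw [Module.finrank_fintype_fun_eq_card, hι]
  have hfix : ∃ v, v ≠ 0 ∧ (T ^ p) v = v := by
    have h3 := hdetΩ (x ^ p)
    obtain ⟨v, hv0, hv⟩ := exists_fixed_of_det Q hnd h2 (by rw [hι]; exact ⟨k + 1, by ring⟩) (oM (x ^ p).1)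
      (fun v => oM_Q (x ^ p).1 v) h3
    refine ⟨v, hv0, ?_⟩
    rw [hTpow, ← hpow, Matrix.toLin'_apply]
    exact hv
  obtain ⟨W, W', hc, hfW, horth, hWs, hsW', hfree⟩ := structure_thm p hk hq3 hodd Q (NondegQ.of_polarBilin hnd) hdim
    (T ^ p) (T ^ M) (iso_pow Q hTQ p) (iso_pow Q hTQ M) (hsu p M)
    (by rw [← pow_mul]; exact hTN)
    (by
      intro j hj0 hjM
      rw [← pow_mul]
      apply hTne _ (by positivity)
      exact Nat.mul_lt_mul_of_pos_left hjM (by omega))
    (by rw [← pow_mul, mul_comm]; exact hTN)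
    (by
      apply hTne _ hM0
      exact lt_mul_of_one_lt_left hM0 (by omega))
    hfix
  haveI : Finite (ι → F) := Module.finite_of_finite F
  haveI : Fintype {v : ι → F // Q v = 1} := Fintype.ofFinite _
  have hsign := sign_core hk hq3 hodd h2 Q (NondegQ.of_polarBilin hnd) (T ^ p) (iso_pow Q hTQ p)
    (by rw [← pow_mul]; exact hTN) W W' hc hfW horth hWs hsW' hfree (permQ Q (x ^ p).1) (by
      intro v
      rw [hTpow, ← hpow, Matrix.toLin'_apply]
      rfl)
  have hone := hom_comm_trivial ((Equiv.Perm.sign).comp (permQ Q)) (x ^ p).2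
  rw [MonoidHom.comp_apply, hsign] at hone
  exact absurd hone (by decide)

end Cfsg.Agent.Lib.Known.BC
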