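import Cfsg.Agent.Lib.Known.BC4
import Cfsg.Agent.Lib.Known.PSpPG4

/-!
# An element of order `p (q^k + 1)` in `PSp_{2k+2}(q)`, `q` odd
-/

set_option autoImplicit false
set_option linter.unusedVariables false
set_option linter.unusedSectionVars false
set_option linter.unusedSimpArgs false

namespace Cfsg.Agent.Lib.Known.BC

open Polynomial Module Matrix Cfsg.Agent.Lib.Known.PG Cfsg.Agent.Lib.EigCount Cfsg.Agent.Lib.Classical Cfsg.Agent.Lib.KnownSimple Cfsg.Agent.Lib.Known.PSpPG

section Embed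

variable {F : Type*} [Field F] {V : Type*} [AddCommGroup V] [Module F V] [FiniteDimensional F V]

/-- An isometry of an abstract symplectic space as a symplectic matrix, keeping track of `-1`. -/
theorem exists_sp_of_iso' (B : LinearMap.BilinForm F V) (hA : B.IsAlt) (hnd : ∀ v, (∀ w, B v w = 0) → v = 0) {m : ℕ}
    (hdim : finrank F V = 2 * m) (T : Module.End F V) (hT : ∀ u v, B (T u) (T v) = B u v) :
    ∃ g : Matrix.symplecticGroup (Fin m) F, (∀ j : ℕ, g ^ j = 1 ↔ T ^ j = 1) ∧
      ∀ j : ℕ, ((g ^ j : Matrix.symplecticGroup (Fin m) F) : Matrix (Fin m ⊕ Fin m) (Fin m ⊕ Fin m) F) = -1 → T ^ j = -1 := by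
  obtain ⟨Ψ, hΨ⟩ := Cfsg.Agent.Lib.Embed.exists_sp_equiv B hA hnd hdim
  let L : Module.End F (Fin m ⊕ Fin m → F) := Ψ.symm.toLinearMap ∘ₗ T ∘ₗ Ψ.toLinearMap
  have hL : ∀ x, Ψ (L x) = T (Ψ x) := fun x => by simp [L]
  have hLpow : ∀ (j : ℕ) (x : Fin m ⊕ Fin m → F), Ψ ((L ^ j) x) = (T ^ j) (Ψ x) := by
    intro j
    induction j with
    | zero => simp
    | succ j ih =>
      intro x
      rw [pow_succ, pow_succ, Module.End.mul_apply, Module.End.mul_apply, ih, hL]
  have hM : LinearMap.toMatrix' L ∈ Matrix.symplecticGroup (Fin m) F := by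
    apply mem_sp_of_preserves
    intro u v
    rw [LinearMap.toMatrix'_mulVec, LinearMap.toMatrix'_mulVec, ← hΨ, hL, hL, hT, hΨ]
  refine ⟨⟨_, hM⟩, fun j => ?_, fun j => ?_⟩
  all_goals
    have hcoe : ∀ j : ℕ, Matrix.toLin' (((⟨_, hM⟩ : Matrix.symplecticGroup (Fin m) F) ^ j : Matrix.symplecticGroup (Fin m) F) :
        Matrix (Fin m ⊕ Fin m) (Fin m ⊕ Fin m) F) = L ^ j := by
      intro j
      rw [SubmonoidClass.coe_pow, Matrix.toLin'_pow, Matrix.toLin'_toMatrix']
  · constructor
    · intro h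
      have h1 := hcoe j
      rw [h] at h1
      have h2 : L ^ j = 1 := by
        rw [← h1]
        change Matrix.toLin' (1 : Matrix (Fin m ⊕ Fin m) (Fin m ⊕ Fin m) F) = 1
        rw [Matrix.toLin'_one]
        rfl
      apply LinearMap.ext
      intro v
      have h3 := hLpow j (Ψ.symm v)
      rw [h2] at h3
      simpa using h3.symm
    · intro h
      apply Subtype.ext
      have h1 := hcoe j
      have h2 : L ^ j = 1 := by
        apply LinearMap.ext
        intro x
        apply Ψ.injective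
        rw [hLpow, h]
        rfl
      rw [h2] at h1
      apply Matrix.toLin'.injective
      rw [h1]
      change (1 : Module.End F (Fin m ⊕ Fin m → F)) = Matrix.toLin' (1 : Matrix (Fin m ⊕ Fin m) (Fin m ⊕ Fin m) F)
      rw [Matrix.toLin'_one]
      rfl
  · intro h
    have h1 := hcoe j
    rw [h] at h1
    have h2 : ∀ x, (L ^ j) x = -x := by
      intro x
      rw [← h1, Matrix.toLin'_apply, Matrix.neg_mulVec, Matrix.one_mulVec]
    apply LinearMap.ext
    intro v
    have h3 := hLpow j (Ψ.symm v)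
    rw [h2, map_neg] at h3
    simpa using h3.symm

end Embed

section Main

variable {F : Type*} [Field F] [Fintype F]

theorem psp_has_order (p : ℕ) [Fact p.Prime] [CharP F p] (hodd : Odd (Fintype.card F)) (k : ℕ) (hk : 2 ≤ k) :
    ∃ g : Cfsg.PSp (k + 1) F, orderOf g = p * (Fintype.card F ^ k + 1) := by
  classical
  set q := Fintype.card F with hq
  have hq3 : 3 ≤ q := by
    have h1 : 1 < q := Fintype.one_lt_card
    obtain ⟨c, hc⟩ := hodd
    omega
  have hqF : ((q : ℕ) : F) = 0 := Nat.cast_card_eq_zero F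
  have hpq : p ∣ q := (CharP.cast_eq_zero_iff F p q).1 hqF
  have hpodd : Odd p := Odd.of_dvd_nat hodd hpq
  have hp := (Fact.out : p.Prime)
  have hp2 := hp.two_le
  have h2 : (2 : F) ≠ 0 := by
    intro h
    have h3 : ((2 : ℕ) : F) = 0 := by exact_mod_cast h
    have h4 := (CharP.cast_eq_zero_iff F p 2).1 h3
    have h5 := Nat.le_of_dvd (by omega) h4
    have h7 : p = 2 := by omega
    rw [h7] at hpodd
    exact absurd hpodd (by decide)
  have hqk : 9 ≤ q ^ k := by
    have h1 : 3 ^ 2 ≤ q ^ 2 := Nat.pow_le_pow_left hq3 2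
    have h2 : q ^ 2 ≤ q ^ k := Nat.pow_le_pow_right (by omega) hk
    omega
  set M := q ^ k + 1 with hM
  have hcop : Nat.Coprime p M := by
    rw [Nat.Prime.coprime_iff_not_dvd hp]
    intro h
    have h1 : p ∣ q ^ k := dvd_pow hpq (by omega)
    have h2 : p ∣ 1 := (Nat.dvd_add_right h1).1 h
    exact hp.one_lt.ne' (Nat.dvd_one.1 h2)
  obtain ⟨x, hx⟩ := exists_elt_even (F := F) p (η := k) (N := M) (by omega) dvd_rfl (by
    intro h
    have := Nat.le_of_dvd (by omega) h
    omega)
  obtain ⟨y, hy⟩ := exists_order_p (F := F) p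
  let V₁ := Fin k ⊕ Fin k → F
  let V₂ := Fin 1 ⊕ Fin 1 → F
  let B : LinearMap.BilinForm F (V₁ × V₂) :=
    (sympBil k F).compl₁₂ (LinearMap.fst F V₁ V₂) (LinearMap.fst F V₁ V₂) +
      (sympBil 1 F).compl₁₂ (LinearMap.snd F V₁ V₂) (LinearMap.snd F V₁ V₂)
  have hB : ∀ u v, B u v = Cfsg.sympForm k F u.1 v.1 + Cfsg.sympForm 1 F u.2 v.2 := fun u v => rfl
  have hA : B.IsAlt := by
    intro u
    rw [hB, sympForm_self, sympForm_self, add_zero]
  have hnd : ∀ v, (∀ w, B v w = 0) → v = 0 := by
    rintro ⟨u, v⟩ hv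
    apply Prod.ext
    · apply form_nd
      intro w
      have := hv (w, 0)
      rw [hB] at this
      have h0 : Cfsg.sympForm 1 F v (0 : V₂) = 0 := by
        rw [← sympBil_apply]
        exact map_zero _
      change Cfsg.sympForm k F u w + Cfsg.sympForm 1 F v 0 = 0 at this
      rw [h0, add_zero] at this
      exact this
    · apply form_nd
      intro w
      have := hv (0, w)
      rw [hB] at this
      have h0 : Cfsg.sympForm k F u (0 : V₁) = 0 := by
        rw [← sympBil_apply]
        exact map_zero _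
      change Cfsg.sympForm k F u 0 + Cfsg.sympForm 1 F v w = 0 at this
      rw [h0, zero_add] at this
      exact this
  have hdim : finrank F (V₁ × V₂) = 2 * (k + 1) := by
    have h1 : finrank F V₁ = 2 * k := finrank_VV
    have h2 : finrank F V₂ = 2 * 1 := finrank_VV
    rw [Module.finrank_prod, h1, h2]
    ring
  let T : Module.End F (V₁ × V₂) := LinearMap.prodMap (TT x) (TT y)
  have hT : ∀ u v, B (T u) (T v) = B u v := by
    rintro ⟨u₁, u₂⟩ ⟨v₁, v₂⟩
    change sympBil k F (TT x u₁) (TT x v₁) + sympBil 1 F (TT y u₂) (TT y v₂) = sympBil k F u₁ v₁ + sympBil 1 F u₂ v₂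
    rw [TT_iso, TT_iso]
  have hTpow : ∀ (j : ℕ) (w : V₁ × V₂), (T ^ j) w = ((TT (x ^ j)) w.1, (TT (y ^ j)) w.2) := by
    intro j
    induction j with
    | zero =>
      intro w
      rw [pow_zero, pow_zero, pow_zero, (TT_eq_one).2 rfl, (TT_eq_one).2 rfl]
      rfl
    | succ j ih =>
      intro w
      rw [pow_succ, Module.End.mul_apply, ih, TT_pow, TT_pow, TT_pow, TT_pow, pow_succ, pow_succ]
      rfl
  obtain ⟨g, hg1, hg2⟩ := exists_sp_of_iso' B hA hnd hdim T hT
  have hone : ∀ j : ℕ, g ^ j = 1 ↔ (x ^ j = 1 ∧ y ^ j = 1) := by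
    intro j
    rw [hg1]
    constructor
    · intro h
      constructor
      · apply (TT_eq_one).1
        apply LinearMap.ext
        intro v
        have h3 := hTpow j (v, 0)
        rw [h] at h3
        exact (congrArg Prod.fst h3).symm
      · apply (TT_eq_one).1
        apply LinearMap.ext
        intro v
        have h3 := hTpow j (0, v)
        rw [h] at h3
        exact (congrArg Prod.snd h3).symm
    · rintro ⟨h3, h4⟩
      apply LinearMap.ext
      intro w
      rw [hTpow, (TT_eq_one).2 h3, (TT_eq_one).2 h4]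
      rfl
  have hordg : orderOf g = p * M := by
    apply Nat.dvd_antisymm
    · apply orderOf_dvd_of_pow_eq_one
      rw [hone]
      constructor
      · rw [mul_comm, pow_mul, ← hx, pow_orderOf_eq_one, one_pow]
      · rw [pow_mul, ← hy, pow_orderOf_eq_one, one_pow]
    · have h3 := (hone (orderOf g)).1 (pow_orderOf_eq_one g)
      have h4 : M ∣ orderOf g := hx ▸ orderOf_dvd_of_pow_eq_one h3.1
      have h5 : p ∣ orderOf g := hy ▸ orderOf_dvd_of_pow_eq_one h3.2
      exact hcop.mul_dvd_of_dvd_of_dvd h5 h4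
  have hnotneg : ∀ j : ℕ, ((g ^ j : Matrix.symplecticGroup (Fin (k + 1)) F) : Matrix (Fin (k + 1) ⊕ Fin (k + 1)) (Fin (k + 1) ⊕ Fin (k + 1)) F) ≠ -1 := by
    intro j h
    have h3 := hg2 j h
    have h4 : ∀ v : V₂, (TT (y ^ j)) v = -v := by
      intro v
      have h5 := hTpow j (0, v)
      rw [h3] at h5
      exact (congrArg Prod.snd h5).symm
    have h5 : TT (y ^ (2 * j)) = 1 := by
      apply LinearMap.ext
      intro v
      rw [two_mul, TT_pow, pow_add, Module.End.mul_apply, ← TT_pow, h4, h4, neg_neg]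
      rfl
    have h6 : y ^ (2 * j) = 1 := (TT_eq_one).1 h5
    have h7 : p ∣ 2 * j := hy ▸ orderOf_dvd_of_pow_eq_one h6
    have h8 : p ∣ j := by
      have h9 : Nat.Coprime p 2 := Nat.coprime_two_right.2 hpodd
      exact h9.dvd_of_dvd_mul_left h7
    have h9 : y ^ j = 1 := by
      rw [← hy] at h8
      exact orderOf_dvd_iff_pow_eq_one.1 h8
    have h10 : ∀ v : V₂, v = -v := by
      intro v
      have := h4 v
      rw [h9, (TT_eq_one).2 rfl] at this
      exact this
    let v₀ : V₂ := fun _ => 1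
    have h11 := congrFun (h10 v₀) (Sum.inl 0)
    change (1 : F) = -1 at h11
    apply h2
    linear_combination h11
  refine ⟨piS (k + 1) F g, ?_⟩
  apply Nat.dvd_antisymm
  · rw [← hordg]
    exact orderOf_map_dvd _ _
  · rw [← hordg]
    apply orderOf_dvd_of_pow_eq_one
    have h3 : g ^ orderOf (piS (k + 1) F g) ∈ Subgroup.center (Matrix.symplecticGroup (Fin (k + 1)) F) := by
      have h4 := pow_orderOf_eq_one (piS (k + 1) F g)
      rw [← map_pow] at h4
      exact (QuotientGroup.eq_one_iff _).1 h4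
    rcases sp_central_one_or_neg (by omega) _ h3 with h4 | h4
    · exact Subtype.ext h4
    · exact absurd h4 (hnotneg _)

end Main

end Cfsg.Agent.Lib.Known.BC
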