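import Cfsg.Agent.Lib.Known.BC4
import Cfsg.Agent.Lib.Classical.QuadCount
import Cfsg.Agent.Lib.Quad.Similar

/-!
# Values of non-degenerate quadratic forms in even dimension; moved vectors of value one
-/

set_option autoImplicit false
set_option linter.unusedVariables false
set_option linter.unusedSectionVars false
set_option linter.unusedSimpArgs false

namespace Cfsg.Agent.Lib.Known.BC

open Module Cfsg.Agent.Lib.Quad

variable {F : Type*} [Field F] [Fintype F] {V : Type*} [AddCommGroup V] [Module F V] [FiniteDimensional F V]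

theorem count_const {n : ℕ} (hn : 1 ≤ n) (hV : finrank F V = 2 * n) (Q : QuadraticForm F V) (hQ : NondegQ Q) {a b : F}
    (ha : a ≠ 0) (hb : b ≠ 0) : Nat.card {v : V // Q v = a} = Nat.card {v : V // Q v = b} := by
  obtain ⟨g, hg⟩ := exists_similarity hn hV Q hQ (c := b / a) (div_ne_zero hb ha)
  apply Nat.card_congr
  refine g.toEquiv.subtypeEquiv (fun v => ?_)
  change Q v = a ↔ Q (g v) = b
  rw [hg]
  constructor
  · intro h
    rw [h]
    field_simp
  · intro h
    calc Q v = (a / b) * (b / a * Q v) := by field_simp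
      _ = (a / b) * b := by rw [h]
      _ = a := by field_simp

theorem count_total (Q : QuadraticForm F V) (hfin : Finite V) :
    ∑ a : F, Nat.card {v : V // Q v = a} = Nat.card V := by
  classical
  haveI : Fintype V := Fintype.ofFinite V
  have e : (Σ a : F, {v : V // Q v = a}) ≃ V :=
    { toFun := fun t => t.2.1
      invFun := fun v => ⟨Q v, v, rfl⟩
      left_inv := by
        rintro ⟨a, v, rfl⟩
        rfl
      right_inv := fun v => rfl }
  rw [← Nat.card_congr e, Nat.card_sigma]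

theorem arith_plus (c A B X Z : ℕ) (hc : 0 < c) (H1 : c * X + Z = (A + 1) * (A + 1) * ((c + 1) * (c + 1)))
    (H2 : Z + (A + 1) = (A + 1) * (A + 1) * (c + 1) + (A + 1) * (c + 1)) (H3 : (A + 1) * (c + 1) = B + 1) : X = (A + 1) * B := by
  have hc' : (c : ℤ) ≠ 0 := by positivity
  zify at *
  apply mul_left_cancel₀ hc'
  linear_combination H1 - H2 + c * (A + 1) * H3

theorem arith_plus0 (c A B D Z : ℕ) (H0 : D + 1 = Z)
    (H2 : Z + (A + 1) = (A + 1) * (A + 1) * (c + 1) + (A + 1) * (c + 1)) (H3 : (A + 1) * (c + 1) = B + 1) : D = B * (A + 1 + 1) := by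
  zify at *
  linear_combination H0 + H2 + (A + 2) * H3

theorem arith_minus (c A X Z : ℕ) (hc : 0 < c) (H1 : c * X + Z = (A + 1) * (A + 1) * ((c + 1) * (c + 1)))
    (H2 : Z + (A + 1) * (c + 1) = (A + 1) * (A + 1) * (c + 1) + (A + 1)) : X = (A + 1) * ((A + 1) * (c + 1) + 1) := by
  have hc' : (c : ℤ) ≠ 0 := by positivity
  zify at *
  apply mul_left_cancel₀ hc'
  linear_combination H1 - H2

theorem arith_minus0 (c A D Z : ℕ) (H0 : D + 1 = Z)
    (H2 : Z + (A + 1) * (c + 1) = (A + 1) * (A + 1) * (c + 1) + (A + 1)) : D = ((A + 1) * (c + 1) + 1) * A := by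
  zify at *
  linear_combination H0 + H2

/-- The number of non-zero vectors with given value. -/
theorem count_type {n : ℕ} (hn : 1 ≤ n) (hV : finrank F V = 2 * n) (Q : QuadraticForm F V) (hQ : NondegQ Q) :
    ∃ M₀ : ℕ, (M₀ = Fintype.card F ^ n - 1 ∨ M₀ = Fintype.card F ^ n + 1) ∧
      ∀ a : F, M₀ ∣ Nat.card {v : V // v ≠ 0 ∧ Q v = a} ∧
        (a ≠ 0 → Nat.card {v : V // v ≠ 0 ∧ Q v = a} = Fintype.card F ^ (n - 1) * M₀) := by
  classical
  set q := Fintype.card F with hq
  have hq2 : 2 ≤ q := Fintype.one_lt_card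
  haveI hfin : Finite V := Module.finite_of_finite F
  obtain ⟨j, rfl⟩ : ∃ j, n = j + 1 := ⟨n - 1, by omega⟩
  -- reduction to the number of zeros
  have hne : ∀ a : F, a ≠ 0 → Nat.card {v : V // v ≠ 0 ∧ Q v = a} = Nat.card {v : V // Q v = a} := by
    intro a ha
    apply Nat.card_congr
    refine ⟨fun x => ⟨x.1, x.2.2⟩, fun x => ⟨x.1, ?_, x.2⟩, fun x => rfl, fun x => rfl⟩
    intro h0
    have h3 := x.2
    rw [h0] at h3
    simp at h3
    exact ha h3.symm
  have h0 : Nat.card {v : V // v ≠ 0 ∧ Q v = 0} + 1 = Nat.card {v : V // Q v = 0} := by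
    haveI : Fintype V := Fintype.ofFinite V
    rw [Nat.card_eq_fintype_card, Nat.card_eq_fintype_card, Fintype.card_subtype, Fintype.card_subtype]
    have hsub : (Finset.univ.filter (fun v : V => Q v = 0)) = insert 0 (Finset.univ.filter (fun v : V => v ≠ 0 ∧ Q v = 0)) := by
      ext v
      simp only [Finset.mem_filter, Finset.mem_univ, true_and, Finset.mem_insert]
      constructor
      · intro h
        by_cases hv : v = 0
        · exact Or.inl hv
        · exact Or.inr ⟨hv, h⟩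
      · rintro (rfl | h)
        · simp
        · exact h.2
    rw [hsub, Finset.card_insert_of_notMem (by simp)]
  have hcardV : Nat.card V = q ^ (2 * (j + 1)) := by
    haveI : Fintype V := Fintype.ofFinite V
    rw [Nat.card_eq_fintype_card, Module.card_eq_pow_finrank (K := F) (V := V), hV]
  -- the count of the non-zero values
  have hsum : (q - 1) * Nat.card {v : V // Q v = 1} + Nat.card {v : V // Q v = 0} = q ^ (2 * (j + 1)) := by
    rw [← hcardV, ← count_total Q hfin, ← Finset.add_sum_erase Finset.univ _ (Finset.mem_univ (0 : F)), add_comm]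
    congr 1
    rw [Finset.sum_congr rfl (fun a ha => count_const (n := j + 1) hn hV Q hQ (Finset.mem_erase.1 ha).1 one_ne_zero), Finset.sum_const,
      Finset.card_erase_of_mem (Finset.mem_univ _), Finset.card_univ, smul_eq_mul]
  have hq1 : 1 ≤ q - 1 := by omega
  have hqj : 1 ≤ q ^ j := Nat.one_le_pow _ _ (by omega)
  obtain ⟨c, hc⟩ : ∃ c, q = c + 1 := ⟨q - 1, by omega⟩
  obtain ⟨A, hA⟩ : ∃ A, q ^ j = A + 1 := ⟨q ^ j - 1, by omega⟩
  have e1 : q ^ (j + 1) = q ^ j * q := pow_succ _ _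
  have e2 : q ^ (2 * (j + 1)) = q ^ j * q ^ j * (q * q) := by ring
  have e3 : q ^ (2 * (j + 1) - 1) = q ^ j * q ^ j * q := by
    have : 2 * (j + 1) - 1 = j + j + 1 := by omega
    rw [this]
    ring
  rcases exists_type_gen (m := j + 1) hn hV Q hQ with ⟨g, hg⟩ | ⟨ζ, hζ, g, hg⟩
  · have hz : Nat.card {v : V // Q v = 0} = q ^ (2 * (j + 1) - 1) + q ^ (j + 1) - q ^ (j + 1 - 1) := by
      rw [← Cfsg.Agent.Lib.Classical.card_zeros_plus (F := F) rfl (j + 1) hn]
      apply Nat.card_congr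
      refine g.toEquiv.subtypeEquiv (fun v => ?_)
      change Q v = 0 ↔ _
      rw [hg]
      exact Iff.rfl
    simp only [Nat.add_sub_cancel] at hz
    rw [e1, e3, hA] at hz
    have hqq : 1 ≤ (A + 1) * q := Nat.mul_pos (by omega) (by omega)
    have hle : A + 1 ≤ (A + 1) * (A + 1) * q + (A + 1) * q := by
      have : A + 1 ≤ (A + 1) * q := Nat.le_mul_of_pos_right _ (by omega)
      omega
    have hz' : Nat.card {v : V // Q v = 0} + (A + 1) = (A + 1) * (A + 1) * q + (A + 1) * q := by omega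
    rw [e2, hA] at hsum
    obtain ⟨B, hB⟩ : ∃ B, (A + 1) * q = B + 1 := ⟨(A + 1) * q - 1, by omega⟩
    have hc' : q - 1 = c := by omega
    rw [hc'] at hsum
    rw [hc] at hsum hz' hB
    have h1 : Nat.card {v : V // Q v = 1} = (A + 1) * B := arith_plus c A B _ _ (by omega) hsum hz' hB
    have h0' : Nat.card {v : V // v ≠ 0 ∧ Q v = 0} = B * (A + 1 + 1) := arith_plus0 c A B _ _ h0 hz' hB
    have hpk : q ^ (j + 1) - 1 = B := by
      rw [e1, hA]
      rw [hc]
      omega
    refine ⟨q ^ (j + 1) - 1, Or.inl rfl, fun a => ?_⟩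
    rw [hpk]
    have hqj' : q ^ (j + 1 - 1) = A + 1 := by simpa using hA
    by_cases ha : a = 0
    · subst ha
      exact ⟨⟨A + 1 + 1, h0'⟩, fun h => absurd rfl h⟩
    · have h2 : Nat.card {v : V // v ≠ 0 ∧ Q v = a} = q ^ (j + 1 - 1) * B := by
        rw [hne a ha, count_const (n := j + 1) hn hV Q hQ ha one_ne_zero, h1, hqj']
      exact ⟨⟨q ^ (j + 1 - 1), by rw [h2, mul_comm]⟩, fun _ => h2⟩
  · have hz : Nat.card {v : V // Q v = 0} = q ^ (2 * (j + 1) - 1) + q ^ (j + 1 - 1) - q ^ (j + 1) := by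
      rw [← Cfsg.Agent.Lib.Classical.card_zeros_minus (F := F) rfl (j + 1) hn 1 ζ (anisotropic_of_zeta hζ)]
      apply Nat.card_congr
      refine g.toEquiv.subtypeEquiv (fun v => ?_)
      change Q v = 0 ↔ _
      rw [hg]
      exact Iff.rfl
    simp only [Nat.add_sub_cancel] at hz
    rw [e1, e3, hA] at hz
    have hle : (A + 1) * q ≤ (A + 1) * (A + 1) * q + (A + 1) := by
      have : (A + 1) * q ≤ (A + 1) * (A + 1) * q := by
        rw [mul_assoc]
        exact Nat.le_mul_of_pos_left _ (by omega)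
      omega
    have hz' : Nat.card {v : V // Q v = 0} + (A + 1) * q = (A + 1) * (A + 1) * q + (A + 1) := by omega
    rw [e2, hA] at hsum
    have hc' : q - 1 = c := by omega
    rw [hc'] at hsum
    rw [hc] at hsum hz'
    have h1 : Nat.card {v : V // Q v = 1} = (A + 1) * ((A + 1) * (c + 1) + 1) := arith_minus c A _ _ (by omega) hsum hz'
    have h0' : Nat.card {v : V // v ≠ 0 ∧ Q v = 0} = ((A + 1) * (c + 1) + 1) * A := arith_minus0 c A _ _ h0 hz'
    have hpk : q ^ (j + 1) + 1 = (A + 1) * (c + 1) + 1 := by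
      rw [e1, hA]
      rw [hc]
    refine ⟨q ^ (j + 1) + 1, Or.inr rfl, fun a => ?_⟩
    rw [hpk]
    have hqj' : q ^ (j + 1 - 1) = A + 1 := by simpa using hA
    by_cases ha : a = 0
    · subst ha
      exact ⟨⟨A, h0'⟩, fun h => absurd rfl h⟩
    · have h2 : Nat.card {v : V // v ≠ 0 ∧ Q v = a} = q ^ (j + 1 - 1) * ((A + 1) * (c + 1) + 1) := by
        rw [hne a ha, count_const (n := j + 1) hn hV Q hQ ha one_ne_zero, h1, hqj']
      exact ⟨⟨q ^ (j + 1 - 1), by rw [h2, mul_comm]⟩, fun _ => h2⟩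

/-- Free cyclic actions divide the number of vectors of a given value. -/
theorem free_dvd {M : ℕ} (hM : 0 < M) (Q : QuadraticForm F V) (z : Module.End F V) (hz : ∀ v, Q (z v) = Q v)
    (hzM : z ^ M = 1) (hfree : ∀ j, 0 < j → j < M → ∀ v, v ≠ 0 → (z ^ j) v ≠ v) (h1M : 1 < M) (a : F) :
    M ∣ Nat.card {v : V // v ≠ 0 ∧ Q v = a} := by
  classical
  haveI : Finite V := Module.finite_of_finite F
  have hzinj : Function.Injective z := by
    intro x y hxy
    have h3 : (z ^ M) x = (z ^ M) y := by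
      obtain ⟨M', hM'⟩ : ∃ M', M = M' + 1 := ⟨M - 1, by omega⟩
      rw [hM', pow_succ, Module.End.mul_apply, Module.End.mul_apply, hxy]
    rwa [hzM, Module.End.one_apply, Module.End.one_apply] at h3
  let f : {v : V // v ≠ 0 ∧ Q v = a} → {v : V // v ≠ 0 ∧ Q v = a} := fun w =>
    ⟨z w.1, by
      intro h0
      apply w.2.1
      apply hzinj
      rw [h0, map_zero], by
      rw [hz]
      exact w.2.2⟩
  have hfinj : Function.Injective f := by
    intro x y hxy
    apply Subtype.ext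
    apply hzinj
    exact congrArg (fun t => t.1) hxy
  let σ : Equiv.Perm {v : V // v ≠ 0 ∧ Q v = a} := Equiv.ofBijective f (Finite.injective_iff_bijective.1 hfinj)
  haveI : Fintype {v : V // v ≠ 0 ∧ Q v = a} := Fintype.ofFinite _
  have hσ : ∀ x, (σ x).1 = z x.1 := fun x => rfl
  have hσpow : ∀ (j : ℕ) x, ((σ ^ j) x).1 = (z ^ j) x.1 := by
    intro j
    induction j with
    | zero => simp
    | succ j ih =>
      intro x
      rw [pow_succ', Equiv.Perm.mul_apply, hσ, ih, pow_succ', Module.End.mul_apply]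
  have hσM : σ ^ M = 1 := by
    apply Equiv.ext
    intro x
    apply Subtype.ext
    rw [hσpow, hzM]
    rfl
  have hσfree : ∀ x, σ x ≠ x → ∀ j, 0 < j → j < M → (σ ^ j) x ≠ x := by
    intro x _ j hj0 hjM h
    have h3 := congrArg (fun t => t.1) h
    simp only [hσpow] at h3
    exact hfree j hj0 hjM x.1 x.2.1 h3
  obtain ⟨m', hm'1, -⟩ := sign_free σ hM hσM hσfree
  have hsupp : σ.support = Finset.univ := by
    apply Finset.eq_univ_of_forall
    intro x
    rw [Equiv.Perm.mem_support]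
    intro h
    have h3 := congrArg (fun t => t.1) h
    have h4 := hfree 1 one_pos h1M x.1 x.2.1
    rw [pow_one] at h4
    exact h4 h3
  refine ⟨m', ?_⟩
  rw [Nat.card_eq_fintype_card, ← Finset.card_univ, ← hsupp, hm'1]

/-- Counting vectors of value one outside a summand. -/
theorem card_moved (Q : QuadraticForm F V) (W W' : Submodule F V) [Fintype W'] (hcompl : IsCompl W W')
    (horth : ∀ w ∈ W, ∀ w' ∈ W', QuadraticMap.polar Q w w' = 0) :
    Nat.card {v : V // Q v = 1 ∧ v ∉ W'} = ∑ w' : W', Nat.card {w : W // w ≠ 0 ∧ Q (w : V) = 1 - Q (w' : V)} := by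
  classical
  haveI : Finite V := Module.finite_of_finite F
  haveI : Fintype V := Fintype.ofFinite V
  have hdecomp : ∀ v : V, ∃ w ∈ W, ∃ w' ∈ W', v = w + w' := by
    intro v
    have h3 : v ∈ W ⊔ W' := by
      rw [hcompl.sup_eq_top]
      trivial
    obtain ⟨w, hw, w', hw', rfl⟩ := Submodule.mem_sup.1 h3
    exact ⟨w, hw, w', hw', rfl⟩
  have hinter : ∀ w ∈ W, w ∈ W' → w = 0 := by
    intro w h3 h4
    have h5 : w ∈ W ⊓ W' := ⟨h3, h4⟩
    rw [hcompl.inf_eq_bot] at h5
    exact (Submodule.mem_bot F).1 h5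
  have hQadd : ∀ w ∈ W, ∀ w' ∈ W', Q (w + w') = Q w + Q w' := by
    intro w hw w' hw'
    rw [QuadraticMap.map_add Q, horth w hw w' hw', add_zero]
  have h2' : ∑ w' : W', Nat.card {w : W // w ≠ 0 ∧ Q (w : V) = 1 - Q (w' : V)} =
      Nat.card (Σ w' : W', {w : W // w ≠ 0 ∧ Q (w : V) = 1 - Q (w' : V)}) := Nat.card_sigma.symm
  rw [h2']
  let f : (Σ w' : W', {w : W // w ≠ 0 ∧ Q (w : V) = 1 - Q (w' : V)}) → {v : V // Q v = 1 ∧ v ∉ W'} := fun t =>
    ⟨t.2.1.1 + t.1.1, by
      rw [hQadd _ t.2.1.2 _ t.1.2, t.2.2.2]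
      ring, by
      intro h3
      have h4 : t.2.1.1 ∈ W' := by
        have := W'.sub_mem h3 t.1.2
        simpa using this
      exact t.2.2.1 (Subtype.ext (hinter _ t.2.1.2 h4))⟩
  have hf : Function.Bijective f := by
    constructor
    · rintro ⟨a₁, b₁, hb₁⟩ ⟨a₂, b₂, hb₂⟩ h
      have h3 : b₁.1 + a₁.1 = b₂.1 + a₂.1 := congrArg (fun z => z.1) h
      have h4 : b₁.1 - b₂.1 = a₂.1 - a₁.1 := by
        have : b₁.1 - b₂.1 - (a₂.1 - a₁.1) = (b₁.1 + a₁.1) - (b₂.1 + a₂.1) := by abel
        rw [← sub_eq_zero, this, h3, sub_self]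
      have h5 : b₁.1 - b₂.1 = 0 := by
        apply hinter _ (W.sub_mem b₁.2 b₂.2)
        rw [h4]
        exact W'.sub_mem a₂.2 a₁.2
      have h6 : b₁ = b₂ := Subtype.ext (sub_eq_zero.1 h5)
      have h7 : a₁ = a₂ := by
        apply Subtype.ext
        rw [h5] at h4
        exact (sub_eq_zero.1 h4.symm).symm
      subst h6
      subst h7
      rfl
    · rintro ⟨v, hv, hnot⟩
      obtain ⟨w, hw, w', hw', rfl⟩ := hdecomp v
      have hw0 : w ≠ 0 := by
        rintro rfl
        rw [zero_add] at hnot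
        exact hnot hw'
      refine ⟨⟨⟨w', hw'⟩, ⟨w, hw⟩, fun h0 => hw0 (congrArg Subtype.val h0), ?_⟩, ?_⟩
      · have := hQadd w hw w' hw'
        rw [hv] at this
        simp only
        rw [this]
        ring
      · rfl
  exact (Nat.card_congr (Equiv.ofBijective f hf)).symm

/-- The vectors of value one outside a summand: an odd multiple of `M₀`. -/
theorem moved_odd {n : ℕ} (hn : 1 ≤ n) (hodd : Odd (Fintype.card F)) (h2 : (2 : F) ≠ 0) (Q : QuadraticForm F V)
    (W W' : Submodule F V) (hcompl : IsCompl W W') (hfW : finrank F W = 2 * n)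
    (horth : ∀ w ∈ W, ∀ w' ∈ W', QuadraticMap.polar Q w w' = 0) (hQW : NondegQ (Q.comp W.subtype)) {M₀ : ℕ} (hM₀ : 0 < M₀)
    (hM : ∀ a : F, M₀ ∣ Nat.card {v : W // v ≠ 0 ∧ (Q.comp W.subtype) v = a} ∧
      (a ≠ 0 → Nat.card {v : W // v ≠ 0 ∧ (Q.comp W.subtype) v = a} = Fintype.card F ^ (n - 1) * M₀)) :
    ∃ m, Odd m ∧ Nat.card {v : V // Q v = 1 ∧ v ∉ W'} = M₀ * m := by
  classical
  haveI : Finite V := Module.finite_of_finite F
  haveI : Fintype W' := Fintype.ofFinite _
  let D : F → ℕ := fun a => Nat.card {w : W // w ≠ 0 ∧ Q (w : V) = a}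
  have hD : ∀ a, D a = M₀ * (D a / M₀) := fun a => (Nat.mul_div_cancel' (hM a).1).symm
  have hD1 : D 1 / M₀ = Fintype.card F ^ (n - 1) := by
    have h3 : D 1 = Fintype.card F ^ (n - 1) * M₀ := (hM 1).2 one_ne_zero
    rw [h3, Nat.mul_div_cancel _ hM₀]
  refine ⟨∑ w' : W', D (1 - Q (w' : V)) / M₀, ?_, ?_⟩
  · have h3 := sum_even_fn (A := W') (fun a => by
      intro h
      apply Subtype.ext
      have h4 : (2 : F) • (a : V) = 0 := by
        have h5 := congrArg Subtype.val h
        simp only [Submodule.coe_neg] at h5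
        rw [two_smul]
        nth_rw 1 [← h5]
        simp
      exact (smul_eq_zero.1 h4).resolve_left h2) (fun w' => D (1 - Q (w' : V)) / M₀) (fun w' => by
        simp only [Submodule.coe_neg, QuadraticMap.map_neg])
    have h4 : Odd (Fintype.card F ^ (n - 1)) := hodd.pow
    rw [← ZMod.natCast_eq_one_iff_odd] at h4 ⊢
    rw [h3]
    simp only [ZeroMemClass.coe_zero, QuadraticMap.map_zero, sub_zero]
    rw [hD1, h4]
  · rw [card_moved Q W W' hcompl horth, Finset.mul_sum]
    exact Finset.sum_congr rfl (fun w' _ => hD _)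

end Cfsg.Agent.Lib.Known.BC
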