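import Cfsg.Agent.Lib.Known.BC6
import Cfsg.Agent.Lib.Known.PSpPG4

/-!
# Reduction of orthogonal statements to symplectic ones: `B'(u, v) = polar ((x - x⁻¹) u) v`
-/

set_option autoImplicit false
set_option linter.unusedVariables false
set_option linter.unusedSectionVars false
set_option linter.unusedSimpArgs false

namespace Cfsg.Agent.Lib.Known.BC

open Module Cfsg.Agent.Lib.Known.PG Cfsg.Agent.Lib.Known.PSpPG Cfsg.Agent.Lib.Quad

variable {F : Type*} [Field F] [Fintype F] {V : Type*} [AddCommGroup V] [Module F V] [FiniteDimensional F V]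

section Nondeg

variable {Q : QuadraticForm F V} {x : Module.End F V} {r : ℕ}

theorem polar_range_ker (hxQ : ∀ v, Q (x v) = Q v) {u a : V} (hu : u ∈ LinearMap.range (x - 1)) (ha : x a = a) :
    QuadraticMap.polar Q u a = 0 := by
  obtain ⟨d, rfl⟩ := hu
  simp only [LinearMap.sub_apply, Module.End.one_apply]
  rw [QuadraticMap.polar_sub_left]
  have h3 := polar_iso' Q hxQ d a
  rw [ha] at h3
  rw [h3, sub_self]

theorem range_polar_nondeg (hnd : NondegQ Q) (hr : (r : F) ≠ 0) (hx : x ^ r = 1) (hxQ : ∀ v, Q (x v) = Q v) {u : V}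
    (hu : u ∈ LinearMap.range (x - 1)) (h : ∀ w ∈ LinearMap.range (x - 1), QuadraticMap.polar Q u w = 0) : u = 0 := by
  apply hnd
  intro v
  have hv : v ∈ LinearMap.ker (x - 1) ⊔ LinearMap.range (x - 1) := by
    rw [(ker_range_compl x hr hx).sup_eq_top]
    trivial
  obtain ⟨a, ha, c, hc, rfl⟩ := Submodule.mem_sup.1 hv
  have ha' : x a = a := by
    have : (x - 1) a = 0 := ha
    simpa [sub_eq_zero] using this
  rw [QuadraticMap.polar_add_right, h c hc, add_zero, polar_range_ker hxQ hu ha']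

theorem ker_polar_nondeg (hnd : NondegQ Q) (hr : (r : F) ≠ 0) (hx : x ^ r = 1) (hxQ : ∀ v, Q (x v) = Q v) {u : V}
    (hu : x u = u) (h : ∀ w, x w = w → QuadraticMap.polar Q u w = 0) : u = 0 := by
  apply hnd
  intro v
  have hv : v ∈ LinearMap.ker (x - 1) ⊔ LinearMap.range (x - 1) := by
    rw [(ker_range_compl x hr hx).sup_eq_top]
    trivial
  obtain ⟨a, ha, c, hc, rfl⟩ := Submodule.mem_sup.1 hv
  have ha' : x a = a := by
    have : (x - 1) a = 0 := ha
    simpa [sub_eq_zero] using this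
  rw [QuadraticMap.polar_add_right, h a ha', zero_add, QuadraticMap.polar_comm, polar_range_ker hxQ hc hu]

/-- The alternating form attached to an isometry of odd order. -/
noncomputable def altF (Q : QuadraticForm F V) (x : Module.End F V) (r : ℕ) : LinearMap.BilinForm F V :=
  (QuadraticMap.polarBilin Q).compl₁₂ (x - x ^ (r - 1)) LinearMap.id

theorem altF_apply (u v : V) : altF Q x r u v = QuadraticMap.polar Q (x u - (x ^ (r - 1)) u) v := rfl

theorem inv_apply (hr1 : 1 ≤ r) (hx : x ^ r = 1) (u : V) : x ((x ^ (r - 1)) u) = u := by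
  rw [← Module.End.mul_apply, ← pow_succ', Nat.sub_add_cancel hr1, hx]
  rfl

theorem polar_inv (hr1 : 1 ≤ r) (hx : x ^ r = 1) (hxQ : ∀ v, Q (x v) = Q v) (u v : V) :
    QuadraticMap.polar Q ((x ^ (r - 1)) u) v = QuadraticMap.polar Q u (x v) := by
  have h := polar_iso' Q hxQ ((x ^ (r - 1)) u) v
  rw [inv_apply hr1 hx] at h
  exact h.symm

theorem altF_alt (hr1 : 1 ≤ r) (hx : x ^ r = 1) (hxQ : ∀ v, Q (x v) = Q v) : (altF Q x r).IsAlt := by
  intro u
  rw [altF_apply, QuadraticMap.polar_sub_left, polar_inv hr1 hx hxQ, QuadraticMap.polar_comm Q (x u) u, sub_self]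

theorem altF_iso (hxQ : ∀ v, Q (x v) = Q v) {y : Module.End F V} (hyQ : ∀ v, Q (y v) = Q v) (hc : ∀ v, y (x v) = x (y v))
    (u v : V) : altF Q x r (y u) (y v) = altF Q x r u v := by
  rw [altF_apply, altF_apply, ← polar_iso' Q hyQ (x u - (x ^ (r - 1)) u) v, map_sub, hc,
    ← pow_comm_apply (a := x) (b := y) (fun v => (hc v).symm)]

theorem altF_nondeg [Fact r.Prime] (hnd : NondegQ Q) (hodd : Odd r) (hr1 : 1 < r) (hr : (r : F) ≠ 0) (hx : x ^ r = 1) (hxQ : ∀ v, Q (x v) = Q v) {u : V}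
    (hu : u ∈ LinearMap.range (x - 1)) (h : ∀ w ∈ LinearMap.range (x - 1), altF Q x r u w = 0) : u = 0 := by
  have hS := range_invariant_of_commute x x (fun _ => rfl)
  have hmem : x u - (x ^ (r - 1)) u ∈ LinearMap.range (x - 1) := by
    apply Submodule.sub_mem _ (hS u hu)
    have : ∀ j : ℕ, (x ^ j) u ∈ LinearMap.range (x - 1) := by
      intro j
      induction j with
      | zero => simpa using hu
      | succ j ih =>
        rw [pow_succ', Module.End.mul_apply]
        exact hS _ ih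
    exact this _
  have h1 := range_polar_nondeg hnd hr hx hxQ hmem (fun w hw => h w hw)
  have h2 : x u = (x ^ (r - 1)) u := sub_eq_zero.1 h1
  have h3 : (x ^ 2) u = u := by
    rw [pow_two, Module.End.mul_apply, h2, inv_apply hr1.le hx]
  have h4 : x u = u := fix_of_coprime hr1 hx (Nat.coprime_two_left.2 hodd) h3
  exact fix_of_mem_range hr hx u hu h4

/-- Nondegenerate restriction to the range. -/
theorem comp_range_nondeg (hnd : NondegQ Q) (hr : (r : F) ≠ 0) (hx : x ^ r = 1) (hxQ : ∀ v, Q (x v) = Q v) :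
    NondegQ (Q.comp (LinearMap.range (x - 1)).subtype) := by
  rintro ⟨u, hu⟩ h
  apply Subtype.ext
  exact range_polar_nondeg hnd hr hx hxQ hu (fun w hw => h ⟨w, hw⟩)

theorem comp_ker_nondeg (hnd : NondegQ Q) (hr : (r : F) ≠ 0) (hx : x ^ r = 1) (hxQ : ∀ v, Q (x v) = Q v) :
    NondegQ (Q.comp (LinearMap.ker (x - 1)).subtype) := by
  rintro ⟨u, hu⟩ h
  apply Subtype.ext
  have hu' : x u = u := by
    have : (x - 1) u = 0 := hu
    simpa [sub_eq_zero] using this
  exact ker_polar_nondeg hnd hr hx hxQ hu' (fun w hw => h ⟨w, by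
    change (x - 1) w = 0
    simp [hw]⟩)

end Nondeg

section Data

variable {Q : QuadraticForm F V} {x : Module.End F V} {r : ℕ}

theorem orth_range_data [Fact r.Prime] (hr2 : r ≠ 2) (hnd : NondegQ Q) (hr : (r : F) ≠ 0) (hx : x ^ r = 1) (hne : x ≠ 1)
    (hxQ : ∀ v, Q (x v) = Q v) :
    orderOf ((Fintype.card F : ℕ) : ZMod r) ∣ finrank F (LinearMap.range (x - 1)) ∧
      Even (finrank F (LinearMap.range (x - 1))) ∧ 0 < finrank F (LinearMap.range (x - 1)) := by
  have hp : r.Prime := Fact.out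
  have hodd : Odd r := hp.odd_of_ne_two hr2
  refine ⟨dvd_finrank_range hr hx _ le_rfl (range_invariant_of_commute x x (fun _ => rfl)), ?_,
    finrank_pos_of_ne_bot' (range_ne_bot hne)⟩
  exact even_finrank_of_nondeg (altF_alt hp.one_lt.le hx hxQ) _
    (fun w hw h => altF_nondeg hnd hodd hp.one_lt hr hx hxQ hw h)

theorem orth_two_eta [Fact r.Prime] (hr2 : r ≠ 2) (hnd : NondegQ Q) (hr : (r : F) ≠ 0) (hx : x ^ r = 1) (hne : x ≠ 1)
    (hxQ : ∀ v, Q (x v) = Q v) {η : ℕ} (hη : Conv (orderOf ((Fintype.card F : ℕ) : ZMod r)) η) :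
    2 * η ≤ finrank F (LinearMap.range (x - 1)) := by
  obtain ⟨h1, h2, h3⟩ := orth_range_data hr2 hnd hr hx hne hxQ
  exact two_eta_le h1 h2 h3 hη

theorem orth_two_eta_dim [Fact r.Prime] (hr2 : r ≠ 2) (hnd : NondegQ Q) (hr : (r : F) ≠ 0) (hx : x ^ r = 1) (hne : x ≠ 1)
    (hxQ : ∀ v, Q (x v) = Q v) {η : ℕ} (hη : Conv (orderOf ((Fintype.card F : ℕ) : ZMod r)) η) :
    2 * η ≤ finrank F V :=
  (orth_two_eta hr2 hnd hr hx hne hxQ hη).trans (Submodule.finrank_le _)

/-- The alternating form on the range. -/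
noncomputable def altR (Q : QuadraticForm F V) (x : Module.End F V) (r : ℕ) :
    LinearMap.BilinForm F (LinearMap.range (x - 1)) :=
  (altF Q x r).compl₁₂ (LinearMap.range (x - 1)).subtype (LinearMap.range (x - 1)).subtype

theorem altR_apply (u v : LinearMap.range (x - 1)) : altR Q x r u v = altF Q x r u v := rfl

theorem altR_alt (hr1 : 1 ≤ r) (hx : x ^ r = 1) (hxQ : ∀ v, Q (x v) = Q v) : (altR Q x r).IsAlt :=
  fun u => altF_alt hr1 hx hxQ u

theorem altR_nondeg [Fact r.Prime] (hnd : NondegQ Q) (hodd : Odd r) (hr1 : 1 < r) (hr : (r : F) ≠ 0) (hx : x ^ r = 1) (hxQ : ∀ v, Q (x v) = Q v)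
    (u : LinearMap.range (x - 1)) (h : ∀ w, altR Q x r u w = 0) : u = 0 := by
  apply Subtype.ext
  exact altF_nondeg hnd hodd hr1 hr hx hxQ u.2 (fun w hw => h ⟨w, hw⟩)

/-- The restriction of a commuting map to the range. -/
noncomputable def resR (x y : Module.End F V) (hc : ∀ v, y (x v) = x (y v)) : Module.End F (LinearMap.range (x - 1)) :=
  LinearMap.restrict y (range_invariant_of_commute x y hc)

theorem resR_coe (y : Module.End F V) (hc : ∀ v, y (x v) = x (y v)) (u : LinearMap.range (x - 1)) :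
    ((resR x y hc u : LinearMap.range (x - 1)) : V) = y u := rfl

theorem resR_pow (y : Module.End F V) (hc : ∀ v, y (x v) = x (y v)) (j : ℕ) (u : LinearMap.range (x - 1)) :
    (((resR x y hc) ^ j) u : V) = (y ^ j) u := restrict_pow_coe y _ _ j u

theorem resR_pow_one (y : Module.End F V) (hc : ∀ v, y (x v) = x (y v)) {j : ℕ} (h : y ^ j = 1) :
    (resR x y hc) ^ j = 1 := by
  ext u
  rw [resR_pow, h]
  rfl

theorem resR_iso (hxQ : ∀ v, Q (x v) = Q v) (y : Module.End F V) (hc : ∀ v, y (x v) = x (y v)) (hyQ : ∀ v, Q (y v) = Q v)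
    (u v : LinearMap.range (x - 1)) : altR Q x r (resR x y hc u) (resR x y hc v) = altR Q x r u v :=
  altF_iso hxQ hyQ hc u v

/-- On the range, `x` has no fixed vector, so it is nontrivial. -/
theorem resR_self_ne [Fact r.Prime] (hr : (r : F) ≠ 0) (hx : x ^ r = 1) (hne : x ≠ 1) : resR x x (fun _ => rfl) ≠ 1 := by
  intro h
  have h0 : LinearMap.range (x - 1) ≠ ⊥ := range_ne_bot hne
  obtain ⟨w, hw, hw0⟩ := Submodule.exists_mem_ne_zero_of_ne_bot h0
  apply hw0
  apply fix_of_mem_range hr hx w hw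
  have := LinearMap.congr_fun h ⟨w, hw⟩
  exact congrArg Subtype.val this

end Data

section RP

variable {Q : QuadraticForm F V} {x y : Module.End F V} {r p : ℕ} [Fact r.Prime] [Fact p.Prime] [CharP F p]

theorem nil_of_pow {y : Module.End F V} (hy : y ^ p = 1) : IsNilpotent (y - 1) := by
  by_cases hV : Nontrivial V
  · haveI : Nontrivial (Module.End F V) := inferInstance
    haveI : CharP (Module.End F V) p := by
      haveI : Module.Free F V := inferInstance
      exact (algebraMap F (Module.End F V)).charP_iff (RingHom.injective _) p |>.1 inferInstance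
    refine ⟨p ^ 1, ?_⟩
    rw [sub_pow_expChar_pow_of_commute (p := p) (h := Commute.one_right _), pow_one, hy]
    simp
  · rw [not_nontrivial_iff_subsingleton] at hV
    refine ⟨1, ?_⟩
    ext v
    exact Subsingleton.elim _ _

theorem orth_rp (hrp : r ≠ p) (hr2 : r ≠ 2) (hnd : NondegQ Q) (hr : (r : F) ≠ 0) (hx : x ^ r = 1) (hne : x ≠ 1)
    (hxQ : ∀ v, Q (x v) = Q v) (hyQ : ∀ v, Q (y v) = Q v) (hy : y ^ p = 1) (hy1 : y ≠ 1) (hc : ∀ v, y (x v) = x (y v))
    {η : ℕ} (hη : Conv (orderOf ((Fintype.card F : ℕ) : ZMod r)) η) : 2 * η + 2 ≤ finrank F V := by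
  have hp : r.Prime := Fact.out
  have hodd : Odd r := hp.odd_of_ne_two hr2
  by_cases hyR : resR x y hc = 1
  · -- `y` is trivial on the range, so nontrivial on the kernel, which has dimension at least two
    have h1 := orth_two_eta hr2 hnd hr hx hne hxQ hη
    have h2 := (x - 1).finrank_range_add_finrank_ker
    suffices h3 : 2 ≤ finrank F (LinearMap.ker (x - 1)) by omega
    by_contra h3
    have hle : finrank F (LinearMap.ker (x - 1)) ≤ 1 := by omega
    have hA := ker_invariant_of_commute y (x - 1) (by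
      intro v
      simp [hc])
    have hyA : ∀ a ∈ LinearMap.ker (x - 1), y a = a := by
      intro a ha
      by_cases ha0 : a = 0
      · rw [ha0, map_zero]
      have hne' : LinearMap.ker (x - 1) ≠ ⊥ := by
        intro h
        rw [h] at ha
        exact ha0 (by simpa using ha)
      obtain ⟨b, hb, hb0, hyb⟩ := exists_fixed p hy hne' hA
      have hone : finrank F (LinearMap.ker (x - 1)) = 1 := le_antisymm hle (finrank_pos_of_ne_bot' hne')
      obtain ⟨c, hc'⟩ := (finrank_eq_one_iff_of_nonzero' (⟨b, hb⟩ : LinearMap.ker (x - 1)) (by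
        intro h
        exact hb0 (congrArg Subtype.val h))).1 hone ⟨a, ha⟩
      have h5 : a = c • b := (congrArg Subtype.val hc').symm
      rw [h5, map_smul, hyb]
    apply hy1
    ext v
    have hv : v ∈ LinearMap.ker (x - 1) ⊔ LinearMap.range (x - 1) := by
      rw [(ker_range_compl x hr hx).sup_eq_top]
      trivial
    obtain ⟨a, ha, c, hc', rfl⟩ := Submodule.mem_sup.1 hv
    rw [map_add, hyA a ha]
    have := LinearMap.congr_fun hyR ⟨c, hc'⟩
    have h6 : y c = c := congrArg Subtype.val this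
    rw [h6]
    rfl
  · have hNil : IsNilpotent (y - 1) := nil_of_pow hy
    have hN2 : IsNilpotent (resR x y hc - 1) := nil_of_pow (resR_pow_one y hc hy)
    have := rp_bound (B := altR Q x r) (x := resR x x (fun _ => rfl)) (y := resR x y hc) (r := r) (p := p)
      (altR_alt hp.one_lt.le hx hxQ) (altR_nondeg hnd hodd hp.one_lt hr hx hxQ) hrp hr2 (resR_pow_one x _ hx)
      (resR_self_ne hr hx hne) (resR_iso hxQ x _ hxQ) (resR_iso hxQ y hc hyQ) hN2 hyR (by
        intro v
        apply Subtype.ext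
        exact (hc v).symm) hη
    exact this.trans (Submodule.finrank_le _)

end RP

section RS

variable {Q : QuadraticForm F V} {x₁ x₂ : Module.End F V} {r s p : ℕ} [Fact r.Prime] [Fact s.Prime] [Fact p.Prime] [CharP F p]

theorem orth_rs (hrp : r ≠ p) (hsp : s ≠ p) (hrs : r ≠ s) (hr2 : r ≠ 2) (hs2 : s ≠ 2) (hnd : NondegQ Q) (hrF : (r : F) ≠ 0) (hsF : (s : F) ≠ 0)
    (h1 : x₁ ^ r = 1) (h2 : x₂ ^ s = 1) (hne₁ : x₁ ≠ 1) (hne₂ : x₂ ≠ 1) (hi₁ : ∀ v, Q (x₁ v) = Q v) (hi₂ : ∀ v, Q (x₂ v) = Q v)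
    (hc : ∀ v, x₁ (x₂ v) = x₂ (x₁ v)) {ηk ηl n : ℕ}
    (hk : Conv (orderOf ((Fintype.card F : ℕ) : ZMod r)) ηk) (hl : Conv (orderOf ((Fintype.card F : ℕ) : ZMod s)) ηl)
    (hdim : finrank F V = 2 * n + 1) (hkl : ηk ≤ ηl) (hn : n < ηk + ηl) :
    ∃ t : ℕ, Odd t ∧ orderOf ((Fintype.card F : ℕ) : ZMod s) = orderOf ((Fintype.card F : ℕ) : ZMod r) * t := by
  classical
  have hp : s.Prime := Fact.out
  have hodd : Odd s := hp.odd_of_ne_two hs2
  have hR2 := orth_two_eta hs2 hnd hsF h2 hne₂ hi₂ hl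
  have hsum := (x₂ - 1).finrank_range_add_finrank_ker
  have hcK : ∀ v, x₁ ((x₂ - 1) v) = (x₂ - 1) (x₁ v) := by
    intro v
    simp [hc]
  -- `x₁` fixes the kernel of `x₂ - 1`
  have hfixA : ∀ a ∈ LinearMap.ker (x₂ - 1), x₁ a = a := by
    by_contra hcon
    push Not at hcon
    obtain ⟨a, ha, haa⟩ := hcon
    have hinv := ker_invariant_of_commute x₁ (x₂ - 1) hcK
    let y : Module.End F (LinearMap.ker (x₂ - 1)) := LinearMap.restrict x₁ hinv
    have hy1 : y ^ r = 1 := by
      ext u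
      rw [restrict_pow_coe, h1]
      rfl
    have hyne : y ≠ 1 := by
      intro h
      apply haa
      exact congrArg Subtype.val (LinearMap.congr_fun h ⟨a, ha⟩)
    have hyQ : ∀ v, (Q.comp (LinearMap.ker (x₂ - 1)).subtype) (y v) = (Q.comp (LinearMap.ker (x₂ - 1)).subtype) v := by
      intro v
      exact hi₁ v
    have h3 := orth_two_eta_dim hr2 (comp_ker_nondeg hnd hsF h2 hi₂) hrF hy1 hyne hyQ hk
    omega
  have hne₁R : resR x₂ x₁ hc ≠ 1 := by
    intro h
    apply hne₁
    ext v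
    have hv : v ∈ LinearMap.ker (x₂ - 1) ⊔ LinearMap.range (x₂ - 1) := by
      rw [(ker_range_compl x₂ hsF h2).sup_eq_top]
      trivial
    obtain ⟨a, ha, c, hc', rfl⟩ := Submodule.mem_sup.1 hv
    rw [map_add, hfixA a ha]
    have h6 : x₁ c = c := congrArg Subtype.val (LinearMap.congr_fun h ⟨c, hc'⟩)
    rw [h6]
    rfl
  have hev : Even (finrank F (LinearMap.range (x₂ - 1))) := (orth_range_data hs2 hnd hsF h2 hne₂ hi₂).2.1
  obtain ⟨m, hm⟩ := hev
  have hm' : finrank F (LinearMap.range (x₂ - 1)) = 2 * m := by omega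
  have hmn : m < ηk + ηl := by
    have : finrank F (LinearMap.range (x₂ - 1)) ≤ 2 * n + 1 := by
      rw [← hdim]
      exact Submodule.finrank_le _
    omega
  exact rs_core (B := altR Q x₂ s) (x₁ := resR x₂ x₁ hc) (x₂ := resR x₂ x₂ (fun _ => rfl)) (r := r) (s := s) (p := p)
    (altR_alt hp.one_lt.le h2 hi₂) (altR_nondeg hnd hodd hp.one_lt hsF h2 hi₂) hrp hsp hrs hr2 hs2
    (resR_pow_one x₁ hc h1) (resR_pow_one x₂ _ h2) hne₁R (resR_self_ne hsF h2 hne₂)
    (resR_iso hi₂ x₁ hc hi₁) (resR_iso hi₂ x₂ _ hi₂) (by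
      intro v
      apply Subtype.ext
      exact hc v) hk hl hm' hkl hmn

end RS

end Cfsg.Agent.Lib.Known.BC
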