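import Cfsg.Agent.Lib.Known.BC7

/-!
# Involutions commuting with an element of large order: the counting constraint
-/

set_option autoImplicit false
set_option linter.unusedVariables false
set_option linter.unusedSectionVars false
set_option linter.unusedSimpArgs false

namespace Cfsg.Agent.Lib.Known.BC

open Module Cfsg.Agent.Lib.Known.PG Cfsg.Agent.Lib.Known.PSpPG Cfsg.Agent.Lib.Quad

variable {F : Type*} [Field F] [Fintype F] {V : Type*} [AddCommGroup V] [Module F V] [FiniteDimensional F V]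

theorem not_dvd_card' {s : ℕ} (hs : s.Prime) (hsF : (s : F) ≠ 0) : ¬ s ∣ Fintype.card F := by
  obtain ⟨p, hp⟩ := CharP.exists F
  have hp' : p.Prime := CharP.char_is_prime F p
  haveI := Fact.mk hp'
  obtain ⟨f, hpp, hq⟩ := FiniteField.card F p
  intro h
  rw [hq] at h
  have h1 := (Nat.prime_dvd_prime_iff_eq hs hp').1 (hs.dvd_of_dvd_pow h)
  apply hsF
  rw [h1]
  exact CharP.cast_eq_zero F p

section Struct

variable {Q : QuadraticForm F V} {x i : Module.End F V} {s : ℕ} [Fact s.Prime]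

theorem inv_neg_range (hi2 : i ^ 2 = 1) {c : V} (hc : c ∈ LinearMap.range (i - 1)) : i c = -c := by
  obtain ⟨d, rfl⟩ := hc
  have h : i (i d) = d := by
    rw [← Module.End.mul_apply, ← pow_two, hi2]
    rfl
  simp [h]

theorem comm_range {x i : Module.End F V} (hc : ∀ v, i (x v) = x (i v)) : ∀ w ∈ LinearMap.range (i - 1), x w ∈ LinearMap.range (i - 1) :=
  range_invariant_of_commute i x (fun v => (hc v).symm)

theorem comm_ker {x i : Module.End F V} (hc : ∀ v, i (x v) = x (i v)) : ∀ w ∈ LinearMap.ker (i - 1), x w ∈ LinearMap.ker (i - 1) :=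
  ker_invariant_of_commute x (i - 1) (by
    intro v
    simp [hc])

theorem two_struct (h2 : (2 : F) ≠ 0) (hs2 : s ≠ 2) (hnd : NondegQ Q) {n : ℕ} (hn : 1 ≤ n) (hdim : finrank F V = 2 * n + 1)
    (hsF : (s : F) ≠ 0) (hx : x ^ s = 1) (hne : x ≠ 1) (hxQ : ∀ v, Q (x v) = Q v)
    (hη : Conv (orderOf ((Fintype.card F : ℕ) : ZMod s)) n) (hi2 : i ^ 2 = 1) (hi1 : i ≠ 1) (hiQ : ∀ v, Q (i v) = Q v)
    (hc : ∀ v, i (x v) = x (i v)) (hfix : ∃ v, v ≠ 0 ∧ i (x v) = v) :
    finrank F (LinearMap.range (i - 1)) = 2 * n ∧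
      ∀ c ∈ LinearMap.range (i - 1), c ≠ 0 → ∀ j, 0 < j → j < s → (x ^ j) c ≠ c := by
  classical
  have hsp : s.Prime := Fact.out
  have hodd : Odd s := hsp.odd_of_ne_two hs2
  have h2' : ((2 : ℕ) : F) ≠ 0 := by exact_mod_cast h2
  have hcompl := ker_range_compl i h2' hi2
  have hNp := comp_ker_nondeg hnd h2' hi2 hiQ
  have hNm := comp_range_nondeg hnd h2' hi2 hiQ
  have hsum := (i - 1).finrank_range_add_finrank_ker
  rw [hdim] at hsum
  have hRR := orth_two_eta hs2 hnd hsF hx hne hxQ hη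
  have hRsum := (x - 1).finrank_range_add_finrank_ker
  rw [hdim] at hRsum
  -- the decomposition
  have hdec : ∀ v, ∃ a c, i a = a ∧ c ∈ LinearMap.range (i - 1) ∧ v = a + c := by
    intro v
    have hv : v ∈ LinearMap.ker (i - 1) ⊔ LinearMap.range (i - 1) := by
      rw [hcompl.sup_eq_top]
      trivial
    obtain ⟨a, ha, c, hc', rfl⟩ := Submodule.mem_sup.1 hv
    refine ⟨a, c, ?_, hc', rfl⟩
    have : (i - 1) a = 0 := ha
    simpa [sub_eq_zero] using this
  have hker : ∀ a, i a = a → a ∈ LinearMap.ker (i - 1) := by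
    intro a ha
    change (i - 1) a = 0
    simp [ha]
  have hxfree : ∀ c, x c = -c → c = 0 := by
    intro c hc'
    have h3 : (x ^ 2) c = c := by
      rw [pow_two, Module.End.mul_apply, hc', map_neg, hc', neg_neg]
    have h4 : x c = c := fix_of_coprime hsp.one_lt hx (Nat.coprime_two_left.2 hodd) h3
    have h5 : (2 : F) • c = 0 := by
      rw [two_smul]
      nth_rw 1 [← h4]
      rw [hc']
      simp
    exact (smul_eq_zero.1 h5).resolve_left h2
  -- the fixed vector lies in the kernel of i - 1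
  obtain ⟨v₀, hv₀, hv₀i⟩ := hfix
  obtain ⟨a₀, c₀, ha₀, hc₀, rfl⟩ := hdec v₀
  have hxa₀ : i (x a₀) = x a₀ := by rw [hc, ha₀]
  have hic : i (x c₀) = - x c₀ := inv_neg_range hi2 (comm_range hc _ hc₀)
  have hxa₀c : x a₀ - a₀ = c₀ + x c₀ := by
    rw [map_add, map_add, hxa₀, hic] at hv₀i
    have : x a₀ - x c₀ = a₀ + c₀ := by
      rw [sub_eq_add_neg]
      exact hv₀i
    rw [sub_eq_iff_eq_add] at this ⊢
    rw [this]
    abel
  have hsplit : x a₀ - a₀ ∈ LinearMap.ker (i - 1) := by
    apply hker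
    rw [map_sub, hxa₀, ha₀]
  have hsplit2 : c₀ + x c₀ ∈ LinearMap.range (i - 1) := Submodule.add_mem _ hc₀ (comm_range hc _ hc₀)
  have hz : c₀ + x c₀ = 0 := by
    rw [← hxa₀c] at hsplit2
    have := Submodule.disjoint_def.1 hcompl.disjoint _ hsplit hsplit2
    rw [hxa₀c] at this
    exact this
  have hc₀0 : c₀ = 0 := by
    apply hxfree
    rw [eq_neg_iff_add_eq_zero, add_comm]
    exact hz
  have ha₀0 : a₀ ≠ 0 := by
    intro h
    apply hv₀
    rw [h, hc₀0, add_zero]
  have hxa₀fix : x a₀ = a₀ := by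
    rw [hc₀0] at hxa₀c
    simp only [map_zero, add_zero] at hxa₀c
    exact sub_eq_zero.1 hxa₀c
  -- the restrictions of x
  let xp : Module.End F (LinearMap.ker (i - 1)) := LinearMap.restrict x (comm_ker hc)
  let xm : Module.End F (LinearMap.range (i - 1)) := LinearMap.restrict x (comm_range hc)
  have hxp : xp ^ s = 1 := by
    ext u
    simp only [xp]
    rw [restrict_pow_coe, hx]
    rfl
  have hxm : xm ^ s = 1 := by
    ext u
    simp only [xm]
    rw [restrict_pow_coe, hx]
    rfl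
  have hkpos : 0 < finrank F (LinearMap.ker (i - 1)) := by
    apply finrank_pos_of_ne_bot'
    intro h
    have : a₀ ∈ LinearMap.ker (i - 1) := hker a₀ ha₀
    rw [h] at this
    exact ha₀0 (by simpa using this)
  have hp1 : xp = 1 := by
    by_contra hcon
    have h3 := orth_two_eta_dim hs2 hNp hsF hxp hcon (fun v => hxQ v) hη
    by_cases hm1 : xm = 1
    · -- x trivial on the range: then a₀ contradiction
      have hRle : LinearMap.range (x - 1) ≤ LinearMap.ker (i - 1) := by
        rintro _ ⟨v, rfl⟩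
        obtain ⟨a, c, ha, hc', rfl⟩ := hdec v
        have h5 : x c = c := congrArg Subtype.val (LinearMap.congr_fun hm1 ⟨c, hc'⟩)
        apply hker
        have e : (x - 1) (a + c) = x a - a := by simp [h5]
        rw [e, map_sub, hc, ha]
      have hfr := Submodule.finrank_mono hRle
      have hRe : LinearMap.range (x - 1) = LinearMap.ker (i - 1) := by
        apply Submodule.eq_of_le_of_finrank_le hRle
        have hmpos : 0 < finrank F (LinearMap.range (i - 1)) := by
          apply finrank_pos_of_ne_bot'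
          exact range_ne_bot hi1
        omega
      have : a₀ ∈ LinearMap.range (x - 1) := by
        rw [hRe]
        exact hker a₀ ha₀
      exact ha₀0 (fix_of_mem_range hsF hx a₀ this hxa₀fix)
    · have h4 := orth_two_eta_dim hs2 hNm hsF hxm hm1 (fun v => hxQ v) hη
      omega
  have hRle : LinearMap.range (x - 1) ≤ LinearMap.range (i - 1) := by
    rintro _ ⟨v, rfl⟩
    obtain ⟨a, c, ha, hc', rfl⟩ := hdec v
    have h5 : x a = a := congrArg Subtype.val (LinearMap.congr_fun hp1 ⟨a, hker a ha⟩)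
    have e : (x - 1) (a + c) = x c - c := by simp [h5]
    rw [e]
    exact Submodule.sub_mem _ (comm_range hc _ hc') hc'
  have hfr := Submodule.finrank_mono hRle
  have hfin : finrank F (LinearMap.range (i - 1)) = 2 * n := by omega
  refine ⟨hfin, ?_⟩
  have hRe : LinearMap.range (x - 1) = LinearMap.range (i - 1) := by
    apply Submodule.eq_of_le_of_finrank_le hRle
    omega
  intro c hc' hc0 j hj0 hjs hcj
  have hco : Nat.Coprime j s := by
    rw [Nat.coprime_comm]
    exact (Nat.Prime.coprime_iff_not_dvd hsp).2 (fun h => by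
      have := Nat.le_of_dvd hj0 h
      omega)
  have h6 : x c = c := fix_of_coprime hsp.one_lt hx hco hcj
  rw [← hRe] at hc'
  exact hc0 (fix_of_mem_range hsF hx c hc' h6)

/-- The counting constraint for an involution in `Ω`. -/
theorem four_dvd (h2 : (2 : F) ≠ 0) (hq : Odd (Fintype.card F)) (hs2 : s ≠ 2) (hnd : NondegQ Q) {n : ℕ} (hn : 1 ≤ n)
    (hdim : finrank F V = 2 * n + 1)
    (hsF : (s : F) ≠ 0) (hx : x ^ s = 1) (hne : x ≠ 1) (hxQ : ∀ v, Q (x v) = Q v)
    (hη : Conv (orderOf ((Fintype.card F : ℕ) : ZMod s)) n) (hi2 : i ^ 2 = 1) (hi1 : i ≠ 1) (hiQ : ∀ v, Q (i v) = Q v)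
    (hc : ∀ v, i (x v) = x (i v)) (hfix : ∃ v, v ≠ 0 ∧ i (x v) = v)
    [Finite V] [Fintype {v : V // Q v = 1}] [DecidableEq {v : V // Q v = 1}] (σ : Equiv.Perm {v : V // Q v = 1}) (hσ : ∀ v, ((σ v : {v : V // Q v = 1}) : V) = i v)
    (hsign : Equiv.Perm.sign σ = 1) :
    ∃ M₀ : ℕ, (M₀ = Fintype.card F ^ n - 1 ∨ M₀ = Fintype.card F ^ n + 1) ∧ 4 ∣ M₀ ∧ s ∣ M₀ := by
  classical
  have hsp : s.Prime := Fact.out
  obtain ⟨hfin, hfree⟩ := two_struct h2 hs2 hnd hn hdim hsF hx hne hxQ hη hi2 hi1 hiQ hc hfix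
  have h2' : ((2 : ℕ) : F) ≠ 0 := by exact_mod_cast h2
  have hcompl := ker_range_compl i h2' hi2
  have hNm := comp_range_nondeg hnd h2' hi2 hiQ
  set W := LinearMap.range (i - 1) with hW
  set W' := LinearMap.ker (i - 1) with hW'
  obtain ⟨M₀, hM, hMa⟩ := count_type hn hfin (Q.comp W.subtype) hNm
  have hq1 : 1 ≤ Fintype.card F ^ n := Nat.one_le_pow _ _ Fintype.card_pos
  have hq3 : 3 ≤ Fintype.card F := by
    have h1 : 1 < Fintype.card F := Fintype.one_lt_card
    obtain ⟨c, hc⟩ := hq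
    omega
  have hM0 : 0 < M₀ := by
    rcases hM with h | h
    · rw [h]
      have : 3 ^ n ≤ Fintype.card F ^ n := Nat.pow_le_pow_left hq3 n
      have h3 : 3 ^ 1 ≤ 3 ^ n := Nat.pow_le_pow_right (by norm_num) hn
      omega
    · omega
  have hiQ' : ∀ (w : W) (w' : W'), QuadraticMap.polar Q w w' = 0 := by
    intro w w'
    apply polar_range_ker hiQ w.2
    have h5 : (i - 1) (w' : V) = 0 := LinearMap.mem_ker.1 w'.2
    rw [LinearMap.sub_apply, Module.End.one_apply, sub_eq_zero] at h5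
    exact h5
  obtain ⟨m, hmo, hmc⟩ := moved_odd hn hq h2 Q W W' hcompl.symm hfin (fun w hw w' hw' => hiQ' ⟨w, hw⟩ ⟨w', hw'⟩) hNm hM0 hMa
  -- the permutation
  have hσ2 : σ ^ 2 = 1 := by
    apply Equiv.ext
    intro v
    apply Subtype.ext
    rw [pow_two, Equiv.Perm.mul_apply, hσ, hσ, ← Module.End.mul_apply, ← pow_two, hi2]
    rfl
  obtain ⟨m', hm', hsg⟩ := sign_free σ (M := 2) (by norm_num) hσ2 (by
    intro v hv j hj0 hj2
    have : j = 1 := by omega
    subst this
    simpa using hv)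
  have hcard : σ.support.card = Nat.card {v : V // Q v = 1 ∧ v ∉ W'} := by
    have h8 : σ.support.card = Nat.card σ.support := by rw [Nat.card_eq_fintype_card, Fintype.card_coe]
    rw [h8]
    apply Nat.card_congr
    refine ⟨fun v => ⟨v.1.1, v.1.2, ?_⟩, fun v => ⟨⟨v.1, v.2.1⟩, ?_⟩, ?_, ?_⟩
    · intro h
      have h3 := v.2
      rw [Equiv.Perm.mem_support] at h3
      apply h3
      apply Subtype.ext
      rw [hσ]
      have h5 : (i - 1) (v.1 : V) = 0 := LinearMap.mem_ker.1 h
      rw [LinearMap.sub_apply, Module.End.one_apply, sub_eq_zero] at h5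
      exact h5
    · rw [Equiv.Perm.mem_support]
      intro h
      apply v.2.2
      have h3 := congrArg Subtype.val h
      rw [hσ] at h3
      change (i - 1) v.1 = 0
      simp [h3]
    · intro v
      rfl
    · intro v
      rfl
  rw [hsign] at hsg
  have hevm : Even m' := by
    by_contra hcon
    rw [Nat.not_even_iff_odd] at hcon
    have : Odd (2 * m' + m') := Even.add_odd (even_two_mul m') hcon
    rw [this.neg_one_pow] at hsg
    exact absurd hsg (by decide)
  have h4 : 4 ∣ M₀ * m := by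
    rw [← hmc, ← hcard, hm']
    obtain ⟨c, hc⟩ := hevm
    exact ⟨c, by rw [hc]; ring⟩
  have h4' : 4 ∣ M₀ := by
    apply Nat.Coprime.dvd_of_dvd_mul_right _ h4
    have : Nat.Coprime 2 m := Nat.coprime_two_left.2 hmo
    exact Nat.Coprime.pow_left 2 this
  refine ⟨M₀, hM, h4', ?_⟩
  -- the order of x
  let xm : Module.End F W := LinearMap.restrict x (comm_range hc)
  have hxm : xm ^ s = 1 := by
    ext u
    simp only [xm]
    rw [restrict_pow_coe, hx]
    rfl
  have hd := free_dvd (M := s) hsp.pos (Q.comp W.subtype) xm (fun v => hxQ v) hxm (by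
    intro j hj0 hjs v hv h
    apply hfree v.1 v.2 (fun h0 => hv (Subtype.ext h0)) j hj0 hjs
    have := congrArg Subtype.val h
    simp only [xm] at this
    rwa [restrict_pow_coe] at this) hsp.one_lt 1
  rw [(hMa 1).2 one_ne_zero] at hd
  have hsq : ¬ s ∣ Fintype.card F := not_dvd_card' hsp hsF
  rcases (Nat.Prime.dvd_mul hsp).1 hd with h | h
  · exact absurd (hsp.dvd_of_dvd_pow h) hsq
  · exact h

end Struct

section Sp

variable {B : LinearMap.BilinForm F V} {x i : Module.End F V} {s : ℕ} [Fact s.Prime]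

/-- The quadratic form attached to a complex structure. -/
noncomputable def qForm (B : LinearMap.BilinForm F V) (i : Module.End F V) : QuadraticForm F V :=
  LinearMap.BilinMap.toQuadraticMap (B.compl₂ i)

theorem qForm_apply (v : V) : qForm B i v = B v (i v) := rfl

theorem four_dvd_sp (h2 : (2 : F) ≠ 0) (hq : Odd (Fintype.card F)) (hA : B.IsAlt) (hnd : ∀ v, (∀ w, B v w = 0) → v = 0) {n : ℕ} (hn : 1 ≤ n)
    (hdim : finrank F V = 2 * n) (hx : x ^ s = 1) (hxfree : ∀ c, c ≠ 0 → ∀ j, 0 < j → j < s → (x ^ j) c ≠ c)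
    (hxQ : ∀ u v, B (x u) (x v) = B u v)
    (hi2 : ∀ v, i (i v) = - v) (hiQ : ∀ u v, B (i u) (i v) = B u v) (hc : ∀ v, i (x v) = x (i v))
    (hsF : (s : F) ≠ 0) :
    ∃ M₀ : ℕ, (M₀ = Fintype.card F ^ n - 1 ∨ M₀ = Fintype.card F ^ n + 1) ∧ 4 ∣ M₀ ∧ s ∣ M₀ := by
  classical
  have hsp : s.Prime := Fact.out
  set Q := qForm B i with hQ
  have hpol : ∀ u v, QuadraticMap.polar Q u v = 2 * B u (i v) := by
    intro u v
    have h3 : B v (i u) = B u (i v) := by
      have h4 := hiQ v (i u)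
      rw [hi2, map_neg] at h4
      rw [← h4, form_anti hA u (i v)]
    simp only [QuadraticMap.polar, hQ, qForm_apply, map_add, LinearMap.add_apply, h3]
    ring
  have hNQ : NondegQ Q := by
    intro u hu
    apply hnd
    intro w
    have h3 := hu (- i w)
    rw [hpol, map_neg, hi2, neg_neg] at h3
    exact (mul_eq_zero.1 h3).resolve_left h2
  obtain ⟨M₀, hM, hMa⟩ := count_type hn hdim Q hNQ
  have hxQ' : ∀ v, Q (x v) = Q v := by
    intro v
    rw [hQ, qForm_apply, qForm_apply, hc, hxQ]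
  have hiQ' : ∀ v, Q (i v) = Q v := by
    intro v
    rw [hQ, qForm_apply, qForm_apply, hiQ]
  have hsq : ¬ s ∣ Fintype.card F := not_dvd_card' hsp hsF
  have hd := free_dvd (M := s) hsp.pos Q x hxQ' hx (fun j hj0 hjs v hv => hxfree v hv j hj0 hjs) hsp.one_lt 1
  rw [(hMa 1).2 one_ne_zero] at hd
  have hsM : s ∣ M₀ := by
    rcases (Nat.Prime.dvd_mul hsp).1 hd with h | h
    · exact absurd (hsp.dvd_of_dvd_pow h) hsq
    · exact h
  have h22 : ∀ v, (i ^ 2) v = - v := by
    intro v
    rw [pow_two, Module.End.mul_apply, hi2]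
  have hi4 : i ^ 4 = 1 := by
    ext v
    rw [show (4 : ℕ) = 2 + 2 by norm_num, pow_add, Module.End.mul_apply, h22, h22, neg_neg]
    rfl
  have hifree : ∀ v, v ≠ 0 → i (i v) ≠ v := by
    intro v hv h
    rw [hi2] at h
    apply hv
    have h5 : (2 : F) • v = 0 := by
      rw [two_smul]
      nth_rw 1 [← h]
      simp
    exact (smul_eq_zero.1 h5).resolve_left h2
  have hd4 := free_dvd (M := 4) (by norm_num) Q i hiQ' hi4 (by
    intro j hj0 hj4 v hv h
    have h5 : j = 1 ∨ j = 2 ∨ j = 3 := by omega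
    rcases h5 with rfl | rfl | rfl
    · rw [pow_one] at h
      apply hifree v hv
      rw [h, h]
    · rw [pow_two, Module.End.mul_apply] at h
      exact hifree v hv h
    · rw [show (3 : ℕ) = 2 + 1 by norm_num, pow_add, pow_one, Module.End.mul_apply, h22] at h
      have h7 : i v = -v := neg_eq_iff_eq_neg.1 h
      apply hifree v hv
      rw [h7, map_neg, h7, neg_neg]) (by norm_num) 1
  rw [(hMa 1).2 one_ne_zero] at hd4
  have hco4 : Nat.Coprime 4 (Fintype.card F ^ (n - 1)) := by
    have h6 : Nat.Coprime 2 (Fintype.card F ^ (n - 1)) := Nat.coprime_two_left.2 (hq.pow)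
    exact Nat.Coprime.pow_left 2 h6
  exact ⟨M₀, hM, hco4.dvd_of_dvd_mul_left hd4, hsM⟩

end Sp

section Arith

/-- The arithmetic conclusion of the counting constraint. -/
theorem arith_crit {s n M₀ : ℕ} [Fact s.Prime] (hs2 : s ≠ 2) (hq : Odd (Fintype.card F)) (hn : 1 ≤ n)
    (hη : Conv (orderOf ((Fintype.card F : ℕ) : ZMod s)) n)
    (hM : M₀ = Fintype.card F ^ n - 1 ∨ M₀ = Fintype.card F ^ n + 1) (h4 : 4 ∣ M₀) (hs : s ∣ M₀) :
    (orderOf ((Fintype.card F : ℕ) : ZMod s) = n ∧ Odd n ∧ Fintype.card F % 4 = 1) ∨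
      (orderOf ((Fintype.card F : ℕ) : ZMod s) = 2 * n ∧ Odd n ∧ Fintype.card F % 4 = 3) := by
  have hsp : s.Prime := Fact.out
  set q := Fintype.card F with hqq
  have hq1 : 1 ≤ q ^ n := Nat.one_le_pow _ _ Fintype.card_pos
  have hs22 : ¬ s ∣ 2 := fun h => hs2 ((Nat.prime_dvd_prime_iff_eq hsp Nat.prime_two).1 h)
  have hq4 : q % 4 = 1 ∨ q % 4 = 3 := by
    obtain ⟨c, hc⟩ := hq
    omega
  rcases hη with ⟨hk, hkn⟩ | ⟨hk, hkn⟩
  · -- odd order
    have hnodd : Odd n := by rw [hkn]; exact hk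
    left
    refine ⟨hkn.symm, hnodd, ?_⟩
    have h1 : s ∣ q ^ n - 1 := (dvd_pow_sub_one_iff n).2 (by rw [hkn])
    have hM1 : M₀ = q ^ n - 1 := by
      rcases hM with h | h
      · exact h
      · exfalso
        rw [h] at hs
        apply hs22
        have : 2 = (q ^ n + 1) - (q ^ n - 1) := by omega
        rw [this]
        exact Nat.dvd_sub hs h1
    rw [hM1] at h4
    rcases hq4 with h | h
    · exact h
    · exfalso
      obtain ⟨c, hc⟩ := hnodd
      have h5 : q ^ n % 4 = 3 := by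
        rw [hc, pow_succ, pow_mul, Nat.mul_mod, Nat.pow_mod]
        have : q ^ 2 % 4 = 1 := by
          rw [Nat.pow_mod, h]
        rw [this, h]
        simp
      omega
  · -- even order
    right
    have hn0 : 0 < n := hn
    have h1 : s ∣ q ^ n + 1 := half_dvd hn0 hkn
    have hM1 : M₀ = q ^ n + 1 := by
      rcases hM with h | h
      · exfalso
        rw [h] at hs
        apply hs22
        have : 2 = (q ^ n + 1) - (q ^ n - 1) := by omega
        rw [this]
        exact Nat.dvd_sub h1 hs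
      · exact h
    rw [hM1] at h4
    have hmm : ∀ {a : ℕ}, a % 4 = 1 ∨ a % 4 = 3 → a ^ 2 % 4 = 1 := by
      intro a ha
      rcases ha with ha | ha <;> rw [Nat.pow_mod, ha]
    by_cases hne : Even n
    · exfalso
      obtain ⟨c, hc⟩ := hne
      have h5 : q ^ n % 4 = 1 := by
        rw [hc, ← two_mul, pow_mul, Nat.pow_mod, hmm hq4]
        simp
      omega
    · rw [Nat.not_even_iff_odd] at hne
      refine ⟨hkn.symm, hne, ?_⟩
      rcases hq4 with h | h
      · exfalso
        have h5 : q ^ n % 4 = 1 := by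
          rw [Nat.pow_mod, h]
          simp
        omega
      · exact h

end Arith

end Cfsg.Agent.Lib.Known.BC
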