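import Cfsg.Agent.Lib.Known.BC8
import Cfsg.Agent.Lib.Known.BC5

/-!
# The vertex `2` of the prime graph of `PSp_{2n}(q)`, `q` odd
-/

set_option autoImplicit false
set_option linter.unusedVariables false
set_option linter.unusedSectionVars false
set_option linter.unusedSimpArgs false

namespace Cfsg.Agent.Lib.Known.BC

open Polynomial Module Matrix Cfsg.Agent.Lib.Known.PG Cfsg.Agent.Lib.EigCount Cfsg.Agent.Lib.Classical Cfsg.Agent.Lib.KnownSimple Cfsg.Agent.Lib.Known.PSpPG Cfsg.Agent.Lib.Quad

variable {F : Type*} [Field F] [Fintype F]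

/-- The criterion for adjacency to `2`. -/
def C2 (q k η n : ℕ) : Prop :=
  η + 1 ≤ n ∨ (k = n ∧ Odd n ∧ q % 4 = 1) ∨ (k = 2 * n ∧ Odd n ∧ q % 4 = 3)

theorem two_ne_zero' (hq : Odd (Fintype.card F)) : (2 : F) ≠ 0 := by
  obtain ⟨p, hp⟩ := CharP.exists F
  have hp' : p.Prime := CharP.char_is_prime F p
  haveI := Fact.mk hp'
  obtain ⟨f, hpp, hq'⟩ := FiniteField.card F p
  intro h
  have h3 : ((2 : ℕ) : F) = 0 := by exact_mod_cast h
  have h4 := (CharP.cast_eq_zero_iff F p 2).1 h3
  have h5 := (Nat.prime_dvd_prime_iff_eq hp' Nat.prime_two).1 h4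
  rw [hq', h5] at hq
  have h6 : Even (2 ^ (f : ℕ)) := Nat.even_pow.2 ⟨even_two, f.ne_zero⟩
  exact (Nat.not_even_iff_odd.2 hq) h6

section PSpTwo

variable {n : ℕ}

theorem psp_two_of {t : ℕ} [Fact t.Prime] (hn : 1 ≤ n) (ht2 : t ≠ 2) (htF : (t : F) ≠ 0) (hq : Odd (Fintype.card F))
    (a : Cfsg.PSp n F) (ha : orderOf a = 2 * t) {η : ℕ} (hη : Conv (orderOf ((Fintype.card F : ℕ) : ZMod t)) η) :
    C2 (Fintype.card F) (orderOf ((Fintype.card F : ℕ) : ZMod t)) η n := by
  classical
  have htp : t.Prime := Fact.out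
  have h2 : (2 : F) ≠ 0 := two_ne_zero' hq
  obtain ⟨g, rfl⟩ := QuotientGroup.mk'_surjective _ a
  have h1 : piS n F g ^ (2 * t) = 1 := by
    rw [← ha]
    exact pow_orderOf_eq_one _
  obtain ⟨h3, h3'⟩ := lift_sq hn g _ h1
  have hnot : ∀ e : ℕ, ¬ 2 * t ∣ e → piS n F (g ^ e) ≠ 1 := by
    intro e he h
    apply he
    rw [← ha]
    apply orderOf_dvd_of_pow_eq_one
    rw [← map_pow]
    exact h
  set x : Module.End F (Fin n ⊕ Fin n → F) := TT (g ^ 4) with hx
  set i : Module.End F (Fin n ⊕ Fin n → F) := TT (g ^ t) with hi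
  have hxt : x ^ t = 1 := by
    rw [hx, ← TT_pow, ← pow_mul, show 4 * t = 2 * (2 * t) by ring, h3, TT_eq_one]
  have hxne : x ≠ 1 := by
    intro h
    have h5 : g ^ 4 = 1 := TT_eq_one.1 h
    apply hnot 4
    · intro h6
      have h7 : t ∣ 2 := by
        have : 2 * t ∣ 2 * 2 := h6
        exact Nat.dvd_of_mul_dvd_mul_left (by norm_num) this
      exact ht2 ((Nat.prime_dvd_prime_iff_eq htp Nat.prime_two).1 h7)
    · rw [h5, map_one]
  have hxB : ∀ u v, sympBil n F (x u) (x v) = sympBil n F u v := TT_iso _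
  have hiB : ∀ u v, sympBil n F (i u) (i v) = sympBil n F u v := TT_iso _
  have hc : ∀ v, i (x v) = x (i v) := fun v => TT_comm g _ _ v
  have hRd := range_data (r := t) (B := sympBil n F) (x := x) (sympBil_alt n) form_nd htF hxt hxne hxB
  have hRη := two_eta_le hRd.1 hRd.2.1 hRd.2.2 hη
  have hsumX := (x - 1).finrank_range_add_finrank_ker
  rw [finrank_VV] at hsumX
  by_cases hηn : η + 1 ≤ n
  · exact Or.inl hηn
  have hηe : n = η := by omega
  subst hηe
  right
  have hkerx : LinearMap.ker (x - 1) = ⊥ := by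
    rw [← Submodule.finrank_eq_zero]
    omega
  have hfreex0 : ∀ c, x c = c → c = 0 := by
    intro c hc0
    have : c ∈ LinearMap.ker (x - 1) := by
      change (x - 1) c = 0
      simp [hc0]
    rw [hkerx] at this
    simpa using this
  have hxfree : ∀ c, c ≠ 0 → ∀ j, 0 < j → j < t → (x ^ j) c ≠ c := by
    intro c hc0 j hj0 hjt hcj
    have hco : Nat.Coprime j t := by
      rw [Nat.coprime_comm]
      exact (Nat.Prime.coprime_iff_not_dvd htp).2 (fun h => by
        have := Nat.le_of_dvd hj0 h
        omega)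
    exact hc0 (hfreex0 c (fix_of_coprime htp.one_lt hxt hco hcj))
  -- the central square
  have hcen : g ^ (2 * t) ∈ Subgroup.center (Matrix.symplecticGroup (Fin n) F) := by
    rw [← map_pow] at h1
    exact (QuotientGroup.eq_one_iff _).1 h1
  have hsq : TT (g ^ (2 * t)) = i ^ 2 := by
    rw [hi, ← TT_pow, ← pow_mul, mul_comm]
  rcases sp_central_one_or_neg hn _ hcen with h4 | h4
  · -- an involution
    exfalso
    have hi2 : i ^ 2 = 1 := by
      rw [← hsq, TT_eq_one]
      exact Subtype.ext h4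
    have hi1 : i ≠ 1 := by
      intro h
      have h5 : g ^ t = 1 := TT_eq_one.1 h
      apply hnot t
      · intro h6
        have := Nat.le_of_dvd htp.pos h6
        have := htp.pos
        omega
      · rw [h5, map_one]
    have h2' : ((2 : ℕ) : F) ≠ 0 := by exact_mod_cast h2
    have hinvK := comm_ker hc
    have hinvR := comm_range hc
    have hkne : LinearMap.ker (i - 1) ≠ ⊥ := by
      intro hk
      apply hnot t
      · intro h6
        have := Nat.le_of_dvd htp.pos h6
        have := htp.pos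
        omega
      · have hr : LinearMap.range (i - 1) = ⊤ := by
          have := LinearMap.ker_eq_bot_iff_range_eq_top (f := i - 1) |>.1 hk
          exact this
        have hneg : ∀ v, i v = - v := by
          intro v
          exact inv_neg_range hi2 (by rw [hr]; trivial)
        have hcen2 : g ^ t ∈ Subgroup.center (Matrix.symplecticGroup (Fin n) F) := by
          have h5 : (g ^ t).1 = -1 := by
            have h6 : Matrix.toLin' (g ^ t).1 = Matrix.toLin' (-1 : Matrix (Fin n ⊕ Fin n) (Fin n ⊕ Fin n) F) := by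
              apply LinearMap.ext
              intro v
              have := hneg v
              rw [hi, TT_apply] at this
              rw [Matrix.toLin'_apply, Matrix.toLin'_apply, this, Matrix.neg_mulVec, Matrix.one_mulVec]
            exact Matrix.toLin'.injective h6
          rw [Subgroup.mem_center_iff]
          intro h
          apply Subtype.ext
          simp only [Submonoid.coe_mul, Subgroup.coe_mul]
          rw [h5]
          simp
        exact (QuotientGroup.eq_one_iff _).2 hcen2
    have hdK := fpf_dvd x hxt (LinearMap.ker (i - 1)) hinvK (fun w _ hw => hfreex0 w hw)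
    have hdR := fpf_dvd x hxt (LinearMap.range (i - 1)) hinvR (fun w _ hw => hfreex0 w hw)
    have heK : Even (finrank F (LinearMap.ker (i - 1))) :=
      even_finrank_of_nondeg (sympBil_alt n) _ (fun w hw h => ker_nondeg (sympBil_alt n) form_nd h2' hi2 hiB w
        (by
          have : (i - 1) w = 0 := hw
          rw [LinearMap.sub_apply, Module.End.one_apply, sub_eq_zero] at this
          exact this)
        (fun w' hw' => h w' (by
          change (i - 1) w' = 0
          simp [hw'])))
    have heR : Even (finrank F (LinearMap.range (i - 1))) :=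
      even_finrank_of_nondeg (sympBil_alt n) _ (fun w hw h => range_nondeg (sympBil_alt n) form_nd h2' hi2 hiB w hw h)
    have hkpos := finrank_pos_of_ne_bot' hkne
    have hrpos := finrank_pos_of_ne_bot' (range_ne_bot hi1)
    have h5 := two_eta_le hdK heK hkpos hη
    have h6 := two_eta_le hdR heR hrpos hη
    have hsum := (i - 1).finrank_range_add_finrank_ker
    rw [finrank_VV] at hsum
    omega
  · -- a complex structure
    have hi2 : ∀ v, i (i v) = - v := by
      intro v
      rw [← Module.End.mul_apply, ← pow_two, ← hsq, TT_apply, h4, Matrix.neg_mulVec, Matrix.one_mulVec]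
    obtain ⟨M₀, hM, h4M, hsM⟩ := four_dvd_sp h2 hq (sympBil_alt n) form_nd hn finrank_VV hxt hxfree hxB hi2 hiB hc htF
    have := arith_crit ht2 hq hn hη hM h4M hsM
    rcases this with h5 | h5
    · exact Or.inl h5
    · exact Or.inr h5

/-- A half of the order of an element of `Sp` is the order of an element of `PSp`. -/
theorem psp_half (hn : 1 ≤ n) (z : Matrix.symplecticGroup (Fin n) F) {N : ℕ} (hN : 0 < N) (hz : orderOf z = 2 * N) :
    N ∈ Set.range (orderOf : Cfsg.PSp n F → ℕ) := by
  have h1 := lift_sq hn z _ (pow_orderOf_eq_one (piS n F z))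
  have h2 : 2 * N ∣ 2 * orderOf (piS n F z) := hz ▸ orderOf_dvd_of_pow_eq_one h1.1
  have h3 : N ∣ orderOf (piS n F z) := Nat.dvd_of_mul_dvd_mul_left (by norm_num) h2
  have h4 : orderOf (piS n F z) ≠ 0 := by
    intro h
    rw [h] at h1
    have h5 := orderOf_map_dvd (piS n F) z
    rw [h, zero_dvd_iff] at h5
    rw [hz] at h5
    omega
  refine ⟨piS n F z ^ (orderOf (piS n F z) / N), ?_⟩
  exact orderOf_pow_orderOf_div h4 h3

theorem four_dvd_one_or (hq : Odd (Fintype.card F)) : (4 ∣ Fintype.card F ^ 1 - 1) ∨ (4 ∣ Fintype.card F ^ 1 + 1) := by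
  obtain ⟨c, hc⟩ := hq
  rw [pow_one, hc]
  omega

theorem exists_order_four (p : ℕ) [Fact p.Prime] [CharP F p] (hq : Odd (Fintype.card F)) {m : ℕ} (hm : 1 ≤ m) :
    ∃ y : Matrix.symplecticGroup (Fin m) F, orderOf y = 4 := by
  have h0 : ∃ y : Matrix.symplecticGroup (Fin 1) F, orderOf y = 4 := by
    rcases four_dvd_one_or hq with h | h
    · exact exists_elt_odd p le_rfl h
    · exact exists_elt_even p le_rfl h (by norm_num)
  obtain ⟨y, hy⟩ := h0
  obtain ⟨z, hz⟩ := exists_block_order (F := F) 1 (m - 1) m (by omega) y (1 : Matrix.symplecticGroup (Fin (m - 1)) F) (by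
    rw [orderOf_one]
    exact Nat.coprime_one_right _)
  exact ⟨z, by rw [hz, hy, orderOf_one]⟩

/-- `4 t` divides `q^n - 1` or `q^n + 1`. -/
theorem crit_dvd {t : ℕ} [Fact t.Prime] (ht2 : t ≠ 2) (hn : 1 ≤ n) (hq : Odd (Fintype.card F))
    (h : (orderOf ((Fintype.card F : ℕ) : ZMod t) = n ∧ Odd n ∧ Fintype.card F % 4 = 1) ∨
      (orderOf ((Fintype.card F : ℕ) : ZMod t) = 2 * n ∧ Odd n ∧ Fintype.card F % 4 = 3)) :
    (4 * t ∣ Fintype.card F ^ n - 1) ∨ (4 * t ∣ Fintype.card F ^ n + 1) := by
  have htp : t.Prime := Fact.out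
  have htodd : Odd t := htp.odd_of_ne_two ht2
  have hco : Nat.Coprime 4 t := by
    have : Nat.Coprime 2 t := Nat.coprime_two_left.2 htodd
    exact Nat.Coprime.pow_left 2 this
  set q := Fintype.card F with hqq
  have hq1 : 1 ≤ q := Fintype.card_pos
  rcases h with ⟨h1, h2, h3⟩ | ⟨h1, h2, h3⟩
  · left
    apply hco.mul_dvd_of_dvd_of_dvd
    · have h4 : q - 1 ∣ q ^ n - 1 := by
        have := Nat.sub_dvd_pow_sub_pow q 1 n
        simpa using this
      have h5 : 4 ∣ q - 1 := by omega
      exact h5.trans h4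
    · exact (dvd_pow_sub_one_iff n).2 (by rw [h1])
  · right
    apply hco.mul_dvd_of_dvd_of_dvd
    · have h4 : q + 1 ∣ q ^ n + 1 := by
        have := h2.nat_add_dvd_pow_add_pow q 1
        simpa using this
      have h5 : 4 ∣ q + 1 := by omega
      exact h5.trans h4
    · exact half_dvd (by omega) h1.symm

theorem psp_two_ex (p : ℕ) [Fact p.Prime] [CharP F p] (hq : Odd (Fintype.card F)) {t : ℕ} [Fact t.Prime] (ht2 : t ≠ 2) (htp' : t ≠ p) (hn : 1 ≤ n) {η : ℕ}
    (hη : Conv (orderOf ((Fintype.card F : ℕ) : ZMod t)) η)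
    (hC : C2 (Fintype.card F) (orderOf ((Fintype.card F : ℕ) : ZMod t)) η n) :
    2 * t ∈ Set.range (orderOf : Cfsg.PSp n F → ℕ) := by
  have htp : t.Prime := Fact.out
  have htodd : Odd t := htp.odd_of_ne_two ht2
  have hco : Nat.Coprime 4 t := by
    have : Nat.Coprime 2 t := Nat.coprime_two_left.2 htodd
    exact Nat.Coprime.pow_left 2 this
  have hη1 : 1 ≤ η := by
    have h0 : 0 < orderOf ((Fintype.card F : ℕ) : ZMod t) := order_pos' (p := p) rfl htp htp'
    rcases hη with ⟨_, h⟩ | ⟨_, h⟩ <;> omega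
  rcases hC with hC | hC
  · obtain ⟨x, hx⟩ := exists_order_of_prime (F := F) (m := η) (r := t) hη1 le_rfl hη
    obtain ⟨y, hy⟩ := exists_order_four (F := F) p hq (m := n - η) (by omega)
    obtain ⟨z, hz⟩ := exists_block_order (F := F) η (n - η) n (by omega) x y (by
      rw [hx, hy]
      exact hco.symm)
    apply psp_half hn z (N := 2 * t) (by have := htp.pos; omega)
    rw [hz, hx, hy]
    ring
  · rcases crit_dvd ht2 hn hq hC with h | h
    · obtain ⟨z, hz⟩ := exists_elt_odd (F := F) p hn h
      apply psp_half hn z (N := 2 * t) (by have := htp.pos; omega)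
      rw [hz]
      ring
    · obtain ⟨z, hz⟩ := exists_elt_even (F := F) p hn h (by
        intro h5
        have := Nat.le_of_dvd (by norm_num) h5
        have := htp.pos
        omega)
      apply psp_half hn z (N := 2 * t) (by have := htp.pos; omega)
      rw [hz]
      ring

theorem psp_two_p (p : ℕ) [Fact p.Prime] [CharP F p] (hq : Odd (Fintype.card F)) (hn : 2 ≤ n) : 2 * p ∈ Set.range (orderOf : Cfsg.PSp n F → ℕ) := by
  have hpp : p.Prime := Fact.out
  have hpodd : Odd p := by
    have h3 : ((Fintype.card F : ℕ) : F) = 0 := Nat.cast_card_eq_zero F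
    have h4 := (CharP.cast_eq_zero_iff F p _).1 h3
    exact Odd.of_dvd_nat hq h4
  have hco : Nat.Coprime 4 p := by
    have : Nat.Coprime 2 p := Nat.coprime_two_left.2 hpodd
    exact Nat.Coprime.pow_left 2 this
  obtain ⟨x, hx⟩ := exists_order_p (F := F) p
  obtain ⟨y, hy⟩ := exists_order_four (F := F) p hq (m := n - 1) (by omega)
  obtain ⟨z, hz⟩ := exists_block_order (F := F) 1 (n - 1) n (by omega) x y (by
    rw [hx, hy]
    exact hco.symm)
  apply psp_half (by omega) z (N := 2 * p) (by have := hpp.pos; omega)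
  rw [hz, hx, hy]
  ring

end PSpTwo

end Cfsg.Agent.Lib.Known.BC
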