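import Cfsg.Agent.Lib.Known.PG2

/-!
# Unit `LU` forms of non-scalar `3 × 3` matrices of determinant one
-/

set_option autoImplicit false
set_option linter.unusedVariables false
set_option linter.unusedSectionVars false

namespace Cfsg.Agent.Lib.Known.CC3

open Matrix

variable {F : Type*} [Field F]

local notation "M3" => Matrix (Fin 3) (Fin 3) F

/-- A non-scalar matrix moves the line of some vector. -/
theorem exists_not_eigen (g : M3) (h : ∀ c : F, g ≠ c • 1) : ∃ v : Fin 3 → F, ∀ c : F, g *ᵥ v ≠ c • v := by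
  by_contra hcon
  push Not at hcon
  choose c hc using hcon
  let e : Fin 3 → (Fin 3 → F) := fun i => Pi.single i 1
  have hlin : ∀ i j : Fin 3, i ≠ j → c (e i) = c (e j) := by
    intro i j hij
    have h1 := hc (e i + e j)
    rw [mulVec_add, hc (e i), hc (e j)] at h1
    have h2 := congrFun h1 i
    have h3 := congrFun h1 j
    simp only [e, Pi.add_apply, Pi.smul_apply, Pi.single_apply, smul_eq_mul, if_true, if_neg hij,
      if_neg (Ne.symm hij), mul_one, mul_zero, add_zero, zero_add] at h2 h3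
    rw [h2, h3]
  apply h (c (e 0))
  ext i j
  have h1 := congrFun (hc (e j)) i
  rw [show g *ᵥ e j = g.col j from Matrix.mulVec_single_one _ _] at h1
  simp only [Matrix.col_apply, Pi.smul_apply, smul_eq_mul] at h1
  rw [h1]
  have h2 : c (e j) = c (e 0) := by
    by_cases h0 : j = 0
    · rw [h0]
    · exact hlin j 0 h0
  rw [h2]
  simp only [e, Pi.single_apply, Matrix.smul_apply, Matrix.one_apply, smul_eq_mul]

/-- A basis whose first two vectors are prescribed. -/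
theorem exists_basis (v w : Fin 3 → F) (h : ∀ a b : F, a • v + b • w = 0 → a = 0 ∧ b = 0) :
    ∃ z : Fin 3 → F, (Matrix.of fun i => ![v i, w i, z i] : M3).det ≠ 0 := by
  have hli : LinearIndependent F ![v, w] := by
    rw [LinearIndependent.pair_iff]
    exact fun a b hab => h a b hab
  have hle : Module.finrank F (Submodule.span F (Set.range ![v, w])) < 3 := by
    have h1 := finrank_range_le_card (R := F) ![v, w]
    simp only [Fintype.card_fin] at h1
    have h2 : (Set.range ![v, w]).finrank F ≤ 2 := h1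
    exact lt_of_le_of_lt h2 (by norm_num)
  have hne : Submodule.span F (Set.range ![v, w]) ≠ ⊤ := by
    intro h1
    rw [h1, finrank_top, Module.finrank_fintype_fun_eq_card, Fintype.card_fin] at hle
    omega
  obtain ⟨z, hz⟩ := SetLike.exists_not_mem_of_ne_top _ hne rfl
  refine ⟨z, ?_⟩
  have hli3 : LinearIndependent F ![z, v, w] := by
    have : ![z, v, w] = Fin.cons z ![v, w] := rfl
    rw [this, linearIndependent_fin_cons]
    exact ⟨hli, hz⟩
  -- the columns are independent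
  have hli4 : LinearIndependent F (Matrix.of fun i => ![v i, w i, z i] : M3).col := by
    have hperm : (Matrix.of fun i => ![v i, w i, z i] : M3).col = ![z, v, w] ∘ ![1, 2, 0] := by
      funext j
      fin_cases j <;> (ext i; simp [Matrix.col_apply])
    rw [hperm]
    apply hli3.comp
    intro a b hab
    fin_cases a <;> fin_cases b <;> simp_all
  have hu := Matrix.linearIndependent_cols_iff_isUnit.1 hli4
  have hdet := (Matrix.isUnit_iff_isUnit_det _).1 hu
  exact hdet.ne_zero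

/-- The matrix with the three given columns. -/
def cols (u v w : Fin 3 → F) : M3 := Matrix.of fun i => ![u i, v i, w i]

theorem cols_mulVec_zero (u v w : Fin 3 → F) : cols u v w *ᵥ ![1, 0, 0] = u := by
  ext i; simp [cols, mulVec, dotProduct, Fin.sum_univ_three]

theorem cols_mulVec_one (u v w : Fin 3 → F) : cols u v w *ᵥ ![0, 1, 0] = v := by
  ext i; simp [cols, mulVec, dotProduct, Fin.sum_univ_three]

theorem cols_mulVec_two (u v w : Fin 3 → F) : cols u v w *ᵥ ![0, 0, 1] = w := by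
  ext i; simp [cols, mulVec, dotProduct, Fin.sum_univ_three]

/-- Columns of a conjugate. -/
theorem conj_col (g P : M3) (hP : P.det ≠ 0) (e w : Fin 3 → F) (h : g *ᵥ (P *ᵥ e) = P *ᵥ w) :
    (P⁻¹ * g * P) *ᵥ e = w := by
  have hu : IsUnit P.det := isUnit_iff_ne_zero.2 hP
  rw [← mulVec_mulVec, ← mulVec_mulVec, h, mulVec_mulVec, Matrix.nonsing_inv_mul _ hu, one_mulVec]

theorem conj_eq (g P : M3) (hP : P.det ≠ 0) : g * P = P * (P⁻¹ * g * P) := by
  have hu : IsUnit P.det := isUnit_iff_ne_zero.2 hP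
  rw [← mul_assoc, ← mul_assoc, Matrix.mul_nonsing_inv _ hu, one_mul]

theorem apply_zero (A : M3) (a b c : F) (h : A *ᵥ ![1, 0, 0] = ![a, b, c]) :
    A 0 0 = a ∧ A 1 0 = b ∧ A 2 0 = c := by
  have h0 := congrFun h 0
  have h1 := congrFun h 1
  have h2 := congrFun h 2
  simp [mulVec, dotProduct, Fin.sum_univ_three] at h0 h1 h2
  exact ⟨h0, h1, h2⟩

theorem apply_one (A : M3) (a b c : F) (h : A *ᵥ ![0, 1, 0] = ![a, b, c]) :
    A 0 1 = a ∧ A 1 1 = b ∧ A 2 1 = c := by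
  have h0 := congrFun h 0
  have h1 := congrFun h 1
  have h2 := congrFun h 2
  simp [mulVec, dotProduct, Fin.sum_univ_three] at h0 h1 h2
  exact ⟨h0, h1, h2⟩

/-- First step: a basis in which the first column is `(1, 1, 0)`. -/
theorem exists_first_col (g : M3) (h : ∀ c : F, g ≠ c • 1) :
    ∃ P A : M3, P.det ≠ 0 ∧ g * P = P * A ∧ A 0 0 = 1 ∧ A 1 0 = 1 ∧ A 2 0 = 0 := by
  obtain ⟨v, hv⟩ := exists_not_eigen g h
  have hind : ∀ a b : F, a • v + b • (g *ᵥ v - v) = 0 → a = 0 ∧ b = 0 := by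
    intro a b hab
    by_cases hb : b = 0
    · subst hb
      simp only [zero_smul, add_zero] at hab
      refine ⟨?_, rfl⟩
      by_contra ha
      have h0 : v = 0 := by
        rcases smul_eq_zero.1 hab with h | h
        · exact absurd h ha
        · exact h
      apply hv 0
      rw [h0]; simp
    · exfalso
      apply hv (1 - a / b)
      have h1 : b • (g *ᵥ v) = (b - a) • v := by
        have : b • (g *ᵥ v) - (b - a) • v = a • v + b • (g *ᵥ v - v) := by
          rw [smul_sub, sub_smul]; abel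
        rw [← sub_eq_zero, this, hab]
      have h2 : g *ᵥ v = b⁻¹ • (b • (g *ᵥ v)) := by
        rw [smul_smul, inv_mul_cancel₀ hb, one_smul]
      rw [h2, h1, smul_smul]
      congr 1
      field_simp
  obtain ⟨z, hz⟩ := exists_basis v (g *ᵥ v - v) hind
  have hz' : (cols v (g *ᵥ v - v) z).det ≠ 0 := hz
  refine ⟨cols v (g *ᵥ v - v) z, _, hz', conj_eq g _ hz', ?_⟩
  have h1 := conj_col g (cols v (g *ᵥ v - v) z) hz' ![1, 0, 0] ![1, 1, 0] (by
    rw [cols_mulVec_zero]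
    ext i
    simp [cols, mulVec, dotProduct, Fin.sum_univ_three])
  exact apply_zero _ _ _ _ h1

/-- Second step. -/
theorem step_S (A : M3) (h00 : A 0 0 = 1)
    (hS : A 1 2 - A 1 0 * A 0 2 ≠ 0 ∨ A 2 1 - A 2 0 * A 0 1 ≠ 0 ∨
      A 1 1 - A 1 0 * A 0 1 ≠ A 2 2 - A 2 0 * A 0 2) :
    ∃ Q B : M3, Q.det ≠ 0 ∧ A * Q = Q * B ∧ B 0 0 = 1 ∧ B 1 1 - B 0 1 * B 1 0 = 1 := by
  -- a conjugation by `1 ⊕ T`
  have key : ∀ t₁ t₂ t₃ t₄ t₁' t₂' t₃' t₄' : F,
      t₁ * t₁' + t₂ * t₃' = 1 → t₁ * t₂' + t₂ * t₄' = 0 → t₃ * t₁' + t₄ * t₃' = 0 →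
      t₃ * t₂' + t₄ * t₄' = 1 → t₁ * t₄ - t₂ * t₃ ≠ 0 →
      (t₁' * (A 1 1 - A 1 0 * A 0 1) + t₂' * (A 2 1 - A 2 0 * A 0 1)) * t₁ +
        (t₁' * (A 1 2 - A 1 0 * A 0 2) + t₂' * (A 2 2 - A 2 0 * A 0 2)) * t₃ = 1 →
      ∃ Q B : M3, Q.det ≠ 0 ∧ A * Q = Q * B ∧ B 0 0 = 1 ∧ B 1 1 - B 0 1 * B 1 0 = 1 := by
    intro t₁ t₂ t₃ t₄ t₁' t₂' t₃' t₄' h1 h2 h3 h4 hdet hfin
    let Q : M3 := !![1, 0, 0; 0, t₁, t₂; 0, t₃, t₄]
    let Q' : M3 := !![1, 0, 0; 0, t₁', t₂'; 0, t₃', t₄']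
    have hQQ : Q * Q' = 1 := by
      ext i j
      fin_cases i <;> fin_cases j <;>
        simp [Q, Q', Matrix.mul_apply, Fin.sum_univ_three, h1, h2, h3, h4]
    refine ⟨Q, Q' * A * Q, ?_, ?_, ?_, ?_⟩
    · simp only [Q, Matrix.det_fin_three]
      simpa using hdet
    · rw [← mul_assoc, ← mul_assoc, hQQ, one_mul]
    · simp [Q, Q', Matrix.mul_apply, Fin.sum_univ_three, vecMul, dotProduct, h00]
    · simp [Q, Q', Matrix.mul_apply, Fin.sum_univ_three, vecMul, dotProduct, h00]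
      linear_combination hfin
  by_cases h2 : A 1 2 - A 1 0 * A 0 2 = 0
  · by_cases h3 : A 2 1 - A 2 0 * A 0 1 = 0
    · -- the diagonal case
      have hs : A 1 1 - A 1 0 * A 0 1 ≠ A 2 2 - A 2 0 * A 0 2 := by
        rcases hS with hs | hs | hs
        · exact absurd h2 hs
        · exact absurd h3 hs
        · exact hs
      have hd : (A 2 2 - A 2 0 * A 0 2) - (A 1 1 - A 1 0 * A 0 1) ≠ 0 := by
        intro h; exact hs (sub_eq_zero.1 h).symm
      obtain ⟨c, hc⟩ : ∃ c : F, c * ((A 2 2 - A 2 0 * A 0 2) - (A 1 1 - A 1 0 * A 0 1)) =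
          A 1 1 - A 1 0 * A 0 1 - 1 := ⟨_, div_mul_cancel₀ _ hd⟩
      refine key 1 c 1 (1 + c) (1 + c) (-c) (-1) 1 (by ring) (by ring) (by ring) (by ring)
        (by ring_nf; simp) ?_
      rw [h2, h3]
      linear_combination -hc
    · obtain ⟨c, hc⟩ : ∃ c : F, c * (A 2 1 - A 2 0 * A 0 1) = A 1 1 - A 1 0 * A 0 1 - 1 :=
        ⟨_, div_mul_cancel₀ _ h3⟩
      refine key 1 c 0 1 1 (-c) 0 1 (by ring) (by ring) (by ring) (by ring) (by simp) ?_
      linear_combination -hc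
  · obtain ⟨c, hc⟩ : ∃ c : F, c * (A 1 2 - A 1 0 * A 0 2) = 1 - (A 1 1 - A 1 0 * A 0 1) :=
      ⟨_, div_mul_cancel₀ _ h2⟩
    refine key 1 0 c 1 1 0 (-c) 1 (by ring) (by ring) (by ring) (by ring) (by simp) ?_
    linear_combination hc

/-- The unit `LU` form. -/
theorem exists_LU (g : M3) (hg : g.det ≠ 0) (h : ∀ c : F, g ≠ c • 1) :
    ∃ P A : M3, P.det ≠ 0 ∧ g * P = P * A ∧ A 0 0 = 1 ∧ A 1 1 - A 0 1 * A 1 0 = 1 := by
  obtain ⟨P, A, hP, hA, h0, h1, h2⟩ := exists_first_col g h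
  -- transitivity
  have trans : ∀ Q B : M3, Q.det ≠ 0 → A * Q = Q * B → B 0 0 = 1 → B 1 1 - B 0 1 * B 1 0 = 1 →
      ∃ P A : M3, P.det ≠ 0 ∧ g * P = P * A ∧ A 0 0 = 1 ∧ A 1 1 - A 0 1 * A 1 0 = 1 := by
    intro Q B hQ hB hB0 hB1
    refine ⟨P * Q, B, ?_, ?_, hB0, hB1⟩
    · rw [Matrix.det_mul]; exact mul_ne_zero hP hQ
    · rw [← mul_assoc, hA, mul_assoc, hB, mul_assoc]
  have hdA : A.det ≠ 0 := by
    intro h0
    have := congrArg Matrix.det hA
    rw [Matrix.det_mul, Matrix.det_mul, h0, mul_zero] at this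
    exact mul_ne_zero hg hP this
  by_cases hS : A 1 2 - A 1 0 * A 0 2 ≠ 0 ∨ A 2 1 - A 2 0 * A 0 1 ≠ 0 ∨
      A 1 1 - A 1 0 * A 0 1 ≠ A 2 2 - A 2 0 * A 0 2
  · obtain ⟨Q, B, hQ, hB, hB0, hB1⟩ := step_S A h0 hS
    exact trans Q B hQ hB hB0 hB1
  push Not at hS
  obtain ⟨hs2, hs3, hs14⟩ := hS
  by_cases hs1 : A 1 1 - A 1 0 * A 0 1 = 1
  · refine ⟨P, A, hP, hA, h0, ?_⟩
    rw [h1] at hs1 ⊢
    linear_combination hs1
  -- the scalar case: conjugate by an elementary matrix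
  let K : M3 := !![1, 0, 1; 0, 1, 0; 0, 0, 1]
  let K' : M3 := !![1, 0, -1; 0, 1, 0; 0, 0, 1]
  have hKK : K * K' = 1 := by
    ext i j
    fin_cases i <;> fin_cases j <;> simp [K, K', Matrix.mul_apply, Fin.sum_univ_three]
  have hdet_K : K.det ≠ 0 := by
    simp [K, Matrix.det_fin_three]
  have hs4 : A 2 2 ≠ 0 := by
    intro h4
    apply hdA
    have a1 : A 1 2 = A 0 2 := by
      rw [h1] at hs2
      linear_combination hs2
    have a2 : A 2 1 = 0 := by
      rw [h2] at hs3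
      linear_combination hs3
    have a3 : A 1 1 = A 0 1 := by
      rw [h1, h2, h4] at hs14
      linear_combination hs14
    rw [Matrix.det_fin_three, a1, a2, a3, h0, h1, h2, h4]
    ring
  obtain ⟨Q, B, hQ, hB, hB0, hB1⟩ := step_S (K' * A * K) (by
      simp [K, K', Matrix.mul_apply, Fin.sum_univ_three, vecMul, dotProduct, h0, h2]) (by
      left
      simp [K, K', Matrix.mul_apply, Fin.sum_univ_three, vecMul, dotProduct, h0, h1, h2]
      rw [h1] at hs2
      intro h5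
      apply hs4
      linear_combination h5 - hs2)
  refine trans (K * Q) B ?_ ?_ hB0 hB1
  · rw [Matrix.det_mul]; exact mul_ne_zero hdet_K hQ
  · have hA' : A * K = K * (K' * A * K) := by
      rw [← mul_assoc, ← mul_assoc, hKK, one_mul]
    rw [← mul_assoc, hA', mul_assoc, hB, mul_assoc]

/-- Conjugacy of a matrix to `x` by an invertible matrix. -/
def IsC (x M : M3) : Prop := ∃ R : M3, R.det ≠ 0 ∧ M * R = R * x

/-- A product of two conjugates, up to a change of basis. -/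
theorem cc_of (x : Matrix.SpecialLinearGroup (Fin 3) F)
    (hx : ∀ c : F, c ≠ 0 → ∃ C : M3, C.det = c ∧ C * (x : M3) = (x : M3) * C)
    (g : Matrix.SpecialLinearGroup (Fin 3) F) (P A M₁ M₂ : M3) (hP : P.det ≠ 0)
    (hA : (g : M3) * P = P * A) (hM : A = M₁ * M₂) (h₁ : IsC (x : M3) M₁) (h₂ : IsC (x : M3) M₂) :
    ∃ U V : Matrix.SpecialLinearGroup (Fin 3) F, g = (U * x * U⁻¹) * (V * x * V⁻¹) := by
  have hu : IsUnit P.det := isUnit_iff_ne_zero.2 hP
  have key : ∀ M : M3, IsC (x : M3) M → ∃ U : Matrix.SpecialLinearGroup (Fin 3) F,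
      ((U * x * U⁻¹ : Matrix.SpecialLinearGroup (Fin 3) F) : M3) = P * M * P⁻¹ := by
    rintro M ⟨R, hR, hMR⟩
    have hdR : (P * R).det ≠ 0 := by
      rw [Matrix.det_mul]; exact mul_ne_zero hP hR
    obtain ⟨C, hC, hCx⟩ := hx _ (inv_ne_zero hdR)
    have hdU : (P * R * C).det = 1 := by
      rw [Matrix.det_mul, hC, mul_inv_cancel₀ hdR]
    refine ⟨⟨P * R * C, hdU⟩, ?_⟩
    have h1 : P * M * P⁻¹ * (P * R * C) = P * R * C * (x : M3) := by
      calc P * M * P⁻¹ * (P * R * C) = P * M * (P⁻¹ * P) * R * C := by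
            simp only [mul_assoc]
        _ = P * (M * R) * C := by
            rw [Matrix.nonsing_inv_mul _ hu]; simp only [mul_assoc, mul_one]
        _ = P * R * (x * C) := by rw [hMR]; simp only [mul_assoc]
        _ = P * R * C * x := by rw [← hCx]; simp only [mul_assoc]
    let U : Matrix.SpecialLinearGroup (Fin 3) F := ⟨P * R * C, hdU⟩
    have h2 : (U : M3) * ((U⁻¹ : Matrix.SpecialLinearGroup (Fin 3) F) : M3) = 1 := by
      rw [← Matrix.SpecialLinearGroup.coe_mul, mul_inv_cancel, Matrix.SpecialLinearGroup.coe_one]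
    change ((U * x * U⁻¹ : Matrix.SpecialLinearGroup (Fin 3) F) : M3) = _
    rw [Matrix.SpecialLinearGroup.coe_mul, Matrix.SpecialLinearGroup.coe_mul]
    have h3 : P * M * P⁻¹ * (U : M3) = (U : M3) * (x : M3) := h1
    rw [← h3, mul_assoc, h2, mul_one]
  obtain ⟨U, hU⟩ := key M₁ h₁
  obtain ⟨V, hV⟩ := key M₂ h₂
  refine ⟨U, V, ?_⟩
  apply Subtype.ext
  change (g : M3) = ((U * x * U⁻¹ * (V * x * V⁻¹) : Matrix.SpecialLinearGroup (Fin 3) F) : M3)
  rw [Matrix.SpecialLinearGroup.coe_mul (U * x * U⁻¹), hU, hV]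
  have h4 : (g : M3) = P * A * P⁻¹ := by
    rw [← hA, mul_assoc, Matrix.mul_nonsing_inv _ hu, mul_one]
  rw [h4, hM]
  calc P * (M₁ * M₂) * P⁻¹ = P * M₁ * (1 : M3) * M₂ * P⁻¹ := by
        simp only [mul_assoc, one_mul]
    _ = _ := by
        rw [← Matrix.nonsing_inv_mul _ hu]
        simp only [mul_assoc]

end Cfsg.Agent.Lib.Known.CC3
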