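import Cfsg.Agent.Lib.Known.CC3a

/-!
# `PSL_3(q)`, `q ≥ 3`: a semisimple class `C` with every non-identity element in `C C`
-/

set_option autoImplicit false
set_option linter.unusedVariables false
set_option linter.unusedSectionVars false

namespace Cfsg.Agent.Lib.Known.CC3

open Matrix

variable {F : Type*} [Field F]

local notation "M3" => Matrix (Fin 3) (Fin 3) F

/-- A product of two conjugates of `x`. -/
def Good (x A : M3) : Prop := ∃ M₁ M₂ : M3, A = M₁ * M₂ ∧ IsC x M₁ ∧ IsC x M₂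

/-- The semisimple element for `q ≥ 4`. -/
def Dm' (a e : F) : M3 := !![a, 0, 0; 0, e, 0; 0, 0, 1]

/-- The semisimple element for `q ≥ 4`. -/
def Dm (a : F) : M3 := Dm' a a⁻¹

theorem isC_lower (a e : F) (he : a * e = 1) (ha1 : a ≠ 1) (ha2 : a * a ≠ 1) (l m n : F) :
    IsC (Dm' a e) !![a, 0, 0; l * a, e, 0; m * a, n * e, 1] := by
  have h1 : a - e ≠ 0 := by
    intro h
    apply ha2
    have : e = a := (sub_eq_zero.1 h).symm
    rw [this] at he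
    exact he
  have h2 : a - 1 ≠ 0 := sub_ne_zero.2 ha1
  have h3 : 1 - a ≠ 0 := sub_ne_zero.2 (Ne.symm ha1)
  obtain ⟨α, hα⟩ : ∃ α : F, α * (a - e) = l * a := ⟨_, div_mul_cancel₀ _ h1⟩
  obtain ⟨β, hβ⟩ : ∃ β : F, β * (a - 1) = m * a + n * e * α := ⟨_, div_mul_cancel₀ _ h2⟩
  obtain ⟨γ, hγ⟩ : ∃ γ : F, γ * (1 - a) = n := ⟨_, div_mul_cancel₀ _ h3⟩
  refine ⟨!![1, 0, 0; α, 1, 0; β, γ, 1], ?_, ?_⟩
  · simp [Matrix.det_fin_three]
  · ext i j
    fin_cases i <;> fin_cases j <;>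
      simp [Dm', Matrix.mul_apply, Fin.sum_univ_three]
    · linear_combination -hα
    · linear_combination -hβ
    · linear_combination (-e) * hγ - γ * he

theorem isC_upper (a e : F) (he : a * e = 1) (ha1 : a ≠ 1) (ha2 : a * a ≠ 1) (u v t : F) :
    IsC (Dm' a e) !![e, e * u, e * v; 0, a, a * t; 0, 0, 1] := by
  have h1 : a * a - 1 ≠ 0 := sub_ne_zero.2 ha2
  have h2 : a - 1 ≠ 0 := sub_ne_zero.2 ha1
  have h3 : 1 - a ≠ 0 := sub_ne_zero.2 (Ne.symm ha1)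
  obtain ⟨p₁, hp₁⟩ : ∃ p₁ : F, p₁ * (a * a - 1) = u := ⟨_, div_mul_cancel₀ _ h1⟩
  obtain ⟨p₃, hp₃⟩ : ∃ p₃ : F, p₃ * (1 - a) = a * t := ⟨_, div_mul_cancel₀ _ h3⟩
  obtain ⟨p₂, hp₂⟩ : ∃ p₂ : F, p₂ * (a - 1) = u * p₃ + v := ⟨_, div_mul_cancel₀ _ h2⟩
  refine ⟨!![p₁, 1, p₂; 1, 0, p₃; 0, 0, 1], ?_, ?_⟩
  · simp [Matrix.det_fin_three]
  · ext i j
    fin_cases i <;> fin_cases j <;>
      simp [Dm', Matrix.mul_apply, Fin.sum_univ_three]
    · -- `e * p₁ + e * u = p₁ * a`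
      linear_combination (-e) * hp₁ + (p₁ * a + p₁ * a * a * e - p₁ * a - p₁ * a) * 0 + (p₁ * a) * he - p₁ * a * 0
    · linear_combination (e * u) * 0 + (-e) * hp₂ + (p₂) * he
    · linear_combination -hp₃

theorem good_D (a : F) (ha0 : a ≠ 0) (ha1 : a ≠ 1) (ha2 : a * a ≠ 1) (A : M3) (h00 : A 0 0 = 1)
    (h11 : A 1 1 - A 0 1 * A 1 0 = 1) (hdet : A.det = 1) : Good (Dm a) A := by
  refine ⟨!![a, 0, 0; A 1 0 * a, a⁻¹, 0; A 2 0 * a, (A 2 1 - A 2 0 * A 0 1) * a⁻¹, 1],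
    !![a⁻¹, a⁻¹ * A 0 1, a⁻¹ * A 0 2; 0, a, a * (A 1 2 - A 1 0 * A 0 2); 0, 0, 1], ?_,
    isC_lower a a⁻¹ (mul_inv_cancel₀ ha0) ha1 ha2 _ _ _,
    isC_upper a a⁻¹ (mul_inv_cancel₀ ha0) ha1 ha2 _ _ _⟩
  have h22 : A 2 2 = 1 + A 2 0 * A 0 2 + (A 2 1 - A 2 0 * A 0 1) * (A 1 2 - A 1 0 * A 0 2) := by
    rw [Matrix.det_fin_three] at hdet
    have h11' : A 1 1 = 1 + A 0 1 * A 1 0 := by linear_combination h11
    rw [h00, h11'] at hdet
    linear_combination hdet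
  ext i j
  fin_cases i <;> fin_cases j <;>
    simp [Matrix.mul_apply, Fin.sum_univ_three]
  · rw [h00]; field_simp
  · field_simp
  · field_simp
  · field_simp
  · field_simp
    linear_combination h11
  · field_simp
    ring
  · field_simp
  · field_simp
    ring
  · rw [h22]
    field_simp
    ring

/-- The element of `SL₃` attached to `Dm`. -/
def DSL (a : F) (ha0 : a ≠ 0) : Matrix.SpecialLinearGroup (Fin 3) F :=
  ⟨Dm a, by simp [Dm, Dm', Matrix.det_fin_three, ha0]⟩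

theorem Dm_comm (a : F) (ha0 : a ≠ 0) (c : F) (hc : c ≠ 0) :
    ∃ C : M3, C.det = c ∧ C * ((DSL a ha0 : Matrix.SpecialLinearGroup (Fin 3) F) : M3) =
      ((DSL a ha0 : Matrix.SpecialLinearGroup (Fin 3) F) : M3) * C := by
  refine ⟨!![1, 0, 0; 0, 1, 0; 0, 0, c], ?_, ?_⟩
  · simp [Matrix.det_fin_three]
  · ext i j
    fin_cases i <;> fin_cases j <;>
      simp [DSL, Dm, Dm', Matrix.mul_apply, Fin.sum_univ_three]

/-- The case `q ≥ 4` at the level of `SL₃`. -/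
theorem cc_D (a : F) (ha0 : a ≠ 0) (ha1 : a ≠ 1) (ha2 : a * a ≠ 1)
    (g : Matrix.SpecialLinearGroup (Fin 3) F) (hg : ∀ c : F, (g : M3) ≠ c • 1) :
    ∃ U V : Matrix.SpecialLinearGroup (Fin 3) F,
      g = (U * DSL a ha0 * U⁻¹) * (V * DSL a ha0 * V⁻¹) := by
  obtain ⟨P, A, hP, hA, h0, h1⟩ := exists_LU (g : M3) (by rw [g.2]; exact one_ne_zero) hg
  have hdA : A.det = 1 := by
    have := congrArg Matrix.det hA
    rw [Matrix.det_mul, Matrix.det_mul, g.2, one_mul] at this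
    exact mul_left_cancel₀ hP (by rw [mul_one]; exact this.symm)
  obtain ⟨M₁, M₂, hM, h₁, h₂⟩ := good_D a ha0 ha1 ha2 A h0 h1 hdA
  exact cc_of (DSL a ha0) (Dm_comm a ha0) g P A M₁ M₂ hP hA hM h₁ h₂

/-! ### The field with three elements -/

/-- The element of order four for `q = 3`. -/
def Jm : M3 := !![0, -1, 0; 1, 0, 0; 0, 0, 1]

/-- The element of `SL₃` attached to `Jm`. -/
def JSL : Matrix.SpecialLinearGroup (Fin 3) F :=
  ⟨Jm, by simp [Jm, Matrix.det_fin_three]⟩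

theorem Jm_comm (c : F) (hc : c ≠ 0) :
    ∃ C : M3, C.det = c ∧ C * ((JSL : Matrix.SpecialLinearGroup (Fin 3) F) : M3) =
      ((JSL : Matrix.SpecialLinearGroup (Fin 3) F) : M3) * C := by
  refine ⟨!![1, 0, 0; 0, 1, 0; 0, 0, c], ?_, ?_⟩
  · simp [Matrix.det_fin_three]
  · ext i j
    fin_cases i <;> fin_cases j <;>
      simp [JSL, Jm, Matrix.mul_apply, Fin.sum_univ_three]

theorem isC_J_lower (h3 : (3 : F) = 0) (a b c r₁ r₂ : F) (h : a * a + b * c = -1) (hc : c ≠ 0) :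
    IsC Jm !![a, b, 0; c, -a, 0; r₁, r₂, 1] := by
  refine ⟨!![1, a, 0; 0, c, 0; r₁ * (a + 1) + r₂ * c, r₁ + (r₁ * (a + 1) + r₂ * c), c⁻¹], ?_, ?_⟩
  · simp [Matrix.det_fin_three, hc]
  · ext i j
    fin_cases i <;> fin_cases j <;>
      simp [Jm, Matrix.mul_apply, Fin.sum_univ_three]
    · exact h
    · ring
    · linear_combination (r₁ * (a + 1) + r₂ * c) * h3

theorem isC_J_upper (h3 : (3 : F) = 0) (a b c s₁ s₂ : F) (h : a * a + b * c = -1) (hc : c ≠ 0) :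
    IsC Jm !![a, b, s₁; c, -a, s₂; 0, 0, 1] := by
  obtain ⟨e, he⟩ : ∃ e : F, e = c⁻¹ := ⟨_, rfl⟩
  have hce : c * e = 1 := by rw [he, mul_inv_cancel₀ hc]
  refine ⟨!![1, a, -((a + 1) * s₁ + b * s₂) * e; 0, c, -(c * s₁ + (-a + 1) * s₂) * e; 0, 0, e],
    ?_, ?_⟩
  · simp [Matrix.det_fin_three]
    exact ⟨hc, fun he0 => by rw [he0, mul_zero] at hce; exact zero_ne_one hce⟩
  · ext i j
    fin_cases i <;> fin_cases j <;>
      simp [Jm, Matrix.mul_apply, Fin.sum_univ_three]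
    · exact h
    · linear_combination (-(e * s₁)) * h + (e * s₁) * h3
    · ring
    · linear_combination (-(e * s₂)) * h + (e * s₂) * h3

/-- The cyclic case. -/
theorem good_cyc_form (h3 : (3 : F) = 0) (t₁ t₂ : F) :
    Good Jm (!![0, -1, t₁; 1, 0, t₂; 0, 1, 1 - t₁] : M3) := by
  have h2 : (2 : F) = -1 := by linear_combination h3
  refine ⟨!![1, 1, 0; 1, -1, 0; -1, -1, 1], !![-1, 1, -t₁ - t₂; 1, -(-1), -t₁ + t₂; 0, 0, 1], ?_,
    isC_J_lower h3 1 1 1 _ _ (by linear_combination h3) one_ne_zero,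
    isC_J_upper h3 (-1) 1 1 _ _ (by linear_combination h3) one_ne_zero⟩
  ext i j
  fin_cases i <;> fin_cases j <;>
    simp [Matrix.mul_apply, Fin.sum_univ_three] <;>
    first
      | linear_combination h3
      | linear_combination -h3
      | linear_combination t₁ * h3
      | linear_combination -t₁ * h3
      | linear_combination t₂ * h3
      | linear_combination -t₂ * h3
      | ring1

theorem cols_mulVec (u v w : Fin 3 → F) (a b c : F) :
    cols u v w *ᵥ ![a, b, c] = a • u + b • v + c • w := by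
  ext i
  simp [cols, mulVec, dotProduct, Fin.sum_univ_three]
  ring

/-- A cyclic vector gives a good basis. -/
theorem good_cyc (h3 : (3 : F) = 0) (A : M3) (hdet : A.det = 1) (v : Fin 3 → F)
    (hv : (cols v (A *ᵥ v) (A *ᵥ (A *ᵥ v))).det ≠ 0) :
    ∃ Q B : M3, Q.det ≠ 0 ∧ A * Q = Q * B ∧ Good Jm B := by
  have hQ : (cols v (A *ᵥ v) (A *ᵥ (A *ᵥ v) + v)).det ≠ 0 := by
    have : (cols v (A *ᵥ v) (A *ᵥ (A *ᵥ v) + v)).det = (cols v (A *ᵥ v) (A *ᵥ (A *ᵥ v))).det := by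
      simp only [Matrix.det_fin_three, cols, Matrix.of_apply, Matrix.cons_val_zero, Matrix.cons_val_one,
        Matrix.cons_val, Pi.add_apply]
      ring
    rwa [this]
  set Q := cols v (A *ᵥ v) (A *ᵥ (A *ᵥ v) + v) with hQdef
  have c0 := conj_col A Q hQ ![1, 0, 0] ![0, 1, 0] (by
    rw [hQdef, cols_mulVec_zero, cols_mulVec_one])
  have c1 := conj_col A Q hQ ![0, 1, 0] ![-1, 0, 1] (by
    rw [hQdef, cols_mulVec_one, cols_mulVec]
    simp)
  obtain ⟨a0, a1, a2⟩ := apply_zero _ _ _ _ c0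
  obtain ⟨b0, b1, b2⟩ := apply_one _ _ _ _ c1
  refine ⟨Q, Q⁻¹ * A * Q, hQ, conj_eq A Q hQ, ?_⟩
  have hdB : (Q⁻¹ * A * Q).det = 1 := by
    have hu : IsUnit Q.det := isUnit_iff_ne_zero.2 hQ
    rw [Matrix.det_mul, Matrix.det_mul, Matrix.det_nonsing_inv, hdet, mul_one,
      Ring.inverse_mul_cancel _ hu]
  set B := Q⁻¹ * A * Q
  have h22 : B 2 2 = 1 - B 0 2 := by
    rw [Matrix.det_fin_three, a0, a1, a2, b0, b1, b2] at hdB
    linear_combination hdB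
  have : B = !![0, -1, B 0 2; 1, 0, B 1 2; 0, 1, 1 - B 0 2] := by
    ext i j
    fin_cases i <;> fin_cases j <;>
      simp [a0, a1, a2, b0, b1, b2, h22]
  rw [this]
  exact good_cyc_form h3 _ _

end Cfsg.Agent.Lib.Known.CC3
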