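import Cfsg.Agent.Lib.Known.CC3b

/-!
# `PSL_3(q)`, `q ≥ 3`: a semisimple class `C` with every non-identity element in `C C`
-/

set_option autoImplicit false
set_option linter.unusedVariables false
set_option linter.unusedSectionVars false

namespace Cfsg.Agent.Lib.Known.CC3

open Matrix

/-- The determinant of a cyclic sequence, for a matrix with invariant plane. -/
def cycP {R : Type*} [CommRing R] (β α x y d a b c : R) : R :=
  a * ((a + α * b + y * c) * (d * (d * c)) - (d * c) * ((β * b + x * c) + α * (a + α * b + y * c) + y * (d * c)))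
  - b * ((β * b + x * c) * (d * (d * c)) - (d * c) * (β * (a + α * b + y * c) + x * (d * c)))
  + c * ((β * b + x * c) * ((β * b + x * c) + α * (a + α * b + y * c) + y * (d * c))
      - (a + α * b + y * c) * (β * (a + α * b + y * c) + x * (d * c)))

set_option maxRecDepth 100000 in
theorem finite_check : ∀ α x y d : ZMod 3, d ≠ 0 →
    (∃ a b c : ZMod 3, cycP (-d) α x y d a b c ≠ 0) ∨
      (α = -1 ∧ d = 1 ∧ y = -x) ∨ (α = 0 ∧ d = -1 ∧ y = x) := by
  decide

theorem map_cycP {R S : Type*} [CommRing R] [CommRing S] (φ : R →+* S) (β α x y d a b c : R) :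
    φ (cycP β α x y d a b c) = cycP (φ β) (φ α) (φ x) (φ y) (φ d) (φ a) (φ b) (φ c) := by
  simp only [cycP, map_add, map_sub, map_mul]

variable {F : Type*} [Field F]

local notation "M3" => Matrix (Fin 3) (Fin 3) F

theorem det_cols_cyc (β α x y d a b c : F) :
    (cols ![a, b, c] ((!![0, β, x; 1, α, y; 0, 0, d] : M3) *ᵥ ![a, b, c])
      ((!![0, β, x; 1, α, y; 0, 0, d] : M3) *ᵥ ((!![0, β, x; 1, α, y; 0, 0, d] : M3) *ᵥ ![a, b, c]))).det
      = cycP β α x y d a b c := by
  simp [cols, cycP, Matrix.det_fin_three, mulVec, dotProduct, Fin.sum_univ_three]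
  ring

/-- Non-cyclic normal forms, first kind. -/
theorem good_eigen_one (h3 : (3 : F) = 0) (x : F) :
    ∃ Q B : M3, Q.det ≠ 0 ∧ (!![0, -1, x; 1, -1, -x; 0, 0, 1] : M3) * Q = Q * B ∧ Good Jm B := by
  refine ⟨!![1, x, 0; -1, 0, 1; 0, 1, 0], !![1, 0, -1; 0, 1, 0; 0, 0, 1], ?_, ?_,
    Jm, !![0, 1, 0; -1, 0, 1; 0, 0, 1], ?_, ⟨1, by simp, by simp⟩, ?_⟩
  · simp [Matrix.det_fin_three]
  · ext i j
    fin_cases i <;> fin_cases j <;>
      simp [Matrix.mul_apply, Fin.sum_univ_three] <;>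
      first
        | linear_combination h3
        | linear_combination -h3
        | ring1
  · ext i j
    fin_cases i <;> fin_cases j <;>
      simp [Jm, Matrix.mul_apply, Fin.sum_univ_three]
  · have := isC_J_upper h3 0 1 (-1) 0 1 (by simp) (by simp)
    simpa using this

/-- Non-cyclic normal forms, second kind. -/
theorem good_eigen_two (h3 : (3 : F) = 0) (x : F) :
    ∃ Q B : M3, Q.det ≠ 0 ∧ (!![0, 1, x; 1, 0, x; 0, 0, -1] : M3) * Q = Q * B ∧ Good Jm B := by
  refine ⟨!![1, -x, 0; -1, 0, 1; 0, 1, 0], !![-1, 0, 1; 0, -1, 0; 0, 0, 1], ?_, ?_,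
    Jm, !![0, -1, 0; 1, 0, -1; 0, 0, 1], ?_, ⟨1, by simp, by simp⟩, ?_⟩
  · simp [Matrix.det_fin_three]
  · ext i j
    fin_cases i <;> fin_cases j <;>
      simp [Matrix.mul_apply, Fin.sum_univ_three] <;>
      first
        | linear_combination h3
        | linear_combination -h3
        | ring1
  · ext i j
    fin_cases i <;> fin_cases j <;>
      simp [Jm, Matrix.mul_apply, Fin.sum_univ_three]
  · have := isC_J_upper h3 0 (-1) 1 (0) (-1) (by simp) (by simp)
    simpa using this

/-- The case `q = 3`. -/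
theorem cc_J (h3 : (3 : F) = 0) (φ : ZMod 3 →+* F) (hφ : Function.Surjective φ)
    (hφi : Function.Injective φ) (hsq : ∀ d : F, d ≠ 0 → d * d = 1)
    (g : Matrix.SpecialLinearGroup (Fin 3) F) (hg : ∀ c : F, (g : M3) ≠ c • 1) :
    ∃ U V : Matrix.SpecialLinearGroup (Fin 3) F,
      g = (U * JSL * U⁻¹) * (V * JSL * V⁻¹) := by
  obtain ⟨v, hv⟩ := exists_not_eigen (g : M3) hg
  have hind : ∀ a b : F, a • v + b • ((g : M3) *ᵥ v) = 0 → a = 0 ∧ b = 0 := by
    intro a b hab
    by_cases hb : b = 0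
    · subst hb
      simp only [zero_smul, add_zero] at hab
      refine ⟨?_, rfl⟩
      by_contra ha
      have h0 : v = 0 := by
        rcases smul_eq_zero.1 hab with h | h
        · exact absurd h ha
        · exact h
      apply hv 0
      rw [h0]; simp
    · exfalso
      apply hv (-(a / b))
      have h1 : b • ((g : M3) *ᵥ v) = (-a) • v := by
        rw [neg_smul]
        exact eq_neg_of_add_eq_zero_right hab
      have h2 : (g : M3) *ᵥ v = b⁻¹ • (b • ((g : M3) *ᵥ v)) := by
        rw [smul_smul, inv_mul_cancel₀ hb, one_smul]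
      rw [h2, h1, smul_smul]
      congr 1
      field_simp
  obtain ⟨z, hz⟩ := exists_basis v ((g : M3) *ᵥ v) hind
  have hP : (cols v ((g : M3) *ᵥ v) z).det ≠ 0 := hz
  set P := cols v ((g : M3) *ᵥ v) z with hPdef
  have c0 := conj_col (g : M3) P hP ![1, 0, 0] ![0, 1, 0] (by
    rw [hPdef, cols_mulVec_zero, cols_mulVec_one])
  obtain ⟨a0, a1, a2⟩ := apply_zero _ _ _ _ c0
  have hgP := conj_eq (g : M3) P hP
  have hdA : (P⁻¹ * (g : M3) * P).det = 1 := by
    have hu : IsUnit P.det := isUnit_iff_ne_zero.2 hP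
    rw [Matrix.det_mul, Matrix.det_mul, Matrix.det_nonsing_inv, g.2, mul_one,
      Ring.inverse_mul_cancel _ hu]
  set A := P⁻¹ * (g : M3) * P with hAdef
  -- the reduction
  suffices hs : ∃ Q B : M3, Q.det ≠ 0 ∧ A * Q = Q * B ∧ Good Jm B by
    obtain ⟨Q, B, hQ, hAQ, M₁, M₂, hM, h₁, h₂⟩ := hs
    refine cc_of JSL Jm_comm g (P * Q) B M₁ M₂ ?_ ?_ hM h₁ h₂
    · rw [Matrix.det_mul]; exact mul_ne_zero hP hQ
    · rw [← mul_assoc, hgP, mul_assoc, hAQ, mul_assoc]
  have hAform : A = !![0, A 0 1, A 0 2; 1, A 1 1, A 1 2; 0, A 2 1, A 2 2] := by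
    ext i j
    fin_cases i <;> fin_cases j <;> simp [a0, a1, a2]
  by_cases hγ : A 2 1 = 0
  · -- an invariant plane
    have hdet' : A 0 1 * A 2 2 = -1 := by
      rw [Matrix.det_fin_three, a0, a1, a2, hγ] at hdA
      linear_combination -hdA
    have hd0 : A 2 2 ≠ 0 := by
      intro h; rw [h, mul_zero] at hdet'
      exact one_ne_zero (neg_eq_zero.1 hdet'.symm)
    have hβ : A 0 1 = -A 2 2 := by
      have := hsq _ hd0
      linear_combination (A 2 2) * hdet' - (A 0 1) * this
    obtain ⟨α', hα'⟩ := hφ (A 1 1)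
    obtain ⟨x', hx'⟩ := hφ (A 0 2)
    obtain ⟨y', hy'⟩ := hφ (A 1 2)
    obtain ⟨d', hd'⟩ := hφ (A 2 2)
    have hd'0 : d' ≠ 0 := by
      intro h; rw [h, map_zero] at hd'; exact hd0 hd'.symm
    have hAform2 : A = !![0, -(φ d'), φ x'; 1, φ α', φ y'; 0, 0, φ d'] := by
      conv_lhs => rw [hAform, hβ, hγ, ← hd', ← hx', ← hy', ← hα']
    rcases finite_check α' x' y' d' hd'0 with ⟨a, b, c, hc⟩ | ⟨h1, h2, h3'⟩ | ⟨h1, h2, h3'⟩
    · apply good_cyc h3 A hdA ![φ a, φ b, φ c]
      rw [hAform2, det_cols_cyc]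
      have := map_cycP φ (-d') α' x' y' d' a b c
      rw [map_neg] at this
      rw [← this]
      intro h0
      exact hc (hφi (by rw [h0, map_zero]))
    · have h5 : A = !![0, -1, φ x'; 1, -1, -φ x'; 0, 0, 1] := by
        rw [hAform2, h1, h2, h3']
        simp
      rw [h5]
      exact good_eigen_one h3 _
    · have h5 : A = !![0, 1, φ x'; 1, 0, φ x'; 0, 0, -1] := by
        rw [hAform2, h1, h2, h3']
        simp
      rw [h5]
      exact good_eigen_two h3 _
  · -- a cyclic vector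
    apply good_cyc h3 A hdA ![1, 0, 0]
    have e1 : A *ᵥ ![1, 0, 0] = ![0, 1, 0] := c0
    have e2 : A *ᵥ ![0, 1, 0] = ![A 0 1, A 1 1, A 2 1] := by
      ext i
      fin_cases i <;> simp [mulVec, dotProduct, Fin.sum_univ_three]
    rw [e1, e2]
    simp [cols, Matrix.det_fin_three]
    exact hγ

variable [Fintype F]

local notation "SL3" => Matrix.SpecialLinearGroup (Fin 3) F
local notation "PSL3" => Matrix.ProjectiveSpecialLinearGroup (Fin 3) F

/-- From `SL₃` to `PSL₃`. -/
theorem cc_psl (x : SL3) (h : ∀ g : SL3, (∀ c : F, (g : M3) ≠ c • 1) →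
      ∃ U V : SL3, g = (U * x * U⁻¹) * (V * x * V⁻¹)) (g : PSL3) (hg : g ≠ 1) :
    ∃ u v : PSL3, g = (u * (x : PSL3) * u⁻¹) * (v * (x : PSL3) * v⁻¹) := by
  obtain ⟨g', rfl⟩ := QuotientGroup.mk_surjective g
  have hns : ∀ c : F, (g' : M3) ≠ c • 1 := by
    intro c hc
    apply hg
    have := (Known.PG.mk_pow_eq_one_iff g' 1).2 ⟨c, by simpa using hc⟩
    simpa using this
  obtain ⟨U, V, hUV⟩ := h g' hns
  refine ⟨(U : PSL3), (V : PSL3), ?_⟩
  rw [hUV]
  rfl

/-- The main theorem. -/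
theorem main_cc (p : ℕ) [Fact p.Prime] [CharP F p] (h3 : 3 ≤ Fintype.card F) :
    ∃ x : PSL3, ¬ p ∣ orderOf x ∧ ∀ g : PSL3, g ≠ 1 →
      ∃ u v : PSL3, g = (u * x * u⁻¹) * (v * x * v⁻¹) := by
  have hpp : p.Prime := Fact.out
  by_cases hq : Fintype.card F = 3
  · -- `q = 3`
    have h30 : (3 : F) = 0 := by
      have := Nat.cast_card_eq_zero F
      rw [hq] at this
      exact_mod_cast this
    have hp3 : p = 3 := by
      have : ((3 : ℕ) : F) = 0 := by exact_mod_cast h30
      have h1 := (CharP.cast_eq_zero_iff F p 3).1 this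
      exact (Nat.prime_dvd_prime_iff_eq hpp Nat.prime_three).1 h1
    subst hp3
    have hsq : ∀ d : F, d ≠ 0 → d * d = 1 := by
      intro d hd
      have := FiniteField.pow_card_sub_one_eq_one d hd
      rw [hq] at this
      linear_combination this
    let φ : ZMod 3 →+* F := ZMod.castHom (dvd_refl 3) F
    have hφi : Function.Injective φ := φ.injective
    have hφ : Function.Surjective φ :=
      ((Fintype.bijective_iff_injective_and_card φ).2 ⟨hφi, by rw [ZMod.card, hq]⟩).2
    refine ⟨((JSL : SL3) : PSL3), ?_, fun g hg => cc_psl JSL (cc_J h30 φ hφ hφi hsq) g hg⟩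
    have h4 : ((JSL : SL3) : PSL3) ^ 4 = 1 := by
      rw [Known.PG.mk_pow_eq_one_iff]
      refine ⟨1, ?_⟩
      change (Jm : M3) ^ 4 = _
      have h2 : (Jm : M3) ^ 2 = !![-1, 0, 0; 0, -1, 0; 0, 0, 1] := by
        rw [pow_two]
        ext i j
        fin_cases i <;> fin_cases j <;> simp [Jm, Matrix.mul_apply, Fin.sum_univ_three]
      rw [show (4 : ℕ) = 2 + 2 from rfl, pow_add, h2]
      ext i j
      fin_cases i <;> fin_cases j <;> simp [Matrix.mul_apply, Fin.sum_univ_three]
    have hd := orderOf_dvd_of_pow_eq_one h4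
    intro h
    have := h.trans hd
    omega
  · -- `q ≥ 4`
    classical
    have h4 : 4 ≤ Fintype.card F := by omega
    obtain ⟨a, ha⟩ : ∃ a : F, a ∉ ({0, 1, -1} : Finset F) := by
      by_contra hcon
      push Not at hcon
      have h1 : (Finset.univ : Finset F) ⊆ {0, 1, -1} := fun a _ => hcon a
      have h2 := Finset.card_le_card h1
      have h3 : ({0, 1, -1} : Finset F).card ≤ 3 := Finset.card_le_three
      rw [Finset.card_univ] at h2
      omega
    simp only [Finset.mem_insert, Finset.mem_singleton, not_or] at ha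
    obtain ⟨ha0, ha1, ham⟩ := ha
    have ha2 : a * a ≠ 1 := by
      intro h
      have h' : (a - 1) * (a + 1) = 0 := by linear_combination h
      rcases mul_eq_zero.1 h' with h1 | h1
      · exact ha1 (sub_eq_zero.1 h1)
      · exact ham (eq_neg_of_add_eq_zero_left h1)
    refine ⟨((DSL a ha0 : SL3) : PSL3), ?_,
      fun g hg => cc_psl (DSL a ha0) (cc_D a ha0 ha1 ha2) g hg⟩
    have hpow : ((DSL a ha0 : SL3) : PSL3) ^ (Fintype.card F - 1) = 1 := by
      rw [Known.PG.mk_pow_eq_one_iff]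
      refine ⟨1, ?_⟩
      change (Dm a : M3) ^ _ = _
      have hD : (Dm a : M3) = Matrix.diagonal ![a, a⁻¹, 1] := by
        ext i j
        fin_cases i <;> fin_cases j <;> simp [Dm, Dm']
      rw [hD, Matrix.diagonal_pow]
      have e1 := FiniteField.pow_card_sub_one_eq_one a ha0
      have e2 := FiniteField.pow_card_sub_one_eq_one a⁻¹ (inv_ne_zero ha0)
      ext i j
      by_cases hij : i = j
      · subst hij
        fin_cases i <;> simp [e1, e2, Matrix.one_apply]
      · simp [Matrix.diagonal_apply_ne, hij, Matrix.one_apply]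
    have hd := orderOf_dvd_of_pow_eq_one hpow
    intro h
    have h1 : p ∣ Fintype.card F - 1 := h.trans hd
    have h2 : p ∣ Fintype.card F := (CharP.cast_eq_zero_iff F p _).1 (Nat.cast_card_eq_zero F)
    have h3' := Nat.dvd_sub h2 h1
    rw [show Fintype.card F - (Fintype.card F - 1) = 1 by omega] at h3'
    exact hpp.one_lt.ne' (Nat.dvd_one.1 h3')

end Cfsg.Agent.Lib.Known.CC3
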