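import Mathlib

set_option autoImplicit false

/-! Fourier analysis of a representation of a finite additive group, and a Heisenberg-type
dimension bound. -/

namespace Cfsg.Agent.Lib.Known

open scoped BigOperators

section Joint

variable {ι Y M K : Type*} [Field K] [AddCommGroup M] [Module K M]

/-- Joint eigenvectors with pairwise distinct eigenvalue functions are linearly independent. -/
theorem linearIndependent_of_joint (T : Y → M →ₗ[K] M) (v : ι → M) (lam : ι → Y → K)
    (hv : ∀ i, v i ≠ 0) (hT : ∀ y i, T y (v i) = lam i y • v i)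
    (hd : ∀ i j, i ≠ j → ∃ y, lam i y ≠ lam j y) : LinearIndependent K v := by
  classical
  rw [linearIndependent_iff']
  intro s
  induction s using Finset.induction_on with
  | empty => simp
  | insert a s ha ih =>
    intro g hg
    rw [Finset.sum_insert ha] at hg
    have hs : ∀ i ∈ s, g i = 0 := by
      intro j hj
      have hja : j ≠ a := fun h => ha (h ▸ hj)
      obtain ⟨y, hy⟩ := hd j a hja
      have h1 : ∑ i ∈ s, (g i * (lam i y - lam a y)) • v i = 0 := by
        have h2 := congrArg (T y) hg
        simp only [map_add, map_smul, map_sum, map_zero, hT] at h2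
        have h3 : ∑ i ∈ s, (g i * (lam i y - lam a y)) • v i =
            (g a • lam a y • v a + ∑ i ∈ s, g i • lam i y • v i) -
              lam a y • (g a • v a + ∑ i ∈ s, g i • v i) := by
          rw [smul_add, Finset.smul_sum, add_sub_add_comm, ← Finset.sum_sub_distrib, smul_comm, sub_self, zero_add]
          refine Finset.sum_congr rfl fun i _ => ?_
          rw [mul_sub, sub_smul, mul_smul, mul_smul, smul_comm (lam a y)]
        rw [h3, h2, hg, smul_zero, sub_zero]
      have h4 := ih (fun i => g i * (lam i y - lam a y)) h1 j hj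
      rcases mul_eq_zero.mp h4 with h5 | h5
      · exact h5
      · exact absurd (sub_eq_zero.mp h5) hy
    intro i hi
    rw [Finset.mem_insert] at hi
    rcases hi with rfl | hi
    · have h6 : ∑ i ∈ s, g i • v i = 0 :=
        Finset.sum_eq_zero fun j hj => by rw [hs j hj, zero_smul]
      rw [h6, add_zero] at hg
      exact (smul_eq_zero.mp hg).resolve_right (hv i)
    · exact hs i hi

/-- The Heisenberg type bound. -/
theorem card_le_finrank_sq {W : Type*} [AddCommGroup W] [Module K W] [FiniteDimensional K W]
    [Finite ι] (A : ι → Module.End K W) (B B' : Y → Module.End K W) (lam : ι → Y → K)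
    (hA : ∀ i, A i ≠ 0) (hrel : ∀ y i, B y * A i * B' y = lam i y • A i)
    (hd : ∀ i j, i ≠ j → ∃ y, lam i y ≠ lam j y) :
    Nat.card ι ≤ Module.finrank K W * Module.finrank K W := by
  classical
  let T : Y → Module.End K W →ₗ[K] Module.End K W := fun y =>
    (LinearMap.mulLeft K (B y)).comp (LinearMap.mulRight K (B' y))
  have hT : ∀ y i, T y (A i) = lam i y • A i := by
    intro y i
    simp only [T, LinearMap.comp_apply, LinearMap.mulLeft_apply, LinearMap.mulRight_apply]
    rw [← mul_assoc, hrel]
  have hli := linearIndependent_of_joint T A lam hA hT hd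
  haveI := Fintype.ofFinite ι
  have h1 := hli.fintype_card_le_finrank
  rw [Module.finrank_linearMap, Nat.card_eq_fintype_card] at *
  exact h1

end Joint

section Fourier

variable {A E K V : Type*} [AddCommGroup A] [Fintype A] [Fintype E] [DecidableEq E] [Field K]
  [AddCommGroup V] [Module K V]

/-- The Fourier projector. -/
noncomputable def fP (z : A → Module.End K V) (χ : E → A → K) (e : E) : Module.End K V :=
  ((Fintype.card A : K)⁻¹) • ∑ a, χ e (-a) • z a

variable (z : A → Module.End K V) (hzadd : ∀ a b, z (a + b) = z a * z b)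
  (χ : E → A → K) (hχadd : ∀ e a b, χ e (a + b) = χ e a * χ e b)

include hzadd hχadd in
theorem z_mul_fP (c : A) (e : E) : z c * fP z χ e = χ e c • fP z χ e := by
  unfold fP
  rw [mul_smul_comm, smul_comm]
  congr 1
  rw [Finset.mul_sum, Finset.smul_sum]
  refine Fintype.sum_equiv (Equiv.addLeft c) _ _ fun a => ?_
  simp only [Equiv.coe_addLeft]
  rw [mul_smul_comm, ← hzadd, smul_smul, ← hχadd]
  congr 2
  abel

include hzadd hχadd in
theorem fP_mul_z (c : A) (e : E) : fP z χ e * z c = χ e c • fP z χ e := by
  unfold fP
  rw [smul_mul_assoc, smul_comm]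
  congr 1
  rw [Finset.sum_mul, Finset.smul_sum]
  refine Fintype.sum_equiv (Equiv.addRight c) _ _ fun a => ?_
  simp only [Equiv.coe_addRight]
  rw [smul_mul_assoc, ← hzadd, smul_smul, ← hχadd]
  congr 2
  abel

include hzadd hχadd in
theorem fP_mul_fP (horth : ∀ e e', ∑ a, χ e (-a) * χ e' a = if e = e' then (Fintype.card A : K) else 0)
    (hq : (Fintype.card A : K) ≠ 0) (e e' : E) :
    fP z χ e * fP z χ e' = if e = e' then fP z χ e' else 0 := by
  have h1 : fP z χ e * fP z χ e' = ((Fintype.card A : K)⁻¹ * ∑ a, χ e (-a) * χ e' a) • fP z χ e' := by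
    conv_lhs => rw [fP.eq_def z χ e]
    rw [smul_mul_assoc, Finset.sum_mul, mul_smul, Finset.sum_smul]
    congr 1
    refine Finset.sum_congr rfl fun a _ => ?_
    rw [smul_mul_assoc, z_mul_fP z hzadd χ hχadd, smul_smul]
  rw [h1, horth]
  split_ifs with h
  · rw [inv_mul_cancel₀ hq, one_smul]
  · simp

omit [DecidableEq E] in
theorem sum_fP [DecidableEq A] (hsum : ∀ a, ∑ e, χ e (-a) = if a = 0 then (Fintype.card A : K) else 0)
    (hq : (Fintype.card A : K) ≠ 0) (hz0 : z 0 = 1) : ∑ e, fP z χ e = 1 := by
  unfold fP
  rw [← Finset.smul_sum, Finset.sum_comm]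
  simp only [← Finset.sum_smul, hsum]
  rw [Finset.sum_eq_single 0]
  · simp only [if_true, hz0]
    rw [smul_smul, inv_mul_cancel₀ hq, one_smul]
  · intro a _ ha
    rw [if_neg ha, zero_smul]
  · simp

end Fourier

section Idem

variable {E K V : Type*} [Fintype E] [DecidableEq E] [Field K] [AddCommGroup V] [Module K V]
  [FiniteDimensional K V]

/-- Orthogonal idempotents have independent ranges. -/
theorem sum_finrank_range_le (P : E → Module.End K V)
    (hP : ∀ e e', P e * P e' = if e = e' then P e' else 0) :
    ∑ e, Module.finrank K (LinearMap.range (P e)) ≤ Module.finrank K V := by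
  let f : (∀ e, LinearMap.range (P e)) →ₗ[K] V :=
    ∑ e, (LinearMap.range (P e)).subtype.comp (LinearMap.proj e)
  have hf : ∀ w, f w = ∑ e, (w e : V) := by
    intro w
    simp [f, LinearMap.sum_apply]
  have hinj : Function.Injective f := by
    rw [injective_iff_map_eq_zero]
    intro w hw
    funext e₀
    have h1 : ∀ e, P e₀ (w e : V) = if e₀ = e then (w e : V) else 0 := by
      intro e
      obtain ⟨v, hv⟩ := (w e).2
      rw [← hv]
      have := congrArg (fun T : Module.End K V => T v) (hP e₀ e)
      simp only [Module.End.mul_apply] at this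
      rw [this]
      split_ifs <;> simp
    have h2 := congrArg (P e₀) hw
    rw [hf, map_sum, map_zero] at h2
    simp only [h1] at h2
    rw [Finset.sum_ite_eq, if_pos (Finset.mem_univ _)] at h2
    exact Subtype.ext h2
  have := LinearMap.finrank_le_finrank_of_injective hinj
  rwa [Module.finrank_pi_fintype] at this

/-- Conjugation by an injective map does not decrease the rank. -/
theorem finrank_range_le_of_conj (P P' g g' : Module.End K V) (hg : g' * g = 1) (h : g * P = P' * g) :
    Module.finrank K (LinearMap.range P) ≤ Module.finrank K (LinearMap.range P') := by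
  have hmaps : ∀ x ∈ LinearMap.range P, g x ∈ LinearMap.range P' := by
    rintro _ ⟨v, rfl⟩
    refine ⟨g v, ?_⟩
    have := congrArg (fun T : Module.End K V => T v) h
    simpa using this.symm
  let r : LinearMap.range P →ₗ[K] LinearMap.range P' := g.restrict hmaps
  have hinj : Function.Injective r := by
    rw [injective_iff_map_eq_zero]
    intro x hx
    have h1 : g (x : V) = 0 := congrArg Subtype.val hx
    have h2 : (g' * g) (x : V) = 0 := by
      simp [h1]
    rw [hg] at h2
    exact Subtype.ext (by simpa using h2)
  exact LinearMap.finrank_le_finrank_of_injective hinj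

end Idem

section BaseChange

variable {G K : Type*} [Group G] [Field K] {d : ℕ}

/-- Base change of a matrix representation, with values in linear endomorphisms. -/
noncomputable def baseHom (ρ : G →* GL (Fin d) K) (L : Type*) [Field L] [Algebra K L] :
    G →* Module.End L (Fin d → L) :=
  ((Matrix.toLinAlgEquiv' (R := L) (n := Fin d) : _ ≃ₐ[L] _).toAlgHom.toRingHom.toMonoidHom).comp
    (((algebraMap K L).mapMatrix (m := Fin d)).toMonoidHom.comp
      ((Units.coeHom (Matrix (Fin d) (Fin d) K)).comp ρ))

theorem eq_one_of_baseHom (ρ : G →* GL (Fin d) K) (L : Type*) [Field L] [Algebra K L] (g : G)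
    (h : baseHom ρ L g = 1) : ρ g = 1 := by
  have h1 : (((ρ g : GL (Fin d) K) : Matrix (Fin d) (Fin d) K)).map (algebraMap K L) = 1 := by
    have h2 : Matrix.toLin' ((((ρ g : GL (Fin d) K) : Matrix (Fin d) (Fin d) K)).map (algebraMap K L)) = 1 := h
    have h3 : Matrix.toLin' ((1 : Matrix (Fin d) (Fin d) L)) = 1 := Matrix.toLin'_one
    exact Matrix.toLin'.injective (h2.trans h3.symm)
  apply Units.ext
  ext i j
  have h5 := congrFun (congrFun h1 i) j
  simp only [Matrix.map_apply] at h5
  apply (algebraMap K L).injective
  rw [h5]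
  simp [Matrix.one_apply, apply_ite (algebraMap K L)]

end BaseChange

section Count

variable {E K V X : Type*} [Fintype E] [DecidableEq E] [Field K] [AddCommGroup V] [Module K V]
  [FiniteDimensional K V] [Fintype X]

/-- Nonzero orthogonal idempotents are at most as many as the dimension. -/
theorem card_le_finrank_of_injective (P : E → Module.End K V)
    (hP : ∀ e e', P e * P e' = if e = e' then P e' else 0) (f : X → E) (hf : Function.Injective f)
    (hne : ∀ x, P (f x) ≠ 0) : Fintype.card X ≤ Module.finrank K V := by
  classical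
  have hpos : ∀ x, 1 ≤ Module.finrank K (LinearMap.range (P (f x))) := by
    intro x
    have h1 : LinearMap.range (P (f x)) ≠ ⊥ := by
      intro h
      exact hne x (LinearMap.range_eq_bot.mp h)
    haveI := Submodule.nontrivial_iff_ne_bot.mpr h1
    exact Module.finrank_pos
  calc Fintype.card X = ∑ x : X, 1 := by simp
    _ ≤ ∑ x : X, Module.finrank K (LinearMap.range (P (f x))) :=
        Finset.sum_le_sum fun x _ => hpos x
    _ = ∑ e ∈ Finset.univ.image f, Module.finrank K (LinearMap.range (P e)) := by
        rw [Finset.sum_image (fun a _ b _ h => hf h)]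
    _ ≤ ∑ e, Module.finrank K (LinearMap.range (P e)) :=
        Finset.sum_le_sum_of_subset (Finset.subset_univ _)
    _ ≤ Module.finrank K V := sum_finrank_range_le P hP

end Count

end Cfsg.Agent.Lib.Known
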