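import Cfsg.Agent.Lib.Known.GLFlag1

set_option autoImplicit false
set_option linter.unusedVariables false
set_option linter.unusedSectionVars false

/-! The degree formula for the unipotent characters of `GL_n(q)`. -/

namespace Cfsg.Agent.Lib.Known.GLFlag

open Cfsg Finset Matrix Polynomial
open scoped MatrixGroups

variable {n : ℕ}

theorem Qi_add (q a b : ℕ) : Qi q (a + b) = Qi q a + q ^ a * Qi q b := by
  unfold Qi
  rw [sum_range_add, mul_sum]
  congr 1
  apply sum_congr rfl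
  intro x _
  rw [pow_add]

/-- The polynomial `∏_{k<j} (X - Q(k))`. -/
noncomputable def fj (q j : ℕ) : ℂ[X] := ∏ k ∈ range j, (X - C ((Qi q k : ℕ) : ℂ))

theorem fj_monic (q j : ℕ) : (fj q j).Monic := monic_prod_X_sub_C _ _

theorem fj_natDegree (q j : ℕ) : (fj q j).natDegree = j := by
  unfold fj
  rw [natDegree_prod_of_monic]
  · simp only [natDegree_X_sub_C]
    simp
  · intro i _
    exact monic_X_sub_C _

theorem fj_eval (q j : ℕ) (x : ℂ) : (fj q j).eval x = ∏ k ∈ range j, (x - ((Qi q k : ℕ) : ℂ)) := by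
  unfold fj
  rw [eval_prod]
  simp

theorem fj_eval_zero {q j l : ℕ} (h : l < j) : (fj q j).eval ((Qi q l : ℕ) : ℂ) = 0 := by
  rw [fj_eval]
  apply prod_eq_zero (mem_range.mpr h)
  simp

theorem Qf_rec (q l : ℕ) {j : ℕ} (h : j ≤ l) :
    ((Qf q l : ℕ) : ℂ) * (q : ℂ) ^ (j.choose 2) = ((Qf q (l - j) : ℕ) : ℂ) * (fj q j).eval ((Qi q l : ℕ) : ℂ) := by
  induction j with
  | zero =>
    simp [fj]
  | succ j ih =>
    have h1 := ih (by omega)
    have h2 : l - j = (l - (j + 1)) + 1 := by omega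
    have h3 : Qf q (l - j) = Qf q (l - (j + 1)) * Qi q (l - (j + 1) + 1) := by
      rw [h2, Qf_succ]
    have h4 : (j + 1).choose 2 = j.choose 2 + j := by
      rw [Nat.choose_succ_succ' j 1, Nat.choose_one_right]
      ring
    have h5 : Qi q l = Qi q j + q ^ j * Qi q (l - (j + 1) + 1) := by
      rw [← Qi_add]
      congr 1
      omega
    have h6 : (fj q (j + 1)).eval ((Qi q l : ℕ) : ℂ) =
        (fj q j).eval ((Qi q l : ℕ) : ℂ) * (((Qi q l : ℕ) : ℂ) - ((Qi q j : ℕ) : ℂ)) := by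
      rw [fj_eval, fj_eval, prod_range_succ]
    rw [h6, h4, pow_add, ← mul_assoc, h1]
    rw [h3]
    have h7 : ((Qi q l : ℕ) : ℂ) - ((Qi q j : ℕ) : ℂ) = (q : ℂ) ^ j * ((Qi q (l - (j + 1) + 1) : ℕ) : ℂ) := by
      rw [h5]
      push_cast
      ring
    rw [h7]
    push_cast
    ring

theorem fp_one {G : Type*} [Group G] (H : Subgroup G) :
    fixedPointCharacter H 1 = ((Nat.card (G ⧸ H) : ℕ) : ℂ) := by
  unfold fixedPointCharacter
  congr 1
  apply Nat.card_congr
  refine ⟨fun y => y.1, fun y => ⟨y, one_smul _ _⟩, fun y => rfl, fun y => rfl⟩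

theorem sum_comp {ν : Fin n → ℕ} (hsum : ∑ i, ν i = n) (κ : Equiv.Perm (Fin n))
    (h : ∀ i : Fin n, (κ i).val ≤ ν i + i.val) : ∑ i : Fin n, (ν i + i.val - (κ i).val) = n := by
  have h1 : ∑ i : Fin n, (κ i).val = ∑ i : Fin n, i.val := Equiv.sum_comp κ (fun i : Fin n => i.val)
  have h2 : ∑ i : Fin n, (ν i + i.val - (κ i).val) + ∑ i : Fin n, (κ i).val = ∑ i, (ν i + i.val) := by
    rw [← sum_add_distrib]
    apply sum_congr rfl
    intro i _
    have := h i
    omega
  rw [sum_add_distrib, hsum] at h2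
  omega

theorem sum_choose_eq (n : ℕ) : n * (n - 1) * (n - 2) = 6 * ∑ j ∈ range n, j.choose 2 := by
  induction n with
  | zero => simp
  | succ n ih =>
    rw [sum_range_succ, mul_add, ← ih]
    have h := two_choose n
    cases n with
    | zero => simp
    | succ m =>
      cases m with
      | zero => simp
      | succ k =>
        simp only [Nat.add_sub_cancel, show k + 1 + 1 + 1 - 1 = k + 2 by omega,
          show k + 1 + 1 + 1 - 2 = k + 1 by omega, show k + 1 + 1 - 1 = k + 1 by omega, show k + 1 + 1 - 2 = k by omega] at *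
        nlinarith

theorem div_six_eq (n : ℕ) : n * (n - 1) * (n - 2) / 6 = ∑ j ∈ range n, j.choose 2 := by
  rw [sum_choose_eq]
  simp

/-- **The degree formula.** -/
theorem degree_formula {F : Type*} [Field F] [Fintype F] {q : ℕ} (hq : Fintype.card F = q) (ν : Fin n → ℕ)
    (hsum : ∑ i, ν i = n) :
    unipotentCharacterGL n F ν 1 * (q : ℂ) ^ (∑ j ∈ range n, j.choose 2) * ∏ i : Fin n, ((Qf q (ν i + i.val) : ℕ) : ℂ) =
      ((Qf q n : ℕ) : ℂ) * ∏ i : Fin n, ∏ j ∈ Ioi i,
        (((Qi q (ν j + j.val) : ℕ) : ℂ) - ((Qi q (ν i + i.val) : ℕ) : ℂ)) := by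
  classical
  set x : Fin n → ℂ := fun i => ((Qi q (ν i + i.val) : ℕ) : ℂ) with hx
  have hdet := Matrix.det_eval_matrixOfPolynomials_eq_det_vandermonde x (fun j : Fin n => fj q j.val)
    (fun j => fj_natDegree q j.val) (fun j => fj_monic q j.val)
  rw [Matrix.det_vandermonde] at hdet
  rw [hdet]
  -- term by term
  have hterm : ∀ κ : Equiv.Perm (Fin n),
      (if ∀ i : Fin n, (κ i).val ≤ ν i + i.val then
        ((Equiv.Perm.sign κ : ℤ) : ℂ) * fixedPointCharacter (parabolicGL n F fun i => ν i + i.val - (κ i).val) (1 : GL (Fin n) F)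
       else 0) * (q : ℂ) ^ (∑ j ∈ range n, j.choose 2) * ∏ i : Fin n, ((Qf q (ν i + i.val) : ℕ) : ℂ) =
      ((Qf q n : ℕ) : ℂ) * (((Equiv.Perm.sign κ : ℤ) : ℂ) * ∏ i : Fin n, (fj q (κ i).val).eval (x i)) := by
    intro κ
    by_cases h : ∀ i : Fin n, (κ i).val ≤ ν i + i.val
    · rw [if_pos h, fp_one]
      have h1 := index_parabolic (F := F) hq (sum_comp hsum κ h)
      have h2 : (q : ℂ) ^ (∑ j ∈ range n, j.choose 2) = ∏ i : Fin n, (q : ℂ) ^ ((κ i).val.choose 2) := by
        rw [prod_pow_eq_pow_sum]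
        congr 1
        rw [Equiv.sum_comp κ (fun i : Fin n => i.val.choose 2)]
        exact (Fin.sum_univ_eq_sum_range (fun j => j.choose 2) n).symm
      have h3 : (∏ i : Fin n, (q : ℂ) ^ ((κ i).val.choose 2)) * ∏ i : Fin n, ((Qf q (ν i + i.val) : ℕ) : ℂ) =
          (∏ i : Fin n, ((Qf q (ν i + i.val - (κ i).val) : ℕ) : ℂ)) * ∏ i : Fin n, (fj q (κ i).val).eval (x i) := by
        rw [← prod_mul_distrib, ← prod_mul_distrib]
        apply prod_congr rfl
        intro i _
        rw [mul_comm]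
        exact Qf_rec q (ν i + i.val) (h i)
      have h4 : ((Nat.card (GL (Fin n) F ⧸ parabolicGL n F fun i => ν i + i.val - (κ i).val) : ℕ) : ℂ) *
          ∏ i : Fin n, ((Qf q (ν i + i.val - (κ i).val) : ℕ) : ℂ) = ((Qf q n : ℕ) : ℂ) := by
        rw [← h1]
        push_cast
        rfl
      rw [h2]
      calc _ = ((Equiv.Perm.sign κ : ℤ) : ℂ) * ((Nat.card (GL (Fin n) F ⧸ parabolicGL n F fun i => ν i + i.val - (κ i).val) : ℕ) : ℂ) *
            ((∏ i : Fin n, (q : ℂ) ^ ((κ i).val.choose 2)) * ∏ i : Fin n, ((Qf q (ν i + i.val) : ℕ) : ℂ)) := by ring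
        _ = _ := by
          rw [h3, ← h4]
          ring
    · rw [if_neg h]
      push Not at h
      obtain ⟨i, hi⟩ := h
      have h0 : ∏ i : Fin n, (fj q (κ i).val).eval (x i) = 0 :=
        prod_eq_zero (mem_univ i) (fj_eval_zero hi)
      rw [h0]
      ring
  unfold unipotentCharacterGL
  rw [sum_mul, sum_mul, sum_congr rfl (fun κ _ => hterm κ), ← mul_sum]
  congr 1
  rw [← Matrix.det_transpose, Matrix.det_apply']
  apply sum_congr rfl
  intro κ _
  congr 1

end Cfsg.Agent.Lib.Known.GLFlag
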