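import Cfsg.Agent.Lib.Known.GLFlag2

set_option autoImplicit false
set_option linter.unusedVariables false
set_option linter.unusedSectionVars false

/-! The Bruhat decomposition of `GL_n` over a field. -/

namespace Cfsg.Agent.Lib.Known.GLFlag

open Cfsg Finset Matrix
open scoped MatrixGroups

variable {n : ℕ} {F : Type*} [Field F]

/-- Block triangular invertible matrices. -/
def bt (F : Type*) [Field F] (ℓ : Fin n → ℕ) : Subgroup (GL (Fin n) F) where
  carrier := {g | (g : Matrix (Fin n) (Fin n) F).BlockTriangular ℓ}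
  mul_mem' := fun {a} {b} ha hb => by
    change ((a : Matrix (Fin n) (Fin n) F) * (b : Matrix (Fin n) (Fin n) F)).BlockTriangular ℓ
    exact Matrix.BlockTriangular.mul ha hb
  one_mem' := by
    change (1 : Matrix (Fin n) (Fin n) F).BlockTriangular ℓ
    exact Matrix.blockTriangular_one
  inv_mem' := fun {a} ha => by
    change ((a⁻¹ : GL (Fin n) F) : Matrix (Fin n) (Fin n) F).BlockTriangular ℓ
    have : Invertible (a : Matrix (Fin n) (Fin n) F) := a.invertible
    rw [Matrix.coe_units_inv]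
    exact Matrix.blockTriangular_inv_of_blockTriangular ha

theorem mem_bt {ℓ : Fin n → ℕ} {g : GL (Fin n) F} :
    g ∈ bt F ℓ ↔ ∀ i j, ℓ j < ℓ i → (g : Matrix (Fin n) (Fin n) F) i j = 0 := by
  constructor
  · intro h i j hij
    exact h hij
  · intro h i j hij
    exact h i j hij

theorem bt_id_le {ℓ : Fin n → ℕ} (hℓ : Monotone ℓ) : bt F (fun i : Fin n => i.val) ≤ bt F ℓ := by
  intro g hg
  rw [mem_bt] at hg ⊢
  intro i j hij
  apply hg
  by_contra hc
  have h1 : i ≤ j := by
    rw [Fin.le_def]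
    omega
  have := hℓ h1
  omega

theorem parabolicGL_eq (μ : Fin n → ℕ) : parabolicGL n F μ = bt F (compLabel μ) := rfl

/-- The permutation matrices. -/
def pm (F : Type*) [Field F] (σ : Equiv.Perm (Fin n)) : Matrix (Fin n) (Fin n) F :=
  Matrix.of fun i j => if i = σ j then 1 else 0

theorem pm_mul (σ τ : Equiv.Perm (Fin n)) : pm F (σ * τ) = pm F σ * pm F τ := by
  ext i j
  simp only [pm, Matrix.mul_apply, Matrix.of_apply, Equiv.Perm.mul_apply]
  rw [Finset.sum_eq_single (τ j)]
  · simp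
    rfl
  · intro b _ hb
    simp [hb]
  · simp

theorem pm_one : pm F (1 : Equiv.Perm (Fin n)) = 1 := by
  ext i j
  simp [pm, Matrix.one_apply]
  rfl

/-- The permutation matrices, as a homomorphism. -/
def pmG (F : Type*) [Field F] : Equiv.Perm (Fin n) →* GL (Fin n) F where
  toFun σ := ⟨pm F σ, pm F σ⁻¹, by rw [← pm_mul]; simp [pm_one], by rw [← pm_mul]; simp [pm_one]⟩
  map_one' := by
    apply Units.ext
    exact pm_one
  map_mul' σ τ := by
    apply Units.ext
    exact pm_mul σ τ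

@[simp] theorem pmG_val (σ : Equiv.Perm (Fin n)) : ((pmG F σ : GL (Fin n) F) : Matrix (Fin n) (Fin n) F) = pm F σ := rfl

theorem unit_upper {M : Matrix (Fin n) (Fin n) F} (h1 : ∀ i j : Fin n, j < i → M i j = 0) (h2 : ∀ i, M i i = 1) :
    ∃ T : GL (Fin n) F, T ∈ bt F (fun i : Fin n => i.val) ∧ (T : Matrix (Fin n) (Fin n) F) = M := by
  have hdet : M.det = 1 := by
    rw [Matrix.det_of_upperTriangular]
    · simp [h2]
    · intro i j hij
      exact h1 i j hij
  refine ⟨Matrix.GeneralLinearGroup.mkOfDetNeZero M (by rw [hdet]; exact one_ne_zero), ?_, rfl⟩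
  rw [mem_bt]
  intro i j hij
  exact h1 i j hij

/-- A row elimination. -/
theorem row_elim (h : Matrix (Fin n) (Fin n) F) (i₀ j : Fin n) :
    ∃ T : GL (Fin n) F, T ∈ bt F (fun i : Fin n => i.val) ∧
      ∀ a b, ((T : Matrix (Fin n) (Fin n) F) * h) a b = h a b + (if a < i₀ then (-(h a j / h i₀ j)) * h i₀ b else 0) := by
  classical
  obtain ⟨T, hT, e⟩ := unit_upper (M := Matrix.of fun a b =>
      if a = b then (1 : F) else if b = i₀ ∧ a < i₀ then -(h a j / h i₀ j) else 0) (by
    intro a b hab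
    have h1 : a ≠ b := (ne_of_lt hab).symm
    have h2 : ¬ (b = i₀ ∧ a < i₀) := by
      rintro ⟨rfl, h3⟩
      exact absurd hab (not_lt.mpr (le_of_lt h3))
    simp [h1, h2]) (by intro a; simp)
  refine ⟨T, hT, ?_⟩
  intro a b
  rw [e, Matrix.mul_apply]
  by_cases ha : a < i₀
  · have hne : a ≠ i₀ := ne_of_lt ha
    rw [if_pos ha, Finset.sum_eq_add a i₀ hne]
    · simp [hne, ha]
    · intro c _ hc
      obtain ⟨hc1, hc2⟩ := hc
      have h1 : a ≠ c := fun h => hc1 h.symm
      simp [h1, hc2]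
    · simp
    · simp
  · rw [if_neg ha, add_zero, Finset.sum_eq_single a]
    · simp
    · intro c _ hc
      have h1 : a ≠ c := fun h => hc h.symm
      have h2 : ¬ (c = i₀ ∧ a < i₀) := fun h => ha h.2
      simp [h1, h2]
    · simp

/-- A column elimination. -/
theorem col_elim (h : Matrix (Fin n) (Fin n) F) (i₀ j : Fin n) :
    ∃ S : GL (Fin n) F, S ∈ bt F (fun i : Fin n => i.val) ∧
      ∀ a b, (h * (S : Matrix (Fin n) (Fin n) F)) a b = h a b + (if j < b then h a j * (-(h i₀ b / h i₀ j)) else 0) := by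
  classical
  obtain ⟨S, hS, e⟩ := unit_upper (M := Matrix.of fun a b =>
      if a = b then (1 : F) else if a = j ∧ j < b then -(h i₀ b / h i₀ j) else 0) (by
    intro a b hab
    have h1 : a ≠ b := (ne_of_lt hab).symm
    have h2 : ¬ (a = j ∧ j < b) := by
      rintro ⟨rfl, h3⟩
      exact absurd hab (not_lt.mpr (le_of_lt h3))
    simp [h1, h2]) (by intro a; simp)
  refine ⟨S, hS, ?_⟩
  intro a b
  rw [e, Matrix.mul_apply]
  by_cases hb : j < b
  · have hne : b ≠ j := ne_of_gt hb
    rw [if_pos hb, Finset.sum_eq_add b j hne]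
    · simp [hne, hb, hne.symm]
    · intro c _ hc
      obtain ⟨hc1, hc2⟩ := hc
      have h1 : c ≠ b := hc1
      simp [h1, hc2]
    · simp
    · simp
  · rw [if_neg hb, add_zero, Finset.sum_eq_single b]
    · simp
    · intro c _ hc
      have h2 : ¬ (c = j ∧ j < b) := fun h => hb h.2
      simp [hc, h2]
    · simp

/-- The invariant of the elimination. -/
def Piv (h : Matrix (Fin n) (Fin n) F) (j : ℕ) : Prop :=
  ∀ k : Fin n, k.val < j → ∃ i, h i k ≠ 0 ∧ (∀ i', i' ≠ i → h i' k = 0) ∧ ∀ k', k' ≠ k → h i k' = 0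

theorem Piv_step {h : Matrix (Fin n) (Fin n) F} (hu : IsUnit h.det) {j : ℕ} (hj : j < n) (hP : Piv h j) :
    ∃ A C : GL (Fin n) F, A ∈ bt F (fun i : Fin n => i.val) ∧ C ∈ bt F (fun i : Fin n => i.val) ∧
      Piv ((A : Matrix (Fin n) (Fin n) F) * h * (C : Matrix (Fin n) (Fin n) F)) (j + 1) := by
  classical
  set jj : Fin n := ⟨j, hj⟩ with hjj
  -- the column is non-zero
  have hne : (univ.filter (fun i : Fin n => h i jj ≠ 0)).Nonempty := by
    by_contra hc
    rw [Finset.not_nonempty_iff_eq_empty, Finset.filter_eq_empty_iff] at hc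
    have : h.det = 0 := by
      apply Matrix.det_eq_zero_of_column_eq_zero jj
      intro i
      simpa using hc (mem_univ i)
    rw [this] at hu
    exact not_isUnit_zero hu
  obtain ⟨i₀, hi₀, hmax⟩ := exists_max_image _ (fun i : Fin n => i) hne
  simp only [mem_filter, mem_univ, true_and] at hi₀ hmax
  have hlow : ∀ a, i₀ < a → h a jj = 0 := by
    intro a ha
    by_contra hc
    exact absurd (hmax a hc) (not_le.mpr ha)
  -- old pivots avoid `i₀`
  have hold : ∀ k : Fin n, k.val < j → h i₀ k = 0 := by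
    intro k hk
    obtain ⟨i, hi1, hi2, hi3⟩ := hP k hk
    apply hi2
    rintro rfl
    exact hi₀ (hi3 jj (by
      intro e
      rw [← e] at hk
      simp [hjj] at hk))
  obtain ⟨T, hT, eT⟩ := row_elim h i₀ jj
  set h' := (T : Matrix (Fin n) (Fin n) F) * h with hh'
  have hi₀' : h' i₀ jj = h i₀ jj := by
    rw [eT]
    simp
  have hcol : ∀ a, a ≠ i₀ → h' a jj = 0 := by
    intro a ha
    rw [eT]
    rcases lt_or_gt_of_ne ha with h1 | h1
    · rw [if_pos h1]
      field_simp
      ring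
    · rw [if_neg (not_lt.mpr (le_of_lt h1)), add_zero]
      exact hlow a h1
  have hold' : ∀ k : Fin n, k.val < j → ∀ a, h' a k = h a k := by
    intro k hk a
    rw [eT, hold k hk]
    simp
  have hrow' : ∀ k : Fin n, k.val < j → h' i₀ k = 0 := by
    intro k hk
    rw [hold' k hk]
    exact hold k hk
  have hPrev : ∀ k : Fin n, k.val < j → ∃ i, i ≠ i₀ ∧ h' i k ≠ 0 ∧ (∀ i', i' ≠ i → h' i' k = 0) ∧ ∀ k', k' ≠ k → h' i k' = 0 := by
    intro k hk
    obtain ⟨i, hi1, hi2, hi3⟩ := hP k hk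
    have hi0 : i ≠ i₀ := by
      rintro rfl
      exact hi1 (hold k hk)
    have hij : h i jj = 0 := hi3 jj (by
      intro e
      rw [← e] at hk
      simp [hjj] at hk)
    refine ⟨i, hi0, ?_, ?_, ?_⟩
    · rw [hold' k hk]
      exact hi1
    · intro i' hi'
      rw [hold' k hk]
      exact hi2 i' hi'
    · intro k' hk'
      rw [eT]
      rw [hi3 k' hk', hij]
      simp
  obtain ⟨S, hS, eS⟩ := col_elim h' i₀ jj
  refine ⟨T, S, hT, hS, ?_⟩
  rw [← hh']
  set h'' := h' * (S : Matrix (Fin n) (Fin n) F) with hh''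
  have hi₀0 : h' i₀ jj ≠ 0 := by
    rw [hi₀']
    exact hi₀
  intro k hk
  by_cases hkj : k = jj
  · -- the new pivot
    subst hkj
    refine ⟨i₀, ?_, ?_, ?_⟩
    · rw [eS]
      simpa using hi₀0
    · intro i' hi'
      rw [eS, hcol i' hi']
      simp
    · intro k' hk'
      rw [eS]
      rcases lt_or_gt_of_ne hk' with h1 | h1
      · have h2 : ¬ jj < k' := not_lt.mpr (le_of_lt h1)
        rw [if_neg h2, add_zero]
        apply hrow'
        have : k'.val < jj.val := h1
        simpa [hjj] using this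
      · rw [if_pos h1]
        field_simp
        ring
  · have hk' : k.val < j := by
      have h1 : k.val ≠ j := fun e => hkj (Fin.ext e)
      omega
    obtain ⟨i, hi0, hi1, hi2, hi3⟩ := hPrev k hk'
    have hnotlt : ¬ jj < k := by
      intro h1
      have : jj.val < k.val := h1
      simp only [hjj] at this
      omega
    refine ⟨i, ?_, ?_, ?_⟩
    · rw [eS, if_neg hnotlt, add_zero]
      exact hi1
    · intro i' hi'
      rw [eS, if_neg hnotlt, add_zero]
      exact hi2 i' hi'
    · intro k' hk''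
      rw [eS, hcol i hi0, hi3 k' hk'']
      simp

theorem exists_Piv (g : GL (Fin n) F) (j : ℕ) (hj : j ≤ n) :
    ∃ A C : GL (Fin n) F, A ∈ bt F (fun i : Fin n => i.val) ∧ C ∈ bt F (fun i : Fin n => i.val) ∧
      Piv ((A : Matrix (Fin n) (Fin n) F) * (g : Matrix (Fin n) (Fin n) F) * (C : Matrix (Fin n) (Fin n) F)) j := by
  induction j with
  | zero =>
    refine ⟨1, 1, Subgroup.one_mem _, Subgroup.one_mem _, ?_⟩
    intro k hk
    omega
  | succ j ih =>
    obtain ⟨A, C, hA, hC, hP⟩ := ih (by omega)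
    have hu : IsUnit ((A : Matrix (Fin n) (Fin n) F) * (g : Matrix (Fin n) (Fin n) F) * (C : Matrix (Fin n) (Fin n) F)).det := by
      have := (A * g * C).isUnit
      have h2 := (Matrix.isUnit_iff_isUnit_det _).mp this
      simpa using h2
    obtain ⟨A', C', hA', hC', hP'⟩ := Piv_step hu (by omega) hP
    refine ⟨A' * A, C * C', Subgroup.mul_mem _ hA' hA, Subgroup.mul_mem _ hC hC', ?_⟩
    simp only [Units.val_mul]
    have e : (A' : Matrix (Fin n) (Fin n) F) * (A : Matrix (Fin n) (Fin n) F) * (g : Matrix (Fin n) (Fin n) F) *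
        ((C : Matrix (Fin n) (Fin n) F) * (C' : Matrix (Fin n) (Fin n) F)) =
        (A' : Matrix (Fin n) (Fin n) F) * ((A : Matrix (Fin n) (Fin n) F) * (g : Matrix (Fin n) (Fin n) F) * (C : Matrix (Fin n) (Fin n) F)) * (C' : Matrix (Fin n) (Fin n) F) := by
      simp only [mul_assoc]
    rw [e]
    exact hP'

/-- **Bruhat decomposition.** -/
theorem bruhatGL (g : GL (Fin n) F) : ∃ A ∈ bt F (fun i : Fin n => i.val), ∃ C ∈ bt F (fun i : Fin n => i.val),
    ∃ σ : Equiv.Perm (Fin n), g = A * pmG F σ * C := by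
  classical
  obtain ⟨A, C, hA, hC, hP⟩ := exists_Piv g n le_rfl
  set h := (A : Matrix (Fin n) (Fin n) F) * (g : Matrix (Fin n) (Fin n) F) * (C : Matrix (Fin n) (Fin n) F) with hh
  have hP' : ∀ k : Fin n, ∃ i, h i k ≠ 0 ∧ (∀ i', i' ≠ i → h i' k = 0) ∧ ∀ k', k' ≠ k → h i k' = 0 :=
    fun k => hP k k.isLt
  choose π hπ1 hπ2 hπ3 using hP'
  have hinj : Function.Injective π := by
    intro k k' e
    by_contra hc
    have := hπ3 k' k hc
    rw [← e] at this
    exact hπ1 k this
  let σ : Equiv.Perm (Fin n) := Equiv.ofBijective π (Finite.injective_iff_bijective.mp hinj)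
  have hσ : ∀ k, σ k = π k := fun k => rfl
  -- the diagonal part
  have hD : ∃ D : GL (Fin n) F, D ∈ bt F (fun i : Fin n => i.val) ∧
      (D : Matrix (Fin n) (Fin n) F) = Matrix.diagonal fun k => h (π k) k := by
    have hdet : (Matrix.diagonal fun k => h (π k) k).det ≠ 0 := by
      rw [Matrix.det_diagonal]
      exact prod_ne_zero_iff.mpr (fun k _ => hπ1 k)
    refine ⟨Matrix.GeneralLinearGroup.mkOfDetNeZero _ hdet, ?_, rfl⟩
    rw [mem_bt]
    intro i j hij
    have : i ≠ j := by
      intro e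
      rw [e] at hij
      omega
    exact Matrix.diagonal_apply_ne _ this
  obtain ⟨D, hD, eD⟩ := hD
  have e1 : h = pm F σ * (D : Matrix (Fin n) (Fin n) F) := by
    ext i j
    rw [eD, Matrix.mul_diagonal]
    simp only [pm, Matrix.of_apply, hσ]
    by_cases hi : i = π j
    · simp [hi]
    · simp [hi, hπ2 j i hi]
  refine ⟨A⁻¹, Subgroup.inv_mem _ hA, D * C⁻¹, Subgroup.mul_mem _ hD (Subgroup.inv_mem _ hC), σ, ?_⟩
  apply Units.ext
  have e2 : (A : Matrix (Fin n) (Fin n) F) * (g : Matrix (Fin n) (Fin n) F) * (C : Matrix (Fin n) (Fin n) F) =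
      (pmG F σ : Matrix (Fin n) (Fin n) F) * (D : Matrix (Fin n) (Fin n) F) := by
    rw [← hh, e1]
    rfl
  have e3 : A * g * C = pmG F σ * D := Units.ext e2
  have e4 : g = A⁻¹ * (pmG F σ * D) * C⁻¹ := by
    rw [← e3]
    group
  rw [e4]
  simp only [mul_assoc]

end Cfsg.Agent.Lib.Known.GLFlag
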