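import Mathlib

set_option autoImplicit false

/-! Abelian permutation groups are inverted by an involution. -/

namespace Cfsg.Agent.Lib.Known

/-- Every abelian subgroup of a symmetric group is inverted by an involution. -/
theorem exists_inverting_perm {α : Type*} (P : Subgroup (Equiv.Perm α))
    (hP : ∀ a ∈ P, ∀ b ∈ P, a * b = b * a) :
    ∃ t : Equiv.Perm α, t * t = 1 ∧ ∀ z ∈ P, t * z * t⁻¹ = z⁻¹ := by
  classical
  let S := MulAction.orbitRel P α
  let r : α → α := fun x => (Quotient.mk S x).out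
  have hr0 : ∀ x, S.r (r x) x := fun x => Quotient.mk_out (s := S) x
  have hr : ∀ x, ∃ z : P, z • (r x) = x := by
    intro x
    obtain ⟨z, hz⟩ := (MulAction.orbitRel_apply.mp (Setoid.symm (hr0 x)))
    exact ⟨z, hz⟩
  have hrc : ∀ (x : α) (z : P), r (z • x) = r x := by
    intro x z
    have : Quotient.mk S (z • x) = Quotient.mk S x := by
      apply Quotient.sound
      exact MulAction.orbitRel_apply.mpr ⟨z, rfl⟩
    simp only [r, this]
  choose w hw using hr
  let f : α → α := fun x => (w x)⁻¹ • r x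
  have hcomm : ∀ a b : P, a * b = b * a := fun a b => Subtype.ext (hP a a.2 b b.2)
  have key : ∀ (x ω : α) (u z : P), u • ω = x → z • ω = x → u⁻¹ • ω = z⁻¹ • ω := by
    intro x ω u z hu hz
    have h1 : (u * z) • (u⁻¹ • ω) = x := by
      rw [hcomm u z, smul_smul, mul_assoc, mul_inv_cancel, mul_one, hz]
    have h2 : (u * z) • (z⁻¹ • ω) = x := by
      rw [smul_smul, mul_assoc, mul_inv_cancel, mul_one, hu]
    exact MulAction.injective (u * z) (h1.trans h2.symm)
  have key2 : ∀ (x : α) (z : P), z • r x = x → f x = z⁻¹ • r x := by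
    intro x z hz
    exact key x (r x) (w x) z (hw x) hz
  have hff : ∀ x, f (f x) = x := by
    intro x
    have h1 : r (f x) = r x := hrc (r x) (w x)⁻¹ |>.trans (by
      have := hrc (r x) (w x)
      rw [hw x] at this
      exact this.symm)
    have h2 : (w x)⁻¹ • r (f x) = f x := by rw [h1]
    rw [key2 (f x) (w x)⁻¹ h2, h1, inv_inv, hw x]
  have hfy : ∀ (x : α) (y : P), f (y • x) = y⁻¹ • f x := by
    intro x y
    have h1 : r (y • x) = r x := hrc x y
    have h2 : (y * w x) • r (y • x) = y • x := by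
      rw [h1, mul_smul, hw x]
    rw [key2 (y • x) (y * w x) h2, h1, mul_inv_rev, hcomm, mul_smul]
  refine ⟨Function.Involutive.toPerm f hff, ?_, ?_⟩
  · ext x
    exact hff x
  · intro z hz
    ext x
    have h1 : (Function.Involutive.toPerm f hff)⁻¹ x = f x := rfl
    have h2 : (z : Equiv.Perm α) (f x) = (⟨z, hz⟩ : P) • f x := rfl
    have h3 : z⁻¹ x = (⟨z, hz⟩ : P)⁻¹ • x := rfl
    change f (z ((Function.Involutive.toPerm f hff)⁻¹ x)) = z⁻¹ x
    rw [h1, h2, h3, hfy, hff]

end Cfsg.Agent.Lib.Known
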