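import Mathlib

set_option autoImplicit false

/-! Laws in groups and their behaviour under embeddings; block matrices and permutation matrices. -/

namespace Cfsg.Agent.Lib.Known

open Matrix

/-- `w` is a law of `G`. -/
def LawIn (w : FreeGroup ℕ) (G : Type*) [Group G] : Prop := ∀ f : ℕ → G, FreeGroup.lift f w = 1

theorem map_lift_word {G H : Type*} [Group G] [Group H] (φ : G →* H) (f : ℕ → G) (w : FreeGroup ℕ) :
    φ (FreeGroup.lift f w) = FreeGroup.lift (fun k => φ (f k)) w := by
  have : φ.comp (FreeGroup.lift f) = FreeGroup.lift (fun k => φ (f k)) := by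
    ext k
    simp
  exact DFunLike.congr_fun this w

theorem LawIn.of_injective {w : FreeGroup ℕ} {G H : Type*} [Group G] [Group H] (h : LawIn w G)
    (φ : H →* G) (hφ : Function.Injective φ) : LawIn w H := by
  intro f
  apply hφ
  rw [map_lift_word, map_one]
  exact h _

theorem LawIn.of_surjective {w : FreeGroup ℕ} {G H : Type*} [Group G] [Group H] (h : LawIn w G)
    (φ : G →* H) (hφ : Function.Surjective φ) : LawIn w H := by
  intro f
  choose g hg using fun k => hφ (f k)
  have : f = fun k => φ (g k) := funext fun k => (hg k).symm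
  rw [this, ← map_lift_word, h, map_one]

theorem LawIn.of_mulEquiv {w : FreeGroup ℕ} {G H : Type*} [Group G] [Group H] (h : LawIn w G)
    (e : G ≃* H) : LawIn w H := h.of_surjective e.toMonoidHom e.surjective

/-- The law passes from `S/Z(S)` to `H/Z(H)` when `H` embeds in `S`. -/
theorem LawIn.center_quot {w : FreeGroup ℕ} {H S : Type*} [Group H] [Group S]
    (h : LawIn w (S ⧸ Subgroup.center S)) (φ : H →* S) (hφ : Function.Injective φ) :
    LawIn w (H ⧸ Subgroup.center H) := by
  intro f
  choose g hg using fun k => QuotientGroup.mk_surjective (f k)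
  have hf : f = fun k => QuotientGroup.mk' (Subgroup.center H) (g k) := funext fun k => (hg k).symm
  rw [hf, ← map_lift_word]
  have h1 := h (fun k => QuotientGroup.mk' (Subgroup.center S) (φ (g k)))
  rw [← map_lift_word, ← map_lift_word] at h1
  have h2 : φ (FreeGroup.lift g w) ∈ Subgroup.center S := (QuotientGroup.eq_one_iff _).mp h1
  apply (QuotientGroup.eq_one_iff _).mpr
  rw [Subgroup.mem_center_iff] at h2 ⊢
  intro x
  apply hφ
  rw [map_mul, map_mul, h2]

/-- The law passes to `H` itself if its centre is trivial. -/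
theorem LawIn.of_center_eq_bot {w : FreeGroup ℕ} {H : Type*} [Group H]
    (h : LawIn w (H ⧸ Subgroup.center H)) (hc : Subgroup.center H = ⊥) : LawIn w H := by
  refine h.of_injective (QuotientGroup.mk' (Subgroup.center H)) ?_
  rw [injective_iff_map_eq_one]
  intro a ha
  have : a ∈ Subgroup.center H := (QuotientGroup.eq_one_iff _).mp ha
  rw [hc] at this
  exact this

/-! ### Block matrices -/

section Block

variable {κ ι F : Type*} [Fintype κ] [Fintype ι] [DecidableEq κ] [DecidableEq ι] [Field F]

open scoped Classical in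
/-- The decomposition of the index set. -/
noncomputable def blockEquiv (e : κ ↪ ι) : κ ⊕ ↥(Set.range e)ᶜ ≃ ι :=
  (Equiv.sumCongr (Equiv.ofInjective e e.injective) (Equiv.refl _)).trans (Equiv.Set.sumCompl (Set.range e))

open scoped Classical in
@[simp] theorem blockEquiv_inl (e : κ ↪ ι) (k : κ) : blockEquiv e (Sum.inl k) = e k := by
  simp [blockEquiv]

open scoped Classical in
@[simp] theorem blockEquiv_inr (e : κ ↪ ι) (y : ↥(Set.range e)ᶜ) : blockEquiv e (Sum.inr y) = y := by
  simp [blockEquiv]

open scoped Classical in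
/-- Block embedding of matrices. -/
noncomputable def blockHom (e : κ ↪ ι) : Matrix κ κ F →* Matrix ι ι F where
  toFun M := (Matrix.fromBlocks M 0 0 1).submatrix (blockEquiv e).symm (blockEquiv e).symm
  map_one' := by
    rw [Matrix.fromBlocks_one, Matrix.submatrix_one_equiv]
  map_mul' A B := by
    rw [Matrix.submatrix_mul_equiv, Matrix.fromBlocks_multiply]
    simp

theorem blockHom_apply_inl (e : κ ↪ ι) (M : Matrix κ κ F) (a b : κ) :
    blockHom e M (e a) (e b) = M a b := by
  classical
  simp only [blockHom, MonoidHom.coe_mk, OneHom.coe_mk, Matrix.submatrix_apply]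
  have ha : (blockEquiv e).symm (e a) = Sum.inl a := by
    rw [Equiv.symm_apply_eq]; simp
  have hb : (blockEquiv e).symm (e b) = Sum.inl b := by
    rw [Equiv.symm_apply_eq]; simp
  rw [ha, hb]
  rfl

theorem blockHom_injective (e : κ ↪ ι) : Function.Injective (blockHom (F := F) e) := by
  intro A B h
  ext a b
  rw [← blockHom_apply_inl e A, h, blockHom_apply_inl]

theorem blockHom_det (e : κ ↪ ι) (M : Matrix κ κ F) : (blockHom e M).det = M.det := by
  classical
  simp only [blockHom, MonoidHom.coe_mk, OneHom.coe_mk]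
  rw [Matrix.det_submatrix_equiv_self, Matrix.det_fromBlocks_zero₂₁, Matrix.det_one, mul_one]

theorem blockHom_mulVec_inl (e : κ ↪ ι) (M : Matrix κ κ F) (v : ι → F) (k : κ) :
    (blockHom e M *ᵥ v) (e k) = (M *ᵥ (v ∘ e)) k := by
  classical
  simp only [blockHom, MonoidHom.coe_mk, OneHom.coe_mk]
  rw [Matrix.submatrix_mulVec_equiv]
  rw [← blockEquiv_inl e k]
  simp only [Function.comp_apply, Equiv.symm_apply_apply, Matrix.fromBlocks_mulVec, Sum.elim_inl]
  have : (v ∘ (blockEquiv e).symm.symm) ∘ Sum.inl = v ∘ e := by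
    funext x
    simp
  rw [this]
  simp

theorem blockHom_mulVec_notMem (e : κ ↪ ι) (M : Matrix κ κ F) (v : ι → F) (i : ι) (hi : i ∉ Set.range e) :
    (blockHom e M *ᵥ v) i = v i := by
  classical
  simp only [blockHom, MonoidHom.coe_mk, OneHom.coe_mk]
  rw [Matrix.submatrix_mulVec_equiv]
  have h1 : i = blockEquiv e (Sum.inr ⟨i, hi⟩) := by simp
  conv_lhs => rw [h1]
  simp only [Function.comp_apply, Equiv.symm_apply_apply, Matrix.fromBlocks_mulVec, Sum.elim_inr]
  simp

/-- Splitting a sum along an embedding. -/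
theorem sum_block {A : Type*} [AddCommMonoid A] (e : κ ↪ ι) (f : ι → A) :
    ∑ i, f i = ∑ k, f (e k) + ∑ y : ↥(Set.range e)ᶜ, f y := by
  classical
  rw [← Equiv.sum_comp (blockEquiv e), Fintype.sum_sum_type]
  simp only [blockEquiv_inl, blockEquiv_inr]

end Block

/-! ### Permutation matrices -/

section Perm

variable {ι F : Type*} [Fintype ι] [DecidableEq ι] [Field F]

/-- Permutation matrices, as a homomorphism. -/
def permHom (ι F : Type*) [Fintype ι] [DecidableEq ι] [Field F] : Equiv.Perm ι →* Matrix ι ι F where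
  toFun σ := (σ⁻¹ : Equiv.Perm ι).permMatrix F
  map_one' := by simp
  map_mul' a b := by
    rw [_root_.mul_inv_rev, Matrix.permMatrix_mul]

theorem permHom_mulVec (σ : Equiv.Perm ι) (v : ι → F) : permHom ι F σ *ᵥ v = v ∘ (σ⁻¹ : Equiv.Perm ι) := by
  simp [permHom, Matrix.permMatrix_mulVec]

theorem permHom_det (σ : Equiv.Perm ι) : (permHom ι F σ).det = ((Equiv.Perm.sign σ : ℤˣ) : ℤ) := by
  simp [permHom, Matrix.det_permutation]

theorem permHom_injective [Nontrivial F] : Function.Injective (permHom ι F) := by
  intro a b h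
  have hinv : a⁻¹ = b⁻¹ := by
    ext i
    have h1 := congrFun (congrArg (fun M : Matrix ι ι F => M *ᵥ (fun j => if j = a⁻¹ i then 1 else 0)) h) i
    simp only [permHom_mulVec, Function.comp_apply, if_true] at h1
    by_contra hne
    have hne' : b⁻¹ i ≠ a⁻¹ i := fun h2 => hne h2.symm
    rw [if_neg hne'] at h1
    exact one_ne_zero h1
  exact inv_injective hinv

end Perm

end Cfsg.Agent.Lib.Known
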