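import Mathlib
import Cfsg.Prelude.Def_Classical
import Cfsg.Prelude.Def_ClassicalGeometry
import Cfsg.Agent.Lib.Known.LawFrame
import Cfsg.Agent.Lib.Classical.Symp

set_option autoImplicit false

/-! Embeddings of alternating groups and `SL₂` in the classical groups. -/

namespace Cfsg.Agent.Lib.Known

open Matrix

/-! ### Special linear groups -/

section SL

variable (F : Type*) [Field F] {n : ℕ}

/-- `A_n → SL_n`. -/
def altToSL (n : ℕ) : alternatingGroup (Fin n) →* SpecialLinearGroup (Fin n) F where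
  toFun σ := ⟨permHom (Fin n) F σ.1, by
    rw [permHom_det, Equiv.Perm.mem_alternatingGroup.mp σ.2]
    simp⟩
  map_one' := by
    apply Subtype.ext
    exact map_one (permHom (Fin n) F)
  map_mul' a b := by
    apply Subtype.ext
    exact map_mul (permHom (Fin n) F) a.1 b.1

theorem altToSL_injective (n : ℕ) : Function.Injective (altToSL F n) := by
  intro a b h
  have h1 : permHom (Fin n) F a.1 = permHom (Fin n) F b.1 := congrArg Subtype.val h
  exact Subtype.ext (permHom_injective h1)

variable {F}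

/-- `SL₂ → SL_n`. -/
noncomputable def sl2ToSL (e : Fin 2 ↪ Fin n) : SpecialLinearGroup (Fin 2) F →* SpecialLinearGroup (Fin n) F where
  toFun g := ⟨blockHom e g.1, by rw [blockHom_det, g.2]⟩
  map_one' := by
    apply Subtype.ext
    exact map_one (blockHom e)
  map_mul' a b := by
    apply Subtype.ext
    exact map_mul (blockHom e) a.1 b.1

theorem sl2ToSL_injective (e : Fin 2 ↪ Fin n) : Function.Injective (sl2ToSL (F := F) e) := by
  intro a b h
  exact Subtype.ext (blockHom_injective e (congrArg Subtype.val h))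

end SL

/-! ### Symplectic groups -/

section Sp

variable {F : Type*} [Field F] {m : ℕ}

theorem sympForm_eq (u v : Fin m ⊕ Fin m → F) :
    Cfsg.sympForm m F u v = ∑ i, (u (Sum.inr i) * v (Sum.inl i) - u (Sum.inl i) * v (Sum.inr i)) := by
  simp only [Cfsg.sympForm, dotProduct, Fintype.sum_sum_type, Matrix.J, Matrix.mulVec, fromBlocks_apply₁₁, fromBlocks_apply₁₂,
    fromBlocks_apply₂₁, fromBlocks_apply₂₂]
  simp [Finset.sum_sub_distrib, Matrix.one_apply, Finset.mul_sum, sub_eq_add_neg, add_comm, Finset.sum_add_distrib, Finset.sum_neg_distrib]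

/-- `σ ↦ σ ⊕ σ`. -/
def doublePerm (m : ℕ) : Equiv.Perm (Fin m) →* Equiv.Perm (Fin m ⊕ Fin m) where
  toFun σ := Equiv.sumCongr σ σ
  map_one' := by ext x; cases x <;> simp
  map_mul' a b := by ext x; cases x <;> simp

theorem doublePerm_injective : Function.Injective (doublePerm m) := by
  intro a b h
  ext i
  have := congrArg (fun τ : Equiv.Perm (Fin m ⊕ Fin m) => τ (Sum.inl i)) h
  simp [doublePerm] at this
  rw [this]

theorem doublePerm_symm_inl (σ : Equiv.Perm (Fin m)) (i : Fin m) :
    (doublePerm m σ)⁻¹ (Sum.inl i) = Sum.inl (σ⁻¹ i) := by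
  rw [Equiv.Perm.inv_eq_iff_eq]
  simp [doublePerm]

theorem doublePerm_symm_inr (σ : Equiv.Perm (Fin m)) (i : Fin m) :
    (doublePerm m σ)⁻¹ (Sum.inr i) = Sum.inr (σ⁻¹ i) := by
  rw [Equiv.Perm.inv_eq_iff_eq]
  simp [doublePerm]

variable (F) in
/-- `S_m → Sp_{2m}`. -/
noncomputable def permToSp (m : ℕ) : Equiv.Perm (Fin m) →* Matrix.symplecticGroup (Fin m) F where
  toFun σ := ⟨permHom (Fin m ⊕ Fin m) F (doublePerm m σ), by
    apply Cfsg.Agent.Lib.Classical.mem_sp_of_preserves
    intro u v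
    rw [permHom_mulVec, permHom_mulVec, sympForm_eq, sympForm_eq]
    simp only [Function.comp_apply, doublePerm_symm_inl, doublePerm_symm_inr]
    exact Equiv.sum_comp (σ⁻¹) (fun i => u (Sum.inr i) * v (Sum.inl i) - u (Sum.inl i) * v (Sum.inr i))⟩
  map_one' := by
    apply Subtype.ext
    simp
  map_mul' a b := by
    apply Subtype.ext
    simp

theorem permToSp_injective (m : ℕ) : Function.Injective (permToSp F m) := by
  intro a b h
  have h1 : permHom (Fin m ⊕ Fin m) F (doublePerm m a) = permHom (Fin m ⊕ Fin m) F (doublePerm m b) :=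
    congrArg Subtype.val h
  exact doublePerm_injective (permHom_injective h1)

/-- The coordinates `(inl i₀, inr i₀)`. -/
def spBlockEmb (i₀ : Fin m) : Fin 2 ↪ Fin m ⊕ Fin m where
  toFun k := if k = 0 then Sum.inl i₀ else Sum.inr i₀
  inj' := by
    intro a b h
    fin_cases a <;> fin_cases b <;> simp_all

@[simp] theorem spBlockEmb_zero (i₀ : Fin m) : spBlockEmb i₀ 0 = Sum.inl i₀ := rfl
@[simp] theorem spBlockEmb_one (i₀ : Fin m) : spBlockEmb i₀ 1 = Sum.inr i₀ := rfl

/-- `SL₂ → Sp_{2m}`. -/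
noncomputable def sl2ToSp (i₀ : Fin m) : SpecialLinearGroup (Fin 2) F →* Matrix.symplecticGroup (Fin m) F where
  toFun g := ⟨blockHom (spBlockEmb i₀) g.1, by
    apply Cfsg.Agent.Lib.Classical.mem_sp_of_preserves
    intro u v
    rw [sympForm_eq, sympForm_eq, ← sub_eq_zero, ← Finset.sum_sub_distrib]
    have hnot : ∀ i, i ≠ i₀ → ∀ (x : Fin m ⊕ Fin m → F) (s : Fin m ⊕ Fin m), (s = Sum.inl i ∨ s = Sum.inr i) →
        (blockHom (spBlockEmb i₀) g.1 *ᵥ x) s = x s := by
      intro i hi x s hs
      apply blockHom_mulVec_notMem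
      rintro ⟨k, hk⟩
      obtain rfl | rfl : k = 0 ∨ k = 1 := by
        fin_cases k <;> simp
      · rw [spBlockEmb_zero] at hk
        rcases hs with rfl | rfl
        · exact hi (Sum.inl.inj hk).symm
        · cases hk
      · rw [spBlockEmb_one] at hk
        rcases hs with rfl | rfl
        · cases hk
        · exact hi (Sum.inr.inj hk).symm
    rw [Finset.sum_eq_single i₀]
    · have e0 : ∀ x : Fin m ⊕ Fin m → F, (blockHom (spBlockEmb i₀) g.1 *ᵥ x) (Sum.inl i₀) =
          g.1 0 0 * x (Sum.inl i₀) + g.1 0 1 * x (Sum.inr i₀) := by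
        intro x
        have := blockHom_mulVec_inl (spBlockEmb i₀) g.1 x 0
        rw [spBlockEmb_zero] at this
        rw [this]
        simp [Matrix.mulVec, dotProduct, Fin.sum_univ_two]
      have e1 : ∀ x : Fin m ⊕ Fin m → F, (blockHom (spBlockEmb i₀) g.1 *ᵥ x) (Sum.inr i₀) =
          g.1 1 0 * x (Sum.inl i₀) + g.1 1 1 * x (Sum.inr i₀) := by
        intro x
        have := blockHom_mulVec_inl (spBlockEmb i₀) g.1 x 1
        rw [spBlockEmb_one] at this
        rw [this]
        simp [Matrix.mulVec, dotProduct, Fin.sum_univ_two]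
      rw [e0, e0, e1, e1]
      have hdet : g.1 0 0 * g.1 1 1 - g.1 0 1 * g.1 1 0 = 1 := by
        have := g.2
        rwa [Matrix.det_fin_two] at this
      linear_combination (u (Sum.inr i₀) * v (Sum.inl i₀) - u (Sum.inl i₀) * v (Sum.inr i₀)) * hdet
    · intro i _ hi
      rw [hnot i hi u _ (Or.inl rfl), hnot i hi u _ (Or.inr rfl), hnot i hi v _ (Or.inl rfl), hnot i hi v _ (Or.inr rfl), sub_self]
    · intro h
      exact absurd (Finset.mem_univ _) h⟩
  map_one' := by
    apply Subtype.ext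
    exact map_one (blockHom _)
  map_mul' a b := by
    apply Subtype.ext
    exact map_mul (blockHom _) a.1 b.1

theorem sl2ToSp_injective (i₀ : Fin m) : Function.Injective (sl2ToSp (F := F) i₀) := by
  intro a b h
  exact Subtype.ext (blockHom_injective _ (congrArg Subtype.val h))

end Sp

/-! ### Special unitary groups -/

section SU

variable (F : Type*) [Field F] (q : ℕ) {n : ℕ}

theorem hermForm_perm (σ : Equiv.Perm (Fin n)) (u v : Fin n → F) :
    Cfsg.hermForm n F q (u ∘ σ) (v ∘ σ) = Cfsg.hermForm n F q u v := by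
  simp only [Cfsg.hermForm, Function.comp_apply]
  exact Equiv.sum_comp σ (fun i => u i * v i ^ q)

/-- `A_n → SU_n`. -/
def altToSU (n : ℕ) : alternatingGroup (Fin n) →* Cfsg.SU n F q where
  toFun σ := ⟨altToSL F n σ, by
    intro u v
    change Cfsg.hermForm n F q (permHom (Fin n) F σ.1 *ᵥ u) (permHom (Fin n) F σ.1 *ᵥ v) = _
    rw [permHom_mulVec, permHom_mulVec, hermForm_perm]⟩
  map_one' := by
    apply Subtype.ext
    exact map_one (altToSL F n)
  map_mul' a b := by
    apply Subtype.ext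
    exact map_mul (altToSL F n) a b

theorem altToSU_injective (n : ℕ) : Function.Injective (altToSU F q n) := by
  intro a b h
  exact altToSL_injective F n (congrArg Subtype.val h)

variable {F q}

/-- `SU₂ → SU_n`. -/
noncomputable def su2ToSU (e : Fin 2 ↪ Fin n) : Cfsg.SU 2 F q →* Cfsg.SU n F q where
  toFun g := ⟨sl2ToSL e g.1, by
    intro u v
    change Cfsg.hermForm n F q (blockHom e g.1.1 *ᵥ u) (blockHom e g.1.1 *ᵥ v) = Cfsg.hermForm n F q u v
    simp only [Cfsg.hermForm]
    rw [sum_block e, sum_block e (fun i => u i * v i ^ q)]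
    congr 1
    · have h1 := g.2 (u ∘ e) (v ∘ e)
      change Cfsg.hermForm 2 F q (g.1.1 *ᵥ (u ∘ e)) (g.1.1 *ᵥ (v ∘ e)) = Cfsg.hermForm 2 F q (u ∘ e) (v ∘ e) at h1
      simp only [Cfsg.hermForm, Function.comp_apply] at h1
      simp only [blockHom_mulVec_inl]
      exact h1
    · apply Finset.sum_congr rfl
      intro y _
      rw [blockHom_mulVec_notMem e _ u _ y.2, blockHom_mulVec_notMem e _ v _ y.2]⟩
  map_one' := by
    apply Subtype.ext
    exact map_one (sl2ToSL e)
  map_mul' a b := by
    apply Subtype.ext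
    exact map_mul (sl2ToSL e) a.1 b.1

theorem su2ToSU_injective (e : Fin 2 ↪ Fin n) : Function.Injective (su2ToSU (F := F) (q := q) e) := by
  intro a b h
  apply Subtype.ext
  exact sl2ToSL_injective e (congrArg Subtype.val h)

end SU

/-! ### Orthogonal groups -/

section Orth

variable {ι : Type} [Fintype ι] [DecidableEq ι] {F : Type*} [Field F] {Q : (ι → F) → F}

/-- From a perfect group to `Ω`. -/
def toOmega {H : Type*} [Group H] (hH : commutator H = ⊤) (φ : H →* Cfsg.isometryGroup F Q) : H →* Cfsg.Omega F Q :=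
  φ.codRestrict _ (by
    intro x
    have hx : x ∈ commutator H := by rw [hH]; exact Subgroup.mem_top x
    have h1 : φ x ∈ (commutator H).map φ := ⟨x, hx, rfl⟩
    rw [commutator_def, Subgroup.map_commutator] at h1
    exact Subgroup.commutator_mono le_top le_top h1)

theorem toOmega_injective {H : Type*} [Group H] (hH : commutator H = ⊤) {φ : H →* Cfsg.isometryGroup F Q}
    (hφ : Function.Injective φ) : Function.Injective (toOmega hH φ) := by
  intro a b h
  apply hφ
  exact congrArg Subtype.val h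

/-- The isometry group from a homomorphism to matrices. -/
noncomputable def toIsom {H : Type*} [Group H] (φ : H →* Matrix ι ι F)
    (hφ : ∀ (h : H) (v : ι → F), Q (φ h *ᵥ v) = Q v) : H →* Cfsg.isometryGroup F Q :=
  (φ.toHomUnits).codRestrict _ (by
    intro h u _
    exact hφ h u)

theorem toIsom_injective {H : Type*} [Group H] {φ : H →* Matrix ι ι F}
    (hφ : ∀ (h : H) (v : ι → F), Q (φ h *ᵥ v) = Q v) (hi : Function.Injective φ) :
    Function.Injective (toIsom φ hφ) := by
  intro a b h
  apply hi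
  have h1 : ((φ.toHomUnits a : (Matrix ι ι F)ˣ) : Matrix ι ι F) = ((φ.toHomUnits b : (Matrix ι ι F)ˣ) : Matrix ι ι F) :=
    congrArg (fun x : Cfsg.isometryGroup F Q => ((x.1 : (Matrix ι ι F)ˣ) : Matrix ι ι F)) h
  simpa using h1

/-- The form is a sum of hyperbolic pairs plus a term independent of those coordinates. -/
def IsPairForm {m : ℕ} (Q : (ι → F) → F) (b : Fin m ⊕ Fin m ↪ ι) : Prop :=
  ∀ v w : ι → F, (∀ i, i ∉ Set.range b → v i = w i) →
    Q v - ∑ i : Fin m, v (b (Sum.inl i)) * v (b (Sum.inr i)) = Q w - ∑ i : Fin m, w (b (Sum.inl i)) * w (b (Sum.inr i))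

theorem IsPairForm.eq {m : ℕ} {b : Fin m ⊕ Fin m ↪ ι} (hQ : IsPairForm Q b) (v w : ι → F)
    (h : ∀ i, i ∉ Set.range b → v i = w i)
    (hs : ∑ i : Fin m, v (b (Sum.inl i)) * v (b (Sum.inr i)) = ∑ i : Fin m, w (b (Sum.inl i)) * w (b (Sum.inr i))) :
    Q v = Q w := by
  have := hQ v w h
  rw [hs] at this
  exact sub_left_injective this

variable (F) in
/-- `S_m → GL(ι)` via the pairs. -/
noncomputable def permMat {m : ℕ} (b : Fin m ⊕ Fin m ↪ ι) : Equiv.Perm (Fin m) →* Matrix ι ι F :=
  (permHom ι F).comp ((Equiv.Perm.viaEmbeddingHom b).comp (doublePerm m))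

theorem permMat_injective {m : ℕ} (b : Fin m ⊕ Fin m ↪ ι) : Function.Injective (permMat F b) :=
  (permHom_injective).comp ((Equiv.Perm.viaEmbeddingHom_injective b).comp doublePerm_injective)

theorem permMat_preserves {m : ℕ} {b : Fin m ⊕ Fin m ↪ ι} (hQ : IsPairForm Q b) (σ : Equiv.Perm (Fin m)) (v : ι → F) :
    Q (permMat F b σ *ᵥ v) = Q v := by
  have hinv : ((Equiv.Perm.viaEmbeddingHom b) (doublePerm m σ))⁻¹ = (Equiv.Perm.viaEmbeddingHom b) (doublePerm m σ⁻¹) := by
    rw [map_inv, map_inv]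
  have h1 : permMat F b σ *ᵥ v = v ∘ (Equiv.Perm.viaEmbeddingHom b) (doublePerm m σ⁻¹) := by
    simp only [permMat, MonoidHom.comp_apply]
    rw [permHom_mulVec, hinv]
  rw [h1]
  apply hQ.eq
  · intro i hi
    simp only [Function.comp_apply, Equiv.Perm.viaEmbeddingHom_apply]
    rw [Equiv.Perm.viaEmbedding_apply_of_notMem _ _ _ hi]
  · simp only [Function.comp_apply, Equiv.Perm.viaEmbeddingHom_apply, Equiv.Perm.viaEmbedding_apply]
    exact Equiv.sum_comp (σ⁻¹) (fun i => v (b (Sum.inl i)) * v (b (Sum.inr i)))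

/-- The action of `SL₂` on the sum of two hyperbolic planes. -/
def orthM (g : SpecialLinearGroup (Fin 2) F) : Matrix (Fin 2 ⊕ Fin 2) (Fin 2 ⊕ Fin 2) F :=
  Matrix.fromBlocks !![g.1 0 0, 0; 0, g.1 0 0] !![0, -g.1 0 1; g.1 0 1, 0] !![0, g.1 1 0; -g.1 1 0, 0] !![g.1 1 1, 0; 0, g.1 1 1]

theorem orthM_one : orthM (1 : SpecialLinearGroup (Fin 2) F) = 1 := by
  ext (i | i) (j | j) <;> fin_cases i <;> fin_cases j <;> simp [orthM]

theorem orthM_mul (g h : SpecialLinearGroup (Fin 2) F) : orthM (g * h) = orthM g * orthM h := by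
  have hc : ∀ i j, (g * h).1 i j = g.1 i 0 * h.1 0 j + g.1 i 1 * h.1 1 j := by
    intro i j
    rw [Matrix.SpecialLinearGroup.coe_mul, Matrix.mul_apply, Fin.sum_univ_two]
  ext (i | i) (j | j) <;> fin_cases i <;> fin_cases j <;>
    simp [orthM, Matrix.mul_apply, Fin.sum_univ_two, Fintype.sum_sum_type, hc] <;> ring

theorem orthM_injective : Function.Injective (orthM (F := F)) := by
  intro g h hgh
  have e : ∀ i j, orthM g i j = orthM h i j := fun i j => by rw [hgh]
  apply Subtype.ext
  ext i j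
  fin_cases i <;> fin_cases j
  · simpa [orthM] using e (Sum.inl 0) (Sum.inl 0)
  · simpa [orthM] using e (Sum.inl 1) (Sum.inr 0)
  · simpa [orthM] using e (Sum.inr 0) (Sum.inl 1)
  · simpa [orthM] using e (Sum.inr 1) (Sum.inr 1)

variable (F) in
/-- `SL₂ → GL(ι)`. -/
noncomputable def sl2Mat {m : ℕ} (b : Fin m ⊕ Fin m ↪ ι) (t : Fin 2 ↪ Fin m) :
    SpecialLinearGroup (Fin 2) F →* Matrix ι ι F where
  toFun g := blockHom ((t.sumMap t).trans b) (orthM g)
  map_one' := by rw [orthM_one, map_one]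
  map_mul' a b' := by rw [orthM_mul, map_mul]

theorem sl2Mat_injective {m : ℕ} (b : Fin m ⊕ Fin m ↪ ι) (t : Fin 2 ↪ Fin m) :
    Function.Injective (sl2Mat F b t) := (blockHom_injective _).comp orthM_injective

theorem sl2Mat_preserves {m : ℕ} {b : Fin m ⊕ Fin m ↪ ι} (t : Fin 2 ↪ Fin m) (hQ : IsPairForm Q b)
    (g : SpecialLinearGroup (Fin 2) F) (v : ι → F) : Q (sl2Mat F b t g *ᵥ v) = Q v := by
  set e : Fin 2 ⊕ Fin 2 ↪ ι := (t.sumMap t).trans b with he
  set A : Matrix ι ι F := blockHom e (orthM g) with hA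
  have hA' : sl2Mat F b t g = A := rfl
  rw [hA']
  have hnot : ∀ i, i ∉ Set.range e → (A *ᵥ v) i = v i := fun i hi => blockHom_mulVec_notMem e _ v i hi
  have hel : ∀ k, e (Sum.inl k) = b (Sum.inl (t k)) := fun k => rfl
  have her : ∀ k, e (Sum.inr k) = b (Sum.inr (t k)) := fun k => rfl
  have hv : ∀ s, (A *ᵥ v) (e s) = (orthM g *ᵥ (v ∘ e)) s := fun s => blockHom_mulVec_inl e _ v s
  have hdet : g.1 0 0 * g.1 1 1 - g.1 0 1 * g.1 1 0 = 1 := by
    have := g.2
    rwa [Matrix.det_fin_two] at this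
  apply hQ.eq
  · intro i hi
    apply hnot
    rintro ⟨s, rfl⟩
    exact hi ⟨_, rfl⟩
  · rw [← sub_eq_zero, ← Finset.sum_sub_distrib]
    have hne : t 0 ≠ t 1 := fun h => by
      have := t.injective h
      simp at this
    rw [Finset.sum_eq_add (t 0) (t 1) hne]
    · have h1 := hv (Sum.inl 0)
      have h2 := hv (Sum.inl 1)
      have h3 := hv (Sum.inr 0)
      have h4 := hv (Sum.inr 1)
      rw [hel] at h1 h2
      rw [her] at h3 h4
      rw [h1, h2, h3, h4]
      simp only [orthM, Matrix.fromBlocks_mulVec, Sum.elim_inl, Sum.elim_inr, Matrix.mulVec, dotProduct,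
        Fin.sum_univ_two, Pi.add_apply, Function.comp_apply, he]
      simp
      linear_combination (v (b (Sum.inl (t 0))) * v (b (Sum.inr (t 0))) + v (b (Sum.inl (t 1))) * v (b (Sum.inr (t 1)))) * hdet
    · intro i _ hi
      have hi0 : ∀ s, b (Sum.inl i) ≠ e s := by
        rintro (k | k) hk
        · rw [hel] at hk
          have := Sum.inl.inj (b.injective hk)
          subst this
          fin_cases k
          · exact hi.1 rfl
          · exact hi.2 rfl
        · rw [her] at hk
          have := b.injective hk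
          cases this
      have hi1 : ∀ s, b (Sum.inr i) ≠ e s := by
        rintro (k | k) hk
        · rw [hel] at hk
          have := b.injective hk
          cases this
        · rw [her] at hk
          have := Sum.inr.inj (b.injective hk)
          subst this
          fin_cases k
          · exact hi.1 rfl
          · exact hi.2 rfl
      rw [hnot _ (by rintro ⟨s, hs⟩; exact hi0 s hs.symm), hnot _ (by rintro ⟨s, hs⟩; exact hi1 s hs.symm), sub_self]
    · intro h
      exact absurd (Finset.mem_univ _) h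
    · intro h
      exact absurd (Finset.mem_univ _) h

end Orth

/-! ### The three forms -/

section Forms

variable {F : Type*} [Field F]

theorem isPairForm_plus (m : ℕ) :
    IsPairForm (Cfsg.quadFormPlus m F) (Function.Embedding.refl (Fin m ⊕ Fin m)) := by
  intro v w _
  simp [Cfsg.quadFormPlus]

theorem isPairForm_odd (m : ℕ) :
    IsPairForm (Cfsg.quadFormOdd m F) (Function.Embedding.inr : Fin m ⊕ Fin m ↪ Unit ⊕ (Fin m ⊕ Fin m)) := by
  intro v w h
  simp only [Cfsg.quadFormOdd, Function.Embedding.inr_apply, add_sub_cancel_right]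
  rw [h (Sum.inl ()) (by rintro ⟨x, hx⟩; cases hx)]

theorem isPairForm_minus (m : ℕ) (a b : F) :
    IsPairForm (Cfsg.quadFormMinus m F a b) (Function.Embedding.inl : Fin m ⊕ Fin m ↪ (Fin m ⊕ Fin m) ⊕ Fin 2) := by
  intro v w h
  simp only [Cfsg.quadFormMinus, Function.Embedding.inl_apply, add_sub_cancel_left]
  rw [h (Sum.inr 0) (by rintro ⟨x, hx⟩; cases hx), h (Sum.inr 1) (by rintro ⟨x, hx⟩; cases hx)]

end Forms

end Cfsg.Agent.Lib.Known
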