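import Mathlib

set_option autoImplicit false

/-! A nontrivial word is not a law in `A_n` for `n` large. -/

namespace Cfsg.Agent.Lib.Known

theorem exists_perm_extend {n : ℕ} (s : Set (Fin n)) (f : Fin n → Fin n) (hf : Set.InjOn f s) :
    ∃ g : Equiv.Perm (Fin n), ∀ x ∈ s, g x = f x := by
  classical
  obtain ⟨g, hg⟩ := Set.MapsTo.exists_equiv_extend_of_card_eq (t := Finset.univ) (by simp)
    (s := s) (f := f) (fun x _ => Finset.mem_coe.mpr (Finset.mem_univ _)) hf
  exact ⟨g.trans (Equiv.subtypeUnivEquiv (fun _ => Finset.mem_univ _)), fun x hx => hg x hx⟩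

theorem exists_no_law_alt (w : FreeGroup ℕ) (hw : w ≠ 1) :
    ∃ N : ℕ, ∀ n : ℕ, N ≤ n → ∃ f : ℕ → alternatingGroup (Fin n), FreeGroup.lift f w ≠ 1 := by
  classical
  obtain ⟨L, hL⟩ : ∃ L, L = w.toWord := ⟨_, rfl⟩
  have hLne : L ≠ [] := by
    intro h
    apply hw
    have := FreeGroup.mk_toWord (x := w)
    rw [← this, ← hL, h]
    rfl
  have hr1 : 1 ≤ L.length := List.length_pos_iff.mpr hLne
  have hred : ∀ (i : ℕ) (a b : ℕ × Bool), L[i]? = some a → L[i + 1]? = some b → a.1 = b.1 → a.2 = b.2 := by
    intro i a b ha hb
    have hred0 : FreeGroup.IsReduced L := hL ▸ FreeGroup.isReduced_toWord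
    obtain ⟨hi, rfl⟩ := List.getElem?_eq_some_iff.mp hb
    obtain ⟨hi', rfl⟩ := List.getElem?_eq_some_iff.mp ha
    exact List.IsChain.getElem hred0 i hi
  refine ⟨L.length + 3, ?_⟩
  intro n hn
  set r := L.length with hrdef
  -- the partial maps
  let condA : ℕ → ℕ → Prop := fun k x => 1 ≤ x ∧ L[x - 1]? = some (k, true)
  let condB : ℕ → ℕ → Prop := fun k x => L[x]? = some (k, false)
  let fN : ℕ → ℕ → ℕ := fun k x => if condA k x then x - 1 else if condB k x then x + 1 else x
  have hBlt : ∀ k x, condB k x → x < r := by
    intro k x hx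
    exact (List.getElem?_eq_some_iff.mp hx).1
  have hAle : ∀ k x, condA k x → x ≤ r := by
    intro k x hx
    have := (List.getElem?_eq_some_iff.mp hx.2).1
    have h1 := hx.1
    omega
  have hfN_lt : ∀ k (x : Fin n), fN k x < n := by
    intro k x
    simp only [fN]
    split_ifs with h1 h2
    · have := x.2; omega
    · have := hBlt k x h2; omega
    · exact x.2
  let f : ℕ → Fin n → Fin n := fun k x => ⟨fN k x, hfN_lt k x⟩
  let s : ℕ → Set (Fin n) := fun k => {x | condA k x ∨ condB k x}
  have hinj : ∀ k, Set.InjOn (f k) (s k) := by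
    intro k x hx y hy hxy
    have hxy' : fN k x = fN k y := congrArg Fin.val hxy
    apply Fin.ext
    simp only [fN] at hxy'
    by_cases hxA : condA k x <;> by_cases hyA : condA k y
    · rw [if_pos hxA, if_pos hyA] at hxy'
      have h1 := hxA.1
      have h2 := hyA.1
      omega
    · rw [if_pos hxA, if_neg hyA] at hxy'
      have hyB : condB k y := hy.resolve_left hyA
      rw [if_pos hyB] at hxy'
      exfalso
      have h1 := hxA.1
      have hx2 : (x : ℕ) - 1 = y + 1 := hxy'
      have h3 : L[(y : ℕ) + 1]? = some (k, true) := by rw [← hx2]; exact hxA.2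
      have := hred y _ _ hyB h3 rfl
      simp at this
    · rw [if_neg hxA, if_pos hyA] at hxy'
      have hxB : condB k x := hx.resolve_left hxA
      rw [if_pos hxB] at hxy'
      exfalso
      have h1 := hyA.1
      have hx2 : (y : ℕ) - 1 = x + 1 := hxy'.symm
      have h3 : L[(x : ℕ) + 1]? = some (k, true) := by rw [← hx2]; exact hyA.2
      have := hred x _ _ hxB h3 rfl
      simp at this
    · rw [if_neg hxA, if_neg hyA] at hxy'
      rw [if_pos (hx.resolve_left hxA), if_pos (hy.resolve_left hyA)] at hxy'
      omega
  choose g hg using fun k => exists_perm_extend (s k) (f k) (hinj k)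
  have hp : L.length + 1 < n := by omega
  have hq : L.length + 2 < n := by omega
  let p : Fin n := ⟨L.length + 1, hp⟩
  let q : Fin n := ⟨L.length + 2, hq⟩
  have hpq : p ≠ q := by
    intro h
    have := congrArg Fin.val h
    simp [p, q] at this
  let τ : ℕ → Equiv.Perm (Fin n) := fun k =>
    if Equiv.Perm.sign (g k) = 1 then g k else Equiv.swap p q * g k
  have hτ_even : ∀ k, Equiv.Perm.sign (τ k) = 1 := by
    intro k
    simp only [τ]
    split_ifs with h
    · exact h
    · rw [map_mul, Equiv.Perm.sign_swap hpq]
      rcases Int.units_eq_one_or (Equiv.Perm.sign (g k)) with h1 | h1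
      · exact absurd h1 h
      · rw [h1]; rfl
  have hτ : ∀ k x, x ∈ s k → τ k x = f k x := by
    intro k x hx
    have hval : fN k x ≤ L.length := by
      simp only [fN]
      split_ifs with h1 h2
      · have := hAle k x h1; omega
      · have := hBlt k x h2; omega
      · exfalso
        rcases hx with h | h
        · exact h1 h
        · exact h2 h
    simp only [τ]
    split_ifs with h
    · exact hg k x hx
    · rw [Equiv.Perm.mul_apply, hg k x hx]
      apply Equiv.swap_apply_of_ne_of_ne
      · intro h'
        have := congrArg Fin.val h'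
        simp only [f, p] at this
        omega
      · intro h'
        have := congrArg Fin.val h'
        simp only [f, q] at this
        omega
  let letterP : ℕ × Bool → Equiv.Perm (Fin n) := fun x => cond x.2 (τ x.1) (τ x.1)⁻¹
  have hrn : L.length < n := by omega
  -- the walk
  have hwalk : ∀ (S : List (ℕ × Bool)) (i : ℕ), L.drop i = S → i + S.length = L.length →
      ∀ (hi : i < n), (S.map letterP).prod ⟨L.length, hrn⟩ = ⟨i, hi⟩ := by
    intro S
    induction S with
    | nil =>
      intro i _ h1 hi
      simp only [List.length_nil, add_zero] at h1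
      simp only [List.map_nil, List.prod_nil, Equiv.Perm.coe_one, id_eq]
      exact Fin.ext h1.symm
    | cons a S ih =>
      intro i h0 h1 hi
      simp only [List.length_cons] at h1
      have hiL : i < L.length := by omega
      have h2 : L.drop i = L[i] :: L.drop (i + 1) := List.drop_eq_getElem_cons hiL
      rw [h0] at h2
      obtain ⟨h3, h4⟩ := List.cons.inj h2
      have h5 := ih (i + 1) h4.symm (by omega) (by omega)
      rw [List.map_cons, List.prod_cons, Equiv.Perm.mul_apply, h5]
      have hget : L[i]? = some a := by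
        rw [List.getElem?_eq_getElem hiL, h3]
      obtain ⟨k, e⟩ := a
      cases e
      · -- inverse letter
        change (τ k)⁻¹ _ = _
        rw [Equiv.Perm.inv_eq_iff_eq]
        have hnA : ¬ condA k i := by
          rintro ⟨h6, h7⟩
          have h8 : i - 1 + 1 = i := by omega
          have := hred (i - 1) (k, true) (k, false) h7 (by rw [h8]; exact hget) rfl
          simp at this
        have hB : condB k i := hget
        rw [hτ k ⟨i, hi⟩ (Or.inr hB)]
        apply Fin.ext
        simp only [f, fN]
        rw [if_neg hnA, if_pos hB]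
      · change τ k _ = _
        have hA : condA k (i + 1) := ⟨by omega, by simpa using hget⟩
        rw [hτ k ⟨i + 1, by omega⟩ (Or.inl hA)]
        apply Fin.ext
        simp only [f, fN]
        rw [if_pos hA]
        simp
  refine ⟨fun k => ⟨τ k, Equiv.Perm.mem_alternatingGroup.mpr (hτ_even k)⟩, ?_⟩
  intro h1
  have h2 := hwalk L 0 (by simp) (by simp) (by omega)
  have h3 : (L.map letterP).prod = 1 := by
    have h4 := congrArg (alternatingGroup (Fin n)).subtype h1
    rw [map_one, ← FreeGroup.mk_toWord (x := w), FreeGroup.lift_mk, ← hL, map_list_prod,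
      List.map_map] at h4
    rw [← h4]
    congr 1
    apply List.map_congr_left
    rintro ⟨k, e⟩ _
    cases e <;> rfl
  rw [h3] at h2
  have := congrArg Fin.val h2
  simp only [Equiv.Perm.coe_one, id_eq] at this
  omega

end Cfsg.Agent.Lib.Known
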