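import Mathlib
import Cfsg.Agent.Lib.Known.LawEmbed
import Cfsg.Agent.Lib.Known.NoLaw
import Cfsg.Agent.Lib.Known.NoLawAlt
import Cfsg.Agent.Lib.Classical.SU2
import Cfsg.Agent.Lib.Classical.PSL2Simple

set_option autoImplicit false

/-! Laws in the alternating and classical simple groups. -/

namespace Cfsg.Agent.Lib.Known

open Matrix

theorem card_quot_le_matrix {X ι F : Type*} [Group X] [Fintype ι] [DecidableEq ι] [Field F] [Fintype F]
    {Z : Subgroup X} [Z.Normal] (inj : X → Matrix ι ι F) (hinj : Function.Injective inj) {G : Type*} [Group G]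
    (e : G ≃* X ⧸ Z) : Nat.card G ≤ Fintype.card F ^ (Fintype.card ι * Fintype.card ι) := by
  classical
  have h0 : Nat.card (Matrix ι ι F) = Fintype.card F ^ (Fintype.card ι * Fintype.card ι) := by
    change Nat.card (ι → ι → F) = _
    rw [Nat.card_fun, Nat.card_fun, Nat.card_eq_fintype_card, Nat.card_eq_fintype_card, ← pow_mul]
  haveI : Finite X := Finite.of_injective inj hinj
  rw [Nat.card_congr e.toEquiv, ← h0]
  calc Nat.card (X ⧸ Z) ≤ Nat.card X := Nat.card_le_card_of_surjective _ QuotientGroup.mk_surjective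
    _ ≤ _ := Nat.card_le_card_of_injective inj hinj

theorem perfect_sl2 {K : Type*} [Field K] [Fintype K] (h4 : 4 ≤ Fintype.card K) :
    commutator (SpecialLinearGroup (Fin 2) K) = ⊤ := by
  obtain ⟨a, ha, ha1⟩ := Cfsg.Agent.Lib.Classical.exists_sq_ne_one (F := K) (by rw [Nat.card_eq_fintype_card]; exact h4)
  exact Cfsg.Agent.Lib.Classical.commutator_sl_eq_top_of_sq_ne_one a ha ha1

/-- The main bound. -/
theorem exists_law_bound (w : FreeGroup ℕ) (hw : w ≠ 1) :
    ∃ N : ℕ, ∀ (G : Type*) [Group G] [Finite G],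
      (Cfsg.IsAlternating G ∨ Cfsg.IsPSL G ∨ Cfsg.IsPSp G ∨ Cfsg.IsPSU G ∨ Cfsg.IsPOmegaOdd G ∨
          Cfsg.IsPOmegaPlus G ∨ Cfsg.IsPOmegaMinus G) →
      (∀ f : ℕ → G, FreeGroup.lift f w = 1) → Nat.card G ≤ N := by
  classical
  obtain ⟨NA, hNA⟩ := exists_no_law_alt w hw
  obtain ⟨NP, hNP⟩ := exists_no_law_psl2.{0} w hw
  set M := max NA 5 with hM
  set P := max NP 4 with hP
  have hNAM : NA ≤ M := le_max_left _ _
  have h5M : 5 ≤ M := le_max_right _ _
  have hNPP : NP ≤ P := le_max_left _ _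
  have h4P : 4 ≤ P := le_max_right _ _
  -- Alternating groups have no law
  have hAlt : ∀ (m : ℕ), M ≤ m → ¬ LawIn w (alternatingGroup (Fin m)) := by
    intro m hm hlaw
    obtain ⟨f, hf⟩ := hNA m (hNAM.trans hm)
    exact hf (hlaw f)
  have hAltS : ∀ (m : ℕ), M ≤ m → ∀ {S : Type _} [Group S] (φ : alternatingGroup (Fin m) →* S),
      Function.Injective φ → ¬ LawIn w (S ⧸ Subgroup.center S) := by
    intro m hm S _ φ hφ hlaw
    apply hAlt m hm
    apply (hlaw.center_quot φ hφ).of_center_eq_bot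
    apply alternatingGroup.center_eq_bot
    simp
    omega
  have hSL2 : ∀ (K : Type) [Field K] [Fintype K], NP ≤ Fintype.card K →
      ∀ {S : Type _} [Group S] (φ : SpecialLinearGroup (Fin 2) K →* S),
      Function.Injective φ → ¬ LawIn w (S ⧸ Subgroup.center S) := by
    intro K _ _ hK S _ φ hφ hlaw
    obtain ⟨f, hf⟩ := hNP K hK
    exact hf ((hlaw.center_quot φ hφ) f)
  have hperfA : ∀ (m : ℕ), M ≤ m → commutator (alternatingGroup (Fin m)) = ⊤ := by
    intro m hm
    apply commutator_alternatingGroup_eq_top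
    simp
    omega
  -- bounds in general
  have hbound : ∀ (a d k : ℕ), a ≤ P ^ 2 → k ≤ d → d ≤ 2 * M + 4 → a ^ (k * k) ≤ (P ^ 2) ^ ((2 * M + 4) * (2 * M + 4)) := by
    intro a d k ha hk hd
    have h1 : 1 ≤ P ^ 2 := Nat.one_le_pow _ _ (by omega)
    calc a ^ (k * k) ≤ (P ^ 2) ^ (k * k) := Nat.pow_le_pow_left ha _
      _ ≤ (P ^ 2) ^ ((2 * M + 4) * (2 * M + 4)) :=
        Nat.pow_le_pow_right h1 (Nat.mul_le_mul (hk.trans hd) (hk.trans hd))
  have hPP : ∀ a, a < NP → a ≤ P ^ 2 := by
    intro a ha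
    have : P ≤ P ^ 2 := Nat.le_self_pow (by norm_num) P
    omega
  -- the orthogonal groups
  have horth : ∀ (F : Type) [Field F] [Fintype F] {ι : Type} [Fintype ι] [DecidableEq ι] (Q : (ι → F) → F) {m : ℕ}
      {b : Fin m ⊕ Fin m ↪ ι}, IsPairForm Q b → 2 ≤ m → LawIn w (Cfsg.POmega F Q) →
      m < M ∧ Fintype.card F ≤ P ^ 2 := by
    intro F _ _ ι _ _ Q m b hQ hm hl
    constructor
    · by_contra hcon
      have hmM := not_lt.mp hcon
      have hp := hperfA m hmM
      let φ : alternatingGroup (Fin m) →* Cfsg.isometryGroup F Q :=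
        toIsom ((permMat F b).comp (alternatingGroup (Fin m)).subtype) (fun h v => permMat_preserves hQ h.1 v)
      have hφ : Function.Injective φ := toIsom_injective _ ((permMat_injective b).comp Subtype.val_injective)
      exact hAltS m hmM (toOmega hp φ) (toOmega_injective hp hφ) hl
    · by_contra hcon
      have hc2 : P ^ 2 < Fintype.card F := not_le.mp hcon
      have hPP2 : P ≤ P ^ 2 := Nat.le_self_pow (by norm_num) P
      have h4 : 4 ≤ Fintype.card F := by omega
      have hNP2 : NP ≤ Fintype.card F := by omega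
      have hp := perfect_sl2 h4
      let t : Fin 2 ↪ Fin m := Fin.castLEEmb hm
      let φ : SpecialLinearGroup (Fin 2) F →* Cfsg.isometryGroup F Q :=
        toIsom (sl2Mat F b t) (fun h v => sl2Mat_preserves t hQ h v)
      have hφ : Function.Injective φ := toIsom_injective _ (sl2Mat_injective b t)
      exact hSL2 F hNP2 (toOmega hp φ) (toOmega_injective hp hφ) hl
  refine ⟨M.factorial + (P ^ 2) ^ ((2 * M + 4) * (2 * M + 4)), ?_⟩
  intro G _ _ hG hlaw
  have hlaw' : LawIn w G := hlaw
  rcases hG with hG | hG | hG | hG | hG | hG | hG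
  · -- alternating
    obtain ⟨n, hn, ⟨e⟩⟩ := hG
    have hnM : n < M := by
      by_contra hcon
      exact hAlt n (not_lt.mp hcon) (hlaw'.of_mulEquiv e)
    have h1 : Nat.card G ≤ n.factorial := by
      rw [Nat.card_congr e.toEquiv]
      calc Nat.card (alternatingGroup (Fin n)) ≤ Nat.card (Equiv.Perm (Fin n)) :=
            Nat.card_le_card_of_injective _ Subtype.val_injective
        _ = n.factorial := by simp [Nat.card_eq_fintype_card, Fintype.card_perm]
    have h2 := Nat.factorial_le hnM.le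
    omega
  · -- linear
    obtain ⟨F, _, _, n, hn, _, ⟨e⟩⟩ := hG
    have hl := hlaw'.of_mulEquiv e
    have hnM : n < M := by
      by_contra hcon
      exact hAltS n (not_lt.mp hcon) (altToSL F n) (altToSL_injective F n) hl
    have hF : Fintype.card F < NP := by
      by_contra hcon
      exact hSL2 F (not_lt.mp hcon) (sl2ToSL (Fin.castLEEmb hn)) (sl2ToSL_injective _) hl
    have h1 := card_quot_le_matrix (ι := Fin n) (F := F) (X := SpecialLinearGroup (Fin n) F) (fun x => x.1) Subtype.val_injective e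
    have h2 := hbound (Fintype.card F) (2 * M + 4) (Fintype.card (Fin n)) (hPP _ hF) (by simp; omega) le_rfl
    omega
  · -- symplectic
    obtain ⟨F, _, _, m, hm, _, ⟨e⟩⟩ := hG
    have hl := hlaw'.of_mulEquiv e
    have hmM : m < M := by
      by_contra hcon
      exact hAltS m (not_lt.mp hcon) ((permToSp F m).comp (alternatingGroup (Fin m)).subtype)
        ((permToSp_injective m).comp Subtype.val_injective) hl
    have hF : Fintype.card F < NP := by
      by_contra hcon
      exact hSL2 F (not_lt.mp hcon) (sl2ToSp (⟨0, by omega⟩ : Fin m)) (sl2ToSp_injective _) hl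
    have h1 := card_quot_le_matrix (ι := Fin m ⊕ Fin m) (F := F) (X := Matrix.symplecticGroup (Fin m) F) (fun x => x.1) Subtype.val_injective e
    have h2 := hbound (Fintype.card F) (2 * M + 4) (Fintype.card (Fin m ⊕ Fin m)) (hPP _ hF) (by simp; omega) le_rfl
    omega
  · -- unitary
    obtain ⟨F, _, _, n, q, hFq, hn, _, ⟨e⟩⟩ := hG
    have hl := hlaw'.of_mulEquiv e
    have hnM : n < M := by
      by_contra hcon
      exact hAltS n (not_lt.mp hcon) (altToSU F q n) (altToSU_injective F q n) hl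
    have hq : q < NP := by
      by_contra hcon
      obtain ⟨K, _, _, hK⟩ := Cfsg.Agent.Lib.Classical.exists_field_sqrt hFq
      obtain ⟨e2⟩ := Cfsg.Agent.Lib.Classical.su_two_equiv_sl hFq hK
      exact hSL2 K (by rw [hK]; exact not_lt.mp hcon)
        ((su2ToSU (Fin.castLEEmb (by omega : 2 ≤ n))).comp e2.symm.toMonoidHom)
        ((su2ToSU_injective _).comp e2.symm.injective) hl
    have h1 := card_quot_le_matrix (ι := Fin n) (F := F) (X := Cfsg.SU n F q) (fun x => x.1.1)
      (fun a b h => Subtype.ext (Subtype.ext h)) e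
    have hFq' : Fintype.card F ≤ P ^ 2 := by
      rw [hFq]
      exact Nat.pow_le_pow_left (by omega) 2
    have h2 := hbound (Fintype.card F) (2 * M + 4) (Fintype.card (Fin n)) hFq' (by simp; omega) le_rfl
    omega
  · -- odd orthogonal
    obtain ⟨F, _, _, m, hm, _, ⟨e⟩⟩ := hG
    have hl := hlaw'.of_mulEquiv e
    have hQ := isPairForm_odd (F := F) m
    have hbd := horth F _ hQ (by omega : 2 ≤ m) hl
    have h1 := card_quot_le_matrix (ι := Unit ⊕ (Fin m ⊕ Fin m)) (F := F) (X := Cfsg.Omega F (Cfsg.quadFormOdd m F))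
      (fun x => ((x.1.1 : Matrix.GeneralLinearGroup _ F) : Matrix _ _ F))
      (fun a b h => Subtype.ext (Subtype.ext (Units.ext h))) e
    have h2 := hbound (Fintype.card F) (2 * M + 4) (Fintype.card (Unit ⊕ (Fin m ⊕ Fin m))) hbd.2 (by simp; omega) le_rfl
    omega
  · obtain ⟨F, _, _, m, hm, ⟨e⟩⟩ := hG
    have hl := hlaw'.of_mulEquiv e
    have hQ := isPairForm_plus (F := F) m
    have hbd := horth F _ hQ (by omega : 2 ≤ m) hl
    have h1 := card_quot_le_matrix (ι := Fin m ⊕ Fin m) (F := F) (X := Cfsg.Omega F (Cfsg.quadFormPlus m F))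
      (fun x => ((x.1.1 : Matrix.GeneralLinearGroup _ F) : Matrix _ _ F))
      (fun a b h => Subtype.ext (Subtype.ext (Units.ext h))) e
    have h2 := hbound (Fintype.card F) (2 * M + 4) (Fintype.card (Fin m ⊕ Fin m)) hbd.2 (by simp; omega) le_rfl
    omega
  · obtain ⟨F, _, _, m, a, b, hm, _, ⟨e⟩⟩ := hG
    have hl := hlaw'.of_mulEquiv e
    have hQ := isPairForm_minus (F := F) (m - 1) a b
    have hbd := horth F _ hQ (by omega : 2 ≤ m - 1) hl
    have h1 := card_quot_le_matrix (ι := (Fin (m - 1) ⊕ Fin (m - 1)) ⊕ Fin 2) (F := F) (X := Cfsg.Omega F (Cfsg.quadFormMinus (m - 1) F a b))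
      (fun x => ((x.1.1 : Matrix.GeneralLinearGroup _ F) : Matrix _ _ F))
      (fun a b h => Subtype.ext (Subtype.ext (Units.ext h))) e
    have h2 := hbound (Fintype.card F) (2 * M + 4) (Fintype.card ((Fin (m - 1) ⊕ Fin (m - 1)) ⊕ Fin 2)) hbd.2 (by simp; omega) le_rfl
    omega

end Cfsg.Agent.Lib.Known
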