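import Mathlib

/-!
# Sylow 2-subgroups of `PGL₂(q)`, `q` a Mersenne prime
-/

set_option autoImplicit false
set_option linter.unusedVariables false
set_option linter.unusedSectionVars false
set_option linter.unusedSimpArgs false

namespace Cfsg.Agent.Lib.Known.Mers

open Matrix
open scoped Pointwise

section

variable (K : Type*) [Field K]

/-- The matrix of a complex structure. -/
def JM : Matrix (Fin 2) (Fin 2) K := !![0, -1; 1, 0]

theorem JM_sq : JM K * JM K = -1 := by
  ext i j
  fin_cases i <;> fin_cases j <;> simp [JM, Matrix.mul_apply, Fin.sum_univ_two]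

theorem JM_det : (JM K).det = 1 := by
  simp [JM, Matrix.det_fin_two]

/-- The complex structure in `GL₂`. -/
noncomputable def JG : GL (Fin 2) K :=
  Matrix.GeneralLinearGroup.mkOfDetNeZero (JM K) (by rw [JM_det]; exact one_ne_zero)

theorem JG_coe : ((JG K : GL (Fin 2) K) : Matrix (Fin 2) (Fin 2) K) = JM K := rfl

variable {K}

theorem swap_aux {n : Type*} [Fintype n] [DecidableEq n] {m m' J J' : Matrix n n K} (h1 : m' * m = 1) (h2 : m * m' = 1)
    (h : m * J = J' * m) : m' * J' = J * m' := by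
  calc m' * J' = m' * J' * (m * m') := by rw [h2, Matrix.mul_one]
    _ = m' * (J' * m) * m' := by simp only [Matrix.mul_assoc]
    _ = m' * (m * J) * m' := by rw [h]
    _ = (m' * m) * J * m' := by simp only [Matrix.mul_assoc]
    _ = J * m' := by rw [h1, Matrix.one_mul]

theorem gl_inv_mul (a : GL (Fin 2) K) : ((a⁻¹ : GL (Fin 2) K) : Matrix (Fin 2) (Fin 2) K) * (a : Matrix (Fin 2) (Fin 2) K) = 1 := by
  rw [← Units.val_mul, inv_mul_cancel]; rfl

theorem gl_mul_inv (a : GL (Fin 2) K) : (a : Matrix (Fin 2) (Fin 2) K) * ((a⁻¹ : GL (Fin 2) K) : Matrix (Fin 2) (Fin 2) K) = 1 := by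
  rw [← Units.val_mul, mul_inv_cancel]; rfl

variable (K)

/-- The normalizer of the line spanned by `J`. -/
def SS : Subgroup (GL (Fin 2) K) where
  carrier := {A | (A : Matrix (Fin 2) (Fin 2) K) * JM K = JM K * A ∨ (A : Matrix (Fin 2) (Fin 2) K) * JM K = -(JM K * A)}
  mul_mem' := by
    rintro a b (ha | ha) (hb | hb)
    · left
      rw [Units.val_mul, Matrix.mul_assoc, hb, ← Matrix.mul_assoc, ha, Matrix.mul_assoc]
    · right
      rw [Units.val_mul, Matrix.mul_assoc, hb, Matrix.mul_neg, ← Matrix.mul_assoc, ha, Matrix.mul_assoc]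
    · right
      rw [Units.val_mul, Matrix.mul_assoc, hb, ← Matrix.mul_assoc, ha, Matrix.neg_mul, Matrix.mul_assoc]
    · left
      rw [Units.val_mul, Matrix.mul_assoc, hb, Matrix.mul_neg, ← Matrix.mul_assoc, ha, Matrix.neg_mul, neg_neg, Matrix.mul_assoc]
  one_mem' := by
    left
    simp
  inv_mem' := by
    rintro a (ha | ha)
    · left
      exact (swap_aux (gl_inv_mul a) (gl_mul_inv a) ha)
    · right
      have h := swap_aux (J' := -JM K) (gl_inv_mul a) (gl_mul_inv a) (by rw [ha, Matrix.neg_mul])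
      rw [Matrix.mul_neg] at h
      rw [← h, neg_neg]

variable {K}

theorem mem_SS {A : GL (Fin 2) K} : A ∈ SS K ↔ (A : Matrix (Fin 2) (Fin 2) K) * JM K = JM K * A ∨ (A : Matrix (Fin 2) (Fin 2) K) * JM K = -(JM K * A) := Iff.rfl

theorem JG_mem : JG K ∈ SS K := by
  left
  rfl

theorem center_le_SS : Subgroup.center (GL (Fin 2) K) ≤ SS K := by
  intro A hA
  left
  have := (Subgroup.mem_center_iff.1 hA) (JG K)
  have h2 := congrArg Units.val this
  rw [Units.val_mul, Units.val_mul, JG_coe] at h2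
  exact h2.symm

theorem JG_not_center : JG K ∉ Subgroup.center (GL (Fin 2) K) := by
  intro hA
  have hE : (!![1, 1; 0, 1] : Matrix (Fin 2) (Fin 2) K).det ≠ 0 := by
    simp [Matrix.det_fin_two]
  have := (Subgroup.mem_center_iff.1 hA) (Matrix.GeneralLinearGroup.mkOfDetNeZero _ hE)
  have h2 := congrArg Units.val this
  rw [Units.val_mul, Units.val_mul, JG_coe] at h2
  have h3 := congrFun (congrFun h2 0) 0
  simp [JM, Matrix.mul_apply, Fin.sum_univ_two, Matrix.GeneralLinearGroup.mkOfDetNeZero, Matrix.nonsingInvUnit] at h3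

/-- Any two conjugates of `S` meet in a non-central element. -/
theorem core (hm1 : ∀ a b : K, a ^ 2 + b ^ 2 = 0 → a = 0 ∧ b = 0) (h2 : (2 : K) ≠ 0) (y : GL (Fin 2) K) :
    ∃ A ∈ SS K, y⁻¹ * A * y ∈ SS K ∧ A ∉ Subgroup.center (GL (Fin 2) K) := by
  set J' : Matrix (Fin 2) (Fin 2) K := (y : Matrix (Fin 2) (Fin 2) K) * JM K * ((y⁻¹ : GL (Fin 2) K) : Matrix (Fin 2) (Fin 2) K) with hJ'
  have htr : J' 0 0 + J' 1 1 = 0 := by
    have h1 : J'.trace = 0 := by
      rw [hJ', Matrix.trace_mul_comm, ← Matrix.mul_assoc, gl_inv_mul, Matrix.one_mul]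
      simp [JM, Matrix.trace_fin_two]
    simpa [Matrix.trace_fin_two] using h1
  have hdet : J' 0 0 * J' 1 1 - J' 0 1 * J' 1 0 = 1 := by
    have h1 : J'.det = 1 := by
      have h3 : (y : Matrix (Fin 2) (Fin 2) K).det * ((y⁻¹ : GL (Fin 2) K) : Matrix (Fin 2) (Fin 2) K).det = 1 := by
        rw [← Matrix.det_mul, gl_mul_inv, Matrix.det_one]
      rw [hJ', Matrix.det_mul, Matrix.det_mul, JM_det]
      linear_combination h3
    rwa [Matrix.det_fin_two] at h1
  set a := J' 0 0 with ha
  set b := J' 0 1 with hb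
  set c := J' 1 0 with hc
  have hd : J' 1 1 = -a := by linear_combination htr
  have hJ2 : J' = !![a, b; c, -a] := by
    ext i j
    fin_cases i <;> fin_cases j <;> simp [← ha, ← hb, ← hc, hd]
  have hJy : (y : Matrix (Fin 2) (Fin 2) K) * JM K = J' * y := by
    rw [hJ', Matrix.mul_assoc, gl_inv_mul, Matrix.mul_one]
  by_cases hT : (b + c) ^ 2 + (2 * a) ^ 2 = 0
  · -- `y` normalizes the line of `J`
    obtain ⟨h1, h3⟩ := hm1 _ _ hT
    have ha0 : a = 0 := by
      rcases mul_eq_zero.1 h3 with h | h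
      · exact absurd h h2
      · exact h
    have hc' : c = -b := by linear_combination h1
    have hb2 : b ^ 2 = 1 := by
      rw [hd, ha0, hc'] at hdet
      linear_combination hdet
    have hy : y ∈ SS K := by
      have hb3 : (b - 1) * (b + 1) = 0 := by linear_combination hb2
      rcases mul_eq_zero.1 hb3 with h | h
      · right
        have hb1 : b = 1 := by linear_combination h
        have e : J' = -JM K := by
          rw [hJ2, hc', ha0, hb1]
          ext i j
          fin_cases i <;> fin_cases j <;> simp [JM]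
        rw [hJy, e, Matrix.neg_mul]
      · left
        have hb1 : b = -1 := by linear_combination h
        have e : J' = JM K := by
          rw [hJ2, hc', ha0, hb1]
          ext i j
          fin_cases i <;> fin_cases j <;> simp [JM]
        rw [hJy, e]
    exact ⟨JG K, JG_mem, mul_mem (mul_mem (inv_mem hy) JG_mem) hy, JG_not_center⟩
  · -- the commutator
    set T : Matrix (Fin 2) (Fin 2) K := !![-(b + c), 2 * a; 2 * a, b + c] with hTdef
    have hTdet : T.det ≠ 0 := by
      rw [hTdef, Matrix.det_fin_two]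
      simp only [Matrix.of_apply, Matrix.cons_val', Matrix.cons_val_zero, Matrix.cons_val_one, Matrix.cons_val_fin_one, Matrix.empty_val']
      intro h
      apply hT
      linear_combination -h
    have hTJ : T * JM K = -(JM K * T) := by
      ext i j
      fin_cases i <;> fin_cases j <;> simp [hTdef, JM, Matrix.mul_apply, Fin.sum_univ_two]
    have hTJ' : T * J' = -(J' * T) := by
      rw [hJ2]
      ext i j
      fin_cases i <;> fin_cases j <;> simp [hTdef, Matrix.mul_apply, Fin.sum_univ_two] <;> ring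
    set A : GL (Fin 2) K := Matrix.GeneralLinearGroup.mkOfDetNeZero T hTdet with hA
    have hAc : (A : Matrix (Fin 2) (Fin 2) K) = T := rfl
    refine ⟨A, Or.inr hTJ, ?_, ?_⟩
    · right
      rw [Units.val_mul, Units.val_mul, hAc]
      have e1 : ((y⁻¹ : GL (Fin 2) K) : Matrix (Fin 2) (Fin 2) K) * T * (y : Matrix (Fin 2) (Fin 2) K) * JM K
          = ((y⁻¹ : GL (Fin 2) K) : Matrix (Fin 2) (Fin 2) K) * (T * J') * (y : Matrix (Fin 2) (Fin 2) K) := by
        rw [Matrix.mul_assoc _ (y : Matrix (Fin 2) (Fin 2) K), hJy]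
        simp only [Matrix.mul_assoc]
      have e2 : JM K * (((y⁻¹ : GL (Fin 2) K) : Matrix (Fin 2) (Fin 2) K) * T * (y : Matrix (Fin 2) (Fin 2) K))
          = ((y⁻¹ : GL (Fin 2) K) : Matrix (Fin 2) (Fin 2) K) * (J' * T) * (y : Matrix (Fin 2) (Fin 2) K) := by
        have : ((y⁻¹ : GL (Fin 2) K) : Matrix (Fin 2) (Fin 2) K) * J' = JM K * ((y⁻¹ : GL (Fin 2) K) : Matrix (Fin 2) (Fin 2) K) := by
          rw [hJ', ← Matrix.mul_assoc, ← Matrix.mul_assoc, gl_inv_mul, Matrix.one_mul]
        calc _ = (JM K * ((y⁻¹ : GL (Fin 2) K) : Matrix (Fin 2) (Fin 2) K)) * T * (y : Matrix (Fin 2) (Fin 2) K) := by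
              simp only [Matrix.mul_assoc]
          _ = _ := by rw [← this]; simp only [Matrix.mul_assoc]
      rw [e1, e2, hTJ', Matrix.mul_neg, Matrix.neg_mul]
    · intro hc0
      have h3 := (Subgroup.mem_center_iff.1 hc0) (JG K)
      have h4 := congrArg Units.val h3
      rw [Units.val_mul, Units.val_mul, JG_coe, hAc] at h4
      rw [← h4] at hTJ
      have h5 : (2 : K) • (JM K * T) = 0 := by
        rw [two_smul]
        nth_rewrite 1 [hTJ]
        simp
      have h6 : JM K * T = 0 := by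
        rcases smul_eq_zero.1 h5 with h | h
        · exact absurd h h2
        · exact h
      have h7 : T = 0 := by
        have h8 : JM K * (JM K * T) = 0 := by rw [h6, Matrix.mul_zero]
        rw [← Matrix.mul_assoc, JM_sq] at h8
        simpa using h8
      apply hTdet
      rw [h7]
      simp

/-! ### Counting `S` -/

variable [Fintype K] [DecidableEq K]

/-- The elements of `S` from a parameter. -/
noncomputable def sMat (x : K × K) (e : Bool) : Matrix (Fin 2) (Fin 2) K :=
  if e then !![x.1, x.2; x.2, -x.1] else !![x.1, -x.2; x.2, x.1]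

theorem sMat_det (hm1 : ∀ a b : K, a ^ 2 + b ^ 2 = 0 → a = 0 ∧ b = 0) {x : K × K} (hx : x ≠ 0) (e : Bool) :
    (sMat x e).det ≠ 0 := by
  have hne : x.1 ^ 2 + x.2 ^ 2 ≠ 0 := by
    intro h
    obtain ⟨h1, h3⟩ := hm1 _ _ h
    exact hx (Prod.ext h1 h3)
  cases e
  · simp only [sMat, Matrix.det_fin_two_of, Bool.false_eq_true, if_false]
    intro h
    apply hne
    linear_combination h
  · simp only [sMat, Matrix.det_fin_two_of, if_true]
    intro h
    apply hne
    linear_combination -h

/-- Parametrizing `S`. -/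
theorem card_SS (hm1 : ∀ a b : K, a ^ 2 + b ^ 2 = 0 → a = 0 ∧ b = 0) (h2 : (2 : K) ≠ 0) :
    Nat.card (SS K) = 2 * (Fintype.card K ^ 2 - 1) := by
  classical
  let f : ({x : K × K // x ≠ 0} × Bool) → SS K := fun p =>
    ⟨Matrix.GeneralLinearGroup.mkOfDetNeZero (sMat p.1.1 p.2) (sMat_det hm1 p.1.2 p.2), by
      rcases p with ⟨⟨⟨a, b⟩, hx⟩, e⟩
      cases e
      · left
        change sMat (a, b) false * JM K = JM K * sMat (a, b) false
        ext i j
        fin_cases i <;> fin_cases j <;> simp [sMat, JM, Matrix.mul_apply, Fin.sum_univ_two]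
      · right
        change sMat (a, b) true * JM K = -(JM K * sMat (a, b) true)
        ext i j
        fin_cases i <;> fin_cases j <;> simp [sMat, JM, Matrix.mul_apply, Fin.sum_univ_two]⟩
  have hf : Function.Bijective f := by
    constructor
    · rintro ⟨⟨⟨a, b⟩, hx⟩, e⟩ ⟨⟨⟨a', b'⟩, hx'⟩, e'⟩ h
      have h1 : sMat (a, b) e = sMat (a', b') e' := congrArg (fun z : SS K => ((z : GL (Fin 2) K) : Matrix (Fin 2) (Fin 2) K)) h
      have h00 := congrFun (congrFun h1 0) 0
      have h10 := congrFun (congrFun h1 1) 0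
      have h01 := congrFun (congrFun h1 0) 1
      have h11 := congrFun (congrFun h1 1) 1
      cases e <;> cases e' <;> simp [sMat] at h00 h10 h01 h11
      · subst h00 h10
        rfl
      · exfalso
        apply hx
        have ha : a = 0 := by
          have : (2 : K) * a = 0 := by first | linear_combination h00 + h11 | linear_combination h00 - h11
          exact (mul_eq_zero.1 this).resolve_left h2
        have hb : b = 0 := by
          have : (2 : K) * b = 0 := by first | linear_combination h10 - h01 | linear_combination h10 + h01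
          exact (mul_eq_zero.1 this).resolve_left h2
        rw [ha, hb]
        rfl
      · exfalso
        apply hx
        have ha : a = 0 := by
          have : (2 : K) * a = 0 := by first | linear_combination h00 + h11 | linear_combination h00 - h11
          exact (mul_eq_zero.1 this).resolve_left h2
        have hb : b = 0 := by
          have : (2 : K) * b = 0 := by first | linear_combination h10 - h01 | linear_combination h10 + h01
          exact (mul_eq_zero.1 this).resolve_left h2
        rw [ha, hb]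
        rfl
      · subst h00 h10
        rfl
    · rintro ⟨A, hA⟩
      have hdet : (A : Matrix (Fin 2) (Fin 2) K).det ≠ 0 := by
        intro h
        have h3 := A.isUnit.map (Matrix.detMonoidHom (n := Fin 2) (R := K))
        rw [Matrix.coe_detMonoidHom, h] at h3
        exact not_isUnit_zero h3
      rcases hA with hA | hA
      · have h00 := congrFun (congrFun hA 0) 0
        have h01 := congrFun (congrFun hA 0) 1
        simp [JM, Matrix.mul_apply, Fin.sum_univ_two, Matrix.vecMul, dotProduct] at h00 h01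
        have hx : ((A : Matrix (Fin 2) (Fin 2) K) 0 0, (A : Matrix (Fin 2) (Fin 2) K) 1 0) ≠ 0 := by
          intro h
          have e1 : (A : Matrix (Fin 2) (Fin 2) K) 0 0 = 0 := congrArg Prod.fst h
          have e2 : (A : Matrix (Fin 2) (Fin 2) K) 1 0 = 0 := congrArg Prod.snd h
          apply hdet
          rw [Matrix.det_fin_two, e1, e2]
          ring
        refine ⟨⟨⟨_, hx⟩, false⟩, ?_⟩
        apply Subtype.ext
        apply Units.ext
        change sMat _ false = _
        ext i j
        fin_cases i <;> fin_cases j <;> simp [sMat] <;> first | linear_combination h00 | linear_combination h01 | linear_combination -h00 | linear_combination -h01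
      · have h00 := congrFun (congrFun hA 0) 0
        have h01 := congrFun (congrFun hA 0) 1
        simp [JM, Matrix.mul_apply, Fin.sum_univ_two, Matrix.vecMul, dotProduct] at h00 h01
        have hx : ((A : Matrix (Fin 2) (Fin 2) K) 0 0, (A : Matrix (Fin 2) (Fin 2) K) 1 0) ≠ 0 := by
          intro h
          have e1 : (A : Matrix (Fin 2) (Fin 2) K) 0 0 = 0 := congrArg Prod.fst h
          have e2 : (A : Matrix (Fin 2) (Fin 2) K) 1 0 = 0 := congrArg Prod.snd h
          apply hdet
          rw [Matrix.det_fin_two, e1, e2]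
          ring
        refine ⟨⟨⟨_, hx⟩, true⟩, ?_⟩
        apply Subtype.ext
        apply Units.ext
        change sMat _ true = _
        ext i j
        fin_cases i <;> fin_cases j <;> simp [sMat] <;> first | linear_combination h00 | linear_combination h01 | linear_combination -h00 | linear_combination -h01
  rw [← Nat.card_congr (Equiv.ofBijective f hf), Nat.card_prod, Nat.card_eq_fintype_card, Nat.card_eq_fintype_card]
  have : Fintype.card {x : K × K // x ≠ 0} = Fintype.card K ^ 2 - 1 := by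
    rw [Fintype.card_subtype_compl, Fintype.card_prod]
    simp [pow_two]
  rw [this]
  simp [mul_comm]

end

section main

variable {q k : ℕ} [Fact q.Prime]

theorem scalar_mem_center {K : Type*} [Field K] (A : GL (Fin 2) K) (c : K)
    (h : (A : Matrix (Fin 2) (Fin 2) K) = c • 1) : A ∈ Subgroup.center (GL (Fin 2) K) := by
  rw [Subgroup.mem_center_iff]
  intro B
  apply Units.ext
  rw [Units.val_mul, Units.val_mul, h]
  simp

theorem JM_pow {n : ℕ} (t : ℕ) (hn : n = 4 * t + 3) : JM (ZMod q) ^ n = -JM (ZMod q) := by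
  subst hn
  have h4 : JM (ZMod q) ^ 4 = 1 := by
    rw [show (4 : ℕ) = 2 + 2 from rfl, pow_add, pow_two, JM_sq]
    simp
  rw [pow_add, pow_mul, h4, one_pow, Matrix.one_mul, show (3 : ℕ) = 2 + 1 from rfl, pow_add, pow_two, JM_sq]
  simp

theorem pow_aux {t : ℕ} (hq4 : q = 4 * t + 3) (a b : ZMod q) :
    (a • (1 : Matrix (Fin 2) (Fin 2) (ZMod q)) + b • JM (ZMod q)) ^ (q + 1) = (a ^ 2 + b ^ 2) • 1 := by
  have hc : Commute (a • (1 : Matrix (Fin 2) (Fin 2) (ZMod q))) (b • JM (ZMod q)) := by
    apply Commute.smul_left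
    apply Commute.smul_right
    exact Commute.one_left _
  have hq : (a • (1 : Matrix (Fin 2) (Fin 2) (ZMod q)) + b • JM (ZMod q)) ^ q = a • 1 - b • JM (ZMod q) := by
    rw [add_pow_char_of_commute q hc, smul_pow, smul_pow, one_pow, ZMod.pow_card, ZMod.pow_card]
    have h2 : JM (ZMod q) ^ q = -JM (ZMod q) := JM_pow t hq4
    rw [h2]
    simp [sub_eq_add_neg]
  rw [pow_succ, hq]
  ext i j
  fin_cases i <;> fin_cases j <;> simp [JM, Matrix.mul_apply, Fin.sum_univ_two] <;> ring

theorem pow_comm_scalar {t : ℕ} (hq4 : q = 4 * t + 3) (m : Matrix (Fin 2) (Fin 2) (ZMod q))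
    (h : m * JM (ZMod q) = JM (ZMod q) * m) : ∃ c : ZMod q, m ^ (q + 1) = c • 1 := by
  have h00 := congrFun (congrFun h 0) 0
  have h01 := congrFun (congrFun h 0) 1
  simp [JM, Matrix.mul_apply, Fin.sum_univ_two, Matrix.vecMul, dotProduct] at h00 h01
  have hm : m = m 0 0 • 1 + m 1 0 • JM (ZMod q) := by
    ext i j
    fin_cases i <;> fin_cases j <;> simp [JM] <;> first | linear_combination h00 | linear_combination h01 | linear_combination -h00 | linear_combination -h01
  refine ⟨m 0 0 ^ 2 + m 1 0 ^ 2, ?_⟩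
  conv_lhs => rw [hm]
  exact pow_aux hq4 _ _

theorem sq_anti_scalar (m : Matrix (Fin 2) (Fin 2) (ZMod q))
    (h : m * JM (ZMod q) = -(JM (ZMod q) * m)) : ∃ c : ZMod q, m * m = c • 1 := by
  have h00 := congrFun (congrFun h 0) 0
  have h01 := congrFun (congrFun h 0) 1
  simp [JM, Matrix.mul_apply, Fin.sum_univ_two, Matrix.vecMul, dotProduct] at h00 h01
  refine ⟨m 0 0 ^ 2 + m 1 0 ^ 2, ?_⟩
  ext i j
  fin_cases i <;> fin_cases j <;> simp [Matrix.mul_apply, Fin.sum_univ_two]
  · rw [h00]; ring
  · rw [h00, ← h01]; ring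
  · rw [← h01]; ring
  · rw [h00, ← h01]; ring

/-- Sylow 2-subgroups of `PGL₂(q)`. -/
theorem main (hk : q + 1 = 2 ^ k) (hq : 7 ≤ q)
    (H : Sylow 2 (GL (Fin 2) (ZMod q) ⧸ Subgroup.center (GL (Fin 2) (ZMod q))))
    (x : GL (Fin 2) (ZMod q) ⧸ Subgroup.center (GL (Fin 2) (ZMod q))) :
    (H : Subgroup (GL (Fin 2) (ZMod q) ⧸ Subgroup.center (GL (Fin 2) (ZMod q)))) ⊓ MulAut.conj x • (H : Subgroup (GL (Fin 2) (ZMod q) ⧸ Subgroup.center (GL (Fin 2) (ZMod q)))) ≠ ⊥ := by
  classical
  obtain ⟨x', rfl⟩ := QuotientGroup.mk'_surjective (Subgroup.center (GL (Fin 2) (ZMod q))) x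
  have hk3 : 3 ≤ k := by
    by_contra hc
    have : k ≤ 2 := by omega
    have : 2 ^ k ≤ 2 ^ 2 := Nat.pow_le_pow_right (by norm_num) this
    omega
  obtain ⟨k', rfl⟩ : ∃ k', k = k' + 2 := ⟨k - 2, by omega⟩
  obtain ⟨t, hq4⟩ : ∃ t, q = 4 * t + 3 := by
    refine ⟨(q - 3) / 4, ?_⟩
    have e : 2 ^ (k' + 2) = 4 * 2 ^ k' := by ring
    omega
  have hmod : q % 4 = 3 := by omega
  have hm1 : ∀ a b : ZMod q, a ^ 2 + b ^ 2 = 0 → a = 0 ∧ b = 0 := by
    intro a b h
    have hb : b = 0 := by
      by_contra hb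
      have : IsSquare (-1 : ZMod q) := ⟨a / b, by field_simp; linear_combination -h⟩
      exact (ZMod.exists_sq_eq_neg_one_iff.1 this) hmod
    refine ⟨?_, hb⟩
    rw [hb] at h
    simpa using h
  have h2 : (2 : ZMod q) ≠ 0 := by
    intro h
    have h1 : ((2 : ℕ) : ZMod q) = 0 := by exact_mod_cast h
    rw [ZMod.natCast_eq_zero_iff] at h1
    have := Nat.le_of_dvd (by norm_num) h1
    omega
  set Z := Subgroup.center (GL (Fin 2) (ZMod q)) with hZ
  set π : GL (Fin 2) (ZMod q) →* GL (Fin 2) (ZMod q) ⧸ Z := QuotientGroup.mk' Z with hπ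
  have hπs : Function.Surjective π := QuotientGroup.mk'_surjective Z
  have hker : π.ker = Z := QuotientGroup.ker_mk' Z
  set D₀ : Subgroup (GL (Fin 2) (ZMod q) ⧸ Z) := (SS (ZMod q)).map π with hD₀
  have hP : IsPGroup 2 D₀ := by
    rintro ⟨d, hd⟩
    obtain ⟨A, hA, rfl⟩ := Subgroup.mem_map.1 hd
    rcases hA with hA | hA
    · refine ⟨k' + 2, ?_⟩
      apply Subtype.ext
      have e : (π A) ^ (2 ^ (k' + 2)) = 1 := by
        rw [← hk, ← map_pow]
        change π _ = 1
        rw [← MonoidHom.mem_ker, hker]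
        obtain ⟨c, hc⟩ := pow_comm_scalar hq4 _ hA
        exact scalar_mem_center _ c (by rw [Units.val_pow_eq_pow_val]; exact hc)
      simpa using e
    · refine ⟨1, ?_⟩
      apply Subtype.ext
      have e : (π A) ^ (2 ^ 1) = 1 := by
        rw [pow_one, pow_two, ← map_mul]
        rw [← MonoidHom.mem_ker, hker]
        obtain ⟨c, hc⟩ := sq_anti_scalar _ hA
        exact scalar_mem_center _ c (by rw [Units.val_mul]; exact hc)
      simpa using e
  have hI : ¬ 2 ∣ D₀.index := by
    have e1 : D₀.index = (SS (ZMod q)).index := Subgroup.index_map_eq _ hπs (by rw [hker]; exact center_le_SS)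
    rw [e1]
    have e2 := Subgroup.card_mul_index (SS (ZMod q))
    rw [card_SS hm1 h2, Matrix.card_GL_field, ZMod.card, Fin.prod_univ_two] at e2
    simp only [Fin.val_zero, Fin.val_one, pow_zero, pow_one] at e2
    intro hdvd
    obtain ⟨w, hw⟩ := hdvd
    rw [hw] at e2
    have hq1 : 0 < q ^ 2 - 1 := by
      have : 1 < q ^ 2 := by nlinarith
      omega
    have e3 : 2 * (2 * w) = q ^ 2 - q := by
      apply Nat.eq_of_mul_eq_mul_left hq1
      rw [← e2]
      ring
    have e4 : q ^ 2 - q = (4 * t + 3) * (4 * t + 2) := by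
      have : q ^ 2 = (4 * t + 3) * (4 * t + 2) + q := by
        rw [hq4]; ring
      omega
    rw [e4] at e3
    have : 4 * w = 2 * ((4 * t + 3) * (2 * t + 1)) := by nlinarith
    have h5 : 2 * w = (4 * t + 3) * (2 * t + 1) := by omega
    have h6 : (4 * t + 3) * (2 * t + 1) = 2 * (4 * t * t + 5 * t + 1) + 1 := by ring
    omega
  set S₀ := hP.toSylow hI with hS₀
  obtain ⟨g, hg⟩ := MulAction.exists_smul_eq (GL (Fin 2) (ZMod q) ⧸ Z) S₀ H
  obtain ⟨g', rfl⟩ := hπs g
  have hH : (H : Subgroup (GL (Fin 2) (ZMod q) ⧸ Z)) = MulAut.conj (π g') • D₀ := by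
    rw [← hg]
    rfl
  obtain ⟨A, hA, hA', hAc⟩ := core hm1 h2 (g'⁻¹ * x' * g')
  have hmemH : ∀ B ∈ SS (ZMod q), π (g' * B * g'⁻¹) ∈ (H : Subgroup (GL (Fin 2) (ZMod q) ⧸ Z)) := by
    intro B hB
    rw [hH, Subgroup.mem_pointwise_smul_iff_inv_smul_mem]
    have : (MulAut.conj (π g'))⁻¹ • π (g' * B * g'⁻¹) = π B := by
      rw [MulAut.smul_def, MulAut.conj_inv_apply]
      simp only [map_mul, map_inv]
      group
    rw [this]
    exact Subgroup.mem_map_of_mem _ hB
  intro hbot
  have hmem : π (g' * A * g'⁻¹) ∈ (H : Subgroup (GL (Fin 2) (ZMod q) ⧸ Z)) ⊓ MulAut.conj (π x') • (H : Subgroup (GL (Fin 2) (ZMod q) ⧸ Z)) := by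
    refine Subgroup.mem_inf.2 ⟨hmemH A hA, ?_⟩
    rw [Subgroup.mem_pointwise_smul_iff_inv_smul_mem]
    have := hmemH _ hA'
    have e : (MulAut.conj (π x'))⁻¹ • π (g' * A * g'⁻¹) = π (g' * ((g'⁻¹ * x' * g')⁻¹ * A * (g'⁻¹ * x' * g')) * g'⁻¹) := by
      rw [MulAut.smul_def, MulAut.conj_inv_apply]
      simp only [map_mul, map_inv]
      group
    rw [e]
    exact this
  rw [hbot, Subgroup.mem_bot, ← MonoidHom.mem_ker, hker] at hmem
  apply hAc
  have h3 := (inferInstance : Z.Normal).conj_mem _ hmem g'⁻¹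
  simpa [mul_assoc] using h3

end main

end Cfsg.Agent.Lib.Known.Mers
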