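import Mathlib
import Cfsg.Agent.Lib.Known.PSL2Orders
import Cfsg.Agent.Lib.Known.McKayN

set_option autoImplicit false

/-! The factorisation `PSL₂(2^t) = ABA`. -/

namespace Cfsg.Agent.Lib.Known

open Matrix

variable {F : Type*} [Field F] [Fintype F] [CharP F 2]

private theorem two_zero : (2 : F) = 0 := by exact_mod_cast CharP.cast_eq_zero F 2

omit [Fintype F] in
private theorem add_self' (x : F) : x + x = 0 := CharTwo.add_self_eq_zero x

/-- The elements of the torus attached to a companion matrix. -/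
def tEl (τ α β : F) (h : α ^ 2 + τ * α * β + β ^ 2 = 1) : SL2 F :=
  sl2Mk α (-β) β (α + τ * β) (by linear_combination h)

omit [Fintype F] [CharP F 2] in
theorem tEl_mem (τ α β : F) (h : α ^ 2 + τ * α * β + β ^ 2 = 1) :
    tEl τ α β h ∈ Subgroup.centralizer ({sl2C τ} : Set (SL2 F)) := by
  rw [Subgroup.mem_centralizer_singleton_iff]
  apply sl2_ext <;> simp [sl2_mul_apply, tEl] <;> ring

/-- Any `h` factors through the torus and the unipotent group. -/
theorem exists_factor_ABA (τ : F) (hτ : ∀ r : F, r ^ 2 ≠ -1 + τ * r) (h : SL2 F) :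
    ∃ a ∈ Subgroup.centralizer ({sl2C τ} : Set (SL2 F)), ∃ β : F, ∃ c ∈ Subgroup.centralizer ({sl2C τ} : Set (SL2 F)),
      h = a * sl2U β * c := by
  classical
  have hc2 : ringChar F = 2 := ringChar.eq F 2
  have hsq : ∀ x : F, ∃ y : F, x = y * y := fun x => FiniteField.isSquare_of_char_two hc2 x
  have hdet := sl2_det h
  set p := (h : Matrix (Fin 2) (Fin 2) F) 0 0 with hp
  set b := (h : Matrix (Fin 2) (Fin 2) F) 0 1 with hb
  set r := (h : Matrix (Fin 2) (Fin 2) F) 1 0 with hr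
  set s := (h : Matrix (Fin 2) (Fin 2) F) 1 1 with hs
  let N : F → F → F := fun x y => x ^ 2 + τ * x * y + y ^ 2
  have hN0 : ∀ x y : F, N x y = 0 → x = 0 ∧ y = 0 := by
    intro x y hxy
    by_cases hy : y = 0
    · subst hy
      simp only [N, mul_zero, add_zero] at hxy
      have : x = 0 := by
        have h1 : x ^ 2 = 0 := by
          have : (0 : F) ^ 2 = 0 := by norm_num
          rw [this] at hxy
          simpa using hxy
        exact pow_eq_zero_iff (by norm_num) |>.mp h1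
      exact ⟨this, rfl⟩
    · exfalso
      apply hτ (x / y)
      have h1 : (x / y) ^ 2 + τ * (x / y) + 1 = 0 := by
        have : (x / y) ^ 2 + τ * (x / y) + 1 = N x y / y ^ 2 := by
          simp only [N]
          field_simp
        rw [this, hxy, zero_div]
      have h3 : (x / y) ^ 2 = - (τ * (x / y)) - 1 := by linear_combination h1
      rw [h3, CharTwo.neg_eq, CharTwo.sub_eq_add, CharTwo.neg_eq, add_comm]
  -- the crucial identity
  have hNh : ∀ x y : F, N (p * x + b * y) (r * x + s * y) =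
      (p ^ 2 + τ * p * r + r ^ 2) * x ^ 2 + τ * x * y + (b ^ 2 + τ * b * s + s ^ 2) * y ^ 2 := by
    intro x y
    have h1 : p * s + b * r = 1 := by
      rw [← CharTwo.sub_eq_add]; exact hdet
    simp only [N]
    have h3 : (p * x + b * y) ^ 2 + τ * (p * x + b * y) * (r * x + s * y) + (r * x + s * y) ^ 2 =
        (p ^ 2 + τ * p * r + r ^ 2) * x ^ 2 + τ * (p * s + b * r) * x * y + (b ^ 2 + τ * b * s + s ^ 2) * y ^ 2 +
          2 * (p * b + r * s) * x * y := by ring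
    rw [h3, h1, two_zero]
    ring
  obtain ⟨a₁, ha₁⟩ := hsq (p ^ 2 + τ * p * r + r ^ 2 + 1)
  obtain ⟨c₁, hc₁⟩ := hsq (b ^ 2 + τ * b * s + s ^ 2 + 1)
  -- the isotropic vector
  obtain ⟨x, y, hne, hxy⟩ : ∃ x y : F, ¬ (x = 0 ∧ y = 0) ∧ N (p * x + b * y) (r * x + s * y) = N x y := by
    by_cases h0 : c₁ = 0 ∧ a₁ = 0
    · refine ⟨1, 0, by simp, ?_⟩
      rw [hNh]
      have h1 : p ^ 2 + τ * p * r + r ^ 2 = 1 := by
        have : p ^ 2 + τ * p * r + r ^ 2 + 1 = 0 := by rw [ha₁, h0.2]; ring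
        linear_combination this - add_self' (1 : F)
      rw [h1]
      simp [N]
    · refine ⟨c₁, a₁, h0, ?_⟩
      rw [hNh]
      simp only [N]
      have h1 : p ^ 2 + τ * p * r + r ^ 2 = a₁ * a₁ + 1 := by
        linear_combination ha₁ - add_self' (1 : F)
      have h3 : b ^ 2 + τ * b * s + s ^ 2 = c₁ * c₁ + 1 := by
        linear_combination hc₁ - add_self' (1 : F)
      rw [h1, h3]
      have h4 : (a₁ * a₁ + 1) * c₁ ^ 2 + τ * c₁ * a₁ + (c₁ * c₁ + 1) * a₁ ^ 2 =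
          c₁ ^ 2 + τ * c₁ * a₁ + a₁ ^ 2 + 2 * (a₁ * a₁ * c₁ * c₁) := by ring
      rw [h4, two_zero]
      ring
  have hNne : N x y ≠ 0 := fun h0 => hne (hN0 x y h0)
  obtain ⟨e, he⟩ := hsq (N x y)
  have he0 : e ≠ 0 := by
    rintro rfl
    apply hNne
    rw [he]
    ring
  -- scaling
  set v₁ := x / e with hv₁
  set v₂ := y / e with hv₂
  have hv : v₁ ^ 2 + τ * v₁ * v₂ + v₂ ^ 2 = 1 := by
    have : v₁ ^ 2 + τ * v₁ * v₂ + v₂ ^ 2 = N x y / (e * e) := by
      simp only [N, hv₁, hv₂]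
      field_simp
    rw [this, he]
    field_simp
  set w₁ := p * v₁ + b * v₂ with hw₁
  set w₂ := r * v₁ + s * v₂ with hw₂
  have hw : w₁ ^ 2 + τ * w₁ * w₂ + w₂ ^ 2 = 1 := by
    have : w₁ ^ 2 + τ * w₁ * w₂ + w₂ ^ 2 = N (p * x + b * y) (r * x + s * y) / (e * e) := by
      simp only [N, hw₁, hw₂, hv₁, hv₂]
      field_simp
    rw [this, hxy, he]
    field_simp
  let a₀ : SL2 F := tEl τ w₁ w₂ hw
  let c₀ : SL2 F := tEl τ v₁ v₂ hv
  set u : SL2 F := a₀⁻¹ * (h * c₀) with hu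
  have hu00 : (u : Matrix (Fin 2) (Fin 2) F) 0 0 = 1 := by
    rw [hu, sl2_mul_apply, sl2_inv_00, sl2_inv_01, sl2_mul_apply, sl2_mul_apply]
    simp only [a₀, c₀, tEl, sl2Mk_00, sl2Mk_01, sl2Mk_10, sl2Mk_11]
    rw [← hp, ← hb, ← hr, ← hs, ← hw₁, ← hw₂]
    linear_combination hw
  have hu10 : (u : Matrix (Fin 2) (Fin 2) F) 1 0 = 0 := by
    rw [hu, sl2_mul_apply, sl2_inv_10, sl2_inv_11, sl2_mul_apply, sl2_mul_apply]
    simp only [a₀, c₀, tEl, sl2Mk_00, sl2Mk_01, sl2Mk_10, sl2Mk_11]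
    rw [← hp, ← hb, ← hr, ← hs, ← hw₁, ← hw₂]
    ring
  have hu11 : (u : Matrix (Fin 2) (Fin 2) F) 1 1 = 1 := by
    have := sl2_det u
    rw [hu00, hu10] at this
    linear_combination this
  have hu' : u = sl2U ((u : Matrix (Fin 2) (Fin 2) F) 0 1) := sl2U_eq_of_entries hu10 hu00 hu11
  refine ⟨a₀, tEl_mem _ _ _ _, (u : Matrix (Fin 2) (Fin 2) F) 0 1, c₀⁻¹, inv_mem (tEl_mem _ _ _ _), ?_⟩
  rw [← hu', hu]
  group

/-- The main theorem. -/
theorem exists_ABA :
    ∃ A B : Subgroup (Matrix.ProjectiveSpecialLinearGroup (Fin 2) F),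
      IsCyclic A ∧ Nat.card A = Fintype.card F + 1 ∧ IsMulCommutative B ∧ (∀ b ∈ B, b * b = 1) ∧
        Nat.card B = Fintype.card F ∧
        ∀ g : Matrix.ProjectiveSpecialLinearGroup (Fin 2) F, ∃ a ∈ A, ∃ b ∈ B, ∃ c ∈ A, g = a * b * c := by
  classical
  obtain ⟨g₀, hg₀⟩ := exists_sl2NoEig (F := F)
  set τ := sl2Tr g₀ with hτ
  have hτ' : ∀ r : F, r ^ 2 ≠ -1 + τ * r := (sl2NoEig_iff g₀).mp hg₀
  have hC : sl2NoEig (sl2C τ) := by
    rw [sl2NoEig_iff]
    have : sl2Tr (sl2C τ) = τ := by simp [sl2Tr_eq]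
    rw [this]
    exact hτ'
  let π : SL2 F →* Matrix.ProjectiveSpecialLinearGroup (Fin 2) F := QuotientGroup.mk' _
  have hπ : Function.Injective π := by
    rw [injective_iff_map_eq_one]
    intro z hz
    have h1 : z ∈ Subgroup.center (SL2 F) := (QuotientGroup.eq_one_iff _).mp hz
    obtain ⟨z1, z2, z3, z4⟩ := center_sq z h1
    have hz0 : (z : Matrix (Fin 2) (Fin 2) F) 0 0 = 1 := by
      have : ((z : Matrix (Fin 2) (Fin 2) F) 0 0 + 1) * ((z : Matrix (Fin 2) (Fin 2) F) 0 0 + 1) = 0 := by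
        have h2 : (2 : F) = 0 := two_zero
        linear_combination z4 + (z : Matrix (Fin 2) (Fin 2) F) 0 0 * h2 + h2
      have h5 := mul_self_eq_zero.mp this
      have h6 := eq_neg_of_add_eq_zero_left h5
      rw [h6, CharTwo.neg_eq]
    apply sl2_ext <;> simp [z1, z2, z3, hz0]
  refine ⟨(Subgroup.centralizer ({sl2C τ} : Set (SL2 F))).map π, (sl2UG F).map π, ?_, ?_, ?_, ?_, ?_, ?_⟩
  · haveI := isCyclic_centralizer_noEig hC
    exact isCyclic_of_surjective _ (Subgroup.equivMapOfInjective _ π hπ).surjective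
  · rw [Nat.card_congr (Subgroup.equivMapOfInjective _ π hπ).symm.toEquiv, card_centralizer_noEig hC]
  · refine ⟨⟨?_⟩⟩
    rintro ⟨_, x, hx, rfl⟩ ⟨_, y, hy, rfl⟩
    apply Subtype.ext
    change π x * π y = π y * π x
    rw [← map_mul, ← map_mul, sl2UG_comm hx hy]
  · rintro _ ⟨_, ⟨s, rfl⟩, rfl⟩
    rw [← map_mul, sl2U_add, add_self', sl2U_zero, map_one]
  · rw [Nat.card_congr (Subgroup.equivMapOfInjective _ π hπ).symm.toEquiv]
    exact card_sl2UG
  · intro g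
    obtain ⟨h, rfl⟩ := QuotientGroup.mk_surjective g
    obtain ⟨a, ha, β, c, hc, rfl⟩ := exists_factor_ABA τ hτ' h
    exact ⟨π a, ⟨a, ha, rfl⟩, π (sl2U β), ⟨sl2U β, ⟨β, rfl⟩, rfl⟩, π c, ⟨c, hc, rfl⟩, rfl⟩

end Cfsg.Agent.Lib.Known
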