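import Mathlib
import Cfsg.Agent.Lib.Classical.SL

/-!
# A calculus of transvections in subgroups of `SL_n`
-/

set_option autoImplicit false
set_option linter.unusedVariables false
set_option linter.unusedSectionVars false

namespace Cfsg.Agent.Lib.Known.RU

open Matrix Matrix.SpecialLinearGroup

variable {F : Type*} [Field F] {n : ℕ}

local notation "SLn" => Matrix.SpecialLinearGroup (Fin n) F
local notation "M" => Matrix (Fin n) (Fin n) F

/-- `H` contains the transvection `1 + w ⊗ φ`. -/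
def Has (H : Subgroup SLn) (w φ : Fin n → F) : Prop := ∃ g ∈ H, (g : M) = 1 + vecMulVec w φ

theorem coe_mul_inv' (g : SLn) : (g : M) * ((g⁻¹ : SLn) : M) = 1 := by
  rw [← Matrix.SpecialLinearGroup.coe_mul, mul_inv_cancel]
  rfl

theorem coe_inv_mul' (g : SLn) : ((g⁻¹ : SLn) : M) * (g : M) = 1 := by
  rw [← Matrix.SpecialLinearGroup.coe_mul, inv_mul_cancel]
  rfl

theorem det_tv {w φ : Fin n → F} (h : φ ⬝ᵥ w = 0) : det ((1 : M) + vecMulVec w φ) = 1 := by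
  rw [vecMulVec_eq Unit, det_one_add_replicateCol_mul_replicateRow, h, add_zero]

/-- The transvection as an element of `SL`. -/
def tv (w φ : Fin n → F) (h : φ ⬝ᵥ w = 0) : SLn := ⟨1 + vecMulVec w φ, det_tv h⟩

theorem coe_tv (w φ : Fin n → F) (h : φ ⬝ᵥ w = 0) : ((tv w φ h : SLn) : M) = 1 + vecMulVec w φ := rfl

theorem mul_vv (u v w x : Fin n → F) :
    vecMulVec u v * vecMulVec w x = (v ⬝ᵥ w) • vecMulVec u x := by
  rw [vecMulVec_mul_vecMulVec, vecMulVec_smul]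

theorem tv_mul_tv' (w w' φ φ' : Fin n → F) :
    ((1 : M) + vecMulVec w φ) * (1 + vecMulVec w' φ') =
      1 + vecMulVec w φ + vecMulVec w' φ' + (φ ⬝ᵥ w') • vecMulVec w φ' := by
  rw [mul_add, add_mul, add_mul, mul_vv, mul_one, one_mul, mul_one]
  abel

theorem Has.conj {H : Subgroup SLn} {w φ : Fin n → F} (h : Has H w φ) {g : SLn} (hg : g ∈ H) :
    Has H ((g : M) *ᵥ w) (φ ᵥ* ((g⁻¹ : SLn) : M)) := by
  obtain ⟨t, ht, hte⟩ := h
  refine ⟨g * t * g⁻¹, mul_mem (mul_mem hg ht) (inv_mem hg), ?_⟩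
  rw [Matrix.SpecialLinearGroup.coe_mul, Matrix.SpecialLinearGroup.coe_mul, hte, mul_add, add_mul, mul_one,
    coe_mul_inv', mul_vecMulVec, vecMulVec_mul]

theorem coe_inv_tv {w φ : Fin n → F} (t : SLn) (hte : (t : M) = 1 + vecMulVec w φ) (h : φ ⬝ᵥ w = 0) :
    ((t⁻¹ : SLn) : M) = 1 + vecMulVec (-w) φ := by
  have h1 : (t : M) * (1 + vecMulVec (-w) φ) = 1 := by
    rw [hte, tv_mul_tv', dotProduct_neg, h, neg_zero, zero_smul, neg_vecMulVec]
    simp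
  calc ((t⁻¹ : SLn) : M) = ((t⁻¹ : SLn) : M) * ((t : M) * (1 + vecMulVec (-w) φ)) := by
        rw [h1, mul_one]
    _ = 1 + vecMulVec (-w) φ := by
        rw [← mul_assoc, coe_inv_mul', one_mul]

theorem Has.neg {H : Subgroup SLn} {w φ : Fin n → F} (h : Has H w φ) (h0 : φ ⬝ᵥ w = 0) :
    Has H (-w) φ := by
  obtain ⟨t, ht, hte⟩ := h
  exact ⟨t⁻¹, inv_mem ht, coe_inv_tv t hte h0⟩

theorem Has.add_left {H : Subgroup SLn} {w w' φ : Fin n → F} (h : Has H w φ) (h' : Has H w' φ)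
    (h0 : φ ⬝ᵥ w' = 0) : Has H (w + w') φ := by
  obtain ⟨t, ht, hte⟩ := h
  obtain ⟨t', ht', hte'⟩ := h'
  refine ⟨t * t', mul_mem ht ht', ?_⟩
  rw [Matrix.SpecialLinearGroup.coe_mul, hte, hte', tv_mul_tv', h0, zero_smul, add_vecMulVec, add_zero, add_assoc]

theorem Has.add_right {H : Subgroup SLn} {w φ φ' : Fin n → F} (h : Has H w φ) (h' : Has H w φ')
    (h0 : φ ⬝ᵥ w = 0) : Has H w (φ + φ') := by
  obtain ⟨t, ht, hte⟩ := h
  obtain ⟨t', ht', hte'⟩ := h'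
  refine ⟨t * t', mul_mem ht ht', ?_⟩
  rw [Matrix.SpecialLinearGroup.coe_mul, hte, hte', tv_mul_tv', h0, zero_smul, vecMulVec_add, add_zero, add_assoc]

theorem Has.smul_swap {H : Subgroup SLn} {w φ : Fin n → F} {c : F} (h : Has H (c • w) φ) :
    Has H w (c • φ) := by
  obtain ⟨t, ht, hte⟩ := h
  refine ⟨t, ht, ?_⟩
  rw [hte, smul_vecMulVec, vecMulVec_smul]

theorem Has.smul_swap' {H : Subgroup SLn} {w φ : Fin n → F} {c : F} (h : Has H w (c • φ)) :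
    Has H (c • w) φ := by
  obtain ⟨t, ht, hte⟩ := h
  refine ⟨t, ht, ?_⟩
  rw [hte, smul_vecMulVec, vecMulVec_smul]

theorem has_zero_left (H : Subgroup SLn) (φ : Fin n → F) : Has H 0 φ :=
  ⟨1, one_mem _, by simp⟩

theorem has_zero_right (H : Subgroup SLn) (w : Fin n → F) : Has H w 0 :=
  ⟨1, one_mem _, by simp⟩

/-- The commutator of two transvections. -/
theorem Has.comm {H : Subgroup SLn} {w₁ w₂ φ₁ φ₂ : Fin n → F} (h₁ : Has H w₁ φ₁) (h₂ : Has H w₂ φ₂)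
    (h11 : φ₁ ⬝ᵥ w₁ = 0) (h22 : φ₂ ⬝ᵥ w₂ = 0) (h21 : φ₂ ⬝ᵥ w₁ = 0) :
    Has H ((φ₁ ⬝ᵥ w₂) • w₁) φ₂ := by
  obtain ⟨t₁, ht₁, hte₁⟩ := h₁
  obtain ⟨t₂, ht₂, hte₂⟩ := h₂
  refine ⟨t₁ * t₂ * t₁⁻¹ * t₂⁻¹, mul_mem (mul_mem (mul_mem ht₁ ht₂) (inv_mem ht₁)) (inv_mem ht₂), ?_⟩
  rw [Matrix.SpecialLinearGroup.coe_mul, Matrix.SpecialLinearGroup.coe_mul, Matrix.SpecialLinearGroup.coe_mul,
    coe_inv_tv t₁ hte₁ h11, coe_inv_tv t₂ hte₂ h22, hte₁, hte₂, tv_mul_tv']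
  rw [neg_vecMulVec, neg_vecMulVec, smul_vecMulVec]
  have hAA : vecMulVec w₁ φ₁ * vecMulVec w₁ φ₁ = 0 := by rw [mul_vv, h11, zero_smul]
  have hBB : vecMulVec w₂ φ₂ * vecMulVec w₂ φ₂ = 0 := by rw [mul_vv, h22, zero_smul]
  have hBA : vecMulVec w₂ φ₂ * vecMulVec w₁ φ₁ = 0 := by rw [mul_vv, h21, zero_smul]
  have hDA : vecMulVec w₁ φ₂ * vecMulVec w₁ φ₁ = 0 := by rw [mul_vv, h21, zero_smul]
  have hDB : vecMulVec w₁ φ₂ * vecMulVec w₂ φ₂ = 0 := by rw [mul_vv, h22, zero_smul]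
  generalize vecMulVec w₁ φ₁ = A at *
  generalize vecMulVec w₂ φ₂ = B at *
  generalize vecMulVec w₁ φ₂ = D at *
  generalize φ₁ ⬝ᵥ w₂ = c at *
  have e1 : (1 + A + B + c • D) * (1 + -A) = 1 + B + c • D := by
    simp only [mul_add, add_mul, mul_one, one_mul, mul_neg, hAA, hBA, smul_mul_assoc, hDA, smul_zero,
      neg_zero, add_zero]
    abel
  rw [e1]
  simp only [mul_add, add_mul, mul_one, one_mul, mul_neg, hBB, smul_mul_assoc, hDB, smul_zero,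
    neg_zero, add_zero]
  abel

/-- All transvections with axis `φ`. -/
def Ann (H : Subgroup SLn) (φ : Fin n → F) : Prop := ∀ w, φ ⬝ᵥ w = 0 → Has H w φ

theorem Ann.smul {H : Subgroup SLn} {φ : Fin n → F} (h : Ann H φ) (c : F) : Ann H (c • φ) := by
  by_cases hc : c = 0
  · subst hc
    intro w _
    rw [zero_smul]
    exact has_zero_right H w
  intro w hw
  apply Has.smul_swap
  apply h
  rw [dotProduct_smul]
  rw [smul_dotProduct] at hw
  exact hw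

theorem Ann.conj {H : Subgroup SLn} {φ : Fin n → F} (h : Ann H φ) {g : SLn} (hg : g ∈ H) :
    Ann H (φ ᵥ* ((g⁻¹ : SLn) : M)) := by
  intro w hw
  have h1 := (h (((g⁻¹ : SLn) : M) *ᵥ w) (by rw [← dotProduct_mulVec] at hw; exact hw)).conj hg
  rw [mulVec_mulVec, coe_mul_inv', one_mulVec] at h1
  exact h1

theorem Ann.add {H : Subgroup SLn} {φ₁ φ₂ : Fin n → F} (h₁ : Ann H φ₁) (h₂ : Ann H φ₂) :
    Ann H (φ₁ + φ₂) := by
  intro w hw
  rw [add_dotProduct] at hw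
  by_cases hc : φ₁ ⬝ᵥ w = 0
  · have hc2 : φ₂ ⬝ᵥ w = 0 := by
      rw [hc, zero_add] at hw
      exact hw
    exact (h₁ w hc).add_right (h₂ w hc2) hc
  set c := φ₁ ⬝ᵥ w with hcdef
  have hw2 : φ₂ ⬝ᵥ w = -c := by linear_combination hw
  by_cases hz : ∃ z, φ₁ ⬝ᵥ z = 0 ∧ φ₂ ⬝ᵥ z ≠ 0
  · obtain ⟨z, hz1, hz2⟩ := hz
    set d := φ₂ ⬝ᵥ z with hd
    let z' : Fin n → F := (-d⁻¹) • z
    have hz1' : φ₁ ⬝ᵥ z' = 0 := by
      simp only [z']
      rw [dotProduct_smul, hz1, smul_zero]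
    have hz2' : φ₂ ⬝ᵥ z' = -1 := by
      simp only [z']
      rw [dotProduct_smul, ← hd, smul_eq_mul]
      field_simp
    have hw' : φ₂ ⬝ᵥ (w - c • z') = 0 := by
      rw [dotProduct_sub, dotProduct_smul, hz2', hw2, smul_eq_mul]
      ring
    obtain ⟨t, ht, hte⟩ := h₁ z' hz1'
    have h3 := (h₂ _ hw').conj ht
    have h4 : (t : M) *ᵥ (w - c • z') = w := by
      rw [hte, add_mulVec, one_mulVec, vecMulVec_mulVec, dotProduct_sub, dotProduct_smul, hz1', smul_zero,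
        sub_zero, ← hcdef]
      simp
    have h5 : φ₂ ᵥ* ((t⁻¹ : SLn) : M) = φ₁ + φ₂ := by
      rw [coe_inv_tv t hte hz1', vecMul_add, vecMul_one, vecMul_vecMulVec, dotProduct_neg, hz2']
      simp [add_comm]
    rw [h4, h5] at h3
    exact h3
  · push Not at hz
    have h0 : φ₁ + φ₂ = 0 := by
      have key : ∀ v, (φ₁ + φ₂) ⬝ᵥ v = 0 := by
        intro v
        have h1 : φ₁ ⬝ᵥ (v - (φ₁ ⬝ᵥ v / c) • w) = 0 := by
          rw [dotProduct_sub, dotProduct_smul, ← hcdef, smul_eq_mul]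
          field_simp
          ring
        have h2 := hz _ h1
        rw [dotProduct_sub, dotProduct_smul, hw2, smul_eq_mul] at h2
        rw [add_dotProduct]
        have h3 : φ₂ ⬝ᵥ v = -(φ₁ ⬝ᵥ v) := by
          have : φ₁ ⬝ᵥ v / c * -c = - (φ₁ ⬝ᵥ v) := by
            field_simp
          rw [this] at h2
          linear_combination h2
        rw [h3]
        ring
      funext i
      have := key (Pi.single i 1)
      simpa using this
    rw [h0]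
    exact has_zero_right H w

end Cfsg.Agent.Lib.Known.RU
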