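import Cfsg.Agent.Lib.Known.RU9

/-!
# Two regular unipotent elements: from the chain to the whole group
-/

set_option autoImplicit false
set_option linter.unusedVariables false
set_option linter.unusedSectionVars false

namespace Cfsg.Agent.Lib.Known.RU

open Matrix Matrix.SpecialLinearGroup

variable {F : Type*} [Field F] {n : ℕ}

local notation "SLn" => Matrix.SpecialLinearGroup (Fin n) F
local notation "M" => Matrix (Fin n) (Fin n) F

variable {hl : n - 1 < n}

theorem dot_E_self (k : ℕ) (hk : k < n) : E F k hk ⬝ᵥ E F k hk = 1 := by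
  simp [E]

theorem WW_succ (d : ℤ) : (UU F n : M) *ᵥ WW hl d = WW hl (1 + d) := by
  have := mulVec_WW (F := F) hl 1 d
  simpa using this

theorem E_dot_U (y : Fin n → F) (k : ℕ) (hk : k + 1 < n) :
    E F k (by omega) ⬝ᵥ ((UU F n : M) *ᵥ y) = E F k (by omega) ⬝ᵥ y + E F (k + 1) hk ⬝ᵥ y := by
  rw [dotProduct_mulVec, show (UU F n : M) = Um F n from rfl, E_vecMul_Um, add_dotProduct]

theorem last_dot_U (y : Fin n → F) : E F (n - 1) hl ⬝ᵥ ((UU F n : M) *ᵥ y) = E F (n - 1) hl ⬝ᵥ y := by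
  rw [dotProduct_mulVec, show (UU F n : M) = Um F n from rfl, last_vecMul_Um]

/-- Entries of the orbit: zeros. -/
theorem E_WW_zero (d : ℕ) : ∀ (i : ℕ) (hi : i < n), i + d + 1 < n → E F i hi ⬝ᵥ WW hl (d : ℤ) = 0 := by
  induction d with
  | zero =>
    intro i hi h
    have : WW (F := F) hl ((0 : ℕ) : ℤ) = E F (n - 1) hl := by simpa using WW_zero (F := F) hl
    rw [this]
    exact dot_E_E _ _ _ _ (by omega)
  | succ d ih =>
    intro i hi h
    have e : ((d + 1 : ℕ) : ℤ) = 1 + (d : ℤ) := by push_cast; ring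
    rw [e, ← WW_succ, E_dot_U _ i (by omega), ih i hi (by omega), ih (i + 1) (by omega) (by omega), add_zero]

/-- Entries of the orbit: ones. -/
theorem E_WW_one (d : ℕ) : ∀ (i : ℕ) (hi : i < n), i + d + 1 = n → E F i hi ⬝ᵥ WW hl (d : ℤ) = 1 := by
  induction d with
  | zero =>
    intro i hi h
    have : WW (F := F) hl ((0 : ℕ) : ℤ) = E F (n - 1) hl := by simpa using WW_zero (F := F) hl
    rw [this]
    have h1 : i = n - 1 := by omega
    subst h1
    exact dot_E_self _ _
  | succ d ih =>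
    intro i hi h
    have e : ((d + 1 : ℕ) : ℤ) = 1 + (d : ℤ) := by push_cast; ring
    rw [e, ← WW_succ, E_dot_U _ i (by omega), E_WW_zero d i hi (by omega), ih (i + 1) (by omega) (by omega),
      zero_add]

/-- Entries of `U⁻¹ e_last`. -/
theorem E_WW_neg (j : ℕ) : ∀ (k : ℕ) (hk : k < n), k + j + 1 = n →
    E F k hk ⬝ᵥ WW hl (-1) = (-1) ^ j := by
  have hs : (UU F n : M) *ᵥ WW hl (-1) = E F (n - 1) hl := by
    rw [WW_succ]
    simpa using WW_zero (F := F) hl
  induction j with
  | zero =>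
    intro k hk h
    have h1 : k = n - 1 := by omega
    subst h1
    rw [← last_dot_U (hl := hk) (WW hl (-1)), hs, dot_E_self, pow_zero]
  | succ j ih =>
    intro k hk h
    have h1 := E_dot_U (F := F) (WW hl (-1)) k (by omega)
    rw [hs, dot_E_E _ _ _ _ (by omega), ih (k + 1) (by omega) (by omega)] at h1
    rw [pow_succ]
    linear_combination -h1

/-- The vectors `w` with all their multiples in an axis. -/
def Wsub (H : Subgroup SLn) (φ : Fin n → F) : Submodule F (Fin n → F) where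
  carrier := {w | φ ⬝ᵥ w = 0 ∧ ∀ κ : F, Has H (κ • w) φ}
  add_mem' := by
    rintro a b ⟨ha, ha'⟩ ⟨hb, hb'⟩
    refine ⟨by rw [dotProduct_add, ha, hb, add_zero], fun κ => ?_⟩
    rw [smul_add]
    exact (ha' κ).add_left (hb' κ) (by rw [dotProduct_smul, hb, smul_zero])
  zero_mem' := ⟨by simp, fun κ => by
    rw [smul_zero]
    exact has_zero_left H φ⟩
  smul_mem' := by
    rintro c a ⟨ha, ha'⟩
    refine ⟨by rw [dotProduct_smul, ha, smul_zero], fun κ => ?_⟩
    rw [smul_smul]
    exact ha' _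

theorem mem_Wsub {H : Subgroup SLn} {φ w : Fin n → F} :
    w ∈ Wsub H φ ↔ (φ ⬝ᵥ w = 0 ∧ ∀ κ : F, Has H (κ • w) φ) := Iff.rfl

/-- The basis vectors near the end lie in `Wsub`. -/
theorem E_mem_Wsub {H : Subgroup SLn} {φ : Fin n → F} {D : ℕ}
    (hall : ∀ d : ℕ, d ≤ D → WW hl (d : ℤ) ∈ Wsub H φ) (i : ℕ) :
    ∀ (d k : ℕ) (hk : k < n), k + i + 1 = n → i + d ≤ D →
      ((UU F n ^ d : SLn) : M) *ᵥ E F k hk ∈ Wsub H φ := by
  induction i with
  | zero =>
    intro d k hk h hd
    have h1 : k = n - 1 := by omega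
    subst h1
    have := hall d (by omega)
    rw [WW, zpow_natCast] at this
    exact this
  | succ i ih =>
    intro d k hk h hd
    have h1 := Um_E_succ (F := F) k (by omega : k + 1 < n)
    have h2 : E F k hk = (UU F n : M) *ᵥ E F (k + 1) (by omega) - E F (k + 1) (by omega) := by
      rw [show (UU F n : M) = Um F n from rfl, h1]
      abel
    have h3 : ((UU F n ^ d : SLn) : M) *ᵥ E F k hk =
        ((UU F n ^ (d + 1) : SLn) : M) *ᵥ E F (k + 1) (by omega) -
          ((UU F n ^ d : SLn) : M) *ᵥ E F (k + 1) (by omega) := by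
      rw [h2, mulVec_sub, mulVec_mulVec, pow_succ, Matrix.SpecialLinearGroup.coe_mul]
    rw [h3]
    exact Submodule.sub_mem _ (ih (d + 1) (k + 1) (by omega) (by omega) (by omega))
      (ih d (k + 1) (by omega) (by omega) (by omega))

/-- Vectors supported near the end lie in `Wsub`. -/
theorem tail_mem_Wsub {H : Subgroup SLn} {φ : Fin n → F} {m : ℕ}
    (h : ∀ (k : ℕ) (hk : k < n), m ≤ k → E F k hk ∈ Wsub H φ) (x : Fin n → F)
    (hx : ∀ k : Fin n, k.val < m → x k = 0) : x ∈ Wsub H φ := by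
  have e : x = ∑ k : Fin n, x k • E F k.val k.isLt := by
    ext i
    simp [E, Finset.sum_apply, Pi.single_apply]
  rw [e]
  apply Submodule.sum_mem
  intro k _
  by_cases hk : k.val < m
  · rw [hx k hk, zero_smul]
    exact Submodule.zero_mem _
  · exact Submodule.smul_mem _ _ (h _ _ (by omega))

/-- Total basis vectors. -/
def Ev (F : Type*) [Field F] (n k : ℕ) : Fin n → F := fun i => if i.val = k then 1 else 0

theorem E_eq_Ev (k : ℕ) (hk : k < n) : E F k hk = Ev F n k := by
  ext i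
  rw [E_apply, Ev]

theorem Ev_zero (k : ℕ) (hk : n ≤ k) : Ev F n k = 0 := by
  ext i
  have := i.isLt
  simp only [Ev, Pi.zero_apply]
  rw [if_neg (by omega)]

theorem Ev_vecMul_U (k : ℕ) : Ev F n k ᵥ* (UU F n : M) = Ev F n k + Ev F n (k + 1) := by
  by_cases h1 : k + 1 < n
  · rw [← E_eq_Ev k (by omega), ← E_eq_Ev (k + 1) h1, show (UU F n : M) = Um F n from rfl, E_vecMul_Um]
  · rw [Ev_zero (k + 1) (by omega), add_zero]
    by_cases h2 : k < n
    · have h3 : k = n - 1 := by omega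
      subst h3
      rw [← E_eq_Ev _ h2, show (UU F n : M) = Um F n from rfl, last_vecMul_Um]
    · rw [Ev_zero k (by omega)]
      simp

/-- From one axis `a₀ E₀ + a₁ E₁` to everything. -/
theorem top_of_ann_two {H : Subgroup SLn} (hU : UU F n ∈ H) {a₀ a₁ : F} (ha₀ : a₀ ≠ 0)
    (hA : Ann H (a₀ • Ev F n 0 + a₁ • Ev F n 1)) : H = ⊤ := by
  have h1 : ∀ j : ℕ, Ann H (a₀ • Ev F n j + a₁ • Ev F n (j + 1)) := by
    intro j
    induction j with
    | zero => simpa using hA
    | succ j ih =>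
      have h2 := ih.conj (inv_mem hU)
      rw [inv_inv, add_vecMul, smul_vecMul, smul_vecMul, Ev_vecMul_U, Ev_vecMul_U] at h2
      have h3 := h2.add (ih.smul (-1))
      convert h3 using 1
      ext i
      simp only [Pi.add_apply, Pi.smul_apply, smul_eq_mul]
      ring
  have hz : ∀ k : ℕ, n ≤ k → Ann H (Ev F n k) := by
    intro k hk
    rw [Ev_zero k hk]
    intro w _
    exact has_zero_right H w
  have h2 : ∀ j : ℕ, j ≤ n → Ann H (Ev F n (n - j)) := by
    intro j
    induction j with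
    | zero =>
      intro _
      exact hz _ (by omega)
    | succ j ih =>
      intro hj
      have e : n - j = (n - (j + 1)) + 1 := by omega
      have h3 := ih (by omega)
      rw [e] at h3
      have h4 := (h1 (n - (j + 1))).add (h3.smul (-a₁))
      have h5 := h4.smul a₀⁻¹
      convert h5 using 1
      ext i
      simp only [Pi.add_apply, Pi.smul_apply, smul_eq_mul]
      field_simp
      ring
  apply eq_top_of_ann
  intro k hk
  rw [E_eq_Ev]
  have := h2 (n - k) (by omega)
  have e : n - (n - k) = k := by omega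
  rwa [e] at this

/-- Conjugates of regular unipotent elements are regular unipotent. -/
theorem conj_regular (g u : SLn) {k : ℕ} (h : ((u : M) - 1) ^ k ≠ 0) :
    ((g * u * g⁻¹ : SLn) : M) - 1 = (g : M) * ((u : M) - 1) * ((g⁻¹ : SLn) : M) ∧
    (((g * u * g⁻¹ : SLn) : M) - 1) ^ k ≠ 0 := by
  have e : ((g * u * g⁻¹ : SLn) : M) - 1 = (g : M) * ((u : M) - 1) * ((g⁻¹ : SLn) : M) := by
    rw [Matrix.SpecialLinearGroup.coe_mul, Matrix.SpecialLinearGroup.coe_mul, mul_sub, sub_mul, mul_one,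
      coe_mul_inv']
  refine ⟨e, ?_⟩
  have hp : ∀ m : ℕ, ((g : M) * ((u : M) - 1) * ((g⁻¹ : SLn) : M)) ^ m =
      (g : M) * ((u : M) - 1) ^ m * ((g⁻¹ : SLn) : M) := by
    intro m
    induction m with
    | zero => rw [pow_zero, pow_zero, mul_one, coe_mul_inv']
    | succ m ih =>
      rw [pow_succ, ih, pow_succ]
      calc _ = (g : M) * ((u : M) - 1) ^ m * (((g⁻¹ : SLn) : M) * (g : M)) * ((u : M) - 1) * ((g⁻¹ : SLn) : M) := by
            simp only [mul_assoc]
        _ = _ := by rw [coe_inv_mul', mul_one, mul_assoc (g : M)]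
  rw [e, hp]
  intro h0
  apply h
  calc ((u : M) - 1) ^ k = ((g⁻¹ : SLn) : M) * ((g : M) * ((u : M) - 1) ^ k * ((g⁻¹ : SLn) : M)) * (g : M) := by
        simp only [mul_assoc, coe_inv_mul', mul_one]
        rw [← mul_assoc, coe_inv_mul', one_mul]
    _ = 0 := by rw [h0]; simp

theorem conj_nilpotent (g u : SLn) (h : IsNilpotent ((u : M) - 1)) :
    IsNilpotent (((g * u * g⁻¹ : SLn) : M) - 1) := by
  obtain ⟨k, hk⟩ := h
  refine ⟨k, ?_⟩
  by_contra h0
  have e : ((g * u * g⁻¹ : SLn) : M) - 1 = (g : M) * ((u : M) - 1) * ((g⁻¹ : SLn) : M) := by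
    rw [Matrix.SpecialLinearGroup.coe_mul, Matrix.SpecialLinearGroup.coe_mul, mul_sub, sub_mul, mul_one,
      coe_mul_inv']
  have hp : ∀ m : ℕ, ((g : M) * ((u : M) - 1) * ((g⁻¹ : SLn) : M)) ^ m =
      (g : M) * ((u : M) - 1) ^ m * ((g⁻¹ : SLn) : M) := by
    intro m
    induction m with
    | zero => rw [pow_zero, pow_zero, mul_one, coe_mul_inv']
    | succ m ih =>
      rw [pow_succ, ih, pow_succ]
      calc _ = (g : M) * ((u : M) - 1) ^ m * (((g⁻¹ : SLn) : M) * (g : M)) * ((u : M) - 1) * ((g⁻¹ : SLn) : M) := by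
            simp only [mul_assoc]
        _ = _ := by rw [coe_inv_mul', mul_one, mul_assoc (g : M)]
  apply h0
  rw [e, hp, hk]
  simp

end Cfsg.Agent.Lib.Known.RU
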