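import Cfsg.Agent.Lib.Known.RU10

/-!
# Two regular unipotent elements: the main constructions
-/

set_option autoImplicit false
set_option linter.unusedVariables false
set_option linter.unusedSectionVars false

namespace Cfsg.Agent.Lib.Known.RU

open Matrix Matrix.SpecialLinearGroup

variable {F : Type*} [Field F] {n : ℕ}

local notation "SLn" => Matrix.SpecialLinearGroup (Fin n) F
local notation "M" => Matrix (Fin n) (Fin n) F

/-- **The corner transvection.** -/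
theorem gen_k0 [Fintype F] (hn : 4 ≤ n) {c : F} (hc : c ≠ 0)
    (hr : Subfield.closure {c * (c * (-1) ^ (n - 1)) ^ (n - 1)} = ⊤) :
    ∃ τ : SLn, Subgroup.closure ({UU F n, τ * UU F n * τ⁻¹} : Set SLn) = ⊤ := by
  have hl : n - 1 < n := by omega
  have h0 : 0 < n := by omega
  set φ₀ : Fin n → F := c • E F 0 h0 with hφ₀
  have hh : ∀ d : ℕ, d ≤ n - 2 → φ₀ ⬝ᵥ WW hl (d : ℤ) = 0 := by
    intro d hd
    rw [hφ₀, smul_dotProduct, E_WW_zero d 0 h0 (by omega), smul_zero]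
  have hh0 : φ₀ ⬝ᵥ WW hl 0 = 0 := by simpa using hh 0 (by omega)
  let τ : SLn := tv (WW hl 0) φ₀ hh0
  refine ⟨τ, ?_⟩
  set H := Subgroup.closure ({UU F n, τ * UU F n * τ⁻¹} : Set SLn) with hH
  have hU : UU F n ∈ H := Subgroup.subset_closure (by simp)
  have hv : τ * UU F n * τ⁻¹ ∈ H := Subgroup.subset_closure (by simp)
  have hb : φ₀ ⬝ᵥ WW hl (((n - 2 : ℕ) : ℤ) + 1) = c := by
    have e : ((n - 2 : ℕ) : ℤ) + 1 = ((n - 1 : ℕ) : ℤ) := by
      have : n - 2 + 1 = n - 1 := by omega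
      rw [← this]
      push_cast
      ring
    rw [e, hφ₀, smul_dotProduct, E_WW_one (n - 1) 0 h0 (by omega), smul_eq_mul, mul_one]
  have hε : φ₀ ⬝ᵥ WW hl (-1) = c * (-1) ^ (n - 1) := by
    rw [hφ₀, smul_dotProduct, E_WW_neg (n - 1) 0 h0 (by omega), smul_eq_mul]
  have hε0 : c * (-1) ^ (n - 1) ≠ 0 := mul_ne_zero hc (pow_ne_zero _ (by simp))
  have hr' : Subfield.closure {c * (c * (-1) ^ (n - 1)) ^ (n - 2 + 1)} = ⊤ := by
    have : n - 2 + 1 = n - 1 := by omega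
    rwa [this]
  have hchain := core_chain (by omega : 2 ≤ n - 2) hh hb hc hε hε0 (τ := τ) rfl hU hv hr'
  have hall : ∀ d : ℕ, d ≤ n - 2 → WW hl (d : ℤ) ∈ Wsub H φ₀ := fun d hd => ⟨hh d hd, hchain d hd⟩
  have hE : ∀ (k : ℕ) (hk : k < n), 1 ≤ k → E F k hk ∈ Wsub H φ₀ := by
    intro k hk h1
    have := E_mem_Wsub hall (n - 1 - k) 0 k hk (by omega) (by omega)
    simpa using this
  have hA : Ann H φ₀ := by
    intro w hw
    have hw0 : w ⟨0, h0⟩ = 0 := by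
      rw [hφ₀, smul_dotProduct] at hw
      have h2 : E F 0 h0 ⬝ᵥ w = w ⟨0, h0⟩ := by
        simp [E]
      rw [h2, smul_eq_mul] at hw
      exact (mul_eq_zero.1 hw).resolve_left hc
    have h2 := tail_mem_Wsub hE w (by
      intro k hk
      have : k = ⟨0, h0⟩ := Fin.ext (by simp; omega)
      rw [this, hw0])
    have h3 := h2.2 1
    rwa [one_smul] at h3
  apply top_of_ann_two hU (a₀ := c) (a₁ := 0) hc
  have e : c • Ev F n 0 + (0 : F) • Ev F n 1 = φ₀ := by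
    rw [zero_smul, add_zero, hφ₀, E_eq_Ev]
  rw [e]
  exact hA

/-- **The inhomogeneous transvection.** -/
theorem gen_k1 [Fintype F] (hn : 5 ≤ n) {a₁ : F} (ha₁ : a₁ ≠ 0) (ha₀ : 1 + a₁ ≠ 0)
    (hr : Subfield.closure {a₁ * ((-1 : F) ^ (n - 1)) ^ (n - 2)} = ⊤) :
    ∃ τ : SLn, Subgroup.closure ({UU F n, τ * UU F n * τ⁻¹} : Set SLn) = ⊤ := by
  have hl : n - 1 < n := by omega
  have h0 : 0 < n := by omega
  have h1 : 1 < n := by omega
  set a₀ := 1 + a₁ with ha₀def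
  set φ₀ : Fin n → F := a₀ • E F 0 h0 + a₁ • E F 1 h1 with hφ₀
  have hh' : ∀ d : ℕ, d ≤ n - 2 →  φ₀ ⬝ᵥ WW hl (d : ℤ) = a₁ * (E F 1 h1 ⬝ᵥ WW hl (d : ℤ)) := by
    intro d hd
    rw [hφ₀, add_dotProduct, smul_dotProduct, smul_dotProduct, E_WW_zero d 0 h0 (by omega), smul_zero, zero_add,
      smul_eq_mul]
  have hh : ∀ d : ℕ, d ≤ n - 3 → φ₀ ⬝ᵥ WW hl (d : ℤ) = 0 := by
    intro d hd
    rw [hh' d (by omega), E_WW_zero d 1 h1 (by omega), mul_zero]
  have hh0 : φ₀ ⬝ᵥ WW hl 0 = 0 := by simpa using hh 0 (by omega)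
  let τ : SLn := tv (WW hl 0) φ₀ hh0
  refine ⟨τ, ?_⟩
  set H := Subgroup.closure ({UU F n, τ * UU F n * τ⁻¹} : Set SLn) with hH
  have hU : UU F n ∈ H := Subgroup.subset_closure (by simp)
  have hv : τ * UU F n * τ⁻¹ ∈ H := Subgroup.subset_closure (by simp)
  have hb : φ₀ ⬝ᵥ WW hl (((n - 3 : ℕ) : ℤ) + 1) = a₁ := by
    have e : ((n - 3 : ℕ) : ℤ) + 1 = ((n - 2 : ℕ) : ℤ) := by
      have : n - 3 + 1 = n - 2 := by omega
      rw [← this]
      push_cast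
      ring
    rw [e, hh' _ le_rfl, E_WW_one (n - 2) 1 h1 (by omega), mul_one]
  have hε : φ₀ ⬝ᵥ WW hl (-1) = (-1) ^ (n - 1) := by
    rw [hφ₀, add_dotProduct, smul_dotProduct, smul_dotProduct, E_WW_neg (n - 1) 0 h0 (by omega),
      E_WW_neg (n - 2) 1 h1 (by omega), smul_eq_mul, smul_eq_mul, ha₀def]
    have : n - 1 = n - 2 + 1 := by omega
    rw [this, pow_succ]
    ring
  have hε0 : (-1 : F) ^ (n - 1) ≠ 0 := pow_ne_zero _ (by simp)
  have hr' : Subfield.closure {a₁ * ((-1 : F) ^ (n - 1)) ^ (n - 3 + 1)} = ⊤ := by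
    have : n - 3 + 1 = n - 2 := by omega
    rwa [this]
  have hchain := core_chain (by omega : 2 ≤ n - 3) hh hb ha₁ hε hε0 (τ := τ) rfl hU hv hr'
  have hall : ∀ d : ℕ, d ≤ n - 3 → WW hl (d : ℤ) ∈ Wsub H φ₀ := fun d hd => ⟨hh d hd, hchain d hd⟩
  have hE : ∀ (k : ℕ) (hk : k < n), 2 ≤ k → E F k hk ∈ Wsub H φ₀ := by
    intro k hk h2
    have := E_mem_Wsub hall (n - 1 - k) 0 k hk (by omega) (by omega)
    simpa using this
  -- the extra vector
  set b' := φ₀ ⬝ᵥ WW hl (((n - 1 : ℕ) : ℤ)) with hb'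
  set z : Fin n → F := b' • WW hl (((n - 2 : ℕ) : ℤ)) - a₁ • WW hl (((n - 1 : ℕ) : ℤ)) with hz
  have hb2 : φ₀ ⬝ᵥ WW hl (((n - 2 : ℕ) : ℤ)) = a₁ := by
    rw [hh' _ le_rfl, E_WW_one (n - 2) 1 h1 (by omega), mul_one]
  have hz0 : φ₀ ⬝ᵥ z = 0 := by
    rw [hz, dotProduct_sub, dotProduct_smul, dotProduct_smul, hb2, ← hb', smul_eq_mul, smul_eq_mul]
    ring
  have hzm : z ∈ Wsub H φ₀ := by
    refine ⟨hz0, fun κ => ?_⟩
    have hs : ∀ d : ℕ, d ≤ n - 3 → ∀ κ : F, Has H (κ • WW hl (((d + 2 : ℕ) : ℤ))) (PH φ₀ (-2)) := by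
      intro d hd κ
      have h3 : Has H (κ • WW hl (d : ℤ)) (PH φ₀ 0) := by
        rw [PH_zero]
        exact hchain d hd κ
      have h4 := h3.shift hU 2
      have e1 : (2 : ℤ) + (d : ℤ) = ((d + 2 : ℕ) : ℤ) := by push_cast; ring
      have e2 : (0 : ℤ) - 2 = -2 := by ring
      rwa [e1, e2] at h4
    have hp : ∀ d : ℕ, d ≤ n - 3 → PH φ₀ (-2) ⬝ᵥ WW hl (((d + 2 : ℕ) : ℤ)) = 0 := by
      intro d hd
      rw [pair_PH_WW]
      have e1 : (-2 : ℤ) + ((d + 2 : ℕ) : ℤ) = (d : ℤ) := by push_cast; ring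
      rw [e1, hh d hd]
    have e1 : n - 2 = (n - 4) + 2 := by omega
    have e2 : n - 1 = (n - 3) + 2 := by omega
    have h5 := hs (n - 4) (by omega) (κ / (-1) ^ (n - 1) * b')
    have h6 := hs (n - 3) (by omega) (κ / (-1) ^ (n - 1) * a₁)
    rw [← e1] at h5
    rw [← e2] at h6
    have hp1 := hp (n - 4) (by omega)
    have hp2 := hp (n - 3) (by omega)
    rw [← e1] at hp1
    rw [← e2] at hp2
    have h7 := h5.add_left (h6.neg (by rw [dotProduct_smul, hp2, smul_zero])) (by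
      rw [dotProduct_neg, dotProduct_smul, hp2, smul_zero, neg_zero])
    have hWW1 := hchain 1 (by omega) 1
    rw [one_smul] at hWW1
    have e3 : (κ / (-1) ^ (n - 1) * b') • WW hl (((n - 2 : ℕ) : ℤ)) +
        -((κ / (-1) ^ (n - 1) * a₁) • WW hl (((n - 1 : ℕ) : ℤ))) = (κ / (-1) ^ (n - 1)) • z := by
      rw [hz, smul_sub, smul_smul, smul_smul, sub_eq_add_neg]
    rw [e3] at h7
    have h8 := h7.comm hWW1 (by
        rw [dotProduct_smul, hz, dotProduct_sub, dotProduct_smul, dotProduct_smul, hp1, hp2]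
        simp) (by
        have := hh 1 (by omega)
        simpa using this) (by
        rw [dotProduct_smul, hz0, smul_zero])
    have e4 : PH φ₀ (-2) ⬝ᵥ WW hl ((1 : ℕ) : ℤ) = (-1) ^ (n - 1) := by
      rw [pair_PH_WW]
      have : (-2 : ℤ) + ((1 : ℕ) : ℤ) = -1 := by norm_num
      rw [this, hε]
    rw [e4, smul_smul] at h8
    have e5 : (-1 : F) ^ (n - 1) * (κ / (-1) ^ (n - 1)) = κ := by
      field_simp
    rwa [e5] at h8
  have hz00 : E F 0 h0 ⬝ᵥ z = -a₁ := by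
    rw [hz, dotProduct_sub, dotProduct_smul, dotProduct_smul, E_WW_zero (n - 2) 0 h0 (by omega),
      E_WW_one (n - 1) 0 h0 (by omega)]
    simp
  have hE0 : ∀ x : Fin n → F, E F 0 h0 ⬝ᵥ x = x ⟨0, h0⟩ := by
    intro x
    simp [E]
  have hE1 : ∀ x : Fin n → F, E F 1 h1 ⬝ᵥ x = x ⟨1, h1⟩ := by
    intro x
    simp [E]
  have hφx : ∀ x : Fin n → F, φ₀ ⬝ᵥ x = a₀ * x ⟨0, h0⟩ + a₁ * x ⟨1, h1⟩ := by
    intro x
    rw [hφ₀, add_dotProduct, smul_dotProduct, smul_dotProduct, hE0, hE1, smul_eq_mul, smul_eq_mul]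
  have hA : Ann H φ₀ := by
    intro w hw
    rw [hE0] at hz00
    set r := w ⟨0, h0⟩ / z ⟨0, h0⟩ with hr
    have hz1 : a₀ * z ⟨0, h0⟩ + a₁ * z ⟨1, h1⟩ = 0 := by rw [← hφx]; exact hz0
    have hw1 : a₀ * w ⟨0, h0⟩ + a₁ * w ⟨1, h1⟩ = 0 := by rw [← hφx]; exact hw
    have hzz : z ⟨0, h0⟩ ≠ 0 := by
      rw [hz00]
      exact neg_ne_zero.2 ha₁
    have h2 := tail_mem_Wsub hE (w - r • z) (by
      intro k hk
      have hk' : k = ⟨0, h0⟩ ∨ k = ⟨1, h1⟩ := by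
        rcases Nat.lt_succ_iff_lt_or_eq.1 hk with h | h
        · left; apply Fin.ext; simp; omega
        · right; apply Fin.ext; simpa using h
      rcases hk' with rfl | rfl
      · simp only [Pi.sub_apply, Pi.smul_apply, smul_eq_mul, hr]
        field_simp
        ring
      · simp only [Pi.sub_apply, Pi.smul_apply, smul_eq_mul, hr]
        have e : w ⟨1, h1⟩ = -a₀ * w ⟨0, h0⟩ / a₁ := by
          field_simp
          linear_combination hw1
        have e' : z ⟨1, h1⟩ = -a₀ * z ⟨0, h0⟩ / a₁ := by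
          field_simp
          linear_combination hz1
        rw [e, e']
        field_simp
        ring)
    have h3 := Submodule.add_mem _ h2 (Submodule.smul_mem _ r hzm)
    rw [sub_add_cancel] at h3
    have h4 := h3.2 1
    rwa [one_smul] at h4
  apply top_of_ann_two hU (a₀ := a₀) (a₁ := a₁) ha₀
  have e : a₀ • Ev F n 0 + a₁ • Ev F n 1 = φ₀ := by
    rw [hφ₀, E_eq_Ev, E_eq_Ev]
  rw [e]
  exact hA

end Cfsg.Agent.Lib.Known.RU
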