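import Cfsg.Agent.Lib.Known.RU11

/-!
# Two regular unipotent elements: `n = 4`, characteristic three; the assembly
-/

set_option autoImplicit false
set_option linter.unusedVariables false
set_option linter.unusedSectionVars false

namespace Cfsg.Agent.Lib.Known.RU

open Matrix Matrix.SpecialLinearGroup

variable {F : Type*} [Field F]

local notation "SL4" => Matrix.SpecialLinearGroup (Fin 4) F
local notation "M4" => Matrix (Fin 4) (Fin 4) F

theorem dot4 (a b c d x y z t : F) : ![a, b, c, d] ⬝ᵥ ![x, y, z, t] = a * x + b * y + c * z + d * t := by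
  simp [dotProduct, Fin.sum_univ_four]

theorem mv4 (a₀ a₁ a₂ a₃ b₀ b₁ b₂ b₃ c₀ c₁ c₂ c₃ d₀ d₁ d₂ d₃ x y z t : F) :
    !![a₀, a₁, a₂, a₃; b₀, b₁, b₂, b₃; c₀, c₁, c₂, c₃; d₀, d₁, d₂, d₃] *ᵥ ![x, y, z, t] =
      ![a₀ * x + a₁ * y + a₂ * z + a₃ * t, b₀ * x + b₁ * y + b₂ * z + b₃ * t,
        c₀ * x + c₁ * y + c₂ * z + c₃ * t, d₀ * x + d₁ * y + d₂ * z + d₃ * t] := by
  ext k
  fin_cases k <;> simp [mulVec, dotProduct, Fin.sum_univ_four]

theorem vm4 (a₀ a₁ a₂ a₃ b₀ b₁ b₂ b₃ c₀ c₁ c₂ c₃ d₀ d₁ d₂ d₃ x y z t : F) :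
    ![x, y, z, t] ᵥ* !![a₀, a₁, a₂, a₃; b₀, b₁, b₂, b₃; c₀, c₁, c₂, c₃; d₀, d₁, d₂, d₃] =
      ![x * a₀ + y * b₀ + z * c₀ + t * d₀, x * a₁ + y * b₁ + z * c₁ + t * d₁,
        x * a₂ + y * b₂ + z * c₂ + t * d₂, x * a₃ + y * b₃ + z * c₃ + t * d₃] := by
  ext k
  fin_cases k <;> simp [vecMul, dotProduct, Fin.sum_univ_four]

theorem coe_UU4 : (UU F 4 : M4) = !![1, 1, 0, 0; 0, 1, 1, 0; 0, 0, 1, 1; 0, 0, 0, 1] := by
  ext i j
  fin_cases i <;> fin_cases j <;> simp [UU, Um]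

theorem coe_inv_UU4 :
    (((UU F 4)⁻¹ : SL4) : M4) = !![1, -1, 1, -1; 0, 1, -1, 1; 0, 0, 1, -1; 0, 0, 0, 1] := by
  have h : (UU F 4 : M4) * !![1, -1, 1, -1; 0, 1, -1, 1; 0, 0, 1, -1; 0, 0, 0, 1] = 1 := by
    rw [coe_UU4]
    ext i j
    fin_cases i <;> fin_cases j <;> simp [Matrix.mul_apply, Fin.sum_univ_four]
  calc (((UU F 4)⁻¹ : SL4) : M4) = (((UU F 4)⁻¹ : SL4) : M4) *
        ((UU F 4 : M4) * !![1, -1, 1, -1; 0, 1, -1, 1; 0, 0, 1, -1; 0, 0, 0, 1]) := by rw [h, mul_one]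
    _ = _ := by rw [← mul_assoc, coe_inv_mul', one_mul]

theorem E4_0 : E F 0 (by norm_num : 0 < 4) = ![1, 0, 0, 0] := by
  ext i; fin_cases i <;> simp [E]

theorem E4_1 : E F 1 (by norm_num : 1 < 4) = ![0, 1, 0, 0] := by
  ext i; fin_cases i <;> simp [E]

theorem E4_2 : E F 2 (by norm_num : 2 < 4) = ![0, 0, 1, 0] := by
  ext i; fin_cases i <;> simp [E]

theorem E4_3 : E F 3 (by norm_num : 3 < 4) = ![0, 0, 0, 1] := by
  ext i; fin_cases i <;> simp [E]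

/-- The lower bidiagonal element with one general entry. -/
def vR (ρ : F) : SL4 :=
  ⟨!![1, 0, 0, 0; 1, 1, 0, 0; 0, ρ, 1, 0; 0, 0, 1, 1], by
    rw [Matrix.det_of_lowerTriangular]
    · simp [Fin.prod_univ_four]
    · intro i j hij
      have h : i < j := hij
      fin_cases i <;> fin_cases j <;> first | (simp; done) | exact absurd h (by decide)⟩

theorem coe_vR (ρ : F) : (vR ρ : M4) = !![1, 0, 0, 0; 1, 1, 0, 0; 0, ρ, 1, 0; 0, 0, 1, 1] := rfl

theorem coe_inv_vR (ρ : F) :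
    (((vR ρ)⁻¹ : SL4) : M4) = !![1, 0, 0, 0; -1, 1, 0, 0; ρ, -ρ, 1, 0; -ρ, ρ, -1, 1] := by
  have h : (vR ρ : M4) * !![1, 0, 0, 0; -1, 1, 0, 0; ρ, -ρ, 1, 0; -ρ, ρ, -1, 1] = 1 := by
    rw [coe_vR]
    ext i j
    fin_cases i <;> fin_cases j <;> simp [Matrix.mul_apply, Fin.sum_univ_four]
  calc (((vR ρ)⁻¹ : SL4) : M4) = (((vR ρ)⁻¹ : SL4) : M4) *
        ((vR ρ : M4) * !![1, 0, 0, 0; -1, 1, 0, 0; ρ, -ρ, 1, 0; -ρ, ρ, -1, 1]) := by rw [h, mul_one]
    _ = _ := by rw [← mul_assoc, coe_inv_mul', one_mul]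

theorem vR_nil (ρ : F) : IsNilpotent ((vR ρ : M4) - 1) := by
  refine ⟨4, ?_⟩
  rw [coe_vR]
  simp only [pow_succ, pow_zero, one_mul]
  ext i j
  fin_cases i <;> fin_cases j <;>
    simp [Matrix.mul_apply, Fin.sum_univ_four, Matrix.one_apply]

theorem vR_reg {ρ : F} (hρ : ρ ≠ 0) : ((vR ρ : M4) - 1) ^ (4 - 1) ≠ 0 := by
  intro h
  have h1 := congrFun (congrFun h 3) 0
  rw [coe_vR] at h1
  simp [pow_succ, Matrix.mul_apply, Fin.sum_univ_four, Matrix.one_apply] at h1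
  exact hρ h1

variable {H : Subgroup (Matrix.SpecialLinearGroup (Fin 4) F)}

theorem Has.cg4 {w w' φ φ' : Fin 4 → F} (h : Has H w φ) (hw : w = w') (hφ : φ = φ') : Has H w' φ' := by
  rw [← hw, ← hφ]
  exact h

theorem Has.fl4_sub {x y z x' y' z' : F} (h : Has H ![x, y, z, 0] ![0, 0, 0, 1])
    (h' : Has H ![x', y', z', 0] ![0, 0, 0, 1]) : Has H ![x - x', y - y', z - z', 0] ![0, 0, 0, 1] := by
  have hd : ![(0 : F), 0, 0, 1] ⬝ᵥ ![x', y', z', 0] = 0 := by rw [dot4]; ring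
  have h1 := h.add_left (h'.neg hd) (by rw [dotProduct_neg, hd, neg_zero])
  refine h1.cg4 ?_ rfl
  ext k
  fin_cases k <;> simp [sub_eq_add_neg]

theorem Has.fl4_U {x y : F} (h : Has H ![x, y, 0, 0] ![0, 0, 0, 1]) (hU : UU F 4 ∈ H) :
    Has H ![x + y, y, 0, 0] ![0, 0, 0, 1] := by
  have h1 := h.conj hU
  rw [coe_UU4, coe_inv_UU4, mv4, vm4] at h1
  refine h1.cg4 ?_ ?_
  · ext k
    fin_cases k <;> simp
  · ext k
    fin_cases k <;> simp

/-- **`n = 4`, characteristic three.** -/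
theorem char_three_four [Fintype F] (h3 : (3 : F) = 0) {ρ : F} (hρ : ρ ≠ 0)
    (hr : Subfield.closure {-ρ} = ⊤) (hU : UU F 4 ∈ H) (hv : vR ρ ∈ H) : H = ⊤ := by
  set fl : Fin 4 → F := ![0, 0, 0, 1] with hfl
  have h1 : Has H ![1, 0, 0, 0] fl := by
    refine ⟨UU F 4 * UU F 4 * UU F 4, mul_mem (mul_mem hU hU) hU, ?_⟩
    simp only [Matrix.SpecialLinearGroup.coe_mul, coe_UU4]
    ext k l
    fin_cases k <;> fin_cases l <;>
      simp [Matrix.mul_apply, Fin.sum_univ_four, vecMulVec_apply, Matrix.one_apply, hfl] <;>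
      grind
  set φ₁ : Fin 4 → F := ![-ρ, ρ, -1, 1] with hφ₁
  have hcv : ∀ a b c : F, Has H ![a, b, c, 0] fl →
      Has H ![a, a + b, ρ * b + c, b * 0 + c] φ₁ := by
    intro a b c h
    have h2 := h.conj hv
    rw [coe_vR, coe_inv_vR, mv4, hfl, vm4] at h2
    refine h2.cg4 ?_ ?_
    · ext k
      fin_cases k <;> simp
    · ext k
      fin_cases k <;> simp [hφ₁]
  have hcm : ∀ a b c d : F, Has H ![a, b, c, d] φ₁ → -ρ * a + ρ * b + -1 * c + 1 * d = 0 → d = 0 →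
      Has H ![-ρ * a, -ρ * b, -ρ * c, 0] fl := by
    intro a b c d h h0 hd
    have h2 := h.comm h1 (by rw [hφ₁, dot4]; exact h0) (by rw [hfl, dot4]; ring)
      (by rw [hfl, dot4, hd]; ring)
    rw [hφ₁, dot4] at h2
    refine h2.cg4 ?_ rfl
    ext k
    fin_cases k <;> simp [hd]
  have hY : ∀ κ : F, Has H ![κ, 0, 0, 0] fl → Has H ![-ρ * κ, -ρ * κ, 0, 0] fl := by
    intro κ hκ
    have h2 := hcv κ 0 0 hκ
    have h3 := hcm _ _ _ _ h2 (by ring) (by ring)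
    refine h3.cg4 ?_ rfl
    ext k
    fin_cases k <;> simp
  have hd0 : fl ⬝ᵥ ![(1 : F), 0, 0, 0] = 0 := by rw [hfl, dot4]; ring
  have hB : ∀ κ : F, κ ∈ lineSubN H ![(1 : F), 0, 0, 0] fl hd0 := by
    apply addSub_top hr
    · rw [mem_lineSubN, one_smul]
      exact h1
    · intro b hb
      rw [mem_lineSubN] at hb ⊢
      have e : b • (![1, 0, 0, 0] : Fin 4 → F) = ![b, 0, 0, 0] := by
        ext k; fin_cases k <;> simp
      rw [e] at hb
      have h3 := hY b hb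
      have h5 := (h3.fl4_U hU)
      have h6 : Has H ![-ρ * b + -ρ * b, -ρ * b, 0, 0] fl := h5
      have h7 := Has.fl4_sub (x := -ρ * b + -ρ * b) (y := -ρ * b) (z := 0) (x' := -ρ * b) (y' := -ρ * b) (z' := 0) h6 h3
      refine h7.cg4 ?_ rfl
      ext k
      fin_cases k <;> simp
  have h0 : ∀ κ : F, Has H ![κ, 0, 0, 0] fl := by
    intro κ
    have := hB κ
    rw [mem_lineSubN] at this
    refine this.cg4 ?_ rfl
    ext k
    fin_cases k <;> simp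
  have h1' : ∀ κ : F, Has H ![0, κ, 0, 0] fl := by
    intro κ
    have h3 := hY (-κ / ρ) (h0 _)
    have h7 := Has.fl4_sub (x := -ρ * (-κ / ρ)) (y := -ρ * (-κ / ρ)) (z := 0) (x' := κ) (y' := 0) (z' := 0) h3 (h0 κ)
    refine h7.cg4 ?_ rfl
    ext k
    fin_cases k <;> simp <;> field_simp <;> ring
  have h2' : ∀ κ : F, Has H ![0, 0, κ, 0] fl := by
    intro κ
    set κ₀ := -κ / ρ ^ 2 with hκ₀
    have h2 := hcv 0 κ₀ 0 (h1' κ₀)
    have h3 := hcm _ _ _ _ h2 (by ring) (by ring)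
    have h7 := Has.fl4_sub (x := -ρ * 0) (y := -ρ * (0 + κ₀)) (z := -ρ * (ρ * κ₀ + 0)) (x' := 0) (y' := -ρ * (0 + κ₀)) (z' := 0) h3 (h1' _)
    refine h7.cg4 ?_ rfl
    ext k
    fin_cases k <;> simp [hκ₀] <;> field_simp
  have A3 : Ann H fl := by
    intro w hw
    have hw3 : w 3 = 0 := by
      have : fl ⬝ᵥ w = w 3 := by
        simp [hfl, dotProduct, Fin.sum_univ_four]
      rw [← this, hw]
    have e : w = ![w 0, 0, 0, 0] + ![0, w 1, 0, 0] + ![0, 0, w 2, 0] := by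
      ext k
      fin_cases k <;> simp [hw3]
    rw [e]
    refine ((h0 _).add_left (h1' _) (by rw [hfl, dot4]; ring)).add_left (h2' _) (by rw [hfl, dot4]; ring)
  have Ac : ∀ φ : Fin 4 → F, Ann H φ → Ann H (φ ᵥ* (vR ρ : M4)) := by
    intro φ h
    have := h.conj (inv_mem hv)
    rwa [inv_inv] at this
  have A2' : Ann H ![0, 0, 1, 1] := by
    have := Ac _ A3
    rw [coe_vR, hfl, vm4] at this
    convert this using 1
    ext k
    fin_cases k <;> simp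
  have A2 : Ann H ![0, 0, 1, 0] := by
    have := A2'.add (A3.smul (-1))
    convert this using 1
    ext k
    fin_cases k <;> simp [hfl]
  have A1' : Ann H ![0, ρ, 1, 0] := by
    have := Ac _ A2
    rw [coe_vR, vm4] at this
    convert this using 1
    ext k
    fin_cases k <;> simp
  have A1 : Ann H ![0, 1, 0, 0] := by
    have := (A1'.add (A2.smul (-1))).smul ρ⁻¹
    convert this using 1
    ext k
    fin_cases k <;> simp [hρ]
  have A0' : Ann H ![1, 1, 0, 0] := by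
    have := Ac _ A1
    rw [coe_vR, vm4] at this
    convert this using 1
    ext k
    fin_cases k <;> simp
  have A0 : Ann H ![1, 0, 0, 0] := by
    have := A0'.add (A1.smul (-1))
    convert this using 1
    ext k
    fin_cases k <;> simp
  apply eq_top_of_ann
  intro k hk
  have hk' : k = 0 ∨ k = 1 ∨ k = 2 ∨ k = 3 := by omega
  rcases hk' with rfl | rfl | rfl | rfl
  · rw [E4_0]; exact A0
  · rw [E4_1]; exact A1
  · rw [E4_2]; exact A2
  · rw [E4_3]; exact A3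

end Cfsg.Agent.Lib.Known.RU
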