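import Cfsg.Agent.Lib.Known.RU12

/-!
# Two regular unipotent elements: the assembly
-/

set_option autoImplicit false
set_option linter.unusedVariables false
set_option linter.unusedSectionVars false

namespace Cfsg.Agent.Lib.Known.RU

open Matrix Matrix.SpecialLinearGroup

variable {F : Type*} [Field F]

/-- A power of a generator generates the field, under an arithmetic condition. -/
theorem closure_pow_of_arith [Fintype F] (e : ℕ) (he : 0 < e) {a : F}
    (ha : ∀ x : F, x ≠ 0 → ∃ k : ℕ, x = a ^ (k + 1))
    (hcond : ∀ t : ℕ, 2 ≤ t → t ^ 2 ≤ Fintype.card F → Fintype.card F - 1 ∣ e * (t - 1) → False)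
    (hq : 2 < Fintype.card F) : Subfield.closure {a ^ e} = ⊤ := by
  classical
  by_contra hne
  set K := Subfield.closure {a ^ e} with hK
  have ha0 : a ≠ 0 := by
    rintro rfl
    obtain ⟨k, hk⟩ := ha 1 one_ne_zero
    rw [zero_pow (Nat.succ_ne_zero k)] at hk
    exact one_ne_zero hk
  haveI : Fintype K := Fintype.ofFinite K
  set t := Fintype.card K with ht
  have ht2 : 2 ≤ t := Fintype.one_lt_card
  have hcard : Fintype.card F = t ^ Module.finrank K F := Module.card_eq_pow_finrank
  set d := Module.finrank K F with hd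
  have hd0 : d ≠ 0 := by
    intro h0
    rw [h0, pow_zero] at hcard
    omega
  have hd1 : d ≠ 1 := by
    intro h1
    rw [h1, pow_one] at hcard
    apply hne
    have hb : Function.Bijective (Subtype.val : K → F) := by
      rw [Fintype.bijective_iff_injective_and_card]
      exact ⟨Subtype.val_injective, hcard.symm⟩
    rw [eq_top_iff]
    intro x _
    obtain ⟨y, hy⟩ := hb.2 x
    rw [← hy]
    exact y.2
  have hd2 : 2 ≤ d := by omega
  have hle : t ^ 2 ≤ Fintype.card F := by
    rw [hcard]
    exact Nat.pow_le_pow_right (by omega) hd2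
  have hr : (⟨a ^ e, Subfield.subset_closure (Set.mem_singleton _)⟩ : K) ≠ 0 := by
    intro h
    have := congrArg Subtype.val h
    exact pow_ne_zero e ha0 this
  have h1 := FiniteField.pow_card_sub_one_eq_one _ hr
  have h2 : (a ^ e) ^ (t - 1) = 1 := by
    have := congrArg Subtype.val h1
    simpa using this
  rw [← pow_mul] at h2
  exact hcond t ht2 hle (card_sub_one_dvd ha h2)

theorem closure_sign {x s : F} (hs : s = 1 ∨ s = -1) (h : Subfield.closure {x} = ⊤) :
    Subfield.closure {s * x} = ⊤ := by
  rw [eq_top_iff, ← h, Subfield.closure_le]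
  intro z hz
  rw [Set.mem_singleton_iff] at hz
  rw [hz]
  have h1 : s * x ∈ Subfield.closure {s * x} := Subfield.subset_closure (Set.mem_singleton _)
  rcases hs with rfl | rfl
  · simpa using h1
  · have := (Subfield.closure {-1 * x}).neg_mem h1
    simpa using this

theorem closure_of_prime [Fintype F] (hp : (Fintype.card F).Prime) (x : F) : Subfield.closure {x} = ⊤ := by
  rw [eq_top_iff]
  intro y _
  obtain ⟨m, hm⟩ := exists_nat_of_prime hp y
  rw [hm]
  exact natCast_mem _ m

theorem closure_of_gen {a : F} (ha : ∀ x : F, x ≠ 0 → ∃ k : ℕ, x = a ^ (k + 1)) : Subfield.closure {a} = ⊤ := by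
  rw [eq_top_iff]
  intro y _
  by_cases hy : y = 0
  · rw [hy]
    exact zero_mem _
  · obtain ⟨k, hk⟩ := ha y hy
    rw [hk]
    exact pow_mem (Subfield.subset_closure (Set.mem_singleton _)) _

/-- **The statement on two regular unipotent elements.** -/
theorem two_reg_main [Fintype F] (n : ℕ) (hn : 4 ≤ n) :
    (∃ u v : Matrix.SpecialLinearGroup (Fin n) F,
      (IsNilpotent ((u : Matrix (Fin n) (Fin n) F) - 1) ∧ ((u : Matrix (Fin n) (Fin n) F) - 1) ^ (n - 1) ≠ 0) ∧
      (IsNilpotent ((v : Matrix (Fin n) (Fin n) F) - 1) ∧ ((v : Matrix (Fin n) (Fin n) F) - 1) ^ (n - 1) ≠ 0) ∧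
      Subgroup.closure ({u, v} : Set (Matrix.SpecialLinearGroup (Fin n) F)) = ⊤) ∧
    ((Fintype.card F).Prime → ∃ u g : Matrix.SpecialLinearGroup (Fin n) F,
      (IsNilpotent ((u : Matrix (Fin n) (Fin n) F) - 1) ∧ ((u : Matrix (Fin n) (Fin n) F) - 1) ^ (n - 1) ≠ 0) ∧
      Subgroup.closure ({u, g * u * g⁻¹} : Set (Matrix.SpecialLinearGroup (Fin n) F)) = ⊤) := by
  have hreg : (IsNilpotent ((UU F n : Matrix (Fin n) (Fin n) F) - 1) ∧
      ((UU F n : Matrix (Fin n) (Fin n) F) - 1) ^ (n - 1) ≠ 0) := ⟨Um_nil, Um_reg (by omega)⟩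
  have hconj : ∀ τ : Matrix.SpecialLinearGroup (Fin n) F,
      Subgroup.closure ({UU F n, τ * UU F n * τ⁻¹} : Set (Matrix.SpecialLinearGroup (Fin n) F)) = ⊤ →
      ∃ u v : Matrix.SpecialLinearGroup (Fin n) F,
      (IsNilpotent ((u : Matrix (Fin n) (Fin n) F) - 1) ∧ ((u : Matrix (Fin n) (Fin n) F) - 1) ^ (n - 1) ≠ 0) ∧
      (IsNilpotent ((v : Matrix (Fin n) (Fin n) F) - 1) ∧ ((v : Matrix (Fin n) (Fin n) F) - 1) ^ (n - 1) ≠ 0) ∧
      Subgroup.closure ({u, v} : Set (Matrix.SpecialLinearGroup (Fin n) F)) = ⊤ := by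
    intro τ h
    exact ⟨UU F n, τ * UU F n * τ⁻¹, hreg,
      ⟨conj_nilpotent _ _ hreg.1, (conj_regular _ _ hreg.2).2⟩, h⟩
  have hprime : (Fintype.card F).Prime → ∃ τ : Matrix.SpecialLinearGroup (Fin n) F,
      Subgroup.closure ({UU F n, τ * UU F n * τ⁻¹} : Set (Matrix.SpecialLinearGroup (Fin n) F)) = ⊤ := by
    intro hp
    exact gen_k0 hn (one_ne_zero) (closure_of_prime hp _)
  refine ⟨?_, fun hp => ?_⟩
  · by_cases hp : (Fintype.card F).Prime
    · obtain ⟨τ, hτ⟩ := hprime hp
      exact hconj τ hτ
    -- non-prime fields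
    obtain ⟨p, hpc⟩ := CharP.exists F
    obtain ⟨f, hp', hcard⟩ := FiniteField.card F p
    have hf : (f : ℕ) ≠ 1 := by
      intro h1
      apply hp
      rw [hcard, h1, pow_one]
      exact hp'
    have hf2 : 2 ≤ (f : ℕ) := by
      have := f.pos
      omega
    have hq4 : 4 ≤ Fintype.card F := by
      rw [hcard]
      calc 4 = 2 ^ 2 := by norm_num
        _ ≤ p ^ 2 := Nat.pow_le_pow_left hp'.two_le 2
        _ ≤ p ^ (f : ℕ) := Nat.pow_le_pow_right hp'.pos hf2
    obtain ⟨ρ, hρ⟩ := exists_primitive F
    have hρ0 : ρ ≠ 0 := by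
      rintro rfl
      obtain ⟨k, hk⟩ := hρ 1 one_ne_zero
      rw [zero_pow (Nat.succ_ne_zero k)] at hk
      exact one_ne_zero hk
    have hgen := closure_of_gen hρ
    by_cases hn5 : 5 ≤ n
    · have hs : 1 + ρ ≠ 0 := by
        intro h0
        have h1 : ρ = -1 := by linear_combination h0
        have h2 : ρ ^ 2 = 1 := by rw [h1]; ring
        have h3 := Nat.le_of_dvd (by norm_num) (card_sub_one_dvd hρ h2)
        omega
      have hr : Subfield.closure {ρ * ((-1 : F) ^ (n - 1)) ^ (n - 2)} = ⊤ := by
        rw [mul_comm]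
        apply closure_sign _ hgen
        rw [← pow_mul]
        exact neg_one_pow_eq_or F _
      obtain ⟨τ, hτ⟩ := gen_k1 (F := F) hn5 hρ0 hs hr
      exact hconj τ hτ
    · have hn4 : n = 4 := by omega
      subst hn4
      by_cases hq9 : Fintype.card F = 9
      · -- `q = 9`
        have h4 : ((Fintype.card F : ℕ) : F) = 0 := FiniteField.cast_card_eq_zero F
        have h3 : (3 : F) = 0 := by
          rw [hq9] at h4
          have h5 : (3 : F) * 3 = 0 := by
            have : ((9 : ℕ) : F) = 3 * 3 := by norm_num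
            rw [← this, h4]
          simpa using h5
        refine ⟨UU F 4, vR ρ, hreg, ⟨vR_nil ρ, vR_reg hρ0⟩, ?_⟩
        apply char_three_four h3 hρ0
        · have := closure_sign (s := -1) (Or.inr rfl) hgen
          simpa using this
        · exact Subgroup.subset_closure (by simp)
        · exact Subgroup.subset_closure (by simp)
      · -- `q ≠ 9`
        have hc : Subfield.closure {ρ ^ 4} = ⊤ := by
          apply closure_pow_of_arith 4 (by norm_num) hρ _ (by omega)
          intro t ht hle hd
          have h1 := Nat.le_of_dvd (by omega) hd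
          obtain ⟨s, hs⟩ : ∃ s, t = s + 2 := ⟨t - 2, by omega⟩
          subst hs
          have h2 : 4 * (s + 2 - 1) = 4 * s + 4 := by omega
          rw [h2] at h1 hd
          have h3 : s ≤ 1 := by
            by_contra h0
            have : 2 ≤ s := by omega
            have h7 : Fintype.card F ≤ 4 * s + 5 := by omega
            nlinarith
          have h5 : Fintype.card F ≠ 5 := by
            intro h5
            apply hp
            rw [h5]
            norm_num
          interval_cases s
          · have h6 : Fintype.card F = 4 ∨ Fintype.card F = 5 := by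
              have : 4 ≤ Fintype.card F := hq4
              omega
            rcases h6 with h6 | h6
            · rw [h6] at hd
              norm_num at hd
            · exact h5 h6
          · have h6 : Fintype.card F = 9 := by
              norm_num at hle
              omega
            exact hq9 h6
        have hr : Subfield.closure {ρ * (ρ * (-1) ^ (4 - 1)) ^ (4 - 1)} = ⊤ := by
          have e : ρ * (ρ * (-1) ^ (4 - 1)) ^ (4 - 1) = (-1) * ρ ^ 4 := by
            norm_num
            ring
          rw [e]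
          exact closure_sign (Or.inr rfl) hc
        obtain ⟨τ, hτ⟩ := gen_k0 (F := F) (n := 4) le_rfl hρ0 hr
        exact hconj τ hτ
  · obtain ⟨τ, hτ⟩ := hprime hp
    exact ⟨UU F n, τ, hreg, hτ⟩

end Cfsg.Agent.Lib.Known.RU
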