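import Cfsg.Agent.Lib.Known.RU1

/-!
# The bidiagonal regular unipotent elements
-/

set_option autoImplicit false
set_option linter.unusedVariables false
set_option linter.unusedSectionVars false

namespace Cfsg.Agent.Lib.Known.RU

open Matrix Matrix.SpecialLinearGroup

variable {F : Type*} [Field F] {n : ℕ}

local notation "SLn" => Matrix.SpecialLinearGroup (Fin n) F
local notation "M" => Matrix (Fin n) (Fin n) F

/-- Standard basis vectors. -/
def E (F : Type*) [Field F] {n : ℕ} (k : ℕ) (hk : k < n) : Fin n → F := Pi.single ⟨k, hk⟩ 1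

theorem E_apply (k : ℕ) (hk : k < n) (i : Fin n) : E F k hk i = if i.val = k then 1 else 0 := by
  simp [E, Pi.single_apply, Fin.ext_iff]

theorem dot_E_E (k l : ℕ) (hk : k < n) (hl : l < n) (h : k ≠ l) : E F k hk ⬝ᵥ E F l hl = 0 := by
  simp only [E, single_one_dotProduct]
  rw [Pi.single_apply, if_neg]
  intro h1
  exact h (by simpa using (congrArg Fin.val h1))

theorem dot_one_E (k : ℕ) (hk : k < n) : (fun _ => 1 : Fin n → F) ⬝ᵥ E F k hk = 1 := by
  simp [E, dotProduct_single]

theorem mulVec_E (A : M) (k : ℕ) (hk : k < n) : A *ᵥ E F k hk = A.col ⟨k, hk⟩ :=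
  Matrix.mulVec_single_one _ _

theorem E_vecMul (A : M) (k : ℕ) (hk : k < n) : E F k hk ᵥ* A = A.row ⟨k, hk⟩ :=
  Matrix.single_one_vecMul _ _

/-- Upper bidiagonal. -/
def Um (F : Type*) [Field F] (n : ℕ) : Matrix (Fin n) (Fin n) F :=
  Matrix.of fun i j => if j.val = i.val ∨ j.val = i.val + 1 then 1 else 0

/-- Lower bidiagonal with `-1`. -/
def Lm (F : Type*) [Field F] (n : ℕ) : Matrix (Fin n) (Fin n) F :=
  Matrix.of fun i j => if j.val = i.val then 1 else if i.val = j.val + 1 then -1 else 0

/-- Antidiagonal with alternating signs. -/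
def Hm (F : Type*) [Field F] (n : ℕ) : Matrix (Fin n) (Fin n) F :=
  Matrix.of fun i j => if i.val + j.val + 1 = n then (-1) ^ j.val else 0

theorem det_Um : det (Um F n) = 1 := by
  rw [Matrix.det_of_upperTriangular]
  · apply Finset.prod_eq_one
    intro i _
    simp [Um]
  · intro i j hij
    have h : j < i := hij
    have h1 : j.val < i.val := h
    simp only [Um, Matrix.of_apply]
    rw [if_neg]
    omega

theorem det_Lm : det (Lm F n) = 1 := by
  rw [Matrix.det_of_lowerTriangular]
  · apply Finset.prod_eq_one
    intro i _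
    simp [Lm]
  · intro i j hij
    have h : i < j := hij
    have h1 : i.val < j.val := h
    simp only [Lm, Matrix.of_apply]
    rw [if_neg, if_neg] <;> omega

theorem det_Hm (n : ℕ) : det (Hm F n) = 1 := by
  induction n with
  | zero => simp
  | succ m ih =>
    rw [Matrix.det_succ_row_zero]
    rw [Finset.sum_eq_single (Fin.last m)]
    · have h1 : (Hm F (m + 1)) 0 (Fin.last m) = (-1) ^ m := by
        simp [Hm]
      have h2 : (Hm F (m + 1)).submatrix Fin.succ (Fin.last m).succAbove = Hm F m := by
        ext i j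
        simp only [Hm, Matrix.submatrix_apply, Matrix.of_apply, Fin.succAbove_last, Fin.val_succ,
          Fin.val_castSucc]
        have : i.val + 1 + j.val + 1 = m + 1 ↔ i.val + j.val + 1 = m := by omega
        simp only [this]
      rw [h1, h2, ih]
      simp only [Fin.val_last, mul_one]
      rw [← pow_add, ← two_mul, pow_mul]
      simp
    · intro b _ hb
      have hb' : b.val ≠ m := by
        intro h
        exact hb (Fin.ext (by simpa using h))
      have hb2 : b.val < m + 1 := b.isLt
      have h1 : (Hm F (m + 1)) 0 b = 0 := by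
        simp only [Hm, Matrix.of_apply]
        rw [if_neg]
        simp only [Fin.val_zero]
        omega
      rw [h1]
      simp
    · intro h
      exact absurd (Finset.mem_univ _) h

/-- The matrix identity `H U = L H`. -/
theorem Hm_mul_Um : Hm F n * Um F n = Lm F n * Hm F n := by
  ext i j
  rw [Matrix.mul_apply, Matrix.mul_apply]
  have hi := i.isLt
  have hj := j.isLt
  have e1 : ∑ k, Hm F n i k * Um F n k j = (-1) ^ (n - 1 - i.val) * Um F n ⟨n - 1 - i.val, by omega⟩ j := by
    rw [Finset.sum_eq_single (⟨n - 1 - i.val, by omega⟩ : Fin n)]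
    · congr 1
      simp only [Hm, Matrix.of_apply]
      rw [if_pos]
      omega
    · intro b _ hb
      have : b.val ≠ n - 1 - i.val := fun h => hb (Fin.ext h)
      have h2 : Hm F n i b = 0 := by
        simp only [Hm, Matrix.of_apply]
        rw [if_neg]
        omega
      rw [h2, zero_mul]
    · intro h
      exact absurd (Finset.mem_univ _) h
  have e2 : ∑ k, Lm F n i k * Hm F n k j = Lm F n i ⟨n - 1 - j.val, by omega⟩ * (-1) ^ j.val := by
    rw [Finset.sum_eq_single (⟨n - 1 - j.val, by omega⟩ : Fin n)]
    · congr 1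
      simp only [Hm, Matrix.of_apply]
      rw [if_pos]
      omega
    · intro b _ hb
      have : b.val ≠ n - 1 - j.val := fun h => hb (Fin.ext h)
      have h2 : Hm F n b j = 0 := by
        simp only [Hm, Matrix.of_apply]
        rw [if_neg]
        omega
      rw [h2, mul_zero]
    · intro h
      exact absurd (Finset.mem_univ _) h
  rw [e1, e2]
  simp only [Um, Lm, Matrix.of_apply]
  by_cases h1 : i.val + j.val + 1 = n
  · have hj' : j.val = n - 1 - i.val := by omega
    rw [if_pos (Or.inl hj'), if_pos (by omega), mul_one, one_mul, hj']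
  · by_cases h2 : i.val + j.val = n
    · have hj' : j.val = n - 1 - i.val + 1 := by omega
      rw [if_pos (Or.inr hj'), if_neg (by omega), if_pos (by omega), mul_one, hj',
        pow_succ]
      simp
    · rw [if_neg (by omega), if_neg (by omega), if_neg (by omega)]
      simp

/-- The group elements. -/
def UU (F : Type*) [Field F] (n : ℕ) : Matrix.SpecialLinearGroup (Fin n) F := ⟨Um F n, det_Um⟩
def LL (F : Type*) [Field F] (n : ℕ) : Matrix.SpecialLinearGroup (Fin n) F := ⟨Lm F n, det_Lm⟩
def HH (F : Type*) [Field F] (n : ℕ) : Matrix.SpecialLinearGroup (Fin n) F := ⟨Hm F n, det_Hm n⟩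

theorem HH_conj : HH F n * UU F n * (HH F n)⁻¹ = LL F n := by
  have h : HH F n * UU F n = LL F n * HH F n := Subtype.ext Hm_mul_Um
  rw [h]
  group

theorem Um_E_zero (h0 : 0 < n) : Um F n *ᵥ E F 0 h0 = E F 0 h0 := by
  rw [mulVec_E]
  ext i
  simp only [Matrix.col_apply, Um, Matrix.of_apply, E_apply]
  by_cases h1 : i.val = 0
  · rw [if_pos (Or.inl h1.symm), if_pos h1]
  · rw [if_neg (by omega), if_neg h1]

theorem Um_E_succ (k : ℕ) (hk : k + 1 < n) :
    Um F n *ᵥ E F (k + 1) hk = E F (k + 1) hk + E F k (by omega) := by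
  rw [mulVec_E]
  ext i
  simp only [Matrix.col_apply, Um, Matrix.of_apply, Pi.add_apply, E_apply]
  by_cases h1 : i.val = k + 1
  · rw [if_pos (Or.inl h1.symm), if_pos h1, if_neg (by omega), add_zero]
  · by_cases h2 : i.val = k
    · rw [if_pos (Or.inr (by omega)), if_neg (by omega), if_pos h2, zero_add]
    · rw [if_neg (by omega), if_neg h1, if_neg h2, add_zero]

theorem Lm_E (k : ℕ) (hk : k + 1 < n) :
    Lm F n *ᵥ E F k (by omega) = E F k (by omega) - E F (k + 1) hk := by
  rw [mulVec_E]
  ext i
  simp only [Matrix.col_apply, Lm, Matrix.of_apply, Pi.sub_apply, E_apply]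
  by_cases h1 : i.val = k
  · rw [if_pos h1.symm, if_pos h1, if_neg (by omega), sub_zero]
  · by_cases h2 : i.val = k + 1
    · rw [if_neg (by omega), if_pos (by omega), if_neg (by omega), if_pos h2, zero_sub]
    · rw [if_neg (by omega), if_neg (by omega), if_neg h1, if_neg h2, sub_zero]

theorem last_vecMul_Um (hl : n - 1 < n) : E F (n - 1) hl ᵥ* Um F n = E F (n - 1) hl := by
  rw [E_vecMul]
  ext j
  have hj := j.isLt
  simp only [Matrix.row_apply, Um, Matrix.of_apply, E_apply]
  by_cases h1 : j.val = n - 1
  · rw [if_pos (Or.inl h1), if_pos h1]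
  · rw [if_neg (by omega), if_neg h1]

theorem E_vecMul_Um (k : ℕ) (hk : k + 1 < n) : E F k (by omega) ᵥ* Um F n = E F k (by omega) + E F (k + 1) hk := by
  rw [E_vecMul]
  ext j
  simp only [Matrix.row_apply, Um, Matrix.of_apply, Pi.add_apply, E_apply]
  by_cases h1 : j.val = k
  · rw [if_pos (Or.inl h1), if_pos h1, if_neg (by omega), add_zero]
  · by_cases h2 : j.val = k + 1
    · rw [if_pos (Or.inr h2), if_neg h1, if_pos h2, zero_add]
    · rw [if_neg (by omega), if_neg h1, if_neg h2, add_zero]

theorem E_vecMul_Lm (k : ℕ) (hk : k + 1 < n) :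
    E F (k + 1) hk ᵥ* Lm F n = E F (k + 1) hk - E F k (by omega) := by
  rw [E_vecMul]
  ext j
  simp only [Matrix.row_apply, Lm, Matrix.of_apply, Pi.sub_apply, E_apply]
  by_cases h1 : j.val = k + 1
  · rw [if_pos h1, if_pos h1, if_neg (by omega), sub_zero]
  · by_cases h2 : j.val = k
    · rw [if_neg (by omega), if_pos (by omega), if_neg h1, if_pos h2, zero_sub]
    · rw [if_neg (by omega), if_neg (by omega), if_neg h1, if_neg h2, sub_zero]

theorem one_vecMul_Lm (hl : n - 1 < n) : (fun _ => 1 : Fin n → F) ᵥ* Lm F n = E F (n - 1) hl := by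
  ext j
  simp only [Matrix.vecMul, dotProduct, one_mul, E_apply]
  have hj := j.isLt
  by_cases h1 : j.val = n - 1
  · rw [if_pos h1, Finset.sum_eq_single j]
    · simp [Lm]
    · intro b _ hb
      have hb' : b.val ≠ j.val := fun h => hb (Fin.ext h)
      simp only [Lm, Matrix.of_apply]
      have hb2 := b.isLt
      rw [if_neg (by omega), if_neg (by omega)]
    · intro h
      exact absurd (Finset.mem_univ _) h
  · rw [if_neg h1]
    let j' : Fin n := ⟨j.val + 1, by omega⟩
    have hne : j' ≠ j := by
      intro h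
      have := congrArg Fin.val h
      simp [j'] at this
    rw [← Finset.add_sum_erase _ _ (Finset.mem_univ j), ← Finset.add_sum_erase _ _
      (Finset.mem_erase.2 ⟨hne, Finset.mem_univ j'⟩), Finset.sum_eq_zero]
    · simp [Lm, j']
    · intro b hb
      have hb1 := Finset.mem_erase.1 hb
      have hb2 := Finset.mem_erase.1 hb1.2
      have hb' : b.val ≠ j.val := fun h => hb2.1 (Fin.ext h)
      have hb'' : b.val ≠ j.val + 1 := fun h => hb1.1 (Fin.ext h)
      simp only [Lm, Matrix.of_apply]
      rw [if_neg (by omega), if_neg (by omega)]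

/-- Powers of the nilpotent part. -/
theorem Um_sub_one_pow (k : ℕ) (i j : Fin n) :
    ((Um F n - 1) ^ k) i j = if j.val = i.val + k then 1 else 0 := by
  induction k generalizing i with
  | zero =>
    simp only [pow_zero, Matrix.one_apply, add_zero]
    by_cases h : i = j
    · subst h
      simp
    · rw [if_neg h, if_neg]
      intro h1
      exact h (Fin.ext h1.symm)
  | succ k ih =>
    rw [pow_succ', Matrix.mul_apply]
    by_cases hi : i.val + 1 < n
    · rw [Finset.sum_eq_single (⟨i.val + 1, hi⟩ : Fin n)]
      · rw [ih]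
        have h1 : (Um F n - 1) i ⟨i.val + 1, hi⟩ = 1 := by
          simp [Um, Matrix.one_apply, Fin.ext_iff]
        rw [h1, one_mul]
        simp only
        congr 1
        rw [add_assoc, add_comm 1 k]
      · intro b _ hb
        have hb' : b.val ≠ i.val + 1 := fun h => hb (Fin.ext h)
        have h1 : (Um F n - 1) i b = 0 := by
          simp only [Um, Matrix.sub_apply, Matrix.of_apply, Matrix.one_apply, Fin.ext_iff]
          by_cases h2 : i.val = b.val
          · rw [if_pos (Or.inl h2.symm), if_pos h2, sub_self]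
          · rw [if_neg (by omega), if_neg h2, sub_self]
        rw [h1, zero_mul]
      · intro h
        exact absurd (Finset.mem_univ _) h
    · rw [if_neg, Finset.sum_eq_zero]
      · intro b _
        have hb := b.isLt
        have h1 : (Um F n - 1) i b = 0 := by
          simp only [Um, Matrix.sub_apply, Matrix.of_apply, Matrix.one_apply, Fin.ext_iff]
          by_cases h2 : i.val = b.val
          · rw [if_pos (Or.inl h2.symm), if_pos h2, sub_self]
          · rw [if_neg (by omega), if_neg h2, sub_self]
        rw [h1, zero_mul]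
      · have := j.isLt
        omega

theorem Um_nil : IsNilpotent (Um F n - 1) := by
  refine ⟨n, ?_⟩
  ext i j
  rw [Um_sub_one_pow, if_neg]
  · rfl
  · have := j.isLt
    omega

theorem Um_reg (hn : 0 < n) : (Um F n - 1) ^ (n - 1) ≠ 0 := by
  intro h
  have h1 := congrFun (congrFun h ⟨0, hn⟩) ⟨n - 1, by omega⟩
  rw [Um_sub_one_pow, if_pos (by simp)] at h1
  exact one_ne_zero h1

end Cfsg.Agent.Lib.Known.RU
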