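import Cfsg.Agent.Lib.Known.RU2

/-!
# From a central transvection to all of `SL_n`
-/

set_option autoImplicit false
set_option linter.unusedVariables false
set_option linter.unusedSectionVars false

namespace Cfsg.Agent.Lib.Known.RU

open Matrix Matrix.SpecialLinearGroup

variable {F : Type*} [Field F] {n : ℕ}

local notation "SLn" => Matrix.SpecialLinearGroup (Fin n) F
local notation "M" => Matrix (Fin n) (Fin n) F

theorem eq_top_of_ann (H : Subgroup SLn) (h : ∀ (k : ℕ) (hk : k < n), Ann H (E F k hk)) : H = ⊤ := by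
  rw [eq_top_iff]
  intro g _
  refine Cfsg.Agent.Lib.Classical.sl_transvection_induction (· ∈ H) ?_ (one_mem _)
    (fun _ _ => mul_mem) g
  intro i j hij a
  have h1 : E F j.val j.isLt ⬝ᵥ (a • E F i.val i.isLt) = 0 := by
    rw [dotProduct_smul, dot_E_E _ _ _ _ (fun h => hij (Fin.ext h.symm)), smul_zero]
  obtain ⟨t, ht, hte⟩ := h j.val j.isLt _ h1
  have h2 : t = SpecialLinearGroup.transvection hij a := by
    apply Subtype.ext
    rw [hte, SpecialLinearGroup.transvection_coe]
    congr 1
    ext k l
    simp only [vecMulVec_apply, Pi.smul_apply, E_apply, smul_eq_mul, Matrix.single_apply, Fin.ext_iff]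
    by_cases h3 : k.val = i.val
    · by_cases h4 : l.val = j.val
      · simp [h3, h4]
      · simp [h3, h4, Ne.symm h4]
    · simp [h3, Ne.symm h3]
  rw [← h2]
  exact ht

/-- **The engine.** -/
theorem engine (hn : 3 ≤ n) (H : Subgroup SLn) (hU : UU F n ∈ H) (hL : LL F n ∈ H) (a : F)
    (ha : ∀ x : F, x ≠ 0 → ∃ k : ℕ, x = a ^ (k + 1))
    (hx : Has H (a • E F 0 (by omega)) (E F (n - 1) (by omega))) : H = ⊤ := by
  have hl : n - 1 < n := by omega
  have h0 : 0 < n := by omega
  have h1 : 1 < n := by omega
  set fl := E F (n - 1) hl with hfl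
  set e0 := E F 0 h0 with he0
  set e1 := E F 1 h1 with he1
  let one : Fin n → F := fun _ => 1
  have hUinv : fl ᵥ* (((UU F n)⁻¹ : SLn) : M) = fl := by
    have h2 : fl ᵥ* (UU F n : M) = fl := last_vecMul_Um hl
    calc fl ᵥ* (((UU F n)⁻¹ : SLn) : M) = (fl ᵥ* (UU F n : M)) ᵥ* (((UU F n)⁻¹ : SLn) : M) := by rw [h2]
      _ = fl := by rw [vecMul_vecMul, coe_mul_inv', vecMul_one]
  have hLinv : fl ᵥ* (((LL F n)⁻¹ : SLn) : M) = one := by
    have h2 : one ᵥ* (LL F n : M) = fl := one_vecMul_Lm hl
    calc fl ᵥ* (((LL F n)⁻¹ : SLn) : M) = (one ᵥ* (LL F n : M)) ᵥ* (((LL F n)⁻¹ : SLn) : M) := by rw [h2]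
      _ = one := by rw [vecMul_vecMul, coe_mul_inv', vecMul_one]
  have hconjU : ∀ w, Has H w fl → Has H ((Um F n) *ᵥ w) fl := by
    intro w hw
    have := hw.conj hU
    rw [hUinv] at this
    exact this
  have hconjL : ∀ w, Has H w fl → Has H ((Lm F n) *ᵥ w) one := by
    intro w hw
    have := hw.conj hL
    rw [hLinv] at this
    exact this
  have hflE : ∀ k (hk : k < n), k ≠ n - 1 → fl ⬝ᵥ E F k hk = 0 := by
    intro k hk hk'
    exact dot_E_E _ _ _ _ (Ne.symm hk')
  have hstep : ∀ (k : ℕ) (hk : k + 1 < n), k + 1 ≠ n - 1 → ∀ κ κ' : F, Has H (κ • E F k (by omega)) fl →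
      Has H (κ' • e0) fl → Has H ((κ' * κ) • (E F k (by omega) - E F (k + 1) hk)) fl := by
    intro k hk hk' κ κ' h1' h2'
    have T1 := hconjL _ h1'
    rw [mulVec_smul, Lm_E k hk] at T1
    have h11 : one ⬝ᵥ (κ • (E F k (by omega) - E F (k + 1) hk)) = 0 := by
      rw [dotProduct_smul, dotProduct_sub, dot_one_E, dot_one_E]
      simp
    have h22 : fl ⬝ᵥ (κ' • e0) = 0 := by
      rw [dotProduct_smul, hflE 0 h0 (by omega), smul_zero]
    have h21 : fl ⬝ᵥ (κ • (E F k (by omega) - E F (k + 1) hk)) = 0 := by
      rw [dotProduct_smul, dotProduct_sub, hflE _ _ (by omega), hflE _ _ hk']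
      simp
    have h3 := T1.comm h2' h11 h22 h21
    have h4 : one ⬝ᵥ (κ' • e0) = κ' := by
      rw [dotProduct_smul, he0, dot_one_E, smul_eq_mul, mul_one]
    rw [h4, smul_smul] at h3
    exact h3
  have hmul : ∀ κ κ' : F, Has H (κ • e0) fl → Has H (κ' • e0) fl → Has H ((κ' * κ) • e0) fl := by
    intro κ κ' h1' h2'
    have h3 := hstep 0 (by omega) (by omega) κ κ' h1' h2'
    have h4 := hconjU _ h3
    rw [mulVec_smul, mulVec_sub, Um_E_zero h0] at h4
    have h5 : Um F n *ᵥ E F (0 + 1) (by omega) = E F (0 + 1) (by omega) + e0 := Um_E_succ 0 (by omega)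
    rw [h5] at h4
    have h6 : fl ⬝ᵥ ((κ' * κ) • (E F 0 h0 - (E F (0 + 1) (by omega) + e0))) = 0 := by
      rw [dotProduct_smul, dotProduct_sub, dotProduct_add, hflE _ _ (by omega), hflE _ _ (by omega)]
      simp
    have h7 := h3.add_left (h4.neg h6) (by
      rw [dotProduct_neg, h6, neg_zero])
    convert h7 using 1
    rw [he0]
    ext i
    simp only [Pi.add_apply, Pi.smul_apply, Pi.sub_apply, Pi.neg_apply, smul_eq_mul]
    ring
  have hpow : ∀ k : ℕ, Has H (a ^ (k + 1) • e0) fl := by
    intro k
    induction k with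
    | zero => simpa using hx
    | succ k ih =>
      have := hmul _ _ ih hx
      rw [mul_comm, ← pow_succ] at this
      exact this
  have hall0 : ∀ κ : F, Has H (κ • e0) fl := by
    intro κ
    by_cases hκ : κ = 0
    · rw [hκ, zero_smul]
      exact has_zero_left H fl
    · obtain ⟨k, rfl⟩ := ha κ hκ
      exact hpow k
  have hall : ∀ (k : ℕ) (hk : k + 1 < n), ∀ κ : F, Has H (κ • E F k (by omega)) fl := by
    intro k
    induction k with
    | zero =>
      intro hk κ
      exact hall0 κ
    | succ k ih =>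
      intro hk κ
      have h3 := hstep k (by omega) (by omega) κ 1 (ih (by omega) κ) (by simpa using hall0 1)
      rw [one_mul] at h3
      have h6 : fl ⬝ᵥ (κ • (E F k (by omega) - E F (k + 1) (by omega))) = 0 := by
        rw [dotProduct_smul, dotProduct_sub, hflE _ _ (by omega), hflE _ _ (by omega)]
        simp
      have h7 := (h3.neg h6).add_left (ih (by omega) κ) (by
        rw [dotProduct_smul, hflE _ _ (by omega), smul_zero])
      convert h7 using 1
      ext i
      simp only [Pi.add_apply, Pi.smul_apply, Pi.sub_apply, Pi.neg_apply, smul_eq_mul]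
      ring
  have hannfl : Ann H fl := by
    intro w hw
    have hwl : w ⟨n - 1, hl⟩ = 0 := by
      have := hw
      rw [hfl, E, single_one_dotProduct] at this
      exact this
    have h3 : ∀ s : Finset (Fin n), (⟨n - 1, hl⟩ : Fin n) ∉ s →
        Has H (∑ i ∈ s, w i • E F i.val i.isLt) fl := by
      intro s
      induction s using Finset.induction_on with
      | empty =>
        intro _
        simpa using has_zero_left H fl
      | insert b s hb ih =>
        intro hs
        rw [Finset.mem_insert, not_or] at hs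
        rw [Finset.sum_insert hb]
        have hb' : b.val ≠ n - 1 := fun h => hs.1 (Fin.ext h.symm)
        have hbb := b.isLt
        refine (hall b.val (by omega) (w b)).add_left (ih hs.2) ?_
        rw [dotProduct_sum]
        apply Finset.sum_eq_zero
        intro i hi
        have hi' : i.val ≠ n - 1 := fun h => hs.2 (by
          have : i = ⟨n - 1, hl⟩ := Fin.ext h
          rwa [this] at hi)
        rw [dotProduct_smul, hflE _ _ hi', smul_zero]
    have h4 : w = ∑ i ∈ Finset.univ.erase (⟨n - 1, hl⟩ : Fin n), w i • E F i.val i.isLt := by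
      ext j
      rw [Finset.sum_apply]
      by_cases hj : j = ⟨n - 1, hl⟩
      · rw [hj, hwl, Finset.sum_eq_zero]
        intro i hi
        have hi' := (Finset.mem_erase.1 hi).1
        simp only [Pi.smul_apply, E_apply, smul_eq_mul]
        rw [if_neg, mul_zero]
        intro h
        exact hi' (Fin.ext h.symm)
      · rw [Finset.sum_eq_single j]
        · simp [E_apply]
        · intro b _ hb
          simp only [Pi.smul_apply, E_apply, smul_eq_mul]
          rw [if_neg, mul_zero]
          intro h
          exact hb (Fin.ext h.symm)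
        · intro h
          exact absurd (Finset.mem_erase.2 ⟨hj, Finset.mem_univ _⟩) h
    rw [h4]
    exact h3 _ (by simp)
  have hann : ∀ (d m : ℕ) (hm : m < n), m + d = n - 1 → Ann H (E F m hm) := by
    intro d
    induction d with
    | zero =>
      intro m hm hd
      have : m = n - 1 := by omega
      subst this
      exact hannfl
    | succ d ih =>
      intro m hm hd
      have h3 := ih (m + 1) (by omega) (by omega)
      have h4 := h3.conj (inv_mem hL)
      rw [inv_inv] at h4
      have h5 : E F (m + 1) (by omega) ᵥ* (LL F n : M) = E F (m + 1) (by omega) - E F m hm :=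
        E_vecMul_Lm m (by omega)
      rw [h5] at h4
      have h6 := h3.add (h4.smul (-1))
      convert h6 using 1
      ext i
      simp only [Pi.add_apply, Pi.smul_apply, Pi.sub_apply, smul_eq_mul]
      ring
  exact eq_top_of_ann H (fun k hk => hann (n - 1 - k) k hk (by omega))

end Cfsg.Agent.Lib.Known.RU
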