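import Cfsg.Agent.Lib.Known.RU3

/-!
# `SL_n(q)` is generated by three conjugate regular unipotent elements
-/

set_option autoImplicit false
set_option linter.unusedVariables false
set_option linter.unusedSectionVars false

namespace Cfsg.Agent.Lib.Known.RU

open Matrix Matrix.SpecialLinearGroup

variable {F : Type*} [Field F] {n : ℕ}

local notation "SLn" => Matrix.SpecialLinearGroup (Fin n) F
local notation "M" => Matrix (Fin n) (Fin n) F

/-- A generator of the multiplicative group, written with positive powers. -/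
theorem exists_primitive (F : Type*) [Field F] [Fintype F] :
    ∃ a : F, ∀ x : F, x ≠ 0 → ∃ k : ℕ, x = a ^ (k + 1) := by
  obtain ⟨a₀, ha₀⟩ := IsCyclic.exists_generator (α := Fˣ)
  refine ⟨(a₀ : F), fun x hx => ?_⟩
  have h1 := ha₀ (Units.mk0 x hx)
  rw [← mem_powers_iff_mem_zpowers] at h1
  obtain ⟨k, hk⟩ := h1
  have h2 : 0 < orderOf a₀ := orderOf_pos a₀
  refine ⟨k + orderOf a₀ - 1, ?_⟩
  have h3 : k + orderOf a₀ - 1 + 1 = k + orderOf a₀ := by omega
  rw [h3]
  have h4 : a₀ ^ (k + orderOf a₀) = Units.mk0 x hx := by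
    rw [pow_add, pow_orderOf_eq_one, mul_one]
    exact hk
  have h5 := congrArg Units.val h4
  simpa using h5.symm

/-- The central transvection is a quotient of two conjugates. -/
theorem central_tv (hn : 3 ≤ n) (a : F) (h : E F (n - 2) (by omega) ⬝ᵥ (a • E F 0 (by omega)) = 0) :
    let g : SLn := tv (a • E F 0 (by omega)) (E F (n - 2) (by omega)) h
    (((UU F n)⁻¹ * (g * UU F n * g⁻¹) : SLn) : M) =
      1 + vecMulVec (a • E F 0 (by omega)) (E F (n - 1) (by omega)) := by
  intro g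
  set W := a • E F 0 (by omega : 0 < n) with hW
  set f := E F (n - 2) (by omega : n - 2 < n) with hf
  set fl := E F (n - 1) (by omega : n - 1 < n) with hfl
  have hUW : (UU F n : M) *ᵥ W = W := by
    rw [hW, mulVec_smul]
    congr 1
    exact Um_E_zero _
  have hUW' : (((UU F n)⁻¹ : SLn) : M) *ᵥ W = W := by
    calc (((UU F n)⁻¹ : SLn) : M) *ᵥ W = (((UU F n)⁻¹ : SLn) : M) *ᵥ ((UU F n : M) *ᵥ W) := by rw [hUW]
      _ = W := by rw [mulVec_mulVec, coe_inv_mul', one_mulVec]
  have hfU : f ᵥ* (UU F n : M) = f + fl := by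
    have := E_vecMul_Um (F := F) (n := n) (n - 2) (by omega)
    have h2 : E F (n - 2 + 1) (by omega) = fl := by
      rw [hfl]
      congr 1
      omega
    rw [h2] at this
    exact this
  have hgc : (g : M) = 1 + vecMulVec W f := rfl
  have hginv : ((g⁻¹ : SLn) : M) = 1 + vecMulVec (-W) f := coe_inv_tv g hgc h
  have hdot : (f + fl) ⬝ᵥ (-W) = 0 := by
    rw [dotProduct_neg, add_dotProduct, hW, dotProduct_smul, dotProduct_smul, hf, hfl,
      dot_E_E (n - 2) 0 (by omega) (by omega) (by omega), dot_E_E (n - 1) 0 (by omega) (by omega) (by omega)]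
    simp
  have e1 : (((UU F n)⁻¹ * (g * UU F n * g⁻¹) : SLn) : M) =
      (((UU F n)⁻¹ : SLn) : M) * (g : M) * (UU F n : M) * ((g⁻¹ : SLn) : M) := by
    simp only [Matrix.SpecialLinearGroup.coe_mul, mul_assoc]
  have e2 : (((UU F n)⁻¹ : SLn) : M) * (1 + vecMulVec W f) * (UU F n : M) = 1 + vecMulVec W (f + fl) := by
    rw [mul_add, add_mul, mul_one, coe_inv_mul', mul_vecMulVec, vecMulVec_mul, hUW', hfU]
  rw [e1, hgc, hginv, e2, tv_mul_tv', hdot, zero_smul, add_zero, vecMulVec_add, neg_vecMulVec]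
  abel

/-- **Three conjugate regular unipotent elements generate `SL_n(q)`.** -/
theorem three_conj [Fintype F] (hn : 3 ≤ n) :
    ∃ u g h : SLn, (IsNilpotent ((u : M) - 1) ∧ ((u : M) - 1) ^ (n - 1) ≠ 0) ∧
      Subgroup.closure ({u, g * u * g⁻¹, h * u * h⁻¹} : Set SLn) = ⊤ := by
  obtain ⟨a, ha⟩ := exists_primitive F
  have hdot : E F (n - 2) (by omega : n - 2 < n) ⬝ᵥ (a • E F 0 (by omega : 0 < n)) = 0 := by
    rw [dotProduct_smul, dot_E_E (n - 2) 0 (by omega) (by omega) (by omega), smul_zero]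
  refine ⟨UU F n, tv (a • E F 0 (by omega)) (E F (n - 2) (by omega)) hdot, HH F n,
    ⟨Um_nil, Um_reg (by omega)⟩, ?_⟩
  set g : SLn := tv (a • E F 0 (by omega)) (E F (n - 2) (by omega)) hdot with hg
  set H := Subgroup.closure ({UU F n, g * UU F n * g⁻¹, HH F n * UU F n * (HH F n)⁻¹} : Set SLn) with hH
  have h1 : UU F n ∈ H := Subgroup.subset_closure (by simp)
  have h2 : g * UU F n * g⁻¹ ∈ H := Subgroup.subset_closure (by simp)
  have h3 : HH F n * UU F n * (HH F n)⁻¹ ∈ H := Subgroup.subset_closure (by simp)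
  rw [HH_conj] at h3
  refine engine hn H h1 h3 a ha ⟨(UU F n)⁻¹ * (g * UU F n * g⁻¹), mul_mem (inv_mem h1) h2, ?_⟩
  exact central_tv hn a hdot

end Cfsg.Agent.Lib.Known.RU
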