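import Cfsg.Agent.Lib.Known.RU4

/-!
# `SL_3(q)`: explicit matrix tools and the prime field case
-/

set_option autoImplicit false
set_option linter.unusedVariables false
set_option linter.unusedSectionVars false

namespace Cfsg.Agent.Lib.Known.RU

open Matrix Matrix.SpecialLinearGroup

variable {F : Type*} [Field F]

local notation "SL3" => Matrix.SpecialLinearGroup (Fin 3) F
local notation "M3" => Matrix (Fin 3) (Fin 3) F

theorem E3_0 : E F 0 (by norm_num : 0 < 3) = ![1, 0, 0] := by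
  ext i; fin_cases i <;> simp [E]

theorem E3_1 : E F 1 (by norm_num : 1 < 3) = ![0, 1, 0] := by
  ext i; fin_cases i <;> simp [E]

theorem E3_2 : E F 2 (by norm_num : 2 < 3) = ![0, 0, 1] := by
  ext i; fin_cases i <;> simp [E]

theorem coe_UU3 : (UU F 3 : M3) = !![1, 1, 0; 0, 1, 1; 0, 0, 1] := by
  ext i j
  fin_cases i <;> fin_cases j <;> simp [UU, Um]

theorem coe_LL3 : (LL F 3 : M3) = !![1, 0, 0; -1, 1, 0; 0, -1, 1] := by
  ext i j
  fin_cases i <;> fin_cases j <;> simp [LL, Lm]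

theorem dot3 (a b c x y z : F) : ![a, b, c] ⬝ᵥ ![x, y, z] = a * x + b * y + c * z := by
  simp [dotProduct, Fin.sum_univ_three]

theorem mv3 (a b c d e f g h i x y z : F) :
    !![a, b, c; d, e, f; g, h, i] *ᵥ ![x, y, z] =
      ![a * x + b * y + c * z, d * x + e * y + f * z, g * x + h * y + i * z] := by
  ext k
  fin_cases k <;> simp [mulVec, dotProduct, Fin.sum_univ_three]

theorem vm3 (a b c d e f g h i x y z : F) :
    ![x, y, z] ᵥ* !![a, b, c; d, e, f; g, h, i] =
      ![x * a + y * d + z * g, x * b + y * e + z * h, x * c + y * f + z * i] := by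
  ext k
  fin_cases k <;> simp [vecMul, dotProduct, Fin.sum_univ_three]

theorem mm3 (a b c d e f g h i a' b' c' d' e' f' g' h' i' : F) :
    !![a, b, c; d, e, f; g, h, i] * !![a', b', c'; d', e', f'; g', h', i'] =
      !![a * a' + b * d' + c * g', a * b' + b * e' + c * h', a * c' + b * f' + c * i';
         d * a' + e * d' + f * g', d * b' + e * e' + f * h', d * c' + e * f' + f * i';
         g * a' + h * d' + i * g', g * b' + h * e' + i * h', g * c' + h * f' + i * i'] := by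
  ext k l
  fin_cases k <;> fin_cases l <;> simp [Matrix.mul_apply, Fin.sum_univ_three]

theorem det3 (a b c d e f g h i : F) :
    det !![a, b, c; d, e, f; g, h, i] =
      a * e * i - a * f * h - b * d * i + b * f * g + c * d * h - c * e * g := by
  rw [Matrix.det_fin_three]
  simp

theorem tv3 (a b c x y z : F) :
    (1 : M3) + vecMulVec ![a, b, c] ![x, y, z] =
      !![1 + a * x, a * y, a * z; b * x, 1 + b * y, b * z; c * x, c * y, 1 + c * z] := by
  ext k l
  fin_cases k <;> fin_cases l <;> simp [vecMulVec_apply]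

/-- Build an element of `SL_3` from an explicit matrix. -/
def mk3 (a b c d e f g h i : F)
    (hd : a * e * i - a * f * h - b * d * i + b * f * g + c * d * h - c * e * g = 1) : SL3 :=
  ⟨!![a, b, c; d, e, f; g, h, i], by rw [det3, hd]⟩

theorem coe_mk3 (a b c d e f g h i : F)
    (hd : a * e * i - a * f * h - b * d * i + b * f * g + c * d * h - c * e * g = 1) :
    (mk3 a b c d e f g h i hd : M3) = !![a, b, c; d, e, f; g, h, i] := rfl

/-- A right inverse is the inverse. -/
theorem inv_eq3 {g h : SL3} (he : (g : M3) * (h : M3) = 1) : g⁻¹ = h := by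
  have h1 : g * h = 1 := Subtype.ext (by rw [Matrix.SpecialLinearGroup.coe_mul, he]; rfl)
  exact inv_eq_of_mul_eq_one_right h1

/-- The additive subgroup of multiples along a line. -/
def lineSub (H : Subgroup SL3) (w φ : Fin 3 → F) (h0 : φ ⬝ᵥ w = 0) : AddSubgroup F where
  carrier := {κ | Has H (κ • w) φ}
  add_mem' := by
    intro a b ha hb
    have := Has.add_left ha hb (by rw [dotProduct_smul, h0, smul_zero])
    simpa [add_smul] using this
  zero_mem' := by
    show Has H ((0 : F) • w) φ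
    rw [zero_smul]
    exact has_zero_left H φ
  neg_mem' := by
    intro a ha
    have := Has.neg ha (by rw [dotProduct_smul, h0, smul_zero])
    show Has H ((-a) • w) φ
    rwa [neg_smul]

theorem mem_lineSub {H : Subgroup SL3} {w φ : Fin 3 → F} {h0 : φ ⬝ᵥ w = 0} {κ : F} :
    κ ∈ lineSub H w φ h0 ↔ Has H (κ • w) φ := Iff.rfl

/-- Inverse of the upper bidiagonal matrix. -/
theorem coe_inv_UU3 : (((UU F 3)⁻¹ : SL3) : M3) = !![1, -1, 1; 0, 1, -1; 0, 0, 1] := by
  have h : ((UU F 3 : SL3) : M3) * (mk3 (F := F) 1 (-1) 1 0 1 (-1) 0 0 1 (by ring) : M3) = 1 := by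
    rw [coe_UU3, coe_mk3, mm3]
    ext k l
    fin_cases k <;> fin_cases l <;> simp
  rw [inv_eq3 h, coe_mk3]

theorem coe_inv_LL3 : (((LL F 3)⁻¹ : SL3) : M3) = !![1, 0, 0; 1, 1, 0; 1, 1, 1] := by
  have h : ((LL F 3 : SL3) : M3) * (mk3 (F := F) 1 0 0 1 1 0 1 1 1 (by ring) : M3) = 1 := by
    rw [coe_LL3, coe_mk3, mm3]
    ext k l
    fin_cases k <;> fin_cases l <;> simp
  rw [inv_eq3 h, coe_mk3]

/-- The key word in `U`, `L`: a transvection with parameter `2`. -/
theorem word_two (H : Subgroup SL3) (hU : UU F 3 ∈ H) (hL : LL F 3 ∈ H) :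
    Has H ![0, 2, 0] ![0, 0, 1] := by
  set u := UU F 3
  set v := LL F 3
  refine ⟨u * v * u * v⁻¹ * u⁻¹ * v * u * v * u⁻¹ * v⁻¹, ?_, ?_⟩
  · have := inv_mem hU
    have := inv_mem hL
    repeat' apply mul_mem
    all_goals assumption
  · simp only [Matrix.SpecialLinearGroup.coe_mul]
    rw [show ((u : SL3) : M3) = _ from coe_UU3, show ((v : SL3) : M3) = _ from coe_LL3,
      show (((u⁻¹ : SL3)) : M3) = _ from coe_inv_UU3, show (((v⁻¹ : SL3)) : M3) = _ from coe_inv_LL3]
    simp only [mm3, tv3]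
    ext k l
    fin_cases k <;> fin_cases l <;> simp <;> ring


section helpers

variable {H : Subgroup (Matrix.SpecialLinearGroup (Fin 3) F)}

theorem has_uu (h2 : (2 : F) = 0) (hU : UU F 3 ∈ H) : Has H ![1, 0, 0] ![0, 0, 1] := by
  refine ⟨UU F 3 * UU F 3, mul_mem hU hU, ?_⟩
  rw [Matrix.SpecialLinearGroup.coe_mul, coe_UU3, mm3, tv3]
  ext k l
  fin_cases k <;> fin_cases l <;> simp <;> grind

/-- From all the transvections `x₁₃(κ)` to the whole group. -/
theorem top_of_line (hU : UU F 3 ∈ H) (hL : LL F 3 ∈ H) [Fintype F]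
    (h : ∀ κ : F, Has H (κ • (![1, 0, 0] : Fin 3 → F)) ![0, 0, 1]) : H = ⊤ := by
  obtain ⟨a, ha⟩ := exists_primitive F
  refine engine (n := 3) le_rfl H hU hL a ha ?_
  have h1 : E F 0 (by omega : 0 < 3) = ![1, 0, 0] := E3_0
  have h2 : E F (3 - 1) (by omega : 3 - 1 < 3) = ![0, 0, 1] := E3_2
  rw [h1, h2]
  exact h a

/-- In the prime field every element is a natural number. -/
theorem exists_nat_of_prime [Fintype F] (hp : (Fintype.card F).Prime) (x : F) :
    ∃ m : ℕ, x = (m : F) := by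
  obtain ⟨c, hc⟩ := CharP.exists F
  obtain ⟨n, hcp, hn⟩ := FiniteField.card F c
  have hcn : c = Fintype.card F := by
    have h1 : c ∣ Fintype.card F := by
      rw [hn]
      exact dvd_pow_self c n.ne_zero
    exact (Nat.prime_dvd_prime_iff_eq hcp hp).1 h1
  haveI : Fact c.Prime := ⟨hcp⟩
  let f : ZMod c →+* F := ZMod.castHom (dvd_refl c) F
  have hf : Function.Injective f := f.injective
  have hb : Function.Bijective f := by
    rw [Fintype.bijective_iff_injective_and_card]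
    refine ⟨hf, ?_⟩
    rw [ZMod.card, hcn]
  obtain ⟨a, ha⟩ := hb.2 x
  refine ⟨a.val, ?_⟩
  rw [← ha]
  simp [f]

/-- **Prime fields.** -/
theorem prime_case [Fintype F] (hp : (Fintype.card F).Prime) (hU : UU F 3 ∈ H) (hL : LL F 3 ∈ H) :
    H = ⊤ := by
  apply top_of_line hU hL
  have hd : ![(0 : F), 0, 1] ⬝ᵥ ![(1 : F), 0, 0] = 0 := by rw [dot3]; ring
  -- a nonzero parameter
  have key : ∃ c : F, c ≠ 0 ∧ c ∈ lineSub H ![1, 0, 0] ![0, 0, 1] hd := by
    by_cases h2 : (2 : F) = 0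
    · refine ⟨1, one_ne_zero, ?_⟩
      rw [mem_lineSub, one_smul]
      exact has_uu h2 hU
    · refine ⟨2, h2, ?_⟩
      rw [mem_lineSub]
      have h0 := word_two H hU hL
      have h1 := h0.conj hU
      rw [coe_UU3, coe_inv_UU3, mv3, vm3] at h1
      have e1 : ![(1 : F) * 0 + 1 * 2 + 0 * 0, 0 * 0 + 1 * 2 + 1 * 0, 0 * 0 + 0 * 2 + 1 * 0] = ![2, 2, 0] := by
        simp
      have e2 : ![(0 : F) * 1 + 0 * 0 + 1 * 0, 0 * -1 + 0 * 1 + 1 * 0, 0 * 1 + 0 * -1 + 1 * 1] = ![0, 0, 1] := by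
        simp
      rw [e1, e2] at h1
      have hdd : ![(0 : F), 0, 1] ⬝ᵥ ![(0 : F), 2, 0] = 0 := by rw [dot3]; ring
      have h3 := h1.add_left (h0.neg hdd) (by rw [dotProduct_neg, hdd, neg_zero])
      convert h3 using 1
      ext k
      fin_cases k <;> simp
  obtain ⟨c, hc, hcm⟩ := key
  intro κ
  obtain ⟨m, hm⟩ := exists_nat_of_prime hp (κ / c)
  have h1 : (m • c) ∈ lineSub H ![1, 0, 0] ![0, 0, 1] hd := AddSubgroup.nsmul_mem _ hcm m
  have h2 : m • c = κ := by
    rw [nsmul_eq_mul, ← hm]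
    field_simp
  rwa [h2] at h1

theorem ann_fl (h0 : ∀ x : F, Has H ![x, 0, 0] ![0, 0, 1]) (h1 : ∀ y : F, Has H ![0, y, 0] ![0, 0, 1]) :
    Ann H ![0, 0, 1] := by
  intro w hw
  have e : w = ![w 0, 0, 0] + ![0, w 1, 0] := by
    have h2 : w 2 = 0 := by
      have : ![(0 : F), 0, 1] ⬝ᵥ w = w 2 := by
        simp [dotProduct, Fin.sum_univ_three]
      rw [← this, hw]
    ext k
    fin_cases k <;> simp [h2]
  rw [e]
  exact (h0 _).add_left (h1 _) (by rw [dot3]; ring)

/-- Ann vectors: combination. -/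
theorem Ann.lin {φ₁ φ₂ φ : Fin 3 → F} (h₁ : Ann H φ₁) (h₂ : Ann H φ₂) (a b : F)
    (h : φ = a • φ₁ + b • φ₂) : Ann H φ := by
  rw [h]
  exact (h₁.smul a).add (h₂.smul b)

/-- All axes from `E₀`, `E₁`, `E₂`. -/
theorem top_of_three (h0 : Ann H ![1, 0, 0]) (h1 : Ann H ![0, 1, 0]) (h2 : Ann H ![0, 0, 1]) : H = ⊤ := by
  apply eq_top_of_ann
  intro k hk
  have hk' : k = 0 ∨ k = 1 ∨ k = 2 := by omega
  rcases hk' with rfl | rfl | rfl
  · rw [E3_0]; exact h0
  · rw [E3_1]; exact h1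
  · rw [E3_2]; exact h2

/-- The last step: `Ann E₂` together with an element with nonzero `(2,0)` entry. -/
theorem finish3 (hU : UU F 3 ∈ H) {a : SL3} (ha : a ∈ H) (h : (a : M3) 2 0 ≠ 0)
    (hA : Ann H ![0, 0, 1]) : H = ⊤ := by
  set x := (a : M3) 2 0 with hx
  set y := (a : M3) 2 1 with hy
  set z := (a : M3) 2 2 with hz
  have e1 : (![0, 0, 1] : Fin 3 → F) ᵥ* (a : M3) = ![x, y, z] := by
    ext k
    fin_cases k <;> simp [vecMul, dotProduct, Fin.sum_univ_three, hx, hy, hz]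
  have h1 : Ann H ![x, y, z] := by
    have := hA.conj (inv_mem ha)
    rwa [inv_inv, e1] at this
  have h2 : Ann H ![x, y, 0] := h1.lin hA 1 (-z) (by ext k; fin_cases k <;> simp)
  have h3 : Ann H ![x, x + y, y] := by
    have := h2.conj (inv_mem hU)
    rw [inv_inv, coe_UU3, vm3] at this
    convert this using 1
    ext k
    fin_cases k <;> simp
  have h4 : Ann H ![x, x + y, 0] := h3.lin hA 1 (-y) (by ext k; fin_cases k <;> simp)
  have h5 : Ann H ![0, 1, 0] := h4.lin h2 x⁻¹ (-x⁻¹) (by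
    ext k; fin_cases k <;> simp <;> field_simp <;> ring)
  have h6 : Ann H ![1, 0, 0] := h2.lin h5 x⁻¹ (-x⁻¹ * y) (by
    ext k; fin_cases k <;> simp <;> field_simp <;> ring)
  exact top_of_three h6 h5 hA

end helpers

end Cfsg.Agent.Lib.Known.RU
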