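import Cfsg.Agent.Lib.Known.RU5

/-!
# `SL_3(q)`: generation lemmas for subfields, even characteristic
-/

set_option autoImplicit false
set_option linter.unusedVariables false
set_option linter.unusedSectionVars false

namespace Cfsg.Agent.Lib.Known.RU

open Matrix Matrix.SpecialLinearGroup

variable {F : Type*} [Field F]

local notation "SL3" => Matrix.SpecialLinearGroup (Fin 3) F
local notation "M3" => Matrix (Fin 3) (Fin 3) F

/-- An additive subgroup stable under a field generator. -/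
theorem addSub_top [Fintype F] {r : F} (hr : Subfield.closure {r} = ⊤) (B : AddSubgroup F)
    (h1 : (1 : F) ∈ B) (hB : ∀ b ∈ B, r * b ∈ B) (x : F) : x ∈ B := by
  let A₀ : Subring F :=
    { carrier := {y | ∀ b ∈ B, y * b ∈ B}
      mul_mem' := by
        intro a b ha hb c hc
        rw [mul_assoc]
        exact ha _ (hb _ hc)
      one_mem' := by
        intro b hb
        rwa [one_mul]
      add_mem' := by
        intro a b ha hb c hc
        rw [add_mul]
        exact B.add_mem (ha _ hc) (hb _ hc)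
      zero_mem' := by
        intro b hb
        rw [zero_mul]
        exact B.zero_mem
      neg_mem' := by
        intro a ha c hc
        rw [neg_mul]
        exact B.neg_mem (ha _ hc) }
  let A : Subfield F :=
    { A₀ with
      inv_mem' := by
        intro a ha
        by_cases h0 : a = 0
        · subst h0
          rw [_root_.inv_zero]
          exact A₀.zero_mem
        have h2 : a⁻¹ = a ^ (Fintype.card F - 2) := by
          have h3 := FiniteField.pow_card_sub_one_eq_one a h0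
          have h4 : 2 ≤ Fintype.card F := Fintype.one_lt_card
          have h5 : Fintype.card F - 1 = (Fintype.card F - 2) + 1 := by omega
          rw [h5, pow_succ] at h3
          exact (eq_inv_of_mul_eq_one_left h3).symm
        rw [h2]
        exact A₀.pow_mem ha _ }
  have h3 : Subfield.closure {r} ≤ A := by
    rw [Subfield.closure_le]
    intro y hy
    rw [Set.mem_singleton_iff] at hy
    subst hy
    exact hB
  have h4 : x ∈ A := h3 (by rw [hr]; trivial)
  have h5 := h4 1 h1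
  rwa [mul_one] at h5

/-- The order of a generator. -/
theorem card_sub_one_dvd [Fintype F] {a : F} (ha : ∀ x : F, x ≠ 0 → ∃ k : ℕ, x = a ^ (k + 1)) {m : ℕ}
    (hm : a ^ m = 1) : Fintype.card F - 1 ∣ m := by
  classical
  have ha0 : a ≠ 0 := by
    rintro rfl
    obtain ⟨k, hk⟩ := ha 1 one_ne_zero
    rw [zero_pow (Nat.succ_ne_zero k)] at hk
    exact one_ne_zero hk
  let a₀ : Fˣ := Units.mk0 a ha0
  have h1 : ∀ x : Fˣ, x ∈ Subgroup.zpowers a₀ := by
    intro x
    obtain ⟨k, hk⟩ := ha x x.ne_zero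
    refine ⟨((k + 1 : ℕ) : ℤ), ?_⟩
    apply Units.ext
    show ((a₀ ^ ((k + 1 : ℕ) : ℤ) : Fˣ) : F) = x
    rw [zpow_natCast]
    simp [a₀, hk]
  have h2 : orderOf a₀ = Fintype.card F - 1 := by
    rw [orderOf_eq_card_of_forall_mem_zpowers h1, Nat.card_eq_fintype_card, Fintype.card_units]
  rw [← h2]
  apply orderOf_dvd_of_pow_eq_one
  apply Units.ext
  simp [a₀, hm]

/-- `a³` generates the field. -/
theorem closure_pow3_top [Fintype F] (hq : 5 ≤ Fintype.card F) {a : F}
    (ha : ∀ x : F, x ≠ 0 → ∃ k : ℕ, x = a ^ (k + 1)) : Subfield.closure {a ^ 3} = ⊤ := by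
  classical
  by_contra hne
  set K := Subfield.closure {a ^ 3} with hK
  have ha0 : a ≠ 0 := by
    rintro rfl
    obtain ⟨k, hk⟩ := ha 1 one_ne_zero
    rw [zero_pow (Nat.succ_ne_zero k)] at hk
    exact one_ne_zero hk
  haveI : Fintype K := Fintype.ofFinite K
  set t := Fintype.card K with ht
  have ht2 : 2 ≤ t := Fintype.one_lt_card
  have hcard : Fintype.card F = t ^ Module.finrank K F := Module.card_eq_pow_finrank
  set d := Module.finrank K F with hd
  have hd0 : d ≠ 0 := by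
    intro h0
    rw [h0, pow_zero] at hcard
    omega
  have hd1 : d ≠ 1 := by
    intro h1
    rw [h1, pow_one] at hcard
    apply hne
    have hb : Function.Bijective (Subtype.val : K → F) := by
      rw [Fintype.bijective_iff_injective_and_card]
      exact ⟨Subtype.val_injective, hcard.symm⟩
    rw [eq_top_iff]
    intro x _
    obtain ⟨y, hy⟩ := hb.2 x
    rw [← hy]
    exact y.2
  have hd2 : 2 ≤ d := by omega
  have hle : t ^ 2 ≤ Fintype.card F := by
    rw [hcard]
    exact Nat.pow_le_pow_right (by omega) hd2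
  have hr : (⟨a ^ 3, Subfield.subset_closure (Set.mem_singleton _)⟩ : K) ≠ 0 := by
    intro h
    have := congrArg Subtype.val h
    exact pow_ne_zero 3 ha0 this
  have h1 := FiniteField.pow_card_sub_one_eq_one _ hr
  have h2 : (a ^ 3) ^ (t - 1) = 1 := by
    have := congrArg Subtype.val h1
    simpa using this
  rw [← pow_mul] at h2
  have h3 := card_sub_one_dvd ha h2
  have h4 := Nat.le_of_dvd (Nat.mul_pos (by norm_num) (by omega)) h3
  obtain ⟨s, hs⟩ : ∃ s, t = s + 2 := ⟨t - 2, by omega⟩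
  rw [hs] at hle h4
  have h5 : 3 * (s + 2 - 1) = 3 * s + 3 := by omega
  rw [h5] at h4
  have h6 : Fintype.card F ≤ 3 * s + 4 := by omega
  have h7 : s = 0 := by
    by_contra h0
    have : 1 ≤ s := Nat.one_le_iff_ne_zero.2 h0
    nlinarith
  subst h7
  omega


variable {H : Subgroup (Matrix.SpecialLinearGroup (Fin 3) F)}

/-- Conjugation in terms of matrices. -/
theorem conj_eq3 {g u v : SL3} (h : (g : M3) * (u : M3) = (v : M3) * (g : M3)) : g * u * g⁻¹ = v := by
  rw [mul_inv_eq_iff_eq_mul]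
  apply Subtype.ext
  rw [Matrix.SpecialLinearGroup.coe_mul, Matrix.SpecialLinearGroup.coe_mul, h]

theorem Has.cg {w w' φ φ' : Fin 3 → F} (h : Has H w φ) (hw : w = w') (hφ : φ = φ') : Has H w' φ' := by
  rw [← hw, ← hφ]
  exact h

theorem Has.fl_sub {x y x' y' : F} (h : Has H ![x, y, 0] ![0, 0, 1]) (h' : Has H ![x', y', 0] ![0, 0, 1]) :
    Has H ![x - x', y - y', 0] ![0, 0, 1] := by
  have hd : ![(0 : F), 0, 1] ⬝ᵥ ![x', y', 0] = 0 := by rw [dot3]; ring
  have h1 := h.add_left (h'.neg hd) (by rw [dotProduct_neg, hd, neg_zero])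
  refine h1.cg ?_ rfl
  ext k
  fin_cases k <;> simp [sub_eq_add_neg]

theorem Has.fl_add {x y x' y' : F} (h : Has H ![x, y, 0] ![0, 0, 1]) (h' : Has H ![x', y', 0] ![0, 0, 1]) :
    Has H ![x + x', y + y', 0] ![0, 0, 1] := by
  have hd : ![(0 : F), 0, 1] ⬝ᵥ ![x', y', 0] = 0 := by rw [dot3]; ring
  have h1 := h.add_left h' hd
  refine h1.cg ?_ rfl
  ext k
  fin_cases k <;> simp

theorem Has.fl_U {x y : F} (h : Has H ![x, y, 0] ![0, 0, 1]) (hU : UU F 3 ∈ H) :
    Has H ![x + y, y, 0] ![0, 0, 1] := by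
  have h1 := h.conj hU
  rw [coe_UU3, coe_inv_UU3, mv3, vm3] at h1
  refine h1.cg ?_ ?_
  · ext k
    fin_cases k <;> simp
  · ext k
    fin_cases k <;> simp

/-- **Even characteristic, `q ≥ 8`.** -/
theorem pathB [Fintype F] (h2 : (2 : F) = 0) {ρ : F} (hρ : ρ ≠ 0) (hU : UU F 3 ∈ H) {L : SL3}
    (hL : (L : M3) = !![1, 0, 0; ρ, 1, 0; 0, ρ, 1]) (hLH : L ∈ H)
    (hgen : Subfield.closure {ρ ^ 3} = ⊤) : H = ⊤ := by
  have hLi : ((L⁻¹ : SL3) : M3) = !![1, 0, 0; ρ, 1, 0; ρ ^ 2, ρ, 1] := by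
    have h : (L : M3) * (mk3 (F := F) 1 0 0 ρ 1 0 (ρ ^ 2) ρ 1 (by ring) : M3) = 1 := by
      rw [hL, coe_mk3, mm3]
      ext k l
      fin_cases k <;> fin_cases l <;> simp <;> grind
    rw [inv_eq3 h, coe_mk3]
  have h1 := has_uu h2 hU
  -- the commutator step
  have hX : ∀ κ : F, Has H ![κ, 0, 0] ![0, 0, 1] → Has H ![ρ ^ 2 * κ, ρ ^ 3 * κ, 0] ![0, 0, 1] := by
    intro κ hκ
    have h3 := hκ.conj hLH
    rw [hLi, hL, mv3, vm3] at h3
    have e1 : ![(1 : F) * κ + 0 * 0 + 0 * 0, ρ * κ + 1 * 0 + 0 * 0, 0 * κ + ρ * 0 + 1 * 0] = ![κ, ρ * κ, 0] := by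
      simp
    have e2 : ![(0 : F) * 1 + 0 * ρ + 1 * ρ ^ 2, 0 * 0 + 0 * 1 + 1 * ρ, 0 * 0 + 0 * 0 + 1 * 1] = ![ρ ^ 2, ρ, 1] := by
      simp
    rw [e1, e2] at h3
    have h4 := h3.comm h1 (by rw [dot3]; grind) (by rw [dot3]; ring) (by rw [dot3]; ring)
    rw [dot3] at h4
    convert h4 using 1
    ext k
    fin_cases k <;> simp <;> ring
  have hd : ![(0 : F), 0, 1] ⬝ᵥ ![(1 : F), 0, 0] = 0 := by rw [dot3]; ring
  have hB : ∀ x : F, x ∈ lineSub H ![1, 0, 0] ![0, 0, 1] hd := by
    apply addSub_top hgen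
    · rw [mem_lineSub, one_smul]
      exact h1
    · intro b hb
      rw [mem_lineSub] at hb ⊢
      have e : b • (![1, 0, 0] : Fin 3 → F) = ![b, 0, 0] := by
        ext k; fin_cases k <;> simp
      rw [e] at hb
      have h3 := hX b hb
      have h5 := (h3.fl_U hU).fl_sub h3
      refine h5.cg ?_ rfl
      ext k
      fin_cases k <;> simp <;> ring
  have hall : ∀ x : F, Has H ![x, 0, 0] ![0, 0, 1] := by
    intro x
    have := hB x
    rw [mem_lineSub] at this
    convert this using 1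
    ext k
    fin_cases k <;> simp
  have hall1 : ∀ y : F, Has H ![0, y, 0] ![0, 0, 1] := by
    intro y
    have h3 := hX (y / ρ ^ 3) (hall _)
    have h4 := h3.fl_sub (hall (ρ ^ 2 * (y / ρ ^ 3)))
    refine h4.cg ?_ rfl
    ext k
    fin_cases k <;> simp <;> field_simp
  have hA := ann_fl hall hall1
  refine finish3 hU (mul_mem hLH hLH) ?_ hA
  rw [Matrix.SpecialLinearGroup.coe_mul, hL, mm3]
  simp
  exact hρ

/-- The transvection `g` taking `U` to `L_ρ`. -/
theorem exists_conj_pathB (h2 : (2 : F) = 0) {ρ : F} (hρ : ρ ≠ 0) :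
    ∃ (g L : SL3), (L : M3) = !![1, 0, 0; ρ, 1, 0; 0, ρ, 1] ∧ g * UU F 3 * g⁻¹ = L := by
  refine ⟨mk3 0 0 ρ⁻¹ 0 1 0 ρ 0 0 (by field_simp; grind),
    mk3 1 0 0 ρ 1 0 0 ρ 1 (by ring), rfl, ?_⟩
  apply conj_eq3
  rw [coe_mk3, coe_mk3, coe_UU3, mm3, mm3]
  ext k l
  fin_cases k <;> fin_cases l <;> simp <;> field_simp


/-- The four-element field. -/
theorem exists_F4 [Fintype F] (h : Fintype.card F = 4) :
    ∃ ω : F, ω ^ 2 = ω + 1 ∧ (2 : F) = 0 ∧ ∀ x : F, x = 0 ∨ x = 1 ∨ x = ω ∨ x = ω + 1 := by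
  classical
  have h4 : ((Fintype.card F : ℕ) : F) = 0 := FiniteField.cast_card_eq_zero F
  have h2 : (2 : F) = 0 := by
    rw [h] at h4
    have h5 : (2 : F) * 2 = 0 := by
      have : ((4 : ℕ) : F) = 2 * 2 := by norm_num
      rw [← this, h4]
    simpa using h5
  obtain ⟨ω, hω0, hω1⟩ : ∃ ω : F, ω ≠ 0 ∧ ω ≠ 1 := by
    by_contra hc
    push Not at hc
    have hs : (Finset.univ : Finset F) ⊆ {0, 1} := by
      intro x _
      by_cases hx : x = 0
      · simp [hx]
      · simp [hc x hx]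
    have h5 := Finset.card_le_card hs
    rw [Finset.card_univ, h] at h5
    have h6 := Finset.card_le_two (a := (0 : F)) (b := 1)
    omega
  have hp : ∀ x : F, x ^ 4 = x := by
    intro x
    have := FiniteField.pow_card x
    rwa [h] at this
  have hω : ω ^ 2 = ω + 1 := by
    have h5 : ω * (ω - 1) * (ω ^ 2 + ω + 1) = 0 := by
      linear_combination hp ω
    have h6 : ω ^ 2 + ω + 1 = 0 := by
      have h7 : ω * (ω - 1) ≠ 0 := mul_ne_zero hω0 (sub_ne_zero.2 hω1)
      exact (mul_eq_zero.1 h5).resolve_left h7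
    linear_combination h6 - (ω + 1) * h2
  refine ⟨ω, hω, h2, fun x => ?_⟩
  have h5 : x * (x - 1) * (x - ω) * (x - (ω + 1)) = 0 := by
    linear_combination (hp x) + x * (x - 1) * hω + x * (x - 1) * (ω - (ω + 1) * x) * h2
  simp only [mul_eq_zero, sub_eq_zero] at h5
  tauto

/-- **The field with four elements.** -/
theorem four_case (h2 : (2 : F) = 0) {ω : F} (hω : ω ^ 2 = ω + 1)
    (hall : ∀ x : F, x = 0 ∨ x = 1 ∨ x = ω ∨ x = ω + 1) (hU : UU F 3 ∈ H) {v : SL3}
    (hv : (v : M3) = !![1, 0, 0; 1, 1, 0; ω, 1, 1]) (hvH : v ∈ H) : H = ⊤ := by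
  have hvi : ((v⁻¹ : SL3) : M3) = !![1, 0, 0; 1, 1, 0; ω + 1, 1, 1] := by
    have h : (v : M3) * (mk3 (F := F) 1 0 0 1 1 0 (ω + 1) 1 1 (by ring) : M3) = 1 := by
      rw [hv, coe_mk3, mm3]
      ext k l
      fin_cases k <;> fin_cases l <;> simp <;> grind
    rw [inv_eq3 h, coe_mk3]
  have h1 : Has H ![0, 0, 1] ![1, 0, 0] := by
    refine ⟨v * v, mul_mem hvH hvH, ?_⟩
    rw [Matrix.SpecialLinearGroup.coe_mul, hv, mm3, tv3]
    ext k l
    fin_cases k <;> fin_cases l <;> simp <;> grind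
  have hw : Has H ![0, 0, ω] ![1, 0, 0] := by
    set u := UU F 3
    refine ⟨u * u * v * v * u * v * v * u * u * v⁻¹, ?_, ?_⟩
    · have := inv_mem hvH
      repeat' apply mul_mem
      all_goals assumption
    · simp only [Matrix.SpecialLinearGroup.coe_mul]
      rw [show ((u : SL3) : M3) = _ from coe_UU3, hv, hvi]
      simp only [mm3, tv3]
      ext k l
      fin_cases k <;> fin_cases l <;> simp <;> grind
  have hd : ![(1 : F), 0, 0] ⬝ᵥ ![(0 : F), 0, 1] = 0 := by rw [dot3]; ring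
  have hB1 : (1 : F) ∈ lineSub H ![0, 0, 1] ![1, 0, 0] hd := by
    rw [mem_lineSub, one_smul]
    exact h1
  have hB2 : ω ∈ lineSub H ![0, 0, 1] ![1, 0, 0] hd := by
    rw [mem_lineSub]
    refine hw.cg ?_ rfl
    ext k
    fin_cases k <;> simp
  have hB : ∀ x : F, x ∈ lineSub H ![0, 0, 1] ![1, 0, 0] hd := by
    intro x
    rcases hall x with rfl | rfl | rfl | rfl
    · exact AddSubgroup.zero_mem _
    · exact hB1
    · exact hB2
    · exact AddSubgroup.add_mem _ hB2 hB1
  have h3 : ∀ κ : F, Has H ![0, 0, κ] ![1, 0, 0] := by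
    intro κ
    have := hB κ
    rw [mem_lineSub] at this
    refine this.cg ?_ rfl
    ext k
    fin_cases k <;> simp
  have h4 : ∀ κ : F, Has H ![0, κ, κ] ![1, 0, 0] := by
    intro κ
    have h5 := (h3 κ).conj hU
    rw [coe_UU3, coe_inv_UU3, mv3, vm3] at h5
    have h6 : Has H ![0, κ, κ] ![1, -1, 1] := by
      refine h5.cg ?_ ?_
      · ext k
        fin_cases k <;> simp
      · ext k
        fin_cases k <;> simp
    have h7 := h6.comm h1 (by rw [dot3]; ring) (by rw [dot3]; ring) (by rw [dot3]; ring)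
    refine h7.cg ?_ rfl
    rw [dot3]
    ext k
    fin_cases k <;> simp
  have h5 : ∀ κ : F, Has H ![0, κ, 0] ![1, 0, 0] := by
    intro κ
    have hdd : ![(1 : F), 0, 0] ⬝ᵥ ![(0 : F), 0, κ] = 0 := by rw [dot3]; ring
    have h6 := (h4 κ).add_left ((h3 κ).neg hdd) (by rw [dotProduct_neg, hdd, neg_zero])
    refine h6.cg ?_ rfl
    ext k
    fin_cases k <;> simp
  have ann0 : Ann H ![1, 0, 0] := by
    intro w hw
    have e : w = ![0, w 1, 0] + ![0, 0, w 2] := by
      have h6 : w 0 = 0 := by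
        have : ![(1 : F), 0, 0] ⬝ᵥ w = w 0 := by
          simp [dotProduct, Fin.sum_univ_three]
        rw [← this, hw]
      ext k
      fin_cases k <;> simp [h6]
    rw [e]
    exact (h5 _).add_left (h3 _) (by rw [dot3]; ring)
  have ann1 : Ann H ![1, -1, 1] := by
    have := ann0.conj hU
    rw [coe_inv_UU3, vm3] at this
    convert this using 1
    ext k
    fin_cases k <;> simp
  have ann2 : Ann H ![1, 0, 1] := by
    have := ann1.conj hU
    rw [coe_inv_UU3, vm3] at this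
    convert this using 1
    ext k
    fin_cases k <;> simp <;> grind
  have ann3 : Ann H ![0, 0, 1] := ann2.lin ann0 1 (-1) (by
    ext k; fin_cases k <;> simp)
  have ann4 : Ann H ![0, 1, 0] := ann2.lin ann1 1 (-1) (by
    ext k; fin_cases k <;> simp)
  exact top_of_three ann0 ann4 ann3

/-- The conjugating element for `q = 4`. -/
theorem exists_conj_four (h2 : (2 : F) = 0) {ω : F} (hω : ω ^ 2 = ω + 1) :
    ∃ (g v : SL3), (v : M3) = !![1, 0, 0; 1, 1, 0; ω, 1, 1] ∧ g * UU F 3 * g⁻¹ = v := by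
  refine ⟨mk3 0 0 1 0 1 0 1 ω 0 (by grind), mk3 1 0 0 1 1 0 ω 1 1 (by ring), rfl, ?_⟩
  apply conj_eq3
  rw [coe_mk3, coe_mk3, coe_UU3, mm3, mm3]
  ext k l
  fin_cases k <;> fin_cases l <;> simp <;> grind

end Cfsg.Agent.Lib.Known.RU
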