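import Cfsg.Agent.Lib.Known.RU6

/-!
# `SL_3(q)`: odd characteristic, non-prime field
-/

set_option autoImplicit false
set_option linter.unusedVariables false
set_option linter.unusedSectionVars false

namespace Cfsg.Agent.Lib.Known.RU

open Matrix Matrix.SpecialLinearGroup

variable {F : Type*} [Field F]

local notation "SL3" => Matrix.SpecialLinearGroup (Fin 3) F
local notation "M3" => Matrix (Fin 3) (Fin 3) F

/-- Arithmetic: the non-conjugacy condition. -/
theorem nc_arith {p f k : ℕ} (hp : p.Prime) (hp2 : p ≠ 2) (hf : 2 ≤ f) (hk : k < f) :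
    ¬ (p ^ f - 1 ∣ 3 * (p ^ k + 1)) := by
  intro hd
  have hX : 1 ≤ p ^ k := Nat.one_le_pow _ _ hp.pos
  have hpf : p ^ (k + 1) ≤ p ^ f := Nat.pow_le_pow_right hp.pos hk
  have hp3 : 3 ≤ p := by
    have := hp.two_le
    omega
  have hpp : p * p ≤ p ^ f := by
    calc p * p = p ^ 2 := by ring
      _ ≤ p ^ f := Nat.pow_le_pow_right hp.pos hf
  have h9 : 9 ≤ p ^ f := by nlinarith
  rw [pow_succ] at hpf
  by_cases h3 : p = 3
  · subst h3
    have hc : Nat.Coprime (3 ^ f - 1) 3 := by
      rw [Nat.coprime_comm, Nat.Prime.coprime_iff_not_dvd Nat.prime_three]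
      intro h5
      have h6 : 3 ∣ 3 ^ f := dvd_pow_self 3 (by omega)
      have h7 := (Nat.dvd_sub_iff_right (by omega : 1 ≤ 3 ^ f) h6).1 h5
      omega
    have h5 := hc.dvd_of_dvd_mul_left hd
    have h6 := Nat.le_of_dvd (by omega) h5
    omega
  · have hp5 : 5 ≤ p := by
      by_contra hlt
      have h4 : p = 4 := by omega
      subst h4
      norm_num at hp
    have h6 := Nat.le_of_dvd (by omega) hd
    by_cases hk0 : k = 0
    · subst hk0
      have : 25 ≤ p ^ f := by nlinarith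
      simp at h6
      omega
    · have hX5 : p ≤ p ^ k := by
        calc p = p ^ 1 := (pow_one p).symm
          _ ≤ p ^ k := Nat.pow_le_pow_right hp.pos (by omega)
      have h7 : 5 * p ^ k ≤ p ^ k * p := by nlinarith
      omega

open Polynomial in
/-- The two-variable generation lemma. -/
theorem S_top [Fintype F] (p : ℕ) [Fact p.Prime] [CharP F p] (f : ℕ) (hq : Fintype.card F = p ^ f)
    {r : F} (hr0 : r ≠ 0) (hr : Subfield.closure {r} = ⊤) (hNC : ∀ k < f, r⁻¹ ≠ r ^ (p ^ k))
    (S : AddSubgroup (F × F)) (h1 : ((1 : F), (1 : F)) ∈ S)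
    (hS : ∀ x y : F, (x, y) ∈ S → (r * x, r⁻¹ * y) ∈ S) (x y : F) : (x, y) ∈ S := by
  letI alg : Algebra (ZMod p) F := ZMod.algebra F p
  have hpoly : ∀ g : (ZMod p)[X], (aeval r g, aeval r⁻¹ g) ∈ S := by
    intro g
    induction g using Polynomial.induction_on with
    | C a =>
      obtain ⟨n, rfl⟩ := ZMod.natCast_zmod_surjective a
      simp only [aeval_C, map_natCast]
      have := S.nsmul_mem h1 n
      simpa using this
    | add g₁ g₂ h₁ h₂ =>
      simp only [map_add]
      exact S.add_mem h₁ h₂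
    | monomial n a h =>
      have := hS _ _ h
      have e : C a * X ^ (n + 1) = X * (C a * X ^ n) := by ring
      rw [e]
      simpa using this
  haveI : Algebra.IsIntegral (ZMod p) F := inferInstance
  have hint : IsIntegral (ZMod p) r⁻¹ := Algebra.IsIntegral.isIntegral _
  have hc : aeval r (minpoly (ZMod p) r⁻¹) ≠ 0 := by
    intro h0
    have h2 := isConjRoot_of_aeval_eq_zero hint h0
    obtain ⟨σ, hσ⟩ := isConjRoot_iff_exists_algEquiv.1 h2
    obtain ⟨⟨n, hn⟩, hσn⟩ := (FiniteField.bijective_frobeniusAlgEquivOfAlgebraic_pow (ZMod p) F).2 σ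
    have hfr : Module.finrank (ZMod p) F = f := by
      have h3 : Fintype.card F = Fintype.card (ZMod p) ^ Module.finrank (ZMod p) F :=
        Module.card_eq_pow_finrank
      rw [ZMod.card, hq] at h3
      exact (Nat.pow_right_injective (Fact.out : p.Prime).two_le h3).symm
    rw [hfr] at hn
    apply hNC n hn
    rw [← hσ, ← hσn]
    simp only [AlgEquiv.coe_pow, FiniteField.coe_frobeniusAlgEquivOfAlgebraic_iterate, ZMod.card]
  have hm : aeval r⁻¹ (minpoly (ZMod p) r⁻¹) = 0 := minpoly.aeval _ _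
  set c := aeval r (minpoly (ZMod p) r⁻¹) with hcdef
  have hc0 : (c, (0 : F)) ∈ S := by
    have := hpoly (minpoly (ZMod p) r⁻¹)
    rwa [hm] at this
  -- the first coordinate
  let C₁ : AddSubgroup F :=
    { carrier := {a | (a * c, (0 : F)) ∈ S}
      add_mem' := by
        intro a b ha hb
        have := S.add_mem ha hb
        simpa [add_mul] using this
      zero_mem' := by
        show (0 * c, (0 : F)) ∈ S
        rw [zero_mul]
        exact S.zero_mem
      neg_mem' := by
        intro a ha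
        have := S.neg_mem ha
        show (-a * c, (0 : F)) ∈ S
        simpa [neg_mul] using this }
  have hC₁ : ∀ a : F, a ∈ C₁ := by
    apply addSub_top hr
    · show (1 * c, (0 : F)) ∈ S
      simpa using hc0
    · intro b hb
      have := hS _ _ hb
      show (r * b * c, (0 : F)) ∈ S
      simpa [mul_assoc] using this
  have hfst : ∀ a : F, (a, (0 : F)) ∈ S := by
    intro a
    have := hC₁ (a / c)
    have h3 : (a / c * c, (0 : F)) ∈ S := this
    rwa [div_mul_cancel₀ _ hc] at h3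
  -- the second coordinate
  have hr' : Subfield.closure {r⁻¹} = ⊤ := by
    rw [eq_top_iff, ← hr, Subfield.closure_le]
    intro z hz
    rw [Set.mem_singleton_iff] at hz
    rw [hz]
    have h3 : r⁻¹ ∈ Subfield.closure {r⁻¹} := Subfield.subset_closure (Set.mem_singleton _)
    have h4 := (Subfield.closure {r⁻¹}).inv_mem h3
    rw [inv_inv] at h4
    exact h4
  let C₂ : AddSubgroup F :=
    { carrier := {a | ((0 : F), a) ∈ S}
      add_mem' := by
        intro a b ha hb
        have := S.add_mem ha hb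
        simpa using this
      zero_mem' := S.zero_mem
      neg_mem' := by
        intro a ha
        have := S.neg_mem ha
        simpa using this }
  have hC₂ : ∀ a : F, a ∈ C₂ := by
    apply addSub_top hr'
    · show ((0 : F), (1 : F)) ∈ S
      have := S.sub_mem h1 (hfst 1)
      simpa using this
    · intro b hb
      have := hS _ _ hb
      show ((0 : F), r⁻¹ * b) ∈ S
      simpa using this
  have := S.add_mem (hfst x) (hC₂ y)
  simpa using this


/-- Upper unitriangular matrices. -/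
def Tr (x y z : F) : SL3 := mk3 1 x z 0 1 y 0 0 1 (by ring)

theorem coe_Tr (x y z : F) : (Tr x y z : M3) = !![1, x, z; 0, 1, y; 0, 0, 1] := rfl

theorem Tr_mul (x y z x' y' z' : F) :
    Tr x y z * Tr x' y' z' = Tr (x + x') (y + y') (z + z' + x * y') := by
  apply Subtype.ext
  rw [Matrix.SpecialLinearGroup.coe_mul, coe_Tr, coe_Tr, coe_Tr, mm3]
  ext k l
  fin_cases k <;> fin_cases l <;> simp <;> ring

theorem Tr_one : Tr (0 : F) 0 0 = 1 := by
  apply Subtype.ext
  rw [coe_Tr]
  ext k l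
  fin_cases k <;> fin_cases l <;> simp

theorem Tr_inv (x y z : F) : (Tr x y z)⁻¹ = Tr (-x) (-y) (x * y - z) := by
  apply inv_eq_of_mul_eq_one_right
  rw [Tr_mul, ← Tr_one]
  congr 1 <;> ring

/-- The additive group of superdiagonals. -/
def superDiag (H : Subgroup SL3) : AddSubgroup (F × F) where
  carrier := {a | ∃ z, Tr a.1 a.2 z ∈ H}
  add_mem' := by
    rintro ⟨x, y⟩ ⟨x', y'⟩ ⟨z, hz⟩ ⟨z', hz'⟩
    exact ⟨_, by simpa [Tr_mul] using mul_mem hz hz'⟩
  zero_mem' := ⟨0, by
    show Tr (0 : F) 0 0 ∈ H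
    rw [Tr_one]
    exact one_mem _⟩
  neg_mem' := by
    rintro ⟨x, y⟩ ⟨z, hz⟩
    exact ⟨_, by simpa [Tr_inv] using inv_mem hz⟩

variable {H : Subgroup (Matrix.SpecialLinearGroup (Fin 3) F)}

theorem mem_superDiag {x y : F} : (x, y) ∈ superDiag H ↔ ∃ z, Tr x y z ∈ H := Iff.rfl

/-- Conjugation by an upper triangular element. -/
theorem superDiag_conj {T : SL3} {a α β b γ a' : F} (hb : b ≠ 0) (ha' : a' ≠ 0)
    (hT : (T : M3) = !![a, α, β; 0, b, γ; 0, 0, a']) (hTH : T ∈ H) {x y : F}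
    (h : (x, y) ∈ superDiag H) : (a / b * x, b / a' * y) ∈ superDiag H := by
  obtain ⟨z, hz⟩ := h
  refine ⟨(a * z + α * y - a / b * x * γ) / a', ?_⟩
  have h1 : T * Tr x y z * T⁻¹ = Tr (a / b * x) (b / a' * y) ((a * z + α * y - a / b * x * γ) / a') := by
    apply conj_eq3
    rw [coe_Tr, coe_Tr, hT, mm3, mm3]
    ext k l
    fin_cases k <;> fin_cases l <;> simp <;> field_simp <;> ring
  rw [← h1]
  exact mul_mem (mul_mem hTH hz) (inv_mem hTH)

/-- If all superdiagonals occur, we have all transvections with axis `E₂`. -/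
theorem ann_of_superDiag (h : ∀ x y : F, (x, y) ∈ superDiag H) : Ann H ![0, 0, 1] := by
  have h0 : ∀ b : F, Has H ![b, 0, 0] ![0, 0, 1] := by
    intro b
    obtain ⟨z₁, hz₁⟩ := h b 0
    obtain ⟨z₂, hz₂⟩ := h 0 1
    have h1 : Has H ![1, 0, 0] ![0, b, z₁] := by
      refine ⟨_, hz₁, ?_⟩
      rw [coe_Tr, tv3]
      ext k l
      fin_cases k <;> fin_cases l <;> simp
    have h2 : Has H ![z₂, 1, 0] ![0, 0, 1] := by
      refine ⟨_, hz₂, ?_⟩
      rw [coe_Tr, tv3]
      ext k l
      fin_cases k <;> fin_cases l <;> simp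
    have h3 := h1.comm h2 (by rw [dot3]; ring) (by rw [dot3]; ring) (by rw [dot3]; ring)
    refine h3.cg ?_ rfl
    rw [dot3]
    ext k
    fin_cases k <;> simp
  refine ann_fl h0 (fun y => ?_)
  obtain ⟨z, hz⟩ := h 0 y
  have h2 : Has H ![z, y, 0] ![0, 0, 1] := by
    refine ⟨_, hz, ?_⟩
    rw [coe_Tr, tv3]
    ext k l
    fin_cases k <;> fin_cases l <;> simp
  have h3 := h2.fl_sub (h0 z)
  refine h3.cg ?_ rfl
  ext k
  fin_cases k <;> simp

/-- The explicit elements of path A. -/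
theorem pathA_elements {l : F} (hl : l ≠ 0) (hs : 1 + l ≠ 0) :
    ∃ (g v T : SL3) (α : F), g * UU F 3 * g⁻¹ = v ∧ (v : M3) 2 0 ≠ 0 ∧
      T = v * UU F 3 * v ∧ (T : M3) = !![l, α, l; 0, (l ^ 2)⁻¹, -l; 0, 0, l] := by
  set s := 1 + l with hsdef
  set c := l / s ^ 2 with hc
  set τ := s ^ 3 / l with hτ
  have hτ0 : τ ≠ 0 := div_ne_zero (pow_ne_zero 3 hs) hl
  have hdg : (s - 2 * c) * (-2 * s) * s - (s - 2 * c) * (-s) * (2 * s + s / l)
      - (2 * s - 3 * c) * (-s) * s + (2 * s - 3 * c) * (-s) * (s + s / l)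
      + s * (-s) * (2 * s + s / l) - s * (-2 * s) * (s + s / l) = 1 := by
    rw [hc]
    field_simp
    rw [hsdef]
    ring
  have hdv : τ * (3 - τ) * 0 - τ * 0 * (τ - 3 - 1 / l) - ((3 + l) / τ + τ - 3) * (-τ) * 0
      + ((3 + l) / τ + τ - 3) * 0 * τ + l / τ * (-τ) * (τ - 3 - 1 / l) - l / τ * (3 - τ) * τ = 1 := by
    field_simp
    ring
  let g : SL3 := mk3 _ _ _ _ _ _ _ _ _ hdg
  let v : SL3 := mk3 _ _ _ _ _ _ _ _ _ hdv
  have hgv : g * UU F 3 * g⁻¹ = v := by
    apply conj_eq3
    simp only [g, v, coe_mk3, coe_UU3, mm3]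
    rw [hτ, hc]
    ext k m
    fin_cases k <;> fin_cases m <;> simp <;> field_simp <;> rw [hsdef] <;> ring
  have hT : ((v * UU F 3 * v : SL3) : M3) =
      !![l, l - (l ^ 2)⁻¹ - (3 + 2 * l + 3 * l ^ 2) / s ^ 3, l; 0, (l ^ 2)⁻¹, -l; 0, 0, l] := by
    simp only [Matrix.SpecialLinearGroup.coe_mul, v, coe_mk3, coe_UU3, mm3]
    rw [hτ]
    ext k m
    fin_cases k <;> fin_cases m <;> simp <;> field_simp <;> rw [hsdef] <;> ring
  exact ⟨g, v, v * UU F 3 * v, _, hgv, by simpa [v, coe_mk3] using hτ0, rfl, hT⟩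

/-- **Odd characteristic, non-prime field.** -/
theorem pathA [Fintype F] (p : ℕ) [Fact p.Prime] [CharP F p] (f : ℕ) (hq : Fintype.card F = p ^ f)
    (hp2 : p ≠ 2) (hf : 2 ≤ f) : ∃ g : SL3, Subgroup.closure ({UU F 3, g * UU F 3 * g⁻¹} : Set SL3) = ⊤ := by
  have hp : p.Prime := Fact.out
  obtain ⟨l, hl⟩ := exists_primitive F
  have hp3 : 3 ≤ p := by
    have := hp.two_le
    omega
  have hq9 : 9 ≤ Fintype.card F := by
    rw [hq]
    calc 9 = 3 ^ 2 := by norm_num
      _ ≤ p ^ 2 := Nat.pow_le_pow_left hp3 2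
      _ ≤ p ^ f := Nat.pow_le_pow_right hp.pos hf
  have hl0 : l ≠ 0 := by
    rintro rfl
    obtain ⟨k, hk⟩ := hl 1 one_ne_zero
    rw [zero_pow (Nat.succ_ne_zero k)] at hk
    exact one_ne_zero hk
  have hs : 1 + l ≠ 0 := by
    intro h0
    have h1 : l = -1 := by linear_combination h0
    have h2 : l ^ 2 = 1 := by rw [h1]; ring
    have h3 := Nat.le_of_dvd (by norm_num) (card_sub_one_dvd hl h2)
    omega
  obtain ⟨g, v, T, α, hg, hv20, hTdef, hT⟩ := pathA_elements hl0 hs
  refine ⟨g, ?_⟩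
  set H := Subgroup.closure ({UU F 3, g * UU F 3 * g⁻¹} : Set SL3) with hH
  have hU : UU F 3 ∈ H := Subgroup.subset_closure (by simp)
  have hv : v ∈ H := by
    rw [← hg]
    exact Subgroup.subset_closure (by simp)
  have hTH : T ∈ H := by
    rw [hTdef]
    exact mul_mem (mul_mem hv hU) hv
  have hr0 : l ^ 3 ≠ 0 := pow_ne_zero 3 hl0
  have hgen : Subfield.closure {l ^ 3} = ⊤ := closure_pow3_top (by omega) hl
  have hNC : ∀ k < f, (l ^ 3)⁻¹ ≠ (l ^ 3) ^ (p ^ k) := by
    intro k hk h0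
    have h1 : l ^ (3 * (p ^ k + 1)) = 1 := by
      have h2 : (l ^ 3) ^ (p ^ k) * l ^ 3 = 1 := by
        rw [← h0]
        exact inv_mul_cancel₀ hr0
      rw [← h2, mul_add, mul_one, pow_add, pow_mul]
    have h2 := card_sub_one_dvd hl h1
    rw [hq] at h2
    exact nc_arith hp hp2 hf hk h2
  have hS := S_top p f hq hr0 hgen hNC (superDiag H)
    ⟨0, by
      have e : Tr (1 : F) 1 0 = UU F 3 := by
        apply Subtype.ext
        rw [coe_Tr, coe_UU3]
      show Tr (1 : F) 1 0 ∈ H
      rw [e]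
      exact hU⟩
    (by
      intro x y h
      have h1 := superDiag_conj (inv_ne_zero (pow_ne_zero 2 hl0)) hl0 hT hTH h
      have e1 : l / (l ^ 2)⁻¹ * x = l ^ 3 * x := by
        field_simp
      have e2 : (l ^ 2)⁻¹ / l * y = (l ^ 3)⁻¹ * y := by
        field_simp
      rwa [e1, e2] at h1)
  exact finish3 hU hv hv20 (ann_of_superDiag hS)

/-- **`SL₃(q)` is generated by two conjugate regular unipotent elements: the conjugator.** -/
theorem exists_two_conj [Fintype F] : ∃ g : SL3, Subgroup.closure ({UU F 3, g * UU F 3 * g⁻¹} : Set SL3) = ⊤ := by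
  obtain ⟨p, hpc⟩ := CharP.exists F
  obtain ⟨n, hp, hn⟩ := FiniteField.card F p
  haveI : Fact p.Prime := ⟨hp⟩
  by_cases hn1 : (n : ℕ) = 1
  · -- prime field
    rw [hn1, pow_one] at hn
    refine ⟨HH F 3, ?_⟩
    rw [HH_conj]
    apply prime_case
    · rw [hn]
      exact hp
    · exact Subgroup.subset_closure (by simp)
    · exact Subgroup.subset_closure (by simp)
  have hn2 : 2 ≤ (n : ℕ) := by
    have := n.pos
    omega
  by_cases hp2 : p = 2
  · subst hp2
    have h2 : (2 : F) = 0 := by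
      have := CharP.cast_eq_zero F 2
      simpa using this
    by_cases hn3 : (n : ℕ) = 2
    · -- q = 4
      rw [hn3] at hn
      obtain ⟨ω, hω, -, hall⟩ := exists_F4 (F := F) (by rw [hn]; norm_num)
      obtain ⟨g, v, hv, hg⟩ := exists_conj_four h2 hω
      refine ⟨g, ?_⟩
      rw [hg]
      refine four_case h2 hω hall ?_ hv ?_
      · exact Subgroup.subset_closure (by simp)
      · exact Subgroup.subset_closure (by simp)
    · -- q ≥ 8
      have hq8 : 8 ≤ Fintype.card F := by
        rw [hn]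
        calc 8 = 2 ^ 3 := by norm_num
          _ ≤ 2 ^ (n : ℕ) := Nat.pow_le_pow_right (by norm_num) (by omega)
      obtain ⟨ρ, hρ⟩ := exists_primitive F
      have hρ0 : ρ ≠ 0 := by
        rintro rfl
        obtain ⟨k, hk⟩ := hρ 1 one_ne_zero
        rw [zero_pow (Nat.succ_ne_zero k)] at hk
        exact one_ne_zero hk
      obtain ⟨g, L, hL, hg⟩ := exists_conj_pathB h2 hρ0
      refine ⟨g, ?_⟩
      rw [hg]
      refine pathB h2 hρ0 ?_ hL ?_ (closure_pow3_top (by omega) hρ)
      · exact Subgroup.subset_closure (by simp)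
      · exact Subgroup.subset_closure (by simp)
  · exact pathA p n hn hp2 hn2

end Cfsg.Agent.Lib.Known.RU
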