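import Cfsg.Agent.Lib.Known.RU7

/-!
# Two regular unipotent elements: the rank-two algebra
-/

set_option autoImplicit false
set_option linter.unusedVariables false
set_option linter.unusedSectionVars false

namespace Cfsg.Agent.Lib.Known.RU

open Matrix Matrix.SpecialLinearGroup

variable {F : Type*} [Field F] {n : ℕ}

local notation "SLn" => Matrix.SpecialLinearGroup (Fin n) F
local notation "M" => Matrix (Fin n) (Fin n) F

section emb

variable (w φ : Fin 3 → Fin n → F)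

/-- The rank-at-most-three matrix with coefficient matrix `x`. -/
def emb (x : Matrix (Fin 3) (Fin 3) F) : M :=
  (Matrix.of fun i a => w a i) * x * (Matrix.of fun a i => φ a i)

theorem emb_mul (P x y : Matrix (Fin 3) (Fin 3) F) (hP : ∀ a b, φ a ⬝ᵥ w b = P a b) :
    emb w φ x * emb w φ y = emb w φ (x * P * y) := by
  have h : (Matrix.of fun a i => φ a i : Matrix (Fin 3) (Fin n) F) * (Matrix.of fun i a => w a i) = P := by
    ext a b
    rw [← hP a b]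
    simp [Matrix.mul_apply, dotProduct]
  simp only [emb]
  calc _ = (Matrix.of fun i a => w a i) * x *
        ((Matrix.of fun a i => φ a i : Matrix (Fin 3) (Fin n) F) * (Matrix.of fun i a => w a i)) * y *
        (Matrix.of fun a i => φ a i) := by
        simp only [Matrix.mul_assoc]
    _ = _ := by rw [h]; simp only [Matrix.mul_assoc]

theorem emb_add (x y : Matrix (Fin 3) (Fin 3) F) : emb w φ (x + y) = emb w φ x + emb w φ y := by
  simp only [emb, Matrix.mul_add, Matrix.add_mul]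

theorem emb_apply (x : Matrix (Fin 3) (Fin 3) F) (i j : Fin n) :
    emb w φ x i j = ∑ a, ∑ b, w a i * x a b * φ b j := by
  simp only [emb, Matrix.mul_apply, Matrix.of_apply, Finset.sum_mul]
  rw [Finset.sum_comm]

theorem emb_single (a b : Fin 3) : emb w φ (Matrix.single a b 1) = vecMulVec (w a) (φ b) := by
  ext i j
  rw [emb_apply, vecMulVec_apply]
  rw [Finset.sum_eq_single a, Finset.sum_eq_single b]
  · simp
  · intro c _ hc
    simp [Matrix.single_apply, hc.symm]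
  · simp
  · intro c _ hc
    apply Finset.sum_eq_zero
    intro d _
    simp [Matrix.single_apply, hc.symm]
  · simp

/-- The representation of group elements by coefficient matrices. -/
def Rep (g : SLn) (x : Matrix (Fin 3) (Fin 3) F) : Prop := (g : M) = 1 + emb w φ x

variable {w φ}

theorem Rep.mul {P : Matrix (Fin 3) (Fin 3) F} (hP : ∀ a b, φ a ⬝ᵥ w b = P a b) {g g' : SLn}
    {x x' y : Matrix (Fin 3) (Fin 3) F} (h : Rep w φ g x) (h' : Rep w φ g' x')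
    (hy : x + x' + x * P * x' = y) : Rep w φ (g * g') y := by
  rw [Rep, Matrix.SpecialLinearGroup.coe_mul, h, h', ← hy, emb_add, emb_add, ← emb_mul w φ P x x' hP]
  noncomm_ring

theorem Rep.inv {P : Matrix (Fin 3) (Fin 3) F} (hP : ∀ a b, φ a ⬝ᵥ w b = P a b) {g : SLn}
    {x x' : Matrix (Fin 3) (Fin 3) F} (h : Rep w φ g x) (hy : x + x' + x * P * x' = 0) :
    Rep w φ g⁻¹ x' := by
  have h1 : (g : M) * (1 + emb w φ x') = 1 := by
    rw [h]
    have h2 : emb w φ (x + x' + x * P * x') = 0 := by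
      rw [hy]
      simp [emb]
    rw [emb_add, emb_add, ← emb_mul w φ P x x' hP] at h2
    calc _ = 1 + (emb w φ x + emb w φ x' + emb w φ x * emb w φ x') := by noncomm_ring
      _ = 1 := by rw [h2, add_zero]
  rw [Rep]
  calc ((g⁻¹ : SLn) : M) = ((g⁻¹ : SLn) : M) * ((g : M) * (1 + emb w φ x')) := by
        rw [h1, mul_one]
    _ = _ := by rw [← mul_assoc, coe_inv_mul', one_mul]

end emb

set_option maxHeartbeats 3000000 in
/-- **The key word**: a transvection from two rank-two elements. -/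
theorem t_word {w₀ w₁ w₂ φ₀ φ₁ φ₂ : Fin n → F} {ε η : F}
    (h00 : φ₀ ⬝ᵥ w₀ = 0) (h01 : φ₀ ⬝ᵥ w₁ = 0) (h02 : φ₀ ⬝ᵥ w₂ = 0)
    (h10 : φ₁ ⬝ᵥ w₀ = ε) (h11 : φ₁ ⬝ᵥ w₁ = 0) (h12 : φ₁ ⬝ᵥ w₂ = 0)
    (h20 : φ₂ ⬝ᵥ w₀ = η) (h21 : φ₂ ⬝ᵥ w₁ = ε) (h22 : φ₂ ⬝ᵥ w₂ = 0)
    {H : Subgroup SLn} {τ σ ς : SLn}
    (hτ : (τ : M) = 1 + vecMulVec w₀ φ₀) (hσ : (σ : M) = 1 + vecMulVec w₁ φ₁)
    (hς : (ς : M) = 1 + vecMulVec w₂ φ₂) (hρ : τ * σ⁻¹ ∈ H) (hρ' : σ * ς⁻¹ ∈ H) :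
    Has H ((ε ^ 2) • w₂) φ₀ := by
  set w : Fin 3 → Fin n → F := ![w₀, w₁, w₂] with hw
  set φ : Fin 3 → Fin n → F := ![φ₀, φ₁, φ₂] with hφ
  set P : Matrix (Fin 3) (Fin 3) F := !![0, 0, 0; ε, 0, 0; η, ε, 0] with hPdef
  have hP : ∀ a b, φ a ⬝ᵥ w b = P a b := by
    intro a b
    fin_cases a <;> fin_cases b <;> simp [hw, hφ, hPdef, *]
  have r1 : Rep w φ τ !![1, 0, 0; 0, 0, 0; 0, 0, 0] := by
    rw [Rep, hτ]
    congr 1
    have := emb_single w φ 0 0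
    rw [show (!![1, 0, 0; 0, 0, 0; 0, 0, 0] : Matrix (Fin 3) (Fin 3) F) = Matrix.single 0 0 1 by
      ext k l; fin_cases k <;> fin_cases l <;> simp [Matrix.single_apply], this]
    rfl
  have r2 : Rep w φ σ !![0, 0, 0; 0, 1, 0; 0, 0, 0] := by
    rw [Rep, hσ]
    congr 1
    have := emb_single w φ 1 1
    rw [show (!![0, 0, 0; 0, 1, 0; 0, 0, 0] : Matrix (Fin 3) (Fin 3) F) = Matrix.single 1 1 1 by
      ext k l; fin_cases k <;> fin_cases l <;> simp [Matrix.single_apply], this]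
    rfl
  have r3 : Rep w φ ς !![0, 0, 0; 0, 0, 0; 0, 0, 1] := by
    rw [Rep, hς]
    congr 1
    have := emb_single w φ 2 2
    rw [show (!![0, 0, 0; 0, 0, 0; 0, 0, 1] : Matrix (Fin 3) (Fin 3) F) = Matrix.single 2 2 1 by
      ext k l; fin_cases k <;> fin_cases l <;> simp [Matrix.single_apply], this]
    rfl
  have r2i : Rep w φ σ⁻¹ !![0, 0, 0; 0, -1, 0; 0, 0, 0] := r2.inv hP (by
    rw [hPdef, mm3, mm3]
    ext k l; fin_cases k <;> fin_cases l <;> simp)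
  have r3i : Rep w φ ς⁻¹ !![0, 0, 0; 0, 0, 0; 0, 0, -1] := r3.inv hP (by
    rw [hPdef, mm3, mm3]
    ext k l; fin_cases k <;> fin_cases l <;> simp)
  have ra : Rep w φ (τ * σ⁻¹) !![1, 0, 0; 0, -1, 0; 0, 0, 0] := r1.mul hP r2i (by
    rw [hPdef, mm3, mm3]
    ext k l; fin_cases k <;> fin_cases l <;> simp)
  have rb : Rep w φ (σ * ς⁻¹) !![0, 0, 0; 0, 1, 0; 0, 0, -1] := r2.mul hP r3i (by
    rw [hPdef, mm3, mm3]
    ext k l; fin_cases k <;> fin_cases l <;> simp)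
  set ρ := τ * σ⁻¹ with hρdef
  set ρ' := σ * ς⁻¹ with hρ'def
  have rai : Rep w φ ρ⁻¹ !![-1, 0, 0; -ε, 1, 0; 0, 0, 0] := ra.inv hP (by
    rw [hPdef, mm3, mm3]
    ext k l; fin_cases k <;> fin_cases l <;> simp)
  have rbi : Rep w φ ρ'⁻¹ !![0, 0, 0; 0, -1, 0; 0, -ε, 1] := rb.inv hP (by
    rw [hPdef, mm3, mm3]
    ext k l; fin_cases k <;> fin_cases l <;> simp)
  have s1 : Rep w φ (ρ * ρ') !![1, 0, 0; 0, 0, 0; 0, 0, -1] := ra.mul hP rb (by
    rw [hPdef, mm3, mm3]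
    ext k l; fin_cases k <;> fin_cases l <;> simp)
  have s2 : Rep w φ (ρ * ρ' * ρ⁻¹) !![0, 0, 0; -ε, 1, 0; η + ε ^ 2, -ε, -1] := s1.mul hP rai (by
    rw [hPdef, mm3, mm3]
    ext k l; fin_cases k <;> fin_cases l <;> simp <;> ring)
  have s3 : Rep w φ (ρ * ρ' * ρ⁻¹ * ρ'⁻¹) !![0, 0, 0; -ε, 0, 0; η + ε ^ 2, -ε, 0] := s2.mul hP rbi (by
    rw [hPdef, mm3, mm3]
    ext k l; fin_cases k <;> fin_cases l <;> simp <;> ring)
  set ρ₂ := ρ * ρ' * ρ⁻¹ * ρ'⁻¹ with hρ₂def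
  have s3i : Rep w φ ρ₂⁻¹ !![0, 0, 0; ε, 0, 0; -(η + ε ^ 2), ε, 0] := s3.inv hP (by
    rw [hPdef, mm3, mm3]
    ext k l; fin_cases k <;> fin_cases l <;> simp <;> ring)
  have s4 : Rep w φ (ρ * ρ₂) !![1, 0, 0; -ε, -1, 0; η + ε ^ 2, -ε, 0] := ra.mul hP s3 (by
    rw [hPdef, mm3, mm3]
    ext k l; fin_cases k <;> fin_cases l <;> simp <;> ring)
  have s5 : Rep w φ (ρ * ρ₂ * ρ⁻¹) !![0, 0, 0; -ε, 0, 0; η + 2 * ε ^ 2, -ε, 0] := s4.mul hP rai (by
    rw [hPdef, mm3, mm3]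
    ext k l; fin_cases k <;> fin_cases l <;> simp <;> ring)
  have s6 : Rep w φ (ρ * ρ₂ * ρ⁻¹ * ρ₂⁻¹) !![0, 0, 0; 0, 0, 0; ε ^ 2, 0, 0] := s5.mul hP s3i (by
    rw [hPdef, mm3, mm3]
    ext k l; fin_cases k <;> fin_cases l <;> simp <;> ring)
  refine ⟨ρ * ρ₂ * ρ⁻¹ * ρ₂⁻¹, ?_, ?_⟩
  · have h2 : ρ₂ ∈ H := mul_mem (mul_mem (mul_mem hρ hρ') (inv_mem hρ)) (inv_mem hρ')
    exact mul_mem (mul_mem (mul_mem hρ h2) (inv_mem hρ)) (inv_mem h2)
  · rw [s6]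
    congr 1
    have e1 : (!![0, 0, 0; 0, 0, 0; ε ^ 2, 0, 0] : Matrix (Fin 3) (Fin 3) F) = ε ^ 2 • Matrix.single 2 0 1 := by
      ext k l; fin_cases k <;> fin_cases l <;> simp [Matrix.single_apply]
    rw [e1]
    have e2 : emb w φ (ε ^ 2 • Matrix.single 2 0 1) = ε ^ 2 • emb w φ (Matrix.single 2 0 1) := by
      simp only [emb, Matrix.mul_smul, Matrix.smul_mul]
    rw [e2, emb_single, smul_vecMulVec]
    rfl

end Cfsg.Agent.Lib.Known.RU
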