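import Cfsg.Agent.Lib.Known.RU8

/-!
# Two regular unipotent elements: the orbit of the corner transvection
-/

set_option autoImplicit false
set_option linter.unusedVariables false
set_option linter.unusedSectionVars false

namespace Cfsg.Agent.Lib.Known.RU

open Matrix Matrix.SpecialLinearGroup

variable {F : Type*} [Field F] {n : ℕ}

local notation "SLn" => Matrix.SpecialLinearGroup (Fin n) F
local notation "M" => Matrix (Fin n) (Fin n) F

/-- The orbit of the last basis vector under `U`. -/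
def WW (hl : n - 1 < n) (d : ℤ) : Fin n → F := ((UU F n ^ d : SLn) : M) *ᵥ E F (n - 1) hl

/-- The orbit of a covector under `U`. -/
def PH (φ : Fin n → F) (j : ℤ) : Fin n → F := φ ᵥ* ((UU F n ^ j : SLn) : M)

variable (hl : n - 1 < n)

theorem WW_zero : WW (F := F) hl 0 = E F (n - 1) hl := by
  simp [WW]

theorem PH_zero (φ : Fin n → F) : PH φ 0 = φ := by
  simp [PH]

theorem pair_PH_WW (φ : Fin n → F) (j d : ℤ) : PH φ j ⬝ᵥ WW hl d = φ ⬝ᵥ WW hl (j + d) := by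
  rw [PH, WW, WW, ← dotProduct_mulVec, mulVec_mulVec, ← Matrix.SpecialLinearGroup.coe_mul, ← _root_.zpow_add]

theorem mulVec_WW (m d : ℤ) : ((UU F n ^ m : SLn) : M) *ᵥ WW hl d = WW hl (m + d) := by
  rw [WW, WW, mulVec_mulVec, ← Matrix.SpecialLinearGroup.coe_mul, ← _root_.zpow_add]

theorem vecMul_PH (φ : Fin n → F) (j m : ℤ) : PH φ j ᵥ* ((UU F n ^ m : SLn) : M) = PH φ (j + m) := by
  rw [PH, PH, vecMul_vecMul, ← Matrix.SpecialLinearGroup.coe_mul, ← _root_.zpow_add]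

variable {hl}

/-- Conjugating by powers of `U`. -/
theorem Has.shift {H : Subgroup SLn} (hU : UU F n ∈ H) {φ : Fin n → F} {κ : F} {d j : ℤ}
    (h : Has H (κ • WW hl d) (PH φ j)) (m : ℤ) : Has H (κ • WW hl (m + d)) (PH φ (j - m)) := by
  have h1 := h.conj (zpow_mem hU m)
  rw [mulVec_smul, mulVec_WW, ← _root_.zpow_neg, vecMul_PH, ← sub_eq_add_neg] at h1
  exact h1

theorem coe_conj (g t : SLn) {w φ : Fin n → F} (hte : (t : M) = 1 + vecMulVec w φ) :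
    ((g * t * g⁻¹ : SLn) : M) = 1 + vecMulVec ((g : M) *ᵥ w) (φ ᵥ* ((g⁻¹ : SLn) : M)) := by
  rw [Matrix.SpecialLinearGroup.coe_mul, Matrix.SpecialLinearGroup.coe_mul, hte, mul_add, add_mul, mul_one,
    coe_mul_inv', mul_vecMulVec, vecMulVec_mul]

theorem tv_mulVec (w φ x : Fin n → F) : ((1 : M) + vecMulVec w φ) *ᵥ x = x + (φ ⬝ᵥ x) • w := by
  rw [add_mulVec, one_mulVec]
  congr 1
  ext i
  simp only [mulVec, dotProduct, vecMulVec_apply, Pi.smul_apply, smul_eq_mul, Finset.sum_mul, Finset.mul_sum]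
  apply Finset.sum_congr rfl
  intro j _
  ring

theorem tv_vecMul (w φ x : Fin n → F) : x ᵥ* ((1 : M) + vecMulVec w φ) = x + (x ⬝ᵥ w) • φ := by
  rw [vecMul_add, vecMul_one]
  congr 1
  ext i
  simp only [vecMul, dotProduct, vecMulVec_apply, Pi.smul_apply, smul_eq_mul, Finset.sum_mul, Finset.mul_sum]
  apply Finset.sum_congr rfl
  intro j _
  ring

/-- Subtracting covectors. -/
theorem Has.sub_right {H : Subgroup SLn} {w φ φ' : Fin n → F} (h : Has H w φ) (h' : Has H w φ')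
    (h0 : φ ⬝ᵥ w = 0) (h0' : φ' ⬝ᵥ w = 0) : Has H w (φ - φ') := by
  have h1 := h'.neg h0'
  have h2 : Has H ((-1 : F) • w) φ' := by
    rwa [neg_smul, one_smul]
  have h3 := Has.smul_swap h2
  have h4 := h.add_right h3 h0
  rwa [neg_smul, one_smul, ← sub_eq_add_neg] at h4

/-- The raising step. -/
theorem K_raise {H : Subgroup SLn} {φ₀ : Fin n → F} {τ : SLn}
    (h0 : φ₀ ⬝ᵥ WW hl 0 = 0) (hτ : (τ : M) = 1 + vecMulVec (WW hl 0) φ₀) (hU : UU F n ∈ H)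
    (hv : τ * UU F n * τ⁻¹ ∈ H) {d : ℤ} (hd : φ₀ ⬝ᵥ WW hl d = 0) (hd1 : φ₀ ⬝ᵥ WW hl (1 + d) = 0) {κ : F}
    (hX : Has H (κ • WW hl d) φ₀) : Has H (((φ₀ ⬝ᵥ WW hl (-1)) * κ) • WW hl (1 + d)) φ₀ := by
  set w₀ := WW (F := F) hl 0 with hw₀
  have hτi : ((τ⁻¹ : SLn) : M) = 1 + vecMulVec (-w₀) φ₀ := coe_inv_tv τ hτ h0
  set U := UU F n with hUdef
  have hU1 : ((U ^ (1 : ℤ) : SLn) : M) = (U : M) := by simp
  have hUm1 : ((U ^ (-1 : ℤ) : SLn) : M) = ((U⁻¹ : SLn) : M) := by simp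
  have e1 : ((τ * U * τ⁻¹ : SLn) : M) *ᵥ (κ • WW hl d) = κ • WW hl (1 + d) := by
    rw [Matrix.SpecialLinearGroup.coe_mul, Matrix.SpecialLinearGroup.coe_mul, mulVec_smul,
      ← mulVec_mulVec, ← mulVec_mulVec, hτi, tv_mulVec, hd, zero_smul, add_zero, ← hU1, mulVec_WW, hτ,
      tv_mulVec, hd1, zero_smul, add_zero]
  have hvi : (τ * U * τ⁻¹)⁻¹ = τ * U⁻¹ * τ⁻¹ := by group
  have hε : PH φ₀ (-1) ⬝ᵥ w₀ = φ₀ ⬝ᵥ WW hl (-1) := by
    rw [hw₀, pair_PH_WW]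
    simp
  have e2 : φ₀ ᵥ* (((τ * U * τ⁻¹)⁻¹ : SLn) : M) = PH φ₀ (-1) - (φ₀ ⬝ᵥ WW hl (-1)) • φ₀ := by
    rw [hvi, Matrix.SpecialLinearGroup.coe_mul, Matrix.SpecialLinearGroup.coe_mul, ← vecMul_vecMul,
      ← vecMul_vecMul, hτ, tv_vecMul, h0, zero_smul, add_zero, ← hUm1, hτi, tv_vecMul]
    rw [show φ₀ ᵥ* ((U ^ (-1 : ℤ) : SLn) : M) = PH φ₀ (-1) from rfl, dotProduct_neg, hε, neg_smul,
      ← sub_eq_add_neg]
  have h1 := hX.conj hv
  rw [e1, e2] at h1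
  -- the conjugate by `U`
  have h2 : Has H (κ • WW hl (1 + d)) (PH φ₀ (-1)) := by
    have h3 : Has H (κ • WW hl d) (PH φ₀ 0) := by rwa [PH_zero]
    have := h3.shift hU 1
    simpa using this
  have hw1 : PH φ₀ (-1) ⬝ᵥ (κ • WW hl (1 + d)) = 0 := by
    rw [dotProduct_smul, pair_PH_WW]
    have : (-1 : ℤ) + (1 + d) = d := by ring
    rw [this, hd, smul_zero]
  have hw2 : φ₀ ⬝ᵥ (κ • WW hl (1 + d)) = 0 := by
    rw [dotProduct_smul, hd1, smul_zero]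
  have h3 := h2.sub_right h1 hw1 (by
    rw [sub_dotProduct, hw1, smul_dotProduct, hw2, smul_zero, sub_zero])
  have e3 : PH φ₀ (-1) - (PH φ₀ (-1) - (φ₀ ⬝ᵥ WW hl (-1)) • φ₀) = (φ₀ ⬝ᵥ WW hl (-1)) • φ₀ := by
    abel
  rw [e3] at h3
  have h4 := Has.smul_swap' h3
  rwa [smul_smul] at h4

/-- The multiplication step. -/
theorem K_mult {H : Subgroup SLn} {φ₀ : Fin n → F} (hU : UU F n ∈ H) {d d' x y : ℤ}
    (hd : φ₀ ⬝ᵥ WW hl d = 0) (hd' : φ₀ ⬝ᵥ WW hl d' = 0) (hx : φ₀ ⬝ᵥ WW hl x = 0)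
    (hy : d + d' = x + y) {κ κ' : F} (hX : Has H (κ • WW hl d) φ₀) (hX' : Has H (κ' • WW hl d') φ₀) :
    Has H (((φ₀ ⬝ᵥ WW hl y) * κ * κ') • WW hl x) φ₀ := by
  have h3 : Has H (κ • WW hl d) (PH φ₀ 0) := by rwa [PH_zero]
  have h4 := h3.shift hU (x - d)
  have e1 : x - d + d = x := by ring
  have e2 : (0 : ℤ) - (x - d) = d - x := by ring
  rw [e1, e2] at h4
  have h5 := h4.comm hX' (by
      rw [dotProduct_smul, pair_PH_WW]
      have : d - x + x = d := by ring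
      rw [this, hd, smul_zero]) (by
      rw [dotProduct_smul, hd', smul_zero]) (by
      rw [dotProduct_smul, hx, smul_zero])
  have e3 : PH φ₀ (d - x) ⬝ᵥ κ' • WW hl d' = κ' * (φ₀ ⬝ᵥ WW hl y) := by
    rw [dotProduct_smul, pair_PH_WW]
    have : d - x + d' = y := by linarith
    rw [this, smul_eq_mul]
  rw [e3, smul_smul] at h5
  have e4 : κ' * (φ₀ ⬝ᵥ WW hl y) * κ = (φ₀ ⬝ᵥ WW hl y) * κ * κ' := by ring
  rwa [e4] at h5

/-- The line as an additive subgroup. -/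
def lineSubN (H : Subgroup SLn) (w φ : Fin n → F) (h0 : φ ⬝ᵥ w = 0) : AddSubgroup F where
  carrier := {κ | Has H (κ • w) φ}
  add_mem' := by
    intro a b ha hb
    have := Has.add_left ha hb (by rw [dotProduct_smul, h0, smul_zero])
    simpa [add_smul] using this
  zero_mem' := by
    show Has H ((0 : F) • w) φ
    rw [zero_smul]
    exact has_zero_left H φ
  neg_mem' := by
    intro a ha
    have := Has.neg ha (by rw [dotProduct_smul, h0, smul_zero])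
    show Has H ((-a) • w) φ
    rwa [neg_smul]

theorem mem_lineSubN {H : Subgroup SLn} {w φ : Fin n → F} {h0 : φ ⬝ᵥ w = 0} {κ : F} :
    κ ∈ lineSubN H w φ h0 ↔ Has H (κ • w) φ := Iff.rfl

/-- **The core theorem.** -/
theorem core_chain [Fintype F] {φ₀ : Fin n → F} {D : ℕ} (hD : 2 ≤ D)
    (hh : ∀ d : ℕ, d ≤ D → φ₀ ⬝ᵥ WW hl (d : ℤ) = 0) {b ε : F}
    (hb : φ₀ ⬝ᵥ WW hl ((D : ℤ) + 1) = b) (hb0 : b ≠ 0)
    (hε : φ₀ ⬝ᵥ WW hl (-1) = ε) (hε0 : ε ≠ 0) {H : Subgroup SLn} {τ : SLn}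
    (hτ : (τ : M) = 1 + vecMulVec (WW hl 0) φ₀) (hU : UU F n ∈ H) (hv : τ * UU F n * τ⁻¹ ∈ H)
    (hr : Subfield.closure {b * ε ^ (D + 1)} = ⊤) :
    ∀ d : ℕ, d ≤ D → ∀ κ : F, Has H (κ • WW hl (d : ℤ)) φ₀ := by
  have h0 : φ₀ ⬝ᵥ WW hl 0 = 0 := by simpa using hh 0 (by omega)
  have h1 : φ₀ ⬝ᵥ WW hl 1 = 0 := by simpa using hh 1 (by omega)
  have h2 : φ₀ ⬝ᵥ WW hl 2 = 0 := by simpa using hh 2 (by omega)
  set U := UU F n with hUdef
  -- the transvection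
  have ht : Has H ((ε ^ 2) • WW hl 2) φ₀ := by
    have hm : ∀ m : ℤ, ((U ^ m * τ * (U ^ m)⁻¹ : SLn) : M) = 1 + vecMulVec (WW hl m) (PH φ₀ (-m)) := by
      intro m
      rw [coe_conj _ _ hτ, mulVec_WW, add_zero, ← _root_.zpow_neg]
      rfl
    have e1 : U ^ (1 : ℤ) * τ * (U ^ (1 : ℤ))⁻¹ = U * τ * U⁻¹ := by simp
    have e2 : U ^ (2 : ℤ) * τ * (U ^ (2 : ℤ))⁻¹ = U * (U * τ * U⁻¹) * U⁻¹ := by
      rw [zpow_two]
      group
    have hσ := hm 1
    have hς := hm 2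
    rw [e1] at hσ
    rw [e2] at hς
    refine t_word (w₀ := WW hl 0) (w₁ := WW hl 1) (w₂ := WW hl 2) (φ₀ := φ₀) (φ₁ := PH φ₀ (-1))
      (φ₂ := PH φ₀ (-2)) (ε := ε) (η := φ₀ ⬝ᵥ WW hl (-2)) h0 h1 h2 ?_ ?_ ?_ ?_ ?_ ?_ hτ hσ hς ?_ ?_
    · rw [pair_PH_WW]; simpa using hε
    · rw [pair_PH_WW]; simpa using h0
    · rw [pair_PH_WW]; simpa using h1
    · rw [pair_PH_WW]; simp
    · rw [pair_PH_WW]; simpa using hε
    · rw [pair_PH_WW]; simpa using h0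
    · have e3 : τ * (U * τ * U⁻¹)⁻¹ = (τ * U * τ⁻¹) * U⁻¹ := by group
      rw [e3]
      exact mul_mem hv (inv_mem hU)
    · have e3 : (U * τ * U⁻¹) * (U * (U * τ * U⁻¹) * U⁻¹)⁻¹ = U * ((τ * U * τ⁻¹) * U⁻¹) * U⁻¹ := by group
      rw [e3]
      exact mul_mem (mul_mem hU (mul_mem hv (inv_mem hU))) (inv_mem hU)
  -- raising
  have hR : ∀ d : ℕ, d + 1 ≤ D → ∀ κ : F, Has H (κ • WW hl (d : ℤ)) φ₀ →
      Has H ((ε * κ) • WW hl ((d + 1 : ℕ) : ℤ)) φ₀ := by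
    intro d hd κ hκ
    have e : ((d + 1 : ℕ) : ℤ) = 1 + (d : ℤ) := by push_cast; ring
    have h3 := hh (d + 1) hd
    rw [e] at h3 ⊢
    rw [← hε]
    exact K_raise h0 hτ hU hv (hh d (by omega)) h3 hκ
  -- multiplication
  have hM : ∀ d d' x : ℕ, d ≤ D → d' ≤ D → x ≤ D → d + d' = x + (D + 1) → ∀ κ κ' : F,
      Has H (κ • WW hl (d : ℤ)) φ₀ → Has H (κ' • WW hl (d' : ℤ)) φ₀ →
      Has H ((b * κ * κ') • WW hl (x : ℤ)) φ₀ := by
    intro d d' x hd hd' hx hs κ κ' hκ hκ'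
    rw [← hb]
    refine K_mult hU (hh d hd) (hh d' hd') (hh x hx) ?_ hκ hκ'
    have : ((d + d' : ℕ) : ℤ) = ((x + (D + 1) : ℕ) : ℤ) := by rw [hs]
    push_cast at this
    linarith
  -- the chain up to the top
  have hup : ∀ j : ℕ, 2 + j ≤ D → Has H ((ε ^ (j + 2)) • WW hl ((2 + j : ℕ) : ℤ)) φ₀ := by
    intro j
    induction j with
    | zero =>
      intro _
      simpa using ht
    | succ j ih =>
      intro hj
      have h3 := hR (2 + j) (by omega) _ (ih (by omega))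
      have e1 : ε * ε ^ (j + 2) = ε ^ (j + 1 + 2) := by ring
      rw [e1] at h3
      exact h3
  have hκD : Has H ((ε ^ D) • WW hl (D : ℤ)) φ₀ := by
    have h3 := hup (D - 2) (by omega)
    have e1 : D - 2 + 2 = D := by omega
    have e2 : 2 + (D - 2) = D := by omega
    rwa [e1, e2] at h3
  -- the top is everything
  have hDm : D - 1 + (D + 1) = D + D := by omega
  have hmulTop : ∀ a a' : F, Has H (a • WW hl (D : ℤ)) φ₀ → Has H (a' • WW hl (D : ℤ)) φ₀ →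
      Has H ((ε * (b * a * a')) • WW hl (D : ℤ)) φ₀ := by
    intro a a' ha ha'
    have h3 := hM D D (D - 1) le_rfl le_rfl (by omega) (by omega) a a' ha ha'
    have h4 := hR (D - 1) (by omega) _ h3
    have e : D - 1 + 1 = D := by omega
    rwa [e] at h4
  set s := ε * b with hs
  have hs0 : s ≠ 0 := mul_ne_zero hε0 hb0
  let B := lineSubN H (WW hl (D : ℤ)) φ₀ (hh D le_rfl)
  let B' : AddSubgroup F := B.comap (AddMonoidHom.mulLeft s⁻¹)
  have hB' : ∀ x : F, x ∈ B' ↔ Has H ((s⁻¹ * x) • WW hl (D : ℤ)) φ₀ := fun x => Iff.rfl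
  have hmulB' : ∀ x y : F, x ∈ B' → y ∈ B' → x * y ∈ B' := by
    intro x y hx hy
    rw [hB'] at hx hy ⊢
    have h3 := hmulTop _ _ hx hy
    have e : ε * (b * (s⁻¹ * x) * (s⁻¹ * y)) = s⁻¹ * (x * y) := by
      rw [hs] at *
      field_simp
    rwa [e] at h3
  set r := b * ε ^ (D + 1) with hrdef
  have hrB' : r ∈ B' := by
    rw [hB']
    have e : s⁻¹ * r = ε ^ D := by
      rw [hs, hrdef]
      field_simp
      ring
    rw [e]
    exact hκD
  have hr0 : r ≠ 0 := mul_ne_zero hb0 (pow_ne_zero _ hε0)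
  have hpow : ∀ k : ℕ, r ^ (k + 1) ∈ B' := by
    intro k
    induction k with
    | zero => simpa using hrB'
    | succ k ih =>
      rw [pow_succ]
      exact hmulB' _ _ ih hrB'
  have h1B' : (1 : F) ∈ B' := by
    have h3 := FiniteField.pow_card_sub_one_eq_one r hr0
    have h4 : 2 ≤ Fintype.card F := Fintype.one_lt_card
    have h5 : Fintype.card F - 1 = (Fintype.card F - 2) + 1 := by omega
    rw [h5] at h3
    rw [← h3]
    exact hpow _
  have hall : ∀ x : F, x ∈ B' := addSub_top hr B' h1B' (fun y hy => hmulB' _ _ hrB' hy)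
  have htop : ∀ κ : F, Has H (κ • WW hl (D : ℤ)) φ₀ := by
    intro κ
    have h3 := (hB' (s * κ)).1 (hall _)
    have e : s⁻¹ * (s * κ) = κ := by field_simp
    rwa [e] at h3
  -- going down
  have hdown : ∀ j : ℕ, j ≤ D → ∀ κ : F, Has H (κ • WW hl ((D - j : ℕ) : ℤ)) φ₀ := by
    intro j
    induction j with
    | zero =>
      intro _ κ
      simpa using htop κ
    | succ j ih =>
      intro hj κ
      have h3 := hM D (D - j) (D - (j + 1)) le_rfl (by omega) (by omega) (by omega)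
        (κ / b) 1 (htop _) (ih (by omega) 1)
      have e : b * (κ / b) * 1 = κ := by field_simp
      rwa [e] at h3
  intro d hd κ
  have h3 := hdown (D - d) (by omega) κ
  have e : D - (D - d) = d := by omega
  rwa [e] at h3

end Cfsg.Agent.Lib.Known.RU
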