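import Mathlib

set_option autoImplicit false

/-! Explicit computations in `SL₂(3)`. -/

namespace Cfsg.Agent.Lib.Known

/-- `SL₂(3)`. -/
abbrev G3 := Matrix.SpecialLinearGroup (Fin 2) (ZMod 3)

namespace SL23

/-- A generator of order 4. -/
def qI : G3 := ⟨!![1, 1; 1, 2], by decide +kernel⟩
/-- Another generator of order 4. -/
def qJ : G3 := ⟨!![0, 1; 2, 0], by decide +kernel⟩

/-- The central involution. -/
def m1 : G3 := qI * qI

theorem card_G3 : Fintype.card G3 = 24 := by decide +kernel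

theorem Q_mul : ∀ g h : G3, g ^ 4 = 1 → h ^ 4 = 1 → (g * h) ^ 4 = 1 := by decide +kernel

/-- The subgroup of elements of order dividing four. -/
def Q : Subgroup G3 where
  carrier := {g | g ^ 4 = 1}
  mul_mem' := fun {a b} ha hb => Q_mul a b ha hb
  one_mem' := one_pow 4
  inv_mem' := fun {a} ha => by
    have h : a ^ 4 = 1 := ha
    change a⁻¹ ^ 4 = 1
    rw [inv_pow, h, inv_one]

theorem mem_Q (g : G3) : g ∈ Q ↔ g ^ 4 = 1 := Iff.rfl

theorem comm_mem_aux : ∀ g h : G3, (g * h * g⁻¹ * h⁻¹) ^ 4 = 1 := by decide +kernel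

theorem comm_surj_aux : ∀ q : G3, q ^ 4 = 1 → ∃ a b : G3, a * b * a⁻¹ * b⁻¹ = q := by decide +kernel

theorem commutator_eq_Q : commutator G3 = Q := by
  apply le_antisymm
  · rw [commutator_def, Subgroup.commutator_le]
    intro g _ h _
    exact comm_mem_aux g h
  · intro q hq
    obtain ⟨a, b, rfl⟩ := comm_surj_aux q hq
    exact Subgroup.commutator_mem_commutator (Subgroup.mem_top a) (Subgroup.mem_top b)

theorem card_filter_Q : (Finset.univ.filter (fun g : G3 => g ^ 4 = 1)).card = 8 := by decide +kernel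

theorem card_Q : Nat.card Q = 8 := by
  rw [← card_filter_Q]
  exact Nat.subtype_card _ (by simp [mem_Q])

theorem center_iff : ∀ z : G3, (∀ g : G3, g * z = z * g) ↔ (z = 1 ∨ z = m1) := by decide +kernel

theorem card_center : Nat.card (Subgroup.center G3) = 2 := by
  have h : ({1, m1} : Finset G3).card = 2 := by decide +kernel
  refine Eq.trans (Nat.subtype_card _ ?_) h
  intro x
  rw [Subgroup.mem_center_iff, center_iff]
  simp

/-- The map from the quaternion group. -/
def qMap : QuaternionGroup 2 → G3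
  | QuaternionGroup.a i => qI ^ i.val
  | QuaternionGroup.xa i => qJ * qI ^ i.val

theorem qMap_mul : ∀ x y : QuaternionGroup 2, qMap (x * y) = qMap x * qMap y := by decide +kernel

theorem qMap_mem : ∀ x : QuaternionGroup 2, (qMap x) ^ 4 = 1 := by decide +kernel

theorem qMap_inj : ∀ x y : QuaternionGroup 2, qMap x = qMap y → x = y := by decide +kernel

theorem qMap_surj : ∀ q : G3, q ^ 4 = 1 → ∃ x : QuaternionGroup 2, qMap x = q := by decide +kernel

/-- The map from the quaternion group, as a homomorphism. -/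
def qHom : QuaternionGroup 2 →* Q where
  toFun := fun x => ⟨qMap x, qMap_mem x⟩
  map_one' := by
    apply Subtype.ext
    decide +kernel
  map_mul' := fun x y => Subtype.ext (qMap_mul x y)

/-- The isomorphism `Q₈ ≃ Q`. -/
noncomputable def qEquiv : QuaternionGroup 2 ≃* Q :=
  MulEquiv.ofBijective qHom
    ⟨fun x y h => qMap_inj x y (congrArg Subtype.val h), fun q => by
      obtain ⟨x, hx⟩ := qMap_surj q q.2
      exact ⟨x, Subtype.ext hx⟩⟩

theorem out_aux : ∀ g : G3, g ^ 4 ≠ 1 → ∃ x : G3, (g * (x * g⁻¹ * x⁻¹)) ^ 2 ≠ 1 := by decide +kernel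

theorem conj_aux' : ∀ a b : G3, (a ^ 2 ≠ 1 ∧ a ^ 4 = 1 ∧ b ^ 2 ≠ 1 ∧ b ^ 4 = 1) → ∃ c : G3, c * a * c⁻¹ = b := by
  decide +kernel

theorem conj_aux (a b : G3) (h1 : a ^ 2 ≠ 1) (h2 : a ^ 4 = 1) (h3 : b ^ 2 ≠ 1) (h4 : b ^ 4 = 1) :
    ∃ c : G3, c * a * c⁻¹ = b := conj_aux' a b ⟨h1, h2, h3, h4⟩

theorem inv_aux : ∀ q : G3, q ^ 2 = 1 → q = 1 ∨ q = m1 := by decide +kernel

theorem m1_aux : ∀ q : G3, q ^ 2 ≠ 1 → q ^ 4 = 1 → q ^ 2 = m1 := by decide +kernel

theorem cover_aux : ∀ g h : G3, g ^ 4 ≠ 1 → ∃ q : G3, q ^ 4 = 1 ∧ (h = q ∨ h = g * q ∨ h = g * g * q) := by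
  decide +kernel

theorem comm4_aux : ∀ g x : G3, (g * (x * g⁻¹ * x⁻¹)) ^ 4 = 1 := by decide +kernel

theorem Q_le_of_mem {N : Subgroup G3} (hN : N.Normal) {a : G3} (ha : a ∈ N) (h2 : a ^ 2 ≠ 1)
    (h4 : a ^ 4 = 1) : Q ≤ N := by
  intro q hq
  have hq4 : q ^ 4 = 1 := hq
  by_cases hq2 : q ^ 2 = 1
  · rcases inv_aux q hq2 with rfl | rfl
    · exact N.one_mem
    · have := m1_aux a h2 h4
      rw [← this]
      exact pow_mem ha 2
  · obtain ⟨c, rfl⟩ := conj_aux a q h2 h4 hq2 hq4
    exact hN.conj_mem a ha c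

theorem normal_cases (N : Subgroup G3) (hN : N.Normal) :
    N = ⊥ ∨ N = ⊤ ∨ N = Subgroup.center G3 ∨ N = Q := by
  by_cases h1 : ∃ g ∈ N, g ^ 4 ≠ 1
  · obtain ⟨g, hg, hg4⟩ := h1
    right; left
    obtain ⟨x, hx⟩ := out_aux g hg4
    have hc : g * (x * g⁻¹ * x⁻¹) ∈ N := N.mul_mem hg (hN.conj_mem _ (N.inv_mem hg) x)
    have hQ := Q_le_of_mem hN hc hx (comm4_aux g x)
    rw [eq_top_iff]
    intro h _
    obtain ⟨q, hq, hh⟩ := cover_aux g h hg4
    have hq' : q ∈ N := hQ hq
    rcases hh with rfl | rfl | rfl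
    · exact hq'
    · exact N.mul_mem hg hq'
    · exact N.mul_mem (N.mul_mem hg hg) hq'
  · push Not at h1
    by_cases h2 : ∃ a ∈ N, a ^ 2 ≠ 1
    · obtain ⟨a, ha, ha2⟩ := h2
      right; right; right
      apply le_antisymm
      · intro g hg
        exact h1 g hg
      · exact Q_le_of_mem hN ha ha2 (h1 a ha)
    · push Not at h2
      by_cases hm : m1 ∈ N
      · right; right; left
        apply le_antisymm
        · intro g hg
          rcases inv_aux g (h2 g hg) with rfl | rfl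
          · exact one_mem _
          · rw [Subgroup.mem_center_iff]
            intro y
            exact (center_iff m1).mpr (Or.inr rfl) y
        · intro g hg
          rw [Subgroup.mem_center_iff, center_iff] at hg
          rcases hg with rfl | rfl
          · exact one_mem _
          · exact hm
      · left
        rw [Subgroup.eq_bot_iff_forall]
        intro g hg
        rcases inv_aux g (h2 g hg) with h | rfl
        · exact h
        · exact absurd hg hm

end SL23

end Cfsg.Agent.Lib.Known
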