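import Cfsg.Agent.Lib.Known.FPF3
import Cfsg.Agent.Lib.Classical.SUOrder
import Cfsg.Agent.Lib.Known.Weil1

/-!
# Involutions of `SU_3(q)`, `q` odd: the reflections
-/

set_option autoImplicit false
set_option linter.unusedVariables false
set_option linter.unusedSectionVars false
set_option linter.unusedSimpArgs false

namespace Cfsg.Agent.Lib.Known.SU3Inv

open Matrix Module Cfsg.Agent.Lib.Classical Cfsg.Agent.Lib.Known.FPF

 /-- The group. -/
abbrev SU3G (F : Type*) [Field F] (q : ℕ) := ↥(Cfsg.SU 3 F q)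

/-- The reflection in a unit vector, up to sign. -/
def tvF {F : Type*} [Field F] (q : ℕ) (b w : Fin 3 → F) : Fin 3 → F := (2 * Cfsg.hermForm 3 F q w b) • b - w

/-- The matrix. -/
def tMat {F : Type*} [Field F] (q : ℕ) (b : Fin 3 → F) : Matrix (Fin 3) (Fin 3) F := Matrix.of (fun i j => 2 * b i * b j ^ q) - 1

variable {F : Type*} [Field F] [Fintype F] {q : ℕ}

local notation "H" => Cfsg.hermForm 3 F q
local notation "V3" => (Fin 3 → F)
local notation "SU3" => (SU3G F q)

/-- An involutive matrix has a basis of eigenvectors. -/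
theorem exists_eigenbasis {n : ℕ} (M : Matrix (Fin n) (Fin n) F) (hM : M * M = 1) (h2 : (2 : F) ≠ 0) :
    ∃ B : Module.Basis (Fin n) F (Fin n → F), ∀ i, M.mulVec (B i) = B i ∨ M.mulVec (B i) = - B i := by
  classical
  let f : (Fin n → F) →ₗ[F] (Fin n → F) := M.mulVecLin
  have hff : ∀ v, f (f v) = v := by
    intro v
    show M.mulVec (M.mulVec v) = v
    rw [Matrix.mulVec_mulVec, hM, Matrix.one_mulVec]
  let Wp : Submodule F (Fin n → F) := LinearMap.ker (f - LinearMap.id)
  let Wm : Submodule F (Fin n → F) := LinearMap.ker (f + LinearMap.id)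
  have hWp : ∀ v, v ∈ Wp ↔ f v = v := by
    intro v
    show v ∈ LinearMap.ker (f - LinearMap.id) ↔ _
    rw [LinearMap.mem_ker]
    simp [sub_eq_zero]
  have hWm : ∀ v, v ∈ Wm ↔ f v = - v := by
    intro v
    show v ∈ LinearMap.ker (f + LinearMap.id) ↔ _
    rw [LinearMap.mem_ker]
    simp [add_eq_zero_iff_eq_neg]
  have h2' : (2 : F)⁻¹ * 2 = 1 := inv_mul_cancel₀ h2
  have hcompl : IsCompl Wp Wm := by
    constructor
    · rw [Submodule.disjoint_def]
      intro v hv hv'
      have h1 := (hWp v).1 hv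
      have h3 := (hWm v).1 hv'
      rw [h1] at h3
      have h4 : (2 : F) • v = 0 := by
        rw [two_smul]
        nth_rw 1 [h3]
        simp
      exact (smul_eq_zero.1 h4).resolve_left h2
    · rw [Submodule.codisjoint_iff_exists_add_eq]
      intro v
      refine ⟨(2 : F)⁻¹ • (v + f v), (2 : F)⁻¹ • (v - f v), (hWp _).2 ?_, (hWm _).2 ?_, ?_⟩
      · rw [map_smul, map_add, hff, add_comm]
      · rw [map_smul, map_sub, hff, ← smul_neg, neg_sub]
      · rw [← smul_add]
        have e : v + f v + (v - f v) = (2 : F) • v := by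
          rw [two_smul]
          abel
        rw [e, smul_smul, h2', one_smul]
  let bp := Module.finBasis F Wp
  let bm := Module.finBasis F Wm
  let B₀ : Module.Basis (Fin (Module.finrank F Wp) ⊕ Fin (Module.finrank F Wm)) F (Fin n → F) :=
    (bp.prod bm).map (Submodule.prodEquivOfIsCompl Wp Wm hcompl)
  have hcard : Fintype.card (Fin (Module.finrank F Wp) ⊕ Fin (Module.finrank F Wm)) = n := by
    have h1 := Module.finrank_eq_card_basis B₀
    simpa using h1.symm
  let e := Fintype.equivFinOfCardEq hcard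
  refine ⟨B₀.reindex e, fun i => ?_⟩
  rw [Module.Basis.reindex_apply]
  rcases hj : e.symm i with j | j
  · left
    have h1 : B₀ (Sum.inl j) = ((bp j : Wp) : Fin n → F) := by
      simp [B₀, Module.Basis.map_apply, Module.Basis.prod_apply]
    rw [h1]
    exact (hWp _).1 (bp j).2
  · right
    have h1 : B₀ (Sum.inr j) = ((bm j : Wm) : Fin n → F) := by
      simp [B₀, Module.Basis.map_apply, Module.Basis.prod_apply]
    rw [h1]
    exact (hWm _).1 (bm j).2

theorem two_ne (hF : Fintype.card F = q ^ 2) (hodd : Odd q) : (2 : F) ≠ 0 := by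
  apply Ring.two_ne_zero
  intro h
  have h1 := FiniteField.even_card_iff_char_two.1 h
  rw [hF] at h1
  obtain ⟨k, rfl⟩ := hodd
  have : (2 * k + 1) ^ 2 = 2 * (2 * k * k + 2 * k) + 1 := by ring
  omega

theorem pow_q_two (hF : Fintype.card F = q ^ 2) : (2 : F) ^ q = 2 := by
  rw [← frobQ_apply hF, map_ofNat]

theorem herm_sub_left (u u' v : V3) : H (u - u') v = H u v - H u' v := by
  simp only [herm_apply, Pi.sub_apply, sub_mul, Finset.sum_sub_distrib]

theorem pow_q_sub (hF : Fintype.card F = q ^ 2) (a b : F) : (a - b) ^ q = a ^ q - b ^ q := by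
  rw [← frobQ_apply hF, map_sub, frobQ_apply, frobQ_apply]

theorem herm_sub_right (hF : Fintype.card F = q ^ 2) (u v v' : V3) : H u (v - v') = H u v - H u v' := by
  simp only [herm_apply, Pi.sub_apply, pow_q_sub hF, mul_sub, Finset.sum_sub_distrib]

theorem tMat_mulVec (b w : V3) : tMat q b *ᵥ w = tvF q b w := by
  funext i
  simp only [tMat, tvF, sub_mulVec, one_mulVec, Pi.sub_apply, Pi.smul_apply, smul_eq_mul, herm_apply]
  congr 1
  simp only [mulVec, dotProduct, Matrix.of_apply, Finset.mul_sum, Finset.sum_mul]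
  apply Finset.sum_congr rfl
  intro j _
  ring

theorem herm_tvF_left {b : V3} (hb : H b b = 1) (w : V3) : H (tvF q b w) b = H w b := by
  rw [tvF, herm_sub_left, herm_smul_left, hb]
  ring

theorem tvF_tvF {b : V3} (hb : H b b = 1) (w : V3) : tvF q b (tvF q b w) = w := by
  rw [tvF, herm_tvF_left hb, tvF]
  simp

theorem herm_tvF (hF : Fintype.card F = q ^ 2) {b : V3} (hb : H b b = 1) (w w' : V3) :
    H (tvF q b w) (tvF q b w') = H w w' := by
  have h1 : H b w' = (H w' b) ^ q := herm_conj hF w' b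
  simp only [tvF]
  rw [herm_sub_left, herm_sub_right hF, herm_sub_right hF, herm_smul_left, herm_smul_right, herm_smul_left,
    herm_smul_right, hb, h1]
  have h2 : (2 * H w' b) ^ q = 2 * (H w' b) ^ q := by
    rw [mul_pow, pow_q_two hF]
  rw [h2]
  ring

theorem det_tMat (hF : Fintype.card F = q ^ 2) {b : V3} (hb : H b b = 1) : (tMat q b).det = 1 := by
  have e : tMat q b = (-1 : F) • (1 + replicateCol Unit (fun i => -2 * b i) * replicateRow Unit (fun j => b j ^ q)) := by
    ext i j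
    simp [tMat, Matrix.mul_apply, Matrix.one_apply]
    by_cases hij : i = j <;> simp [hij] <;> ring
  rw [e, det_smul, det_one_add_replicateCol_mul_replicateRow]
  have h2 : (fun j => b j ^ q) ⬝ᵥ (fun i => -2 * b i) = -2 := by
    have : (fun j => b j ^ q) ⬝ᵥ (fun i => -2 * b i) = -2 * H b b := by
      simp only [dotProduct, herm_apply, Finset.mul_sum]
      apply Finset.sum_congr rfl
      intro i _
      ring
    rw [this, hb, mul_one]
  rw [h2]
  simp
  ring

/-- The involution of a unit vector. -/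
noncomputable def tvS (hF : Fintype.card F = q ^ 2) (b : V3) (hb : H b b = 1) : SU3 :=
  ⟨⟨tMat q b, det_tMat hF hb⟩, by
    intro u v
    change H (tMat q b *ᵥ u) (tMat q b *ᵥ v) = H u v
    rw [tMat_mulVec, tMat_mulVec, herm_tvF hF hb]⟩

@[simp] theorem LG_tvS (hF : Fintype.card F = q ^ 2) (b : V3) (hb : H b b = 1) (w : V3) :
    LG (tvS hF b hb) w = tvF q b w := tMat_mulVec b w

theorem su3_ext {g g' : SU3} (h : ∀ w, LG g w = LG g' w) : g = g' :=
  LG_inj (LinearMap.ext h)

theorem tvS_sq (hF : Fintype.card F = q ^ 2) (b : V3) (hb : H b b = 1) : tvS hF b hb * tvS hF b hb = 1 := by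
  apply su3_ext
  intro w
  rw [LG_mul, Module.End.mul_apply, LG_tvS, LG_tvS, tvF_tvF hb, LG_one]
  rfl

theorem tvS_ne_one (hF : Fintype.card F = q ^ 2) (hodd : Odd q) (b : V3) (hb : H b b = 1) : tvS hF b hb ≠ 1 := by
  intro h
  have h1 : tMat q b = 1 := congrArg (fun g : SU3 => (g.1.1 : Matrix (Fin 3) (Fin 3) F)) h
  have h2 := congrArg Matrix.trace h1
  have h3 : Matrix.trace (tMat q b) = 2 * H b b - 3 := by
    have h5 : ∀ i, tMat q b i i = 2 * (b i * b i ^ q) - 1 := by
      intro i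
      simp [tMat]
      ring
    simp only [Matrix.trace, Matrix.diag, h5, Fin.sum_univ_three, herm_apply]
    ring
  rw [h3, hb, Matrix.trace_one, Fintype.card_fin] at h2
  have h4 : (2 : F) * 2 = 0 := by
    push_cast at h2
    linear_combination -h2
  have := two_ne hF hodd
  exact this (by simpa using mul_self_eq_zero.1 h4)

theorem unit_ne_zero {b : V3} (hb : H b b = 1) : b ≠ 0 := by
  rintro rfl
  simp [herm_apply] at hb

theorem tvS_congr (hF : Fintype.card F = q ^ 2) {b c : V3} (hb : H b b = 1) (hc : H c c = 1) (e : b = c) : tvS hF b hb = tvS hF c hc := by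
  subst e
  rfl

/-- Conjugation. -/
theorem conj_tvS (hF : Fintype.card F = q ^ 2) (g : SU3) (b : V3) (hb : H b b = 1) :
    g * tvS hF b hb * g⁻¹ = tvS hF (LG g b) (by rw [LG_herm, hb]) := by
  apply su3_ext
  intro w
  rw [LG_mul, LG_mul, Module.End.mul_apply, Module.End.mul_apply, LG_tvS, LG_tvS]
  have h1 : LG g (LG g⁻¹ w) = w := by
    rw [← Module.End.mul_apply, LG_mul_inv]
    rfl
  have h2 : H (LG g⁻¹ w) b = H w (LG g b) := by
    rw [← LG_herm g (LG g⁻¹ w) b, h1]
  simp only [tvF]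
  rw [map_sub, map_smul, h1, h2]

/-- A frame matrix. -/
def frameMat (a₀ a₁ a₂ : V3) : Matrix (Fin 3) (Fin 3) F := Matrix.of (fun i j => ![a₀, a₁, a₂] j i)

theorem frame_mulVec (a₀ a₁ a₂ u : V3) : frameMat a₀ a₁ a₂ *ᵥ u = u 0 • a₀ + u 1 • a₁ + u 2 • a₂ := by
  funext i
  simp [frameMat, mulVec, dotProduct, Fin.sum_univ_three]
  ring

theorem frame_herm (hF : Fintype.card F = q ^ 2) {a₀ a₁ a₂ : V3} (h00 : H a₀ a₀ = 1) (h11 : H a₁ a₁ = 1) (h22 : H a₂ a₂ = 1)
    (h01 : H a₀ a₁ = 0) (h02 : H a₀ a₂ = 0) (h12 : H a₁ a₂ = 0) (u w : V3) :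
    H (frameMat a₀ a₁ a₂ *ᵥ u) (frameMat a₀ a₁ a₂ *ᵥ w) = H u w := by
  have hq := two_le_q hF
  have h10 : H a₁ a₀ = 0 := by rw [herm_conj hF a₀ a₁, h01]; exact zero_pow (by omega)
  have h20 : H a₂ a₀ = 0 := by rw [herm_conj hF a₀ a₂, h02]; exact zero_pow (by omega)
  have h21 : H a₂ a₁ = 0 := by rw [herm_conj hF a₁ a₂, h12]; exact zero_pow (by omega)
  rw [frame_mulVec, frame_mulVec]
  simp only [herm_add_left, herm_add_right hF, herm_smul_left, herm_smul_right, h00, h11, h22, h01, h02, h12, h10, h20, h21]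
  rw [herm_apply, Fin.sum_univ_three]
  ring

theorem frame_det_norm (hF : Fintype.card F = q ^ 2) {a₀ a₁ a₂ : V3} (h00 : H a₀ a₀ = 1) (h11 : H a₁ a₁ = 1) (h22 : H a₂ a₂ = 1)
    (h01 : H a₀ a₁ = 0) (h02 : H a₀ a₂ = 0) (h12 : H a₁ a₂ = 0) : (frameMat a₀ a₁ a₂).det ^ (q + 1) = 1 := by
  have hq := two_le_q hF
  have h := gu_matrix (frameMat a₀ a₁ a₂) (frame_herm hF h00 h11 h22 h01 h02 h12) (q := q) (by omega)
  have h2 := congrArg Matrix.det h
  rw [det_mul, det_transpose, det_one] at h2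
  have h3 : ((frameMat a₀ a₁ a₂).map (fun x => x ^ q)).det = (frameMat a₀ a₁ a₂).det ^ q := by
    have h4 := RingHom.map_det (frobQ hF) (frameMat a₀ a₁ a₂)
    rw [frobQ_apply] at h4
    rw [h4]
    congr 1
    ext i j
    simp [frobQ_apply]
  rw [h3] at h2
  rw [pow_succ']
  exact h2

theorem frame_det_smul (a₀ a₁ a₂ : V3) (c : F) : (frameMat a₀ a₁ (c • a₂)).det = c * (frameMat a₀ a₁ a₂).det := by
  simp only [Matrix.det_fin_three, frameMat, Matrix.of_apply]
  simp
  ring

/-- Transitivity on unit vectors. -/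
theorem exists_frame (hF : Fintype.card F = q ^ 2) (v : V3) (hv : H v v = 1) :
    ∃ g : SU3, LG g (Pi.single 0 1) = v := by
  classical
  have hq := two_le_q hF
  set B := hermB hF 3 with hB
  have hBv : B v v ≠ 0 := by
    rw [hB, hermB_apply, hv]
    exact one_ne_zero
  have hdim : finrank F (vecPerp B v) = 2 := by
    have h1 := finrank_vecPerp B hBv
    have h2 : finrank F (Fin 3 → F) = 3 := by simp
    omega
  obtain ⟨b, hb⟩ := exists_orthonormal_basis (frobQ hF) (frobQ_ne_id hF) (frobQ_frobQ hF) 2 (vecPerp B v) (sesqRestrict B (vecPerp B v))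
    (sesqRestrict_isSymm _ (hermB_isSymm hF 3) _) (vecPerp_nondeg B (hermB_isSymm hF 3) (hermB_nondeg hF 3) hBv) hdim
  set a₁ : V3 := (b 0 : V3) with ha₁
  set a₂ : V3 := (b 1 : V3) with ha₂
  have hperp : ∀ x : vecPerp B v, H (x : V3) v = 0 := fun x => x.2
  have h01 : H v a₁ = 0 := by
    rw [herm_conj hF a₁ v, hperp]
    exact zero_pow (by omega)
  have h02 : H v a₂ = 0 := by
    rw [herm_conj hF a₂ v, hperp]
    exact zero_pow (by omega)
  have h11 : H a₁ a₁ = 1 := by
    have := hb 0 0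
    rw [sesqRestrict_apply, if_pos rfl] at this
    exact this
  have h22 : H a₂ a₂ = 1 := by
    have := hb 1 1
    rw [sesqRestrict_apply, if_pos rfl] at this
    exact this
  have h12 : H a₁ a₂ = 0 := by
    have := hb 1 0
    rw [sesqRestrict_apply, if_neg (by decide)] at this
    exact this
  set d := (frameMat v a₁ a₂).det with hd
  have hdn := frame_det_norm hF hv h11 h22 h01 h02 h12
  have hd0 : d ≠ 0 := by
    intro h
    rw [← hd, h, zero_pow (by omega)] at hdn
    exact zero_ne_one hdn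
  have hdq : d⁻¹ ^ q * d⁻¹ = 1 := by
    have hdn' : d ^ (q + 1) = 1 := hdn
    rw [← pow_succ, inv_pow, hdn', inv_one]
  set a₃ := d⁻¹ • a₂ with ha₃
  have h33 : H a₃ a₃ = 1 := by
    rw [ha₃, herm_smul_left, herm_smul_right, h22, mul_one, mul_comm]
    exact hdq
  have h03 : H v a₃ = 0 := by
    rw [ha₃, herm_smul_right, h02, mul_zero]
  have h13 : H a₁ a₃ = 0 := by
    rw [ha₃, herm_smul_right, h12, mul_zero]
  have hdet : (frameMat v a₁ a₃).det = 1 := by
    rw [ha₃, frame_det_smul, ← hd, inv_mul_cancel₀ hd0]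
  refine ⟨⟨⟨frameMat v a₁ a₃, hdet⟩, ?_⟩, ?_⟩
  · intro u w
    exact frame_herm hF hv h11 h33 h01 h03 h13 u w
  · change frameMat v a₁ a₃ *ᵥ _ = v
    rw [frame_mulVec]
    simp

/-- Orthonormal triples span. -/
theorem frame_expand (hF : Fintype.card F = q ^ 2) {a₀ a₁ a₂ : V3} (h00 : H a₀ a₀ = 1) (h11 : H a₁ a₁ = 1) (h22 : H a₂ a₂ = 1)
    (h01 : H a₀ a₁ = 0) (h02 : H a₀ a₂ = 0) (h12 : H a₁ a₂ = 0) (z : V3) :
    z = H z a₀ • a₀ + H z a₁ • a₁ + H z a₂ • a₂ := by
  have hq := two_le_q hF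
  have h10 : H a₁ a₀ = 0 := by rw [herm_conj hF a₀ a₁, h01]; exact zero_pow (by omega)
  have h20 : H a₂ a₀ = 0 := by rw [herm_conj hF a₀ a₂, h02]; exact zero_pow (by omega)
  have h21 : H a₂ a₁ = 0 := by rw [herm_conj hF a₁ a₂, h12]; exact zero_pow (by omega)
  have hdn := frame_det_norm hF h00 h11 h22 h01 h02 h12
  have hd0 : (frameMat a₀ a₁ a₂).det ≠ 0 := by
    intro h
    rw [h, zero_pow (by omega)] at hdn
    exact zero_ne_one hdn
  have hU : IsUnit (frameMat a₀ a₁ a₂) := (Matrix.isUnit_iff_isUnit_det _).2 (isUnit_iff_ne_zero.2 hd0)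
  obtain ⟨c, hc⟩ : ∃ c, frameMat a₀ a₁ a₂ *ᵥ c = z := by
    refine ⟨(frameMat a₀ a₁ a₂)⁻¹ *ᵥ z, ?_⟩
    rw [mulVec_mulVec, Matrix.mul_nonsing_inv _ (isUnit_iff_ne_zero.2 hd0), one_mulVec]
  rw [frame_mulVec] at hc
  subst hc
  simp only [herm_add_left, herm_smul_left, h00, h11, h22, h01, h02, h12, h10, h20, h21]
  simp

end Cfsg.Agent.Lib.Known.SU3Inv
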