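import Cfsg.Agent.Lib.Known.SU3Inv1

/-!
# Involutions of `SU_3(q)`, `q` odd
-/

set_option autoImplicit false
set_option linter.unusedVariables false
set_option linter.unusedSectionVars false
set_option linter.unusedSimpArgs false

namespace Cfsg.Agent.Lib.Known.SU3Inv

open Matrix Module Cfsg.Agent.Lib.Classical Cfsg.Agent.Lib.Known.FPF

variable {F : Type*} [Field F] [Fintype F] {q : ℕ}

local notation "H" => Cfsg.hermForm 3 F q
local notation "V3" => (Fin 3 → F)
local notation "SU3" => (SU3G F q)

/-- Every involution is a reflection. -/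
theorem exists_tvS (hF : Fintype.card F = q ^ 2) (hodd : Odd q) (x : SU3) (hx1 : x ≠ 1) (hx2 : x * x = 1) :
    ∃ (b : V3) (hb : H b b = 1), x = tvS hF b hb := by
  classical
  have h2 := two_ne hF hodd
  have hq := two_le_q hF
  set M : Matrix (Fin 3) (Fin 3) F := x.1.1 with hM
  have hMM : M * M = 1 := congrArg (fun g : SU3 => (g.1.1 : Matrix (Fin 3) (Fin 3) F)) hx2
  have hdet : M.det = 1 := x.1.2
  obtain ⟨B, hB⟩ := exists_eigenbasis M hMM h2
  have hn1 : (1 : F) ≠ -1 := by
    intro h
    apply h2
    linear_combination h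
  obtain ⟨ε, hε, hεv⟩ : ∃ ε : Fin 3 → F, (∀ i, M *ᵥ B i = ε i • B i) ∧ ∀ i, ε i = 1 ∨ ε i = -1 := by
    choose ε hε hε2 using (fun i => show ∃ c : F, M *ᵥ B i = c • B i ∧ (c = 1 ∨ c = -1) by
      rcases hB i with h | h
      · exact ⟨1, by rw [one_smul]; exact h, Or.inl rfl⟩
      · exact ⟨-1, by rw [neg_one_smul]; exact h, Or.inr rfl⟩)
    exact ⟨ε, hε, hε2⟩
  -- the determinant
  have hdetε : ε 0 * ε 1 * ε 2 = 1 := by
    have h1 : LinearMap.toMatrix B B (Matrix.toLin' M) = Matrix.diagonal ε := by
      ext i j
      rw [LinearMap.toMatrix_apply, Matrix.toLin'_apply, hε j, map_smul, B.repr_self, Matrix.diagonal_apply]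
      simp only [Finsupp.smul_single, smul_eq_mul, mul_one, Finsupp.single_apply]
      by_cases hij : i = j
      · subst hij
        simp
      · simp [hij, Ne.symm hij]
    have h3 := LinearMap.det_toMatrix B (Matrix.toLin' M)
    rw [h1, LinearMap.det_toLin', Matrix.det_diagonal, hdet, Fin.prod_univ_three] at h3
    exact h3
  -- exactly one plus
  have hne : ¬ ∀ i, ε i = 1 := by
    intro hall
    apply hx1
    apply Subtype.ext
    apply Subtype.ext
    change M = 1
    have h1 : Matrix.toLin' M = LinearMap.id := by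
      apply B.ext
      intro i
      rw [Matrix.toLin'_apply, hε i, hall i, one_smul]
      rfl
    have := Matrix.toLin'.injective (h1.trans Matrix.toLin'_one.symm)
    exact this
  obtain ⟨i₀, hi₀, hj₀⟩ : ∃ i₀, ε i₀ = 1 ∧ ∀ j, j ≠ i₀ → ε j = -1 := by
    rcases hεv 0 with h0 | h0 <;> rcases hεv 1 with h1 | h1 <;> rcases hεv 2 with h3 | h3
    · exact absurd (by intro i; fin_cases i <;> simpa) hne
    · exfalso
      rw [h0, h1, h3] at hdetε
      apply hn1
      linear_combination -hdetε
    · exfalso
      rw [h0, h1, h3] at hdetε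
      apply hn1
      linear_combination -hdetε
    · refine ⟨0, h0, ?_⟩
      intro j hj
      fin_cases j
      · exact absurd rfl hj
      · exact h1
      · exact h3
    · exfalso
      rw [h0, h1, h3] at hdetε
      apply hn1
      linear_combination -hdetε
    · refine ⟨1, h1, ?_⟩
      intro j hj
      fin_cases j
      · exact h0
      · exact absurd rfl hj
      · exact h3
    · refine ⟨2, h3, ?_⟩
      intro j hj
      fin_cases j
      · exact h0
      · exact h1
      · exact absurd rfl hj
    · exfalso
      rw [h0, h1, h3] at hdetε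
      apply hn1
      linear_combination -hdetε
  -- orthogonality
  set c := B i₀ with hc
  have hMc : M *ᵥ c = c := by
    rw [hc, hε i₀, hi₀, one_smul]
  have hMj : ∀ j, j ≠ i₀ → M *ᵥ B j = - B j := by
    intro j hj
    rw [hε j, hj₀ j hj, neg_one_smul]
  have hisom : ∀ u w, H (M *ᵥ u) (M *ᵥ w) = H u w := x.2
  have hjc : ∀ j, j ≠ i₀ → H (B j) c = 0 := by
    intro j hj
    have h1 := hisom (B j) c
    rw [hMc, hMj j hj, ← neg_one_smul F (B j), herm_smul_left] at h1
    have h3 : 2 * H (B j) c = 0 := by linear_combination -h1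
    exact (mul_eq_zero.1 h3).resolve_left h2
  have hcc : H c c ≠ 0 := by
    intro h0
    have h1 : ∀ w, H w c = 0 := by
      intro w
      rw [← B.sum_repr w]
      have : H (∑ i, B.repr w i • B i) c = ∑ i, B.repr w i * H (B i) c := by
        simp only [herm_apply, Pi.smul_apply, smul_eq_mul, Finset.sum_apply, Finset.sum_mul, Finset.mul_sum, mul_assoc]
        rw [Finset.sum_comm]
      rw [this]
      apply Finset.sum_eq_zero
      intro i _
      by_cases hi : i = i₀
      · subst hi
        rw [show H (B i) c = H c c from rfl, h0, mul_zero]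
      · rw [hjc i hi, mul_zero]
    have h3 : c = 0 := by
      apply herm_nondeg_right hF
      intro u
      rw [herm_conj hF u c, h1 u]
      exact zero_pow (by omega)
    exact B.ne_zero i₀ h3
  -- normalise
  have hcq : frobQ hF (H c c)⁻¹ = (H c c)⁻¹ := by
    rw [map_inv₀, frobQ_apply, ← herm_conj hF]
  obtain ⟨l, hl⟩ := exists_norm_eq (frobQ hF) (frobQ_ne_id hF) (frobQ_frobQ hF) (H c c)⁻¹ (inv_ne_zero hcc) hcq
  rw [frobQ_apply] at hl
  have hl1 : l * l ^ q * H c c = 1 := by
    rw [hl, inv_mul_cancel₀ hcc]
  set v := l • c with hv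
  have hvv : H v v = 1 := by
    rw [hv, herm_smul_left, herm_smul_right]
    linear_combination hl1
  refine ⟨v, hvv, ?_⟩
  apply su3_ext
  intro w
  have h1 : LG x = Matrix.toLin' M := rfl
  have h3 : Matrix.toLin' M = LG (tvS hF v hvv) := by
    apply B.ext
    intro j
    rw [LG_tvS, Matrix.toLin'_apply, tvF]
    by_cases hj : j = i₀
    · subst hj
      change M *ᵥ c = (2 * H c v) • v - c
      rw [hMc, hv, herm_smul_right, smul_smul]
      have : 2 * (l ^ q * H c c) * l = 2 := by
        linear_combination 2 * hl1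
      rw [this, two_smul]
      simp
    · rw [hMj j hj, hv, herm_smul_right, hjc j hj]
      simp
  rw [h1, h3]

/-- The reflection determines the vector up to a norm one scalar. -/
theorem tvS_eq_iff (hF : Fintype.card F = q ^ 2) (hodd : Odd q) {b c : V3} (hb : H b b = 1) (hc : H c c = 1) :
    tvS hF b hb = tvS hF c hc ↔ ∃ l : F, l ^ (q + 1) = 1 ∧ c = l • b := by
  have h2 := two_ne hF hodd
  constructor
  · intro h
    have h1 : tvF q b c = tvF q c c := by
      rw [← LG_tvS hF b hb, ← LG_tvS hF c hc, h]
    have h3 : tvF q c c = c := by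
      rw [tvF, hc, mul_one, two_smul]
      simp
    rw [h3, tvF] at h1
    have h4 : (2 : F) • (H c b • b) = (2 : F) • c := by
      rw [smul_smul, two_smul F c]
      nth_rw 3 [← h1]
      simp
    have h5 : H c b • b = c := smul_right_injective _ h2 h4
    refine ⟨H c b, ?_, h5.symm⟩
    have h6 : H c c = (H c b) ^ (q + 1) := by
      conv_lhs => rw [← h5]
      rw [herm_smul_left, herm_smul_right, hb, pow_succ]
      ring
    rw [← h6, hc]
  · rintro ⟨l, hl, rfl⟩
    apply su3_ext
    intro w
    rw [LG_tvS, LG_tvS, tvF, tvF, herm_smul_right, smul_smul]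
    congr 2
    rw [pow_succ] at hl
    linear_combination (-2 * (H w b)) * hl

theorem herm_zero_symm (hF : Fintype.card F = q ^ 2) {a b : V3} (h : H a b = 0) : H b a = 0 := by
  have hq := two_le_q hF
  rw [herm_conj hF a b, h]
  exact zero_pow (by omega)

theorem tvF_comp (hF : Fintype.card F = q ^ 2) {b c : V3} (hcb : H c b = 0) (w : V3) :
    tvF q b (tvF q c w) = w - (2 * H w b) • b - (2 * H w c) • c := by
  simp only [tvF]
  rw [herm_sub_left, herm_smul_left, hcb]
  simp only [mul_zero, zero_sub, mul_neg, neg_smul]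
  abel

/-- The commuting criterion. -/
theorem commute_tvS (hF : Fintype.card F = q ^ 2) (hodd : Odd q) {b c : V3} (hb : H b b = 1) (hc : H c c = 1) :
    Commute (tvS hF b hb) (tvS hF c hc) ↔ tvS hF b hb = tvS hF c hc ∨ H b c = 0 := by
  have h2 := two_ne hF hodd
  constructor
  · intro h
    by_cases h0 : H c b = 0
    · exact Or.inr (herm_zero_symm hF h0)
    left
    -- `t_b c` is fixed by `t_c`
    have h1 : tvF q c (tvF q b c) = tvF q b c := by
      have h3 : tvF q c c = c := by
        rw [tvF, hc, mul_one, two_smul]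
        simp
      have h4 := congrArg (fun g : SU3 => LG g c) h.eq
      simp only [LG_mul, Module.End.mul_apply, LG_tvS, h3] at h4
      exact h4.symm
    set z := tvF q b c with hz
    rw [tvF] at h1
    have h5 : (2 : F) • (H z c • c) = (2 : F) • z := by
      rw [smul_smul, two_smul F z]
      nth_rw 3 [← h1]
      simp
    have h6 : H z c • c = z := smul_right_injective _ h2 h5
    have h7 : (2 * H c b) • b = (H z c + 1) • c := by
      rw [add_smul, h6, one_smul, hz, tvF]
      simp
    set l := (2 * H c b)⁻¹ * (H z c + 1) with hl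
    have h8 : b = l • c := by
      rw [hl, mul_smul, ← h7, smul_smul, inv_mul_cancel₀ (mul_ne_zero h2 h0), one_smul]
    have hb' : H (l • c) (l • c) = 1 := by
      rw [← h8]
      exact hb
    have hl1 : l ^ (q + 1) = 1 := by
      rw [herm_smul_left, herm_smul_right, hc] at hb'
      rw [pow_succ]
      linear_combination hb'
    exact ((tvS_eq_iff hF hodd hc hb).2 ⟨l, hl1, h8⟩).symm
  · rintro (h | h)
    · rw [h]
    · apply su3_ext
      intro w
      have h1 := herm_zero_symm hF h
      simp only [LG_mul, Module.End.mul_apply, LG_tvS]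
      rw [tvF_comp hF h1, tvF_comp hF h]
      abel

end Cfsg.Agent.Lib.Known.SU3Inv
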