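import Cfsg.Agent.Lib.Known.SU3Inv2

/-!
# Involutions of `SU_3(q)`, `q` odd: counting
-/

set_option autoImplicit false
set_option linter.unusedVariables false
set_option linter.unusedSectionVars false
set_option linter.unusedSimpArgs false

namespace Cfsg.Agent.Lib.Known.SU3Inv

open Matrix Module Cfsg.Agent.Lib.Classical Cfsg.Agent.Lib.Known.FPF

variable {F : Type*} [Field F] [Fintype F] {q : ℕ}

local notation "H" => Cfsg.hermForm 3 F q
local notation "V3" => (Fin 3 → F)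
local notation "SU3" => (SU3G F q)

instance su3Finite : Finite (SU3G F q) := by
  classical
  exact inferInstance

/-- Counting involutions through the unit vectors. -/
theorem count_inv (hF : Fintype.card F = q ^ 2) (hodd : Odd q) (Q : SU3 → Prop) (Q' : V3 → Prop)
    (hQ : ∀ (b : V3) (hb : H b b = 1), Q (tvS hF b hb) ↔ Q' b) :
    Nat.card {x : SU3 // (x ≠ 1 ∧ x * x = 1) ∧ Q x} * (q + 1) = Nat.card {b : V3 // H b b = 1 ∧ Q' b} := by
  classical
  have hq := two_le_q hF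
  let f : {b : V3 // H b b = 1 ∧ Q' b} → {x : SU3 // (x ≠ 1 ∧ x * x = 1) ∧ Q x} :=
    fun b => ⟨tvS hF b.1 b.2.1, ⟨tvS_ne_one hF hodd _ _, tvS_sq hF _ _⟩, (hQ _ _).2 b.2.2⟩
  have hfib : ∀ y, Nat.card {b // f b = y} = q + 1 := by
    rintro ⟨x, ⟨hx1, hx2⟩, hQx⟩
    obtain ⟨c, hc, rfl⟩ := exists_tvS hF hodd x hx1 hx2
    rw [← card_norm_one hF]
    symm
    have hQc := (hQ _ _).1 hQx
    have hlc : ∀ l : F, l ^ (q + 1) = 1 → H (l • c) (l • c) = 1 := by
      intro l hl
      rw [herm_smul_left, herm_smul_right, hc, mul_one, ← pow_succ']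
      exact hl
    have heq : ∀ l : F, ∀ hl : l ^ (q + 1) = 1, tvS hF (l • c) (hlc l hl) = tvS hF c hc := by
      intro l hl
      exact ((tvS_eq_iff hF hodd hc (hlc l hl)).2 ⟨l, hl, rfl⟩).symm
    refine Nat.card_congr (Equiv.ofBijective (fun l : {l : F // l ^ (q + 1) = 1} =>
      (⟨⟨l.1 • c, hlc l.1 l.2, ?_⟩, ?_⟩ : {b // f b = _})) ⟨?_, ?_⟩)
    · exact (hQ _ _).1 (by rw [heq l.1 l.2]; exact hQx)
    · apply Subtype.ext
      exact heq l.1 l.2
    · intro l l' h
      have h1 : l.1 • c = l'.1 • c := congrArg (fun z => z.1.1) h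
      have h3 : c ≠ 0 := unit_ne_zero hc
      exact Subtype.ext (smul_left_injective F h3 h1)
    · rintro ⟨⟨b, hb, hQb⟩, hfb⟩
      have h1 : tvS hF b hb = tvS hF c hc := congrArg Subtype.val hfb
      obtain ⟨l, hl, rfl⟩ := (tvS_eq_iff hF hodd hc hb).1 h1.symm
      exact ⟨⟨l, hl⟩, rfl⟩
  rw [← Nat.card_congr (Equiv.sigmaFiberEquiv f), Nat.card_sigma]
  simp only [hfib, Finset.sum_const, Finset.card_univ, smul_eq_mul, Nat.card_eq_fintype_card]

/-- Involutions are conjugate. -/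
theorem inv_conj (hF : Fintype.card F = q ^ 2) (hodd : Odd q) (t x : SU3) (ht1 : t ≠ 1) (ht2 : t * t = 1)
    (hx1 : x ≠ 1) (hx2 : x * x = 1) : ∃ g : SU3, g * t * g⁻¹ = x := by
  obtain ⟨b, hb, rfl⟩ := exists_tvS hF hodd t ht1 ht2
  obtain ⟨c, hc, rfl⟩ := exists_tvS hF hodd x hx1 hx2
  obtain ⟨g₁, hg₁⟩ := exists_frame hF b hb
  obtain ⟨g₂, hg₂⟩ := exists_frame hF c hc
  refine ⟨g₂ * g₁⁻¹, ?_⟩
  rw [conj_tvS]
  apply tvS_congr
  rw [LG_mul, Module.End.mul_apply, ← hg₁, ← Module.End.mul_apply (LG g₁⁻¹), LG_inv_mul, Module.End.one_apply, hg₂]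

theorem q_cube_add_one (hq : 1 ≤ q) : q ^ 3 + 1 = (q + 1) * (q ^ 2 - q + 1) := by
  obtain ⟨r, rfl⟩ : ∃ r, q = r + 1 := ⟨q - 1, by omega⟩
  have h1 : (r + 1) ^ 2 - (r + 1) + 1 = r ^ 2 + r + 1 := by
    have : (r + 1) ^ 2 = r ^ 2 + r + (r + 1) := by ring
    omega
  rw [h1]
  ring

theorem card_inv (hF : Fintype.card F = q ^ 2) (hodd : Odd q) :
    Nat.card {x : SU3 // x ≠ 1 ∧ x * x = 1} = q ^ 2 * (q ^ 2 - q + 1) := by
  have hq := two_le_q hF
  have h1 := count_inv hF hodd (fun _ => True) (fun _ => True) (fun _ _ => Iff.rfl)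
  have h2 : Nat.card {x : SU3 // (x ≠ 1 ∧ x * x = 1) ∧ True} = Nat.card {x : SU3 // x ≠ 1 ∧ x * x = 1} :=
    Nat.card_congr (Equiv.subtypeEquivRight (by simp))
  have h3 : Nat.card {b : V3 // H b b = 1 ∧ True} = Nat.card {b : V3 // H b b = 1} :=
    Nat.card_congr (Equiv.subtypeEquivRight (by simp))
  rw [h2, h3, card_norm_one_vectors hF 3] at h1
  have h4 : ¬ Even 3 := by decide
  rw [if_neg h4, q_cube_add_one (by omega)] at h1
  apply Nat.eq_of_mul_eq_mul_right (show 0 < q + 1 by omega)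
  rw [h1]
  simp only [show 3 - 1 = 2 from rfl]
  ring

theorem card_su3 (hF : Fintype.card F = q ^ 2) :
    Nat.card SU3 = q ^ 3 * (q ^ 2 - 1) * ((q + 1) * (q ^ 2 - q + 1)) := by
  have hq := two_le_q hF
  have h := card_su hF (n := 3) (by norm_num)
  apply Nat.eq_of_mul_eq_mul_left (show 0 < q + 1 by omega)
  change (q + 1) * Nat.card (Cfsg.SU 3 F q) = _
  rw [h]
  simp only [Finset.prod_range_succ, Finset.prod_range_zero, one_mul]
  have e0 : Even 0 := by decide
  have e1 : ¬ Even 1 := by decide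
  have e2 : Even 2 := by decide
  rw [if_pos e0, if_neg e1, if_pos e2]
  rw [q_cube_add_one (by omega)]
  simp only [show 3 * (3 - 1) / 2 = 3 from rfl, show 0 + 1 = 1 from rfl, show 1 + 1 = 2 from rfl, show 2 + 1 = 3 from rfl, pow_one]
  ring

theorem card_centralizer (hF : Fintype.card F = q ^ 2) (hodd : Odd q) (t : SU3) (ht1 : t ≠ 1) (ht2 : t * t = 1) :
    Nat.card ↥(Subgroup.centralizer ({t} : Set SU3)) = q * (q + 1) * (q ^ 2 - 1) := by
  classical
  have hq := two_le_q hF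
  letI : Fintype SU3 := Fintype.ofFinite _
  let S : Finset SU3 := Finset.univ.filter (fun x => x ≠ 1 ∧ x * x = 1)
  have hmem : ∀ x, x ∈ S ↔ x ≠ 1 ∧ x * x = 1 := by
    intro x
    simp [S]
  have hcount := Cfsg.Agent.Lib.Known.Weil.count_of_trans (G := SU3) (Y := SU3) (fun g y => g * y * g⁻¹)
    (by intro y; simp) (by intro g h y; simp only [_root_.mul_inv_rev]; group) S
    (by
      intro y hy g
      rw [hmem] at hy ⊢
      refine ⟨?_, ?_⟩
      · intro h
        apply hy.1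
        have : y = g⁻¹ * (g * y * g⁻¹) * g := by group
        rw [this, h]
        group
      · have : g * y * g⁻¹ * (g * y * g⁻¹) = g * (y * y) * g⁻¹ := by group
        rw [this, hy.2]
        group)
    (by
      intro y hy y' hy'
      rw [hmem] at hy hy'
      exact inv_conj hF hodd y y' hy.1 hy.2 hy'.1 hy'.2)
    (y := t) (y' := t) ((hmem t).2 ⟨ht1, ht2⟩) ((hmem t).2 ⟨ht1, ht2⟩)
  have hS : S.card = q ^ 2 * (q ^ 2 - q + 1) := by
    rw [← card_inv hF hodd, Nat.card_eq_fintype_card, Fintype.card_subtype]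
  have hC : (Finset.univ.filter (fun g : SU3 => g * t * g⁻¹ = t)).card =
      Nat.card ↥(Subgroup.centralizer ({t} : Set SU3)) := by
    rw [Nat.card_eq_fintype_card, ← Fintype.card_subtype]
    apply Fintype.card_congr
    apply Equiv.subtypeEquivRight
    intro g
    rw [Subgroup.mem_centralizer_iff]
    simp only [Set.mem_singleton_iff, forall_eq]
    constructor
    · intro h
      rw [mul_inv_eq_iff_eq_mul] at h
      exact h.symm
    · intro h
      rw [mul_inv_eq_iff_eq_mul]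
      exact h.symm
  have hG : Fintype.card SU3 = q ^ 3 * (q ^ 2 - 1) * ((q + 1) * (q ^ 2 - q + 1)) := by
    rw [← card_su3 hF, Nat.card_eq_fintype_card]
  rw [hC, hS, hG] at hcount
  have hW : 0 < q ^ 2 * (q ^ 2 - q + 1) := by positivity
  apply Nat.eq_of_mul_eq_mul_right hW
  rw [hcount]
  ring

/-- The third involution. -/
theorem third_inv (hF : Fintype.card F = q ^ 2) (hodd : Odd q) (t x : SU3) (ht1 : t ≠ 1) (ht2 : t * t = 1)
    (hx1 : x ≠ 1) (hx2 : x * x = 1) (hxt : x ≠ t) (hc : Commute t x) :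
    Nat.card {y : SU3 // y ≠ 1 ∧ y * y = 1 ∧ y ≠ t ∧ y ≠ x ∧ Commute t y ∧ Commute x y} = 1 := by
  have h2 := two_ne hF hodd
  rw [Nat.card_eq_one_iff_unique]
  obtain ⟨v, hv, rfl⟩ := exists_tvS hF hodd t ht1 ht2
  obtain ⟨w, hw, rfl⟩ := exists_tvS hF hodd x hx1 hx2
  have hvw : H v w = 0 := ((commute_tvS hF hodd hv hw).1 hc).resolve_left (fun h => hxt h.symm)
  have hwv : H w v = 0 := herm_zero_symm hF hvw
  have huniq : ∀ y : SU3, y ≠ 1 → y * y = 1 → y ≠ tvS hF v hv → y ≠ tvS hF w hw →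
      Commute (tvS hF v hv) y → Commute (tvS hF w hw) y → y = tvS hF v hv * tvS hF w hw := by
    intro y hy1 hy2 hyt hyx hty hxy
    obtain ⟨a, ha, rfl⟩ := exists_tvS hF hodd y hy1 hy2
    have hva : H v a = 0 := ((commute_tvS hF hodd hv ha).1 hty).resolve_left (fun h => hyt h.symm)
    have hwa : H w a = 0 := ((commute_tvS hF hodd hw ha).1 hxy).resolve_left (fun h => hyx h.symm)
    have hav : H a v = 0 := herm_zero_symm hF hva
    have haw : H a w = 0 := herm_zero_symm hF hwa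
    apply su3_ext
    intro u
    rw [LG_mul, Module.End.mul_apply, LG_tvS, LG_tvS, LG_tvS, tvF_comp hF hwv, tvF]
    have hexp := frame_expand hF hv hw ha hvw hva hwa u
    have h3 : (2 : F) • u = (2 * H u v) • v + (2 * H u w) • w + (2 * H u a) • a := by
      nth_rw 1 [hexp]
      simp only [smul_add, smul_smul]
    have h4 : (2 * H u a) • a = (2 : F) • u - (2 * H u v) • v - (2 * H u w) • w := by
      rw [h3]
      abel
    rw [h4, two_smul F u]
    abel
  refine ⟨⟨?_⟩, ⟨⟨tvS hF v hv * tvS hF w hw, ?_, ?_, ?_, ?_, ?_, ?_⟩⟩⟩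
  · rintro ⟨y, hy1, hy2, hyt, hyx, hty, hxy⟩ ⟨y', hy1', hy2', hyt', hyx', hty', hxy'⟩
    apply Subtype.ext
    exact (huniq y hy1 hy2 hyt hyx hty hxy).trans (huniq y' hy1' hy2' hyt' hyx' hty' hxy').symm
  · intro h
    apply hxt
    have : tvS hF v hv = (tvS hF w hw)⁻¹ := eq_inv_of_mul_eq_one_left h
    rw [this]
    exact (eq_inv_of_mul_eq_one_left hx2)
  · calc tvS hF v hv * tvS hF w hw * (tvS hF v hv * tvS hF w hw)
        = tvS hF v hv * (tvS hF w hw * tvS hF v hv) * tvS hF w hw := by group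
      _ = tvS hF v hv * (tvS hF v hv * tvS hF w hw) * tvS hF w hw := by rw [hc.eq]
      _ = (tvS hF v hv * tvS hF v hv) * (tvS hF w hw * tvS hF w hw) := by group
      _ = 1 := by rw [ht2, hx2, one_mul]
  · intro h
    apply hx1
    exact mul_eq_left.1 h
  · intro h
    apply ht1
    exact mul_eq_right.1 h
  · exact (Commute.refl _).mul_right hc
  · exact hc.symm.mul_right (Commute.refl _)

end Cfsg.Agent.Lib.Known.SU3Inv
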