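import Cfsg.Agent.Lib.Known.SU3Inv3

/-!
# The commuting involution graph of `SU_3(q)`, `q` odd
-/

set_option autoImplicit false
set_option linter.unusedVariables false
set_option linter.unusedSectionVars false
set_option linter.unusedSimpArgs false

namespace Cfsg.Agent.Lib.Known.SU3Inv

open Matrix Module Cfsg.Agent.Lib.Classical Cfsg.Agent.Lib.Known.FPF

variable {F : Type*} [Field F] [Fintype F] {q : ℕ}

local notation "H" => Cfsg.hermForm 3 F q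
local notation "H2" => Cfsg.hermForm 2 F q
local notation "V3" => (Fin 3 → F)
local notation "SU3" => (SU3G F q)

theorem card_split {α : Type*} [Finite α] (P R : α → Prop) :
    Nat.card {x // P x} = Nat.card {x // P x ∧ R x} + Nat.card {x // P x ∧ ¬ R x} := by
  classical
  letI := Fintype.ofFinite α
  simp only [Nat.card_eq_fintype_card, Fintype.card_subtype]
  rw [← Finset.card_filter_add_card_filter_not (s := Finset.univ.filter P) R]
  simp only [Finset.filter_filter]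

theorem herm3 (u v : V3) : H u v = u 0 * v 0 ^ q + u 1 * v 1 ^ q + u 2 * v 2 ^ q := by
  rw [herm_apply, Fin.sum_univ_three]

theorem herm2 (u v : Fin 2 → F) : H2 u v = u 0 * v 0 ^ q + u 1 * v 1 ^ q := by
  rw [herm_apply, Fin.sum_univ_two]

theorem pow_q_q (hF : Fintype.card F = q ^ 2) (x : F) : (x ^ q) ^ q = x := by
  rw [← pow_mul, ← sq, ← hF, FiniteField.pow_card]

/-- Normalising a non-isotropic vector. -/
theorem exists_normalize (hF : Fintype.card F = q ^ 2) (c : V3) (hc : H c c ≠ 0) :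
    ∃ l : F, H (l • c) (l • c) = 1 := by
  have hcq : frobQ hF (H c c)⁻¹ = (H c c)⁻¹ := by
    rw [map_inv₀, frobQ_apply, ← herm_conj hF]
  obtain ⟨l, hl⟩ := exists_norm_eq (frobQ hF) (frobQ_ne_id hF) (frobQ_frobQ hF) (H c c)⁻¹ (inv_ne_zero hc) hcq
  rw [frobQ_apply] at hl
  refine ⟨l, ?_⟩
  rw [herm_smul_left, herm_smul_right]
  have h1 : l * l ^ q * H c c = 1 := by rw [hl, inv_mul_cancel₀ hc]
  linear_combination h1

def e0 (F : Type*) [Field F] : Fin 3 → F := ![1, 0, 0]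
def e1 (F : Type*) [Field F] : Fin 3 → F := ![0, 1, 0]
def e2 (F : Type*) [Field F] : Fin 3 → F := ![0, 0, 1]

theorem q_ne_zero (hF : Fintype.card F = q ^ 2) : q ≠ 0 := by
  have := two_le_q hF
  omega

theorem H_e0 (hF : Fintype.card F = q ^ 2) (b : V3) : H (e0 F) b = b 0 ^ q := by
  rw [herm3]
  simp [e0]

theorem H_e1 (hF : Fintype.card F = q ^ 2) (b : V3) : H (e1 F) b = b 1 ^ q := by
  rw [herm3]
  simp [e1]

theorem H_e2 (hF : Fintype.card F = q ^ 2) (b : V3) : H (e2 F) b = b 2 ^ q := by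
  rw [herm3]
  simp [e2]

theorem e0_unit (hF : Fintype.card F = q ^ 2) : H (e0 F) (e0 F) = 1 := by
  rw [H_e0 hF]
  simp [e0]

theorem e1_unit (hF : Fintype.card F = q ^ 2) : H (e1 F) (e1 F) = 1 := by
  rw [H_e1 hF]
  simp [e1]

theorem e2_unit (hF : Fintype.card F = q ^ 2) : H (e2 F) (e2 F) = 1 := by
  rw [H_e2 hF]
  simp [e2]

/-- The reference involution. -/
noncomputable def T0 (hF : Fintype.card F = q ^ 2) : SU3 := tvS hF (e0 F) (e0_unit hF)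

theorem pow_q_eq_zero (hF : Fintype.card F = q ^ 2) {x : F} : x ^ q = 0 ↔ x = 0 :=
  pow_eq_zero_iff (q_ne_zero hF)

theorem T0_eq_iff (hF : Fintype.card F = q ^ 2) (hodd : Odd q) {b : V3} (hb : H b b = 1) :
    T0 hF = tvS hF b hb ↔ b 1 = 0 ∧ b 2 = 0 := by
  have hq0 := q_ne_zero hF
  rw [T0, tvS_eq_iff hF hodd (e0_unit hF) hb]
  constructor
  · rintro ⟨l, hl, rfl⟩
    simp [e0]
  · rintro ⟨h1, h2⟩
    refine ⟨b 0, ?_, ?_⟩
    · rw [herm3, h1, h2] at hb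
      simp only [zero_pow hq0, mul_zero, add_zero] at hb
      rw [pow_succ']
      exact hb
    · ext i
      fin_cases i <;> simp [e0, h1, h2]

theorem comm_T0 (hF : Fintype.card F = q ^ 2) (hodd : Odd q) {b : V3} (hb : H b b = 1) :
    Commute (T0 hF) (tvS hF b hb) ↔ (b 1 = 0 ∧ b 2 = 0) ∨ b 0 = 0 := by
  rw [T0, commute_tvS hF hodd (e0_unit hF) hb, ← T0, T0_eq_iff hF hodd hb, H_e0 hF, pow_q_eq_zero hF]

theorem T0_inv (hF : Fintype.card F = q ^ 2) (hodd : Odd q) : T0 hF ≠ 1 ∧ T0 hF * T0 hF = 1 :=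
  ⟨tvS_ne_one hF hodd _ _, tvS_sq hF _ _⟩

/-- The count at distance one. -/
theorem count_a (hF : Fintype.card F = q ^ 2) :
    Nat.card {b : V3 // H b b = 1 ∧ b 0 = 0} = q * (q ^ 2 - 1) := by
  have hq0 := q_ne_zero hF
  have h1 := card_norm_one_vectors hF 2
  have h2 : Even 2 := by decide
  rw [if_pos h2, show 2 - 1 = 1 from rfl, pow_one] at h1
  rw [← h1]
  refine Nat.card_congr ⟨fun b => ⟨![b.1 1, b.1 2], ?_⟩, fun c => ⟨![0, c.1 0, c.1 1], ?_, ?_⟩, ?_, ?_⟩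
  · obtain ⟨b, hb, h0⟩ := b
    rw [herm3, h0] at hb
    rw [herm2]
    simpa [zero_pow hq0] using hb
  · obtain ⟨c, hc⟩ := c
    rw [herm2] at hc
    rw [herm3]
    simpa [zero_pow hq0] using hc
  · rfl
  · rintro ⟨b, hb, h0⟩
    apply Subtype.ext
    ext i
    fin_cases i <;> simp [h0]
  · rintro ⟨c, hc⟩
    apply Subtype.ext
    ext i
    fin_cases i <;> simp

theorem count_zero2 (hF : Fintype.card F = q ^ 2) :
    Nat.card {c : Fin 2 → F // H2 c c = 0 ∧ c ≠ 0} = (q ^ 2 - 1) * (q + 1) := by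
  have hq0 := q_ne_zero hF
  have h1 := card_norm_zero_vectors hF 2
  have h2 : Even 2 := by decide
  rw [if_pos h2, show 2 - 1 = 1 from rfl, pow_one] at h1
  rw [card_split (fun c : Fin 2 → F => H2 c c = 0) (fun c => c ≠ 0)] at h1
  have h3 : Nat.card {c : Fin 2 → F // H2 c c = 0 ∧ ¬ c ≠ 0} = 1 := by
    rw [Nat.card_eq_one_iff_unique]
    refine ⟨⟨?_⟩, ⟨⟨0, ?_, ?_⟩⟩⟩
    · rintro ⟨a, -, ha⟩ ⟨b, -, hb⟩
      apply Subtype.ext
      exact (not_not.1 ha).trans (not_not.1 hb).symm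
    · rw [herm2]
      simp [zero_pow hq0]
    · simp
  omega

/-- The count at distance three (on vectors). -/
theorem count_c (hF : Fintype.card F = q ^ 2) :
    Nat.card {b : V3 // H b b = 1 ∧ (b 0 ≠ 0 ∧ (b 1 ≠ 0 ∨ b 2 ≠ 0) ∧ b 1 * b 1 ^ q + b 2 * b 2 ^ q = 0)} =
      (q + 1) * ((q ^ 2 - 1) * (q + 1)) := by
  have hq0 := q_ne_zero hF
  rw [← count_zero2 hF, ← card_norm_one hF, ← Nat.card_prod]
  refine Nat.card_congr ⟨fun b => (⟨b.1 0, ?_⟩, ⟨![b.1 1, b.1 2], ?_, ?_⟩), fun c => ⟨![c.1.1, c.2.1 0, c.2.1 1], ?_, ?_⟩, ?_, ?_⟩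
  · obtain ⟨b, hb, h0, h1, h2⟩ := b
    rw [herm3] at hb
    change b 0 ^ (q + 1) = 1
    rw [pow_succ']
    linear_combination hb - h2
  · obtain ⟨b, hb, h0, h1, h2⟩ := b
    rw [herm2]
    simpa using h2
  · obtain ⟨b, hb, h0, h1, h2⟩ := b
    intro h
    rcases h1 with h1 | h1
    · exact h1 (by simpa using congrFun h 0)
    · exact h1 (by simpa using congrFun h 1)
  · obtain ⟨⟨α, hα⟩, ⟨c, hc, hc0⟩⟩ := c
    rw [herm3]
    rw [herm2] at hc
    rw [pow_succ'] at hα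
    simp only [Matrix.cons_val_zero, Matrix.cons_val_one, Matrix.cons_val]
    linear_combination hα + hc
  · obtain ⟨⟨α, hα⟩, ⟨c, hc, hc0⟩⟩ := c
    refine ⟨?_, ?_, ?_⟩
    · simp only [Matrix.cons_val_zero]
      rintro rfl
      rw [zero_pow (by omega)] at hα
      exact zero_ne_one hα
    · simp only [Matrix.cons_val_one, Matrix.cons_val]
      by_contra h
      push Not at h
      apply hc0
      ext i
      fin_cases i
      · exact h.1
      · exact h.2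
    · rw [herm2] at hc
      simpa using hc
  · rintro ⟨b, hb, h0, h1, h2⟩
    apply Subtype.ext
    ext i
    fin_cases i <;> simp
  · rintro ⟨⟨α, hα⟩, ⟨c, hc, hc0⟩⟩
    apply Prod.ext
    · rfl
    · apply Subtype.ext
      ext i
      fin_cases i <;> simp

/-- A perpendicular unit vector with zero first coordinate. -/
theorem exists_perp (hF : Fintype.card F = q ^ 2) (hodd : Odd q) (b : V3)
    (hn : b 1 * b 1 ^ q + b 2 * b 2 ^ q ≠ 0) : ∃ a : V3, H a a = 1 ∧ a 0 = 0 ∧ H a b = 0 := by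
  have hq0 := q_ne_zero hF
  set a' : V3 := ![0, -(b 2 ^ q), b 1 ^ q] with ha'
  have h1 : H a' a' ≠ 0 := by
    rw [herm3, ha']
    simp only [Matrix.cons_val_zero, Matrix.cons_val_one, Matrix.cons_val, zero_pow hq0, mul_zero, zero_add, hodd.neg_pow, pow_q_q hF]
    intro h
    apply hn
    linear_combination h
  obtain ⟨l, hl⟩ := exists_normalize hF a' h1
  refine ⟨l • a', hl, ?_, ?_⟩
  · simp [ha']
  · rw [herm_smul_left, herm3, ha']
    simp only [Matrix.cons_val_zero, Matrix.cons_val_one, Matrix.cons_val]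
    ring

/-- The characterisation of the last class. -/
theorem not_comm_iff (hF : Fintype.card F = q ^ 2) (hodd : Odd q) {b : V3} (hb : H b b = 1) :
    ¬ Commute (T0 hF) (tvS hF b hb) ↔ b 0 ≠ 0 ∧ (b 1 ≠ 0 ∨ b 2 ≠ 0) := by
  rw [comm_T0 hF hodd hb]
  tauto

theorem exists_y_iff (hF : Fintype.card F = q ^ 2) (hodd : Odd q) {b : V3} (hb : H b b = 1)
    (h : ¬ Commute (T0 hF) (tvS hF b hb)) :
    (∃ y : SU3, y ≠ 1 ∧ y * y = 1 ∧ Commute (T0 hF) y ∧ Commute y (tvS hF b hb)) ↔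
      b 1 * b 1 ^ q + b 2 * b 2 ^ q ≠ 0 := by
  have hq0 := q_ne_zero hF
  have h012 := (not_comm_iff hF hodd hb).1 h
  constructor
  · rintro ⟨y, hy1, hy2, hty, hyx⟩ hn
    obtain ⟨a, ha, rfl⟩ := exists_tvS hF hodd y hy1 hy2
    have ha0 : a 0 = 0 := by
      rcases (comm_T0 hF hodd ha).1 hty with h1 | h1
      · exfalso
        rw [← T0_eq_iff hF hodd ha] at h1
        rw [← h1] at hyx
        exact h hyx
      · exact h1
    have hab : H a b = 0 := by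
      rcases (commute_tvS hF hodd ha hb).1 hyx with h1 | h1
      · exfalso
        rw [← h1] at h
        exact h hty
      · exact h1
    rw [herm3, ha0, zero_mul, zero_add] at hab
    rw [herm3, ha0, zero_mul, zero_add] at ha
    -- the conjugate equation
    have hab' : a 1 ^ q * b 1 + a 2 ^ q * b 2 = 0 := by
      have h1 := congrArg (frobQ hF) hab
      simp only [map_add, map_mul, map_zero, frobQ_apply, pow_q_q hF] at h1
      exact h1
    have hb1 : b 1 * b 1 ^ q = 0 := by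
      have h3 : (a 1 * a 1 ^ q + a 2 * a 2 ^ q) * (b 1 * b 1 ^ q) = 0 := by
        linear_combination (a 1 ^ q * b 1) * hab + (-a 2 * b 2 ^ q) * hab' + (a 2 * a 2 ^ q) * hn
      rw [ha, one_mul] at h3
      exact h3
    have hb2 : b 2 * b 2 ^ q = 0 := by
      linear_combination hn - hb1
    have h10 : b 1 = 0 := by
      rcases mul_eq_zero.1 hb1 with h3 | h3
      · exact h3
      · exact (pow_q_eq_zero hF).1 h3
    have h20 : b 2 = 0 := by
      rcases mul_eq_zero.1 hb2 with h3 | h3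
      · exact h3
      · exact (pow_q_eq_zero hF).1 h3
    rcases h012.2 with h3 | h3
    · exact h3 h10
    · exact h3 h20
  · intro hn
    obtain ⟨a, ha, ha0, hab⟩ := exists_perp hF hodd b hn
    refine ⟨tvS hF a ha, tvS_ne_one hF hodd _ _, tvS_sq hF _ _, ?_, ?_⟩
    · exact (comm_T0 hF hodd ha).2 (Or.inr ha0)
    · exact (commute_tvS hF hodd ha hb).2 (Or.inr hab)

/-- Connectivity. -/
theorem connect_aux (hF : Fintype.card F = q ^ 2) (hodd : Odd q) {a b c : V3} (ha : H a a = 1) (ha0 : a 0 = 0)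
    (hac : H a c = 0) (hcb : H c b = 0) (hcc : H c c ≠ 0) (hb : H b b = 1) :
    ∃ y z : SU3, y ≠ 1 ∧ y * y = 1 ∧ z ≠ 1 ∧ z * z = 1 ∧
      Commute (T0 hF) y ∧ Commute y z ∧ Commute z (tvS hF b hb) := by
  obtain ⟨l, hl⟩ := exists_normalize hF c hcc
  refine ⟨tvS hF a ha, tvS hF (l • c) hl, tvS_ne_one hF hodd _ _, tvS_sq hF _ _, tvS_ne_one hF hodd _ _, tvS_sq hF _ _, ?_, ?_, ?_⟩
  · exact (comm_T0 hF hodd ha).2 (Or.inr ha0)
  · refine (commute_tvS hF hodd ha hl).2 (Or.inr ?_)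
    rw [herm_smul_right, hac, mul_zero]
  · refine (commute_tvS hF hodd hl hb).2 (Or.inr ?_)
    rw [herm_smul_left, hcb, mul_zero]

theorem connect (hF : Fintype.card F = q ^ 2) (hodd : Odd q) (x : SU3) (hx1 : x ≠ 1) (hx2 : x * x = 1) :
    ∃ y z : SU3, y ≠ 1 ∧ y * y = 1 ∧ z ≠ 1 ∧ z * z = 1 ∧
      Commute (T0 hF) y ∧ Commute y z ∧ Commute z x := by
  have hq0 := q_ne_zero hF
  have h2 := two_ne hF hodd
  obtain ⟨b, hb, rfl⟩ := exists_tvS hF hodd x hx1 hx2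
  by_cases hn : b 1 * b 1 ^ q + b 2 * b 2 ^ q = 0
  · have hb' := hb
    rw [herm3] at hb'
    by_cases h3 : b 2 * b 2 ^ q + 1 = 0
    · -- use `e₂`
      refine connect_aux hF hodd (c := ![b 1 ^ q, -(b 0 ^ q), 0]) (e2_unit hF) (by simp [e2]) ?_ ?_ ?_ hb
      · rw [H_e2 hF]
        simp [zero_pow hq0]
      · rw [herm3]
        simp only [Matrix.cons_val_zero, Matrix.cons_val_one, Matrix.cons_val]
        ring
      · rw [herm3]
        simp only [Matrix.cons_val_zero, Matrix.cons_val_one, Matrix.cons_val, hodd.neg_pow, pow_q_q hF, zero_pow hq0, mul_zero, add_zero]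
        intro h
        apply h2
        linear_combination h - hb' + h3
    · -- use `e₁`
      refine connect_aux hF hodd (c := ![b 2 ^ q, 0, -(b 0 ^ q)]) (e1_unit hF) (by simp [e1]) ?_ ?_ ?_ hb
      · rw [H_e1 hF]
        simp [zero_pow hq0]
      · rw [herm3]
        simp only [Matrix.cons_val_zero, Matrix.cons_val_one, Matrix.cons_val]
        ring
      · rw [herm3]
        simp only [Matrix.cons_val_zero, Matrix.cons_val_one, Matrix.cons_val, hodd.neg_pow, pow_q_q hF, zero_pow hq0, mul_zero, add_zero, zero_mul, zero_add]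
        intro h
        apply h3
        linear_combination h - hb' + hn
  · obtain ⟨a, ha, ha0, hab⟩ := exists_perp hF hodd b hn
    refine ⟨tvS hF a ha, tvS hF a ha, tvS_ne_one hF hodd _ _, tvS_sq hF _ _, tvS_ne_one hF hodd _ _, tvS_sq hF _ _, ?_, Commute.refl _, ?_⟩
    · exact (comm_T0 hF hodd ha).2 (Or.inr ha0)
    · exact (commute_tvS hF hodd ha hb).2 (Or.inr hab)

/-- Four counts at the reference involution. -/
theorem main_a (hF : Fintype.card F = q ^ 2) (hodd : Odd q) :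
    Nat.card {x : SU3 // x ≠ 1 ∧ x * x = 1 ∧ x ≠ T0 hF ∧ Commute (T0 hF) x} = q * (q - 1) := by
  have hq := two_le_q hF
  have h1 := count_inv hF hodd (fun x => x ≠ T0 hF ∧ Commute (T0 hF) x) (fun b => b 0 = 0) (by
    intro b hb
    constructor
    · rintro ⟨h1, h3⟩
      rcases (comm_T0 hF hodd hb).1 h3 with h4 | h4
      · exact absurd ((T0_eq_iff hF hodd hb).2 h4).symm h1
      · exact h4
    · intro h0
      refine ⟨?_, (comm_T0 hF hodd hb).2 (Or.inr h0)⟩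
      intro h3
      obtain ⟨h4, h5⟩ := (T0_eq_iff hF hodd hb).1 h3.symm
      apply unit_ne_zero hb
      ext i
      fin_cases i
      · exact h0
      · exact h4
      · exact h5)
  rw [count_a hF] at h1
  have h3 : Nat.card {x : SU3 // (x ≠ 1 ∧ x * x = 1) ∧ x ≠ T0 hF ∧ Commute (T0 hF) x} =
      Nat.card {x : SU3 // x ≠ 1 ∧ x * x = 1 ∧ x ≠ T0 hF ∧ Commute (T0 hF) x} :=
    Nat.card_congr (Equiv.subtypeEquivRight (fun x => and_assoc))
  rw [h3] at h1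
  apply Nat.eq_of_mul_eq_mul_right (show 0 < q + 1 by omega)
  rw [h1]
  obtain ⟨r, rfl⟩ : ∃ r, q = r + 1 := ⟨q - 1, by omega⟩
  have h4 : (r + 1) ^ 2 - 1 = r * (r + 2) := by
    have : (r + 1) ^ 2 = r * (r + 2) + 1 := by ring
    omega
  rw [h4, Nat.add_sub_cancel]
  ring

theorem main_c (hF : Fintype.card F = q ^ 2) (hodd : Odd q) :
    Nat.card {x : SU3 // x ≠ 1 ∧ x * x = 1 ∧ ¬ Commute (T0 hF) x ∧
      ∀ y : SU3, y ≠ 1 → y * y = 1 → ¬ (Commute (T0 hF) y ∧ Commute y x)} = (q + 1) * (q ^ 2 - 1) := by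
  have hq := two_le_q hF
  have h1 := count_inv hF hodd (fun x => ¬ Commute (T0 hF) x ∧
      ∀ y : SU3, y ≠ 1 → y * y = 1 → ¬ (Commute (T0 hF) y ∧ Commute y x))
      (fun b => b 0 ≠ 0 ∧ (b 1 ≠ 0 ∨ b 2 ≠ 0) ∧ b 1 * b 1 ^ q + b 2 * b 2 ^ q = 0) (by
    intro b hb
    constructor
    · rintro ⟨h1, h3⟩
      obtain ⟨h4, h5⟩ := (not_comm_iff hF hodd hb).1 h1
      refine ⟨h4, h5, ?_⟩
      by_contra hn
      obtain ⟨y, hy1, hy2, hy3, hy4⟩ := (exists_y_iff hF hodd hb h1).2 hn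
      exact h3 y hy1 hy2 ⟨hy3, hy4⟩
    · rintro ⟨h4, h5, h6⟩
      have h1 := (not_comm_iff hF hodd hb).2 ⟨h4, h5⟩
      refine ⟨h1, ?_⟩
      intro y hy1 hy2 hy3
      exact (exists_y_iff hF hodd hb h1).1 ⟨y, hy1, hy2, hy3.1, hy3.2⟩ h6)
  rw [count_c hF] at h1
  have h3 : Nat.card {x : SU3 // (x ≠ 1 ∧ x * x = 1) ∧ ¬ Commute (T0 hF) x ∧
      ∀ y : SU3, y ≠ 1 → y * y = 1 → ¬ (Commute (T0 hF) y ∧ Commute y x)} =
      Nat.card {x : SU3 // x ≠ 1 ∧ x * x = 1 ∧ ¬ Commute (T0 hF) x ∧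
      ∀ y : SU3, y ≠ 1 → y * y = 1 → ¬ (Commute (T0 hF) y ∧ Commute y x)} :=
    Nat.card_congr (Equiv.subtypeEquivRight (fun x => and_assoc))
  rw [h3] at h1
  apply Nat.eq_of_mul_eq_mul_right (show 0 < q + 1 by omega)
  rw [h1]
  ring

theorem main_b (hF : Fintype.card F = q ^ 2) (hodd : Odd q) :
    Nat.card {x : SU3 // x ≠ 1 ∧ x * x = 1 ∧ ¬ Commute (T0 hF) x ∧
        ∃ y : SU3, y ≠ 1 ∧ y * y = 1 ∧ Commute (T0 hF) y ∧ Commute y x} = q * (q - 2) * (q ^ 2 - 1) := by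
  have hq := two_le_q hF
  have hT := T0_inv hF hodd
  have hI := card_inv hF hodd
  have hA := main_a hF hodd
  have hC := main_c hF hodd
  -- the partition
  have h1 := card_split (fun x : SU3 => x ≠ 1 ∧ x * x = 1) (fun x => Commute (T0 hF) x)
  have h2 := card_split (fun x : SU3 => (x ≠ 1 ∧ x * x = 1) ∧ Commute (T0 hF) x) (fun x => x ≠ T0 hF)
  have h3 := card_split (fun x : SU3 => (x ≠ 1 ∧ x * x = 1) ∧ ¬ Commute (T0 hF) x)
    (fun x => ∃ y : SU3, y ≠ 1 ∧ y * y = 1 ∧ Commute (T0 hF) y ∧ Commute y x)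
  have e1 : Nat.card {x : SU3 // ((x ≠ 1 ∧ x * x = 1) ∧ Commute (T0 hF) x) ∧ x ≠ T0 hF} =
      Nat.card {x : SU3 // x ≠ 1 ∧ x * x = 1 ∧ x ≠ T0 hF ∧ Commute (T0 hF) x} :=
    Nat.card_congr (Equiv.subtypeEquivRight (fun x =>
      ⟨fun h => ⟨h.1.1.1, h.1.1.2, h.2, h.1.2⟩, fun h => ⟨⟨⟨h.1, h.2.1⟩, h.2.2.2⟩, h.2.2.1⟩⟩))
  have e2 : Nat.card {x : SU3 // ((x ≠ 1 ∧ x * x = 1) ∧ Commute (T0 hF) x) ∧ ¬ x ≠ T0 hF} = 1 := by
    rw [Nat.card_eq_one_iff_unique]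
    refine ⟨⟨?_⟩, ⟨⟨T0 hF, ⟨hT, Commute.refl _⟩, by simp⟩⟩⟩
    rintro ⟨a, -, ha⟩ ⟨b, -, hb⟩
    apply Subtype.ext
    exact (not_not.1 ha).trans (not_not.1 hb).symm
  have e3 : Nat.card {x : SU3 // ((x ≠ 1 ∧ x * x = 1) ∧ ¬ Commute (T0 hF) x) ∧
      ∃ y : SU3, y ≠ 1 ∧ y * y = 1 ∧ Commute (T0 hF) y ∧ Commute y x} =
      Nat.card {x : SU3 // x ≠ 1 ∧ x * x = 1 ∧ ¬ Commute (T0 hF) x ∧
        ∃ y : SU3, y ≠ 1 ∧ y * y = 1 ∧ Commute (T0 hF) y ∧ Commute y x} :=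
    Nat.card_congr (Equiv.subtypeEquivRight (fun x =>
      ⟨fun h => ⟨h.1.1.1, h.1.1.2, h.1.2, h.2⟩, fun h => ⟨⟨⟨h.1, h.2.1⟩, h.2.2.1⟩, h.2.2.2⟩⟩))
  have e4 : Nat.card {x : SU3 // ((x ≠ 1 ∧ x * x = 1) ∧ ¬ Commute (T0 hF) x) ∧
      ¬ ∃ y : SU3, y ≠ 1 ∧ y * y = 1 ∧ Commute (T0 hF) y ∧ Commute y x} =
      Nat.card {x : SU3 // x ≠ 1 ∧ x * x = 1 ∧ ¬ Commute (T0 hF) x ∧
        ∀ y : SU3, y ≠ 1 → y * y = 1 → ¬ (Commute (T0 hF) y ∧ Commute y x)} :=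
    Nat.card_congr (Equiv.subtypeEquivRight (fun x => by
      constructor
      · rintro ⟨⟨⟨h1, h2⟩, h3⟩, h4⟩
        exact ⟨h1, h2, h3, fun y hy1 hy2 hy3 => h4 ⟨y, hy1, hy2, hy3.1, hy3.2⟩⟩
      · rintro ⟨h1, h2, h3, h4⟩
        exact ⟨⟨⟨h1, h2⟩, h3⟩, fun ⟨y, hy1, hy2, hy3, hy5⟩ => h4 y hy1 hy2 ⟨hy3, hy5⟩⟩))
  rw [e1, e2] at h2
  rw [e3, e4] at h3
  rw [h2, h3, hI, hA, hC] at h1
  have hq3 : 3 ≤ q := by
    obtain ⟨k, hk⟩ := hodd
    omega
  obtain ⟨r, rfl⟩ : ∃ r, q = r + 2 := ⟨q - 2, by omega⟩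
  have f1 : (r + 2) - 1 = r + 1 := rfl
  have f2 : (r + 2) - 2 = r := rfl
  have f3 : (r + 2) ^ 2 - 1 = r ^ 2 + 4 * r + 3 := by
    have : (r + 2) ^ 2 = r ^ 2 + 4 * r + 3 + 1 := by ring
    omega
  have f4 : (r + 2) ^ 2 - (r + 2) + 1 = r ^ 2 + 3 * r + 3 := by
    have : (r + 2) ^ 2 = r ^ 2 + 3 * r + 2 + (r + 2) := by ring
    omega
  rw [f1, f3, f4] at h1
  rw [f2, f3]
  have f5 : (r + 2) ^ 2 * (r ^ 2 + 3 * r + 3) = (r + 2) * (r + 1) + 1 + ((r + 2) * r * (r ^ 2 + 4 * r + 3) + (r + 2 + 1) * (r ^ 2 + 4 * r + 3)) := by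
    ring
  omega

/-- Transfer along an automorphism. -/
theorem card_transfer {G : Type*} [Group G] (φ : G ≃* G) (P : G → G → Prop)
    (hP : ∀ t x, P (φ t) (φ x) ↔ P t x) (t : G) :
    Nat.card {x // P (φ t) x} = Nat.card {x // P t x} :=
  (Nat.card_congr (Equiv.subtypeEquiv φ.toEquiv (fun x => (hP t x).symm))).symm

theorem main_graph (hF : Fintype.card F = q ^ 2) (hodd : Odd q) (t : SU3) (ht : t ≠ 1) (ht2 : t * t = 1) :
    Nat.card {x : SU3 // x ≠ 1 ∧ x * x = 1 ∧ x ≠ t ∧ Commute t x} = q * (q - 1) ∧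
    Nat.card {x : SU3 // x ≠ 1 ∧ x * x = 1 ∧ ¬ Commute t x ∧
        ∃ y : SU3, y ≠ 1 ∧ y * y = 1 ∧ Commute t y ∧ Commute y x} = q * (q - 2) * (q ^ 2 - 1) ∧
    Nat.card {x : SU3 // x ≠ 1 ∧ x * x = 1 ∧ ¬ Commute t x ∧
        ∀ y : SU3, y ≠ 1 → y * y = 1 → ¬ (Commute t y ∧ Commute y x)} = (q + 1) * (q ^ 2 - 1) ∧
    ∀ x : SU3, x ≠ 1 → x * x = 1 →
      ∃ y z : SU3, y ≠ 1 ∧ y * y = 1 ∧ z ≠ 1 ∧ z * z = 1 ∧
        Commute t y ∧ Commute y z ∧ Commute z x := by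
  obtain ⟨hT1, hT2⟩ := T0_inv hF hodd
  obtain ⟨g, hg⟩ := inv_conj hF hodd (T0 hF) t hT1 hT2 ht ht2
  let φ : SU3 ≃* SU3 := MulAut.conj g
  have hφ : φ (T0 hF) = t := by
    rw [← hg]
    rfl
  have hφ1 : ∀ x, φ x ≠ 1 ↔ x ≠ 1 := fun x => not_congr (map_eq_one_iff φ φ.injective)
  have hφ2 : ∀ x, φ x * φ x = 1 ↔ x * x = 1 := by
    intro x
    rw [← map_mul]
    exact map_eq_one_iff φ φ.injective
  have hφ3 : ∀ x y, Commute (φ x) (φ y) ↔ Commute x y := by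
    intro x y
    change φ x * φ y = φ y * φ x ↔ x * y = y * x
    rw [← map_mul, ← map_mul]
    exact φ.injective.eq_iff
  have hφ4 : ∀ x y, φ x ≠ φ y ↔ x ≠ y := fun x y => not_congr φ.injective.eq_iff
  subst hφ
  refine ⟨?_, ?_, ?_, ?_⟩
  · rw [card_transfer φ (fun t x => x ≠ 1 ∧ x * x = 1 ∧ x ≠ t ∧ Commute t x)
      (by intro t x; simp only [hφ1, hφ2, hφ3, hφ4]) (T0 hF)]
    exact main_a hF hodd
  · rw [card_transfer φ (fun t x => x ≠ 1 ∧ x * x = 1 ∧ ¬ Commute t x ∧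
        ∃ y : SU3, y ≠ 1 ∧ y * y = 1 ∧ Commute t y ∧ Commute y x)
      (by
        intro t x
        simp only [hφ1, hφ2, hφ3]
        rw [φ.surjective.exists]
        simp only [hφ1, hφ2, hφ3]) (T0 hF)]
    exact main_b hF hodd
  · rw [card_transfer φ (fun t x => x ≠ 1 ∧ x * x = 1 ∧ ¬ Commute t x ∧
        ∀ y : SU3, y ≠ 1 → y * y = 1 → ¬ (Commute t y ∧ Commute y x))
      (by
        intro t x
        simp only [hφ1, hφ2, hφ3]
        rw [φ.surjective.forall]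
        simp only [hφ1, hφ2, hφ3]) (T0 hF)]
    exact main_c hF hodd
  · intro x hx1 hx2
    obtain ⟨x', rfl⟩ := φ.surjective x
    obtain ⟨y, z, h1, h2, h3, h4, h5, h6, h7⟩ := connect hF hodd x' ((hφ1 x').1 hx1) ((hφ2 x').1 hx2)
    exact ⟨φ y, φ z, (hφ1 y).2 h1, (hφ2 y).2 h2, (hφ1 z).2 h3, (hφ2 z).2 h4, (hφ3 _ _).2 h5, (hφ3 _ _).2 h6, (hφ3 _ _).2 h7⟩

end Cfsg.Agent.Lib.Known.SU3Inv
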