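import Cfsg.Agent.Lib.Classical.SympFrames

/-!
# Generation of `Sp_{2m}` by transvections: the criterion for fields with at least three elements
-/

set_option autoImplicit false
set_option linter.unusedVariables false
set_option linter.unusedSectionVars false
set_option linter.unusedSimpArgs false

namespace Cfsg.Agent.Lib.Known.Sp3

open Matrix Module Cfsg.Agent.Lib.Classical Cfsg.Agent.Lib.KnownSimple

variable {m : ℕ} {F : Type*} [Field F]

local notation "V" => (Fin m ⊕ Fin m → F)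
local notation "ω" => Cfsg.sympForm m F
local notation "SpG" => Matrix.symplecticGroup (Fin m) F

/-- The centres whose full root group lies in `H`. -/
def OF (H : Subgroup (Matrix.symplecticGroup (Fin m) F)) : Set (Fin m ⊕ Fin m → F) :=
  {x | ∀ c : F, sympTr x c ∈ H}

theorem sympTr_conj (g : SpG) (x : V) (c : F) : sympTr (g.1 *ᵥ x) c = g * sympTr x c * g⁻¹ := by
  have h : g * sympTr x c = sympTr (g.1 *ᵥ x) c * g := Subtype.ext (sp_mul_sympT g.2 x c)
  rw [h]
  group

theorem sympTr_act (x : V) (c : F) (y : V) : (sympTr x c).1 *ᵥ y = y + (c * ω y x) • x :=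
  sympT_mulVec x c y

theorem sympTr_smul (a : F) (x : V) (c : F) : sympTr (a • x) c = sympTr x (c * a ^ 2) :=
  Subtype.ext (sympT_smul_vec x a c)

theorem sympTr_add (x : V) (c d : F) : sympTr x c * sympTr x d = sympTr x (c + d) :=
  Subtype.ext (sympT_add x c d)

theorem sympTr_zero_param (x : V) : sympTr x 0 = 1 := by
  apply Subtype.ext
  apply mat_ext_mulVec
  intro y
  change (sympTr x 0).1 *ᵥ y = (1 : Matrix _ _ F) *ᵥ y
  rw [sympTr_act]
  simp

theorem sympTr_neg (x : V) (c : F) : sympTr x (-c) = (sympTr x c)⁻¹ := by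
  rw [eq_inv_iff_mul_eq_one, sympTr_add, neg_add_cancel, sympTr_zero_param]

variable {H : Subgroup (Matrix.symplecticGroup (Fin m) F)}

theorem OF_conj {g : SpG} (hg : g ∈ H) {x : V} (hx : x ∈ OF H) : g.1 *ᵥ x ∈ OF H := by
  intro c
  rw [sympTr_conj]
  exact H.mul_mem (H.mul_mem hg (hx c)) (H.inv_mem hg)

theorem OF_smul {x : V} (hx : x ∈ OF H) (a : F) : a • x ∈ OF H := by
  intro c
  rw [sympTr_smul]
  exact hx _

theorem OF_plane {x y : V} (hx : x ∈ OF H) (hy : y ∈ OF H) (hxy : ω y x ≠ 0) (d : F) : y + d • x ∈ OF H := by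
  have h := OF_conj (hx (d / ω y x)) hy
  rw [sympTr_act, div_mul_cancel₀ _ hxy] at h
  exact h

theorem form_swap_ne {a b : V} (h : ω a b ≠ 0) : ω b a ≠ 0 := by
  intro h2
  apply h
  rw [sympForm_swap, h2, neg_zero]

/-- The action of the auxiliary product. -/
theorem Y_act {t w₀ : V} (htw : ω t w₀ = 0) (a c : F) (y : V) :
    (sympTr (t + a • w₀) c * sympTr w₀ (-(a ^ 2 * c))).1 *ᵥ y =
      y + (c * ω y t) • t + (a * c) • (ω y w₀ • t + ω y t • w₀) := by
  change ((sympTr (t + a • w₀) c).1 * (sympTr w₀ (-(a ^ 2 * c))).1) *ᵥ y = _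
  rw [← mulVec_mulVec, sympTr_act, sympTr_act]
  have hwt : ω w₀ t = 0 := by
    rw [sympForm_swap, htw, neg_zero]
  simp only [sympForm_add_left, sympForm_add_right, sympForm_smul_left, sympForm_smul_right, hwt, sympForm_self]
  ext i
  simp only [Pi.add_apply, Pi.smul_apply, smul_eq_mul]
  ring

/-- McLaughlin's extension step. -/
theorem OF_grow [Fintype F] (hcard : 3 ≤ Fintype.card F) {W : Submodule F V} (hW : ∀ w ∈ W, w ∈ OF H) {z : V}
    (hz : z ∈ OF H) {w₀ : V} (hw₀ : w₀ ∈ W) (hzw : ω z w₀ ≠ 0) {w : V} (hw : w ∈ W) : w + z ∈ OF H := by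
  have hplane : ∀ w' ∈ W, ω w' z ≠ 0 → w' + z ∈ OF H := by
    intro w' hw' h
    have := OF_plane hz (hW w' hw') h 1
    rwa [one_smul] at this
  by_cases h1 : ω w z = 0
  swap
  · exact hplane w hw h1
  have hwz : ω w₀ z ≠ 0 := form_swap_ne hzw
  have ha : ∀ a : F, a ≠ 0 → (w + z) + a • w₀ ∈ OF H := by
    intro a ha
    have h3 : w + a • w₀ + z = (w + z) + a • w₀ := by abel
    rw [← h3]
    apply hplane _ (W.add_mem hw (W.smul_mem a hw₀))
    rw [sympForm_add_left, sympForm_smul_left, h1, zero_add]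
    exact mul_ne_zero ha hwz
  have hw₀O := hW w₀ hw₀
  set t := w + z with ht
  by_cases h2 : ω t w₀ = 0
  swap
  · have h3 := ha 1 one_ne_zero
    have h4 : ω (t + (1 : F) • w₀) w₀ ≠ 0 := by
      rw [sympForm_add_left, sympForm_smul_left, sympForm_self, mul_zero, add_zero]
      exact h2
    have h5 := OF_plane hw₀O h3 h4 (-1)
    have h6 : t + (1 : F) • w₀ + (-1 : F) • w₀ = t := by
      simp
    rwa [h6] at h5
  -- the orthogonal case
  intro c''
  obtain ⟨a, ha0, ha1⟩ : ∃ a : F, a ≠ 0 ∧ a ≠ 1 := by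
    classical
    obtain ⟨a, ha⟩ : ∃ a : F, a ∉ ({0, 1} : Finset F) := by
      by_contra h
      push Not at h
      have h3 : (Finset.univ : Finset F) ⊆ {0, 1} := fun x _ => h x
      have h4 := Finset.card_le_card h3
      rw [Finset.card_univ] at h4
      have h5 : ({0, 1} : Finset F).card ≤ 2 := Finset.card_le_two
      omega
    simp only [Finset.mem_insert, Finset.mem_singleton, not_or] at ha
    exact ⟨a, ha.1, ha.2⟩
  have hd : (1 : F) - a ≠ 0 := sub_ne_zero.2 ha1.symm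
  set k := c'' / (1 - a) with hk
  have hY1 : sympTr (t + a • w₀) (1 * k) * sympTr w₀ (-(a ^ 2 * (1 * k))) ∈ H :=
    H.mul_mem (ha a ha0 _) (hw₀O _)
  have hY2 : sympTr (t + (1 : F) • w₀) (a * k) * sympTr w₀ (-((1 : F) ^ 2 * (a * k))) ∈ H :=
    H.mul_mem (ha 1 one_ne_zero _) (hw₀O _)
  have hid : sympTr (t + a • w₀) (1 * k) * sympTr w₀ (-(a ^ 2 * (1 * k))) =
      sympTr t c'' * (sympTr (t + (1 : F) • w₀) (a * k) * sympTr w₀ (-((1 : F) ^ 2 * (a * k)))) := by
    apply Subtype.ext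
    apply mat_ext_mulVec
    intro y
    rw [Y_act h2]
    change _ = ((sympTr t c'').1 * (sympTr (t + (1 : F) • w₀) (a * k) * sympTr w₀ (-((1 : F) ^ 2 * (a * k)))).1) *ᵥ y
    rw [← mulVec_mulVec, Y_act h2, sympTr_act]
    have hwt : ω w₀ t = 0 := by
      rw [sympForm_swap, h2, neg_zero]
    simp only [sympForm_add_left, sympForm_smul_left, hwt, sympForm_self, mul_zero, add_zero]
    have hc : c'' = (1 - a) * k := by
      rw [hk]
      field_simp
    rw [hc]
    ext i
    simp only [Pi.add_apply, Pi.smul_apply, smul_eq_mul]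
    ring
  have h7 : sympTr t c'' = sympTr (t + a • w₀) (1 * k) * sympTr w₀ (-(a ^ 2 * (1 * k))) *
      (sympTr (t + (1 : F) • w₀) (a * k) * sympTr w₀ (-((1 : F) ^ 2 * (a * k))))⁻¹ := by
    rw [hid]
    group
  rw [h7]
  exact H.mul_mem hY1 (H.inv_mem hY2)

/-! ### Orthogonals -/

/-- The orthogonal complement. -/
noncomputable def ort (W : Submodule F (Fin m ⊕ Fin m → F)) : Submodule F (Fin m ⊕ Fin m → F) :=
  (sympBil m F).orthogonal W

theorem mem_ort {W : Submodule F V} {y : V} : y ∈ ort W ↔ ∀ w ∈ W, ω w y = 0 := by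
  rw [ort, LinearMap.BilinForm.mem_orthogonal_iff]
  rfl

theorem ort_ort (W : Submodule F V) : ort (ort W) = W := by
  rw [ort, ort]
  apply LinearMap.BilinForm.orthogonal_orthogonal sympBil_nondeg
  exact sympBil_refl

theorem ort_bot_imp {W : Submodule F V} (h : ort W = ⊥) : W = ⊤ := by
  rw [← ort_ort W, h]
  rw [eq_top_iff]
  intro x _
  rw [mem_ort]
  intro w hw
  rw [(Submodule.mem_bot F).1 hw]
  simp [Cfsg.sympForm]

/-- A unipotent matrix fixes a vector of a non-zero invariant subspace. -/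
theorem exists_fixed_of_nil {ι : Type*} [Fintype ι] [DecidableEq ι] {M : Matrix ι ι F} (hM : IsNilpotent (M - 1))
    (Y : Submodule F (ι → F)) (hY : ∀ y ∈ Y, M *ᵥ y ∈ Y) (hne : Y ≠ ⊥) : ∃ y ∈ Y, y ≠ 0 ∧ M *ᵥ y = y := by
  classical
  obtain ⟨y₀, hy₀, hy₀0⟩ := (Submodule.ne_bot_iff Y).1 hne
  obtain ⟨K, hK⟩ := hM
  have hex : ∃ k, ((M - 1) ^ k) *ᵥ y₀ = 0 := ⟨K, by rw [hK, zero_mulVec]⟩
  set k := Nat.find hex with hk
  have hk1 : ((M - 1) ^ k) *ᵥ y₀ = 0 := Nat.find_spec hex
  have hk0 : k ≠ 0 := by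
    intro h0
    rw [h0, pow_zero, one_mulVec] at hk1
    exact hy₀0 hk1
  obtain ⟨j, hj⟩ : ∃ j, k = j + 1 := ⟨k - 1, by omega⟩
  have hinv : ∀ i, ((M - 1) ^ i) *ᵥ y₀ ∈ Y := by
    intro i
    induction i with
    | zero => simpa using hy₀
    | succ i ih =>
      rw [pow_succ', ← mulVec_mulVec, sub_mulVec, one_mulVec]
      exact Y.sub_mem (hY _ ih) ih
  refine ⟨((M - 1) ^ j) *ᵥ y₀, hinv j, ?_, ?_⟩
  · exact Nat.find_min hex (by omega)
  · have h2 : (M - 1) *ᵥ (((M - 1) ^ j) *ᵥ y₀) = 0 := by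
      rw [mulVec_mulVec, ← pow_succ', ← hj]
      exact hk1
    rw [sub_mulVec, one_mulVec] at h2
    exact sub_eq_zero.1 h2

theorem span_invariant {g : SpG} (hg : g ∈ H) {x : V} (hx : x ∈ Submodule.span F (OF H)) :
    g.1 *ᵥ x ∈ Submodule.span F (OF H) := by
  induction hx using Submodule.span_induction with
  | mem x h => exact Submodule.subset_span (OF_conj hg h)
  | zero => simp
  | add x y _ _ hx hy =>
    rw [mulVec_add]
    exact Submodule.add_mem _ hx hy
  | smul a x _ hx =>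
    rw [mulVec_smul]
    exact Submodule.smul_mem _ a hx

theorem form_inv (g : SpG) (x y : V) : ω x (g.1 *ᵥ y) = ω ((g⁻¹).1 *ᵥ x) y := by
  rw [← sp_form g ((g⁻¹).1 *ᵥ x) y, mulVec_mulVec]
  have : g.1 * (g⁻¹).1 = 1 := congrArg Subtype.val (mul_inv_cancel g)
  rw [this, one_mulVec]

theorem form_right_zero {w : V} (h : ∀ x : V, ω x w = 0) : w = 0 := by
  apply sympBil_nondeg.2
  intro x
  exact h x

/-- The transvections are all in `H` as soon as the vectors are. -/
theorem eq_top_of_OF (h : ∀ x : V, x ∈ OF H) : H = ⊤ := by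
  rw [eq_top_iff, ← trSubgroup_top, trSubgroup, Subgroup.closure_le]
  rintro A ⟨w, -, c, hA⟩
  have : A = sympTr w c := Subtype.ext hA
  rw [this]
  exact h w c

/-- The criterion. -/
theorem top_of_OF [Fintype F] (hcard : 3 ≤ Fintype.card F) {e e' : V} (he0 : e ≠ 0) (he : e ∈ OF H)
    {u v : SpG} (hu : u ∈ H) (hv : v ∈ H) (hue : u.1 *ᵥ e = e)
    (hfixu : ∀ y, u.1 *ᵥ y = y → ∃ l : F, y = l • e) (hnilu : IsNilpotent (u.1 - 1))
    (hve : v.1 *ᵥ e' = e') (hfixv : ∀ y, v.1 *ᵥ y = y → ∃ l : F, y = l • e') (hnilv : IsNilpotent (v.1 - 1))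
    (hee : ω e e' ≠ 0) : H = ⊤ := by
  classical
  apply eq_top_of_OF
  haveI : Finite (Fin m ⊕ Fin m → F) := inferInstance
  -- the span of the orbit is everything
  set X := Submodule.span F (OF H) with hX
  have hXinv : ∀ g ∈ H, ∀ y ∈ ort X, g.1 *ᵥ y ∈ ort X := by
    intro g hg y hy
    rw [mem_ort] at hy ⊢
    intro x hx
    rw [form_inv]
    exact hy _ (span_invariant (H.inv_mem hg) hx)
  have hfixed : ∀ (Y : Submodule F V), Y ≠ ⊥ → (∀ y ∈ Y, u.1 *ᵥ y ∈ Y) → e ∈ Y := by
    intro Y hne hY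
    obtain ⟨y, hy, hy0, hyf⟩ := exists_fixed_of_nil hnilu Y hY hne
    obtain ⟨l, rfl⟩ := hfixu y hyf
    have hl : l ≠ 0 := by
      rintro rfl
      simp at hy0
    have := Y.smul_mem l⁻¹ hy
    rwa [smul_smul, inv_mul_cancel₀ hl, one_smul] at this
  have hfixed' : ∀ (Y : Submodule F V), Y ≠ ⊥ → (∀ y ∈ Y, v.1 *ᵥ y ∈ Y) → e' ∈ Y := by
    intro Y hne hY
    obtain ⟨y, hy, hy0, hyf⟩ := exists_fixed_of_nil hnilv Y hY hne
    obtain ⟨l, rfl⟩ := hfixv y hyf
    have hl : l ≠ 0 := by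
      rintro rfl
      simp at hy0
    have := Y.smul_mem l⁻¹ hy
    rwa [smul_smul, inv_mul_cancel₀ hl, one_smul] at this
  have hXtop : X = ⊤ := by
    apply ort_bot_imp
    by_contra hne
    have h1 := hfixed' (ort X) hne (hXinv v hv)
    exact hee ((mem_ort.1 h1) e (Submodule.subset_span he))
  -- a maximal subspace
  let P : Submodule F V → Prop := fun W => e ∈ W ∧ ∀ w ∈ W, w ∈ OF H
  have hP0 : P (Submodule.span F {e}) := by
    refine ⟨Submodule.mem_span_singleton_self e, ?_⟩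
    intro w hw
    obtain ⟨l, rfl⟩ := Submodule.mem_span_singleton.1 hw
    exact OF_smul he l
  haveI : Finite (Submodule F V) := Finite.of_injective (fun W => (W : Set V)) SetLike.coe_injective
  haveI : Nonempty {W // P W} := ⟨⟨_, hP0⟩⟩
  obtain ⟨⟨W, hWe, hWO⟩, hmax⟩ := Finite.exists_max (fun W : {W // P W} => finrank F W.1)
  have hdich : ∀ z ∈ OF H, z ∈ W ∨ z ∈ ort W := by
    intro z hz
    by_contra hcon
    push Not at hcon
    obtain ⟨hz1, hz2⟩ := hcon
    rw [mem_ort] at hz2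
    push Not at hz2
    obtain ⟨w₀, hw₀, hw₀z⟩ := hz2
    have hP' : P (W ⊔ Submodule.span F {z}) := by
      refine ⟨Submodule.mem_sup_left hWe, ?_⟩
      intro x hx
      obtain ⟨w, hw, y, hy, rfl⟩ := Submodule.mem_sup.1 hx
      obtain ⟨l, rfl⟩ := Submodule.mem_span_singleton.1 hy
      by_cases hl : l = 0
      · rw [hl, zero_smul, add_zero]
        exact hWO w hw
      · have h3 := OF_grow hcard hWO hz hw₀ (form_swap_ne hw₀z) (W.smul_mem l⁻¹ hw)
        have h4 := OF_smul h3 l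
        have h5 : l • (l⁻¹ • w + z) = w + l • z := by
          rw [smul_add, smul_smul, mul_inv_cancel₀ hl, one_smul]
        rwa [h5] at h4
    have h3 := hmax ⟨_, hP'⟩
    have h4 : W < W ⊔ Submodule.span F {z} := by
      refine lt_of_le_of_ne le_sup_left ?_
      intro h5
      apply hz1
      rw [h5]
      exact Submodule.mem_sup_right (Submodule.mem_span_singleton_self z)
    exact absurd (Submodule.finrank_lt_finrank_of_lt h4) (not_lt.2 h3)
  have hsup : W ⊔ ort W = ⊤ := by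
    rw [eq_top_iff, ← hXtop, hX, Submodule.span_le]
    intro z hz
    rcases hdich z hz with h | h
    · exact Submodule.mem_sup_left h
    · exact Submodule.mem_sup_right h
  obtain ⟨z₁, hz₁, hz₁e⟩ : ∃ z₁ ∈ W, ω z₁ e ≠ 0 := by
    by_contra hcon
    push Not at hcon
    apply he0
    apply form_right_zero
    intro x
    have hx : x ∈ W ⊔ ort W := by
      rw [hsup]
      trivial
    obtain ⟨w, hw, y, hy, rfl⟩ := Submodule.mem_sup.1 hx
    rw [sympForm_add_left, hcon w hw, zero_add, sympForm_swap, (mem_ort.1 hy) e hWe, neg_zero]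
  have hinvW : ∀ g ∈ H, g.1 *ᵥ e = e → ∀ z ∈ W, g.1 *ᵥ z ∈ W := by
    intro g hg hge
    have h1 : ∀ z ∈ W, ω z e ≠ 0 → g.1 *ᵥ z ∈ W := by
      intro z hz hze
      rcases hdich _ (OF_conj hg (hWO z hz)) with h | h
      · exact h
      · exfalso
        have h3 := (mem_ort.1 h) e hWe
        rw [← hge, sp_form] at h3
        exact form_swap_ne hze h3
    intro z hz
    by_cases hze : ω z e = 0
    · have h3 : ω (z + z₁) e ≠ 0 := by
        rw [sympForm_add_left, hze, zero_add]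
        exact hz₁e
      have h4 := h1 _ (W.add_mem hz hz₁) h3
      rw [mulVec_add] at h4
      have h5 := W.sub_mem h4 (h1 z₁ hz₁ hz₁e)
      rwa [add_sub_cancel_right] at h5
    · exact h1 z hz hze
  have hue' : (u⁻¹).1 *ᵥ e = e := by
    nth_rw 1 [← hue]
    rw [sp_inv_mulVec_mulVec]
  have hort : ∀ y ∈ ort W, u.1 *ᵥ y ∈ ort W := by
    intro y hy
    rw [mem_ort] at hy ⊢
    intro w hw
    rw [form_inv]
    exact hy _ (hinvW _ (H.inv_mem hu) hue' w hw)
  have hbot : ort W = ⊥ := by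
    by_contra hne
    have h1 := hfixed (ort W) hne hort
    exact hz₁e ((mem_ort.1 h1) z₁ hz₁)
  have htop := ort_bot_imp hbot
  intro x
  exact hWO x (by rw [htop]; trivial)

/-- Every element is a difference of squares. -/
theorem diff_sq [Fintype F] (d : F) : ∃ x y : F, d = x ^ 2 - y ^ 2 := by
  by_cases h2 : (2 : F) = 0
  · have hc : ringChar F = 2 := by
      have h3 : ringChar F ∣ 2 := (CharP.cast_eq_zero_iff F (ringChar F) 2).1 (by exact_mod_cast h2)
      rcases (Nat.dvd_prime Nat.prime_two).1 h3 with h | h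
      · exact absurd h (CharP.ringChar_ne_one)
      · exact h
    obtain ⟨x, hx⟩ := FiniteField.isSquare_of_char_two hc d
    exact ⟨x, 0, by rw [hx]; ring⟩
  · refine ⟨(d + 1) / 2, (d - 1) / 2, ?_⟩
    field_simp
    ring

/-- The full root group from one parameter and a scaling element. -/
theorem mem_OF_of_scale [Fintype F] {e : V} {c₀ : F} (hc₀ : c₀ ≠ 0) (hT : sympTr e c₀ ∈ H)
    {s : SpG} (hs : s ∈ H) (k : Fˣ) (hk : ∀ x : Fˣ, x ∈ Subgroup.zpowers k) (hse : s.1 *ᵥ e = (k : F) • e) :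
    e ∈ OF H := by
  have hstep : ∀ c, sympTr e c ∈ H → sympTr e (c * (k : F) ^ 2) ∈ H := by
    intro c hc
    rw [← sympTr_smul, ← hse, sympTr_conj]
    exact H.mul_mem (H.mul_mem hs hc) (H.inv_mem hs)
  have hpow : ∀ n : ℕ, sympTr e (c₀ * ((k : F) ^ n) ^ 2) ∈ H := by
    intro n
    induction n with
    | zero => simpa using hT
    | succ n ih =>
      have := hstep _ ih
      convert this using 2
      ring
  have hsq : ∀ x : F, sympTr e (c₀ * x ^ 2) ∈ H := by
    intro x
    by_cases hx : x = 0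
    · rw [hx, zero_pow (by norm_num), mul_zero, sympTr_zero_param]
      exact H.one_mem
    · have h1 := hk (Units.mk0 x hx)
      rw [mem_powers_iff_mem_zpowers.symm] at h1
      obtain ⟨n, hn⟩ := h1
      have h3 : (k : F) ^ n = x := by
        have := congrArg Units.val hn
        simpa using this
      have := hpow n
      rwa [h3] at this
  intro c
  obtain ⟨x, y, hxy⟩ := diff_sq (c / c₀)
  have h1 : c = c₀ * x ^ 2 + -(c₀ * y ^ 2) := by
    have : c = c₀ * (c / c₀) := by field_simp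
    rw [this, hxy]
    ring
  rw [h1, ← sympTr_add, sympTr_neg]
  exact H.mul_mem (hsq x) (H.inv_mem (hsq y))

end Cfsg.Agent.Lib.Known.Sp3
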