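import Cfsg.Agent.Lib.Known.Sp3a

/-!
# A regular unipotent element of `Sp_{2n}`
-/

set_option autoImplicit false
set_option linter.unusedVariables false
set_option linter.unusedSectionVars false
set_option linter.unusedSimpArgs false

namespace Cfsg.Agent.Lib.Known.Sp3

open Matrix Module Cfsg.Agent.Lib.Classical Cfsg.Agent.Lib.KnownSimple

variable {n : ℕ} {F : Type*} [Field F]

local notation "V" => (Fin n ⊕ Fin n → F)
local notation "W" => (Fin n → F)
local notation "ω" => Cfsg.sympForm n F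
local notation "SpG" => Matrix.symplecticGroup (Fin n) F
local notation "M" => Matrix (Fin n) (Fin n) F

/-- Pairs of vectors. -/
def pr (a b : Fin n → F) : Fin n ⊕ Fin n → F := Sum.elim a b

theorem pr_eta (x : V) : pr (x ∘ Sum.inl) (x ∘ Sum.inr) = x := Sum.elim_comp_inl_inr x

@[simp] theorem pr_inl (a b : W) (i : Fin n) : pr a b (Sum.inl i) = a i := rfl
@[simp] theorem pr_inr (a b : W) (i : Fin n) : pr a b (Sum.inr i) = b i := rfl

theorem pr_add (a b c d : W) : pr a b + pr c d = pr (a + c) (b + d) := by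
  ext i
  cases i <;> rfl

theorem pr_smul (l : F) (a b : W) : l • pr a b = pr (l • a) (l • b) := by
  ext i
  cases i <;> rfl

theorem form_pr (a b c d : W) : ω (pr a b) (pr c d) = b ⬝ᵥ c - a ⬝ᵥ d := by
  rw [sympForm_apply, Finset.sum_sub_distrib]
  rfl

theorem fromBlocks_pr (P Q R S : M) (a b : W) :
    fromBlocks P Q R S *ᵥ pr a b = pr (P *ᵥ a + Q *ᵥ b) (R *ᵥ a + S *ᵥ b) := by
  rw [pr, fromBlocks_mulVec]
  rfl

/-- The root elements of the radical. -/
def rG (S : M) (hS : Sᵀ = S) : SpG :=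
  ⟨fromBlocks 1 S 0 1, by
    apply mem_sp_of_preserves
    intro x y
    rw [← pr_eta x, ← pr_eta y]
    generalize x ∘ Sum.inl = a
    generalize x ∘ Sum.inr = b
    generalize y ∘ Sum.inl = c
    generalize y ∘ Sum.inr = d
    rw [fromBlocks_pr, fromBlocks_pr, form_pr, form_pr]
    simp only [one_mulVec, zero_mulVec, zero_add, dotProduct_add, add_dotProduct]
    have h1 : b ⬝ᵥ (S *ᵥ d) = (S *ᵥ b) ⬝ᵥ d := by
      rw [dotProduct_mulVec, ← mulVec_transpose, hS]
    rw [h1]
    ring⟩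

/-- The Levi elements. -/
def iotaG (P R : M) (h : Rᵀ * P = 1) : SpG :=
  ⟨fromBlocks P 0 0 R, by
    apply mem_sp_of_preserves
    intro x y
    rw [← pr_eta x, ← pr_eta y]
    generalize x ∘ Sum.inl = a
    generalize x ∘ Sum.inr = b
    generalize y ∘ Sum.inl = c
    generalize y ∘ Sum.inr = d
    rw [fromBlocks_pr, fromBlocks_pr, form_pr, form_pr]
    simp only [zero_mulVec, zero_add, add_zero]
    have hPR : Pᵀ * R = 1 := by
      have := congrArg transpose h
      rwa [transpose_mul, transpose_transpose, transpose_one] at this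
    have h1 : (R *ᵥ b) ⬝ᵥ (P *ᵥ c) = b ⬝ᵥ c := by
      rw [dotProduct_mulVec, ← mulVec_transpose, mulVec_mulVec, hPR, one_mulVec]
    have h2 : (P *ᵥ a) ⬝ᵥ (R *ᵥ d) = a ⬝ᵥ d := by
      rw [dotProduct_comm, dotProduct_mulVec, ← mulVec_transpose, mulVec_mulVec, hPR, one_mulVec, dotProduct_comm]
    rw [h1, h2]⟩

theorem rG_act (S : M) (hS : Sᵀ = S) (a b : W) : (rG S hS).1 *ᵥ pr a b = pr (a + S *ᵥ b) b := by
  change fromBlocks 1 S 0 1 *ᵥ pr a b = _
  rw [fromBlocks_pr]
  simp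

theorem iotaG_act (P R : M) (h : Rᵀ * P = 1) (a b : W) : (iotaG P R h).1 *ᵥ pr a b = pr (P *ᵥ a) (R *ᵥ b) := by
  change fromBlocks P 0 0 R *ᵥ pr a b = _
  rw [fromBlocks_pr]
  simp

/-! ### The shift -/

/-- The shift matrix. -/
def shiftM (n : ℕ) (F : Type*) [Field F] : Matrix (Fin n) (Fin n) F :=
  Matrix.of fun i j => if (j : ℕ) = i + 1 then 1 else 0

theorem shift_apply (x : W) (i : Fin n) : (shiftM n F *ᵥ x) i = ∑ j : Fin n, (if (j : ℕ) = i + 1 then x j else 0) := by
  simp [mulVec, dotProduct, shiftM]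

theorem shift_succ {k : ℕ} (hk : k + 1 < n) (x : W) : (shiftM n F *ᵥ x) ⟨k, by omega⟩ = x ⟨k + 1, hk⟩ := by
  rw [shift_apply, Finset.sum_eq_single (⟨k + 1, hk⟩ : Fin n)]
  · simp
  · intro j _ hj
    rw [if_neg]
    intro h
    exact hj (Fin.ext h)
  · simp

theorem shift_last (x : W) (i : Fin n) (hi : (i : ℕ) + 1 = n) : (shiftM n F *ᵥ x) i = 0 := by
  rw [shift_apply]
  apply Finset.sum_eq_zero
  intro j _
  rw [if_neg]
  have := j.2
  omega

theorem shiftT_apply (x : W) (i : Fin n) : ((shiftM n F)ᵀ *ᵥ x) i = ∑ j : Fin n, (if (i : ℕ) = j + 1 then x j else 0) := by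
  simp [mulVec, dotProduct, shiftM, transpose_apply]

theorem shiftT_succ {k : ℕ} (hk : k + 1 < n) (x : W) :
    ((shiftM n F)ᵀ *ᵥ x) ⟨k + 1, hk⟩ = x ⟨k, by omega⟩ := by
  rw [shiftT_apply, Finset.sum_eq_single (⟨k, by omega⟩ : Fin n)]
  · simp
  · intro j _ hj
    rw [if_neg]
    intro h
    apply hj
    apply Fin.ext
    simp at h
    simp [h]
  · simp

theorem shiftT_zero (hn : 0 < n) (x : W) : ((shiftM n F)ᵀ *ᵥ x) ⟨0, hn⟩ = 0 := by
  rw [shiftT_apply]
  apply Finset.sum_eq_zero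
  intro j _
  rw [if_neg]
  simp

/-- The shift is nilpotent. -/
theorem shift_pow_zero : shiftM n F ^ n = 0 := by
  have key : ∀ k (x : W) (i : Fin n), (i : ℕ) + k ≥ n → ((shiftM n F ^ k) *ᵥ x) i = 0 := by
    intro k
    induction k with
    | zero =>
      intro x i hi
      have := i.2
      omega
    | succ k ih =>
      intro x i hi
      rw [pow_succ', ← mulVec_mulVec]
      by_cases h : (i : ℕ) + 1 < n
      · have := shift_succ (F := F) h ((shiftM n F ^ k) *ᵥ x)
        have e : (⟨(i : ℕ), by omega⟩ : Fin n) = i := rfl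
        rw [e] at this
        rw [this]
        exact ih x _ (by simp; omega)
      · exact shift_last _ i (by have := i.2; omega)
  apply mat_ext_mulVec
  intro x
  rw [zero_mulVec]
  ext i
  exact key n x i (by omega)

theorem shiftT_pow_zero : ((shiftM n F)ᵀ) ^ n = 0 := by
  rw [← transpose_pow, shift_pow_zero, transpose_zero]

/-- The unipotent matrix of a single block. -/
def Am (n : ℕ) (F : Type*) [Field F] : Matrix (Fin n) (Fin n) F := 1 + shiftM n F

theorem Am_det : (Am n F).det = 1 := by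
  rw [det_of_upperTriangular]
  · apply Finset.prod_eq_one
    intro i _
    simp [Am, shiftM]
  · intro i j hij
    have h : j < i := hij
    have h1 : i ≠ j := ne_of_gt h
    have h2 : ¬ (j : ℕ) = i + 1 := by
      have : (j : ℕ) < i := h
      omega
    simp [Am, shiftM, h1, h2]

/-- The inverse transpose. -/
noncomputable def Bm (n : ℕ) (F : Type*) [Field F] : Matrix (Fin n) (Fin n) F := ((Am n F)⁻¹)ᵀ

theorem Bm_T_mul : (Bm n F)ᵀ * Am n F = 1 := by
  rw [Bm, transpose_transpose]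
  exact Matrix.nonsing_inv_mul _ (by rw [Am_det]; exact isUnit_one)

theorem AT_mul_B : (Am n F)ᵀ * Bm n F = 1 := by
  have := congrArg transpose (Bm_T_mul (n := n) (F := F))
  rwa [transpose_mul, transpose_transpose, transpose_one] at this

theorem B_mul_AT : Bm n F * (Am n F)ᵀ = 1 := by
  rw [Bm, ← transpose_mul]
  rw [Matrix.mul_nonsing_inv _ (by rw [Am_det]; exact isUnit_one), transpose_one]

theorem Am_T_eq : (Am n F)ᵀ = 1 + (shiftM n F)ᵀ := by
  rw [Am, transpose_add, transpose_one]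

/-- `B - 1` is nilpotent. -/
theorem B_sub_one_pow : (Bm n F - 1) ^ n = 0 := by
  have h1 : Bm n F - 1 = -(Bm n F * (shiftM n F)ᵀ) := by
    have h := B_mul_AT (n := n) (F := F)
    rw [Am_T_eq, mul_add, mul_one] at h
    rw [eq_neg_iff_add_eq_zero, sub_add_eq_add_sub, h, sub_self]
  have h2 : Commute (Bm n F) ((shiftM n F)ᵀ) := by
    have h3 : Commute (Bm n F) ((Am n F)ᵀ) := by
      rw [Commute, SemiconjBy, B_mul_AT, AT_mul_B]
    rw [Am_T_eq] at h3
    have h4 : Commute (Bm n F) ((1 : M) + (shiftM n F)ᵀ - 1) := h3.sub_right (Commute.one_right _)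
    rwa [add_sub_cancel_left] at h4
  rw [h1, neg_pow, h2.mul_pow, shiftT_pow_zero, mul_zero, mul_zero]

/-! ### The regular unipotent element -/

/-- The last elementary symmetric matrix. -/
def Em (hn : 0 < n) (F : Type*) [Field F] : Matrix (Fin n) (Fin n) F :=
  vecMulVec (Pi.single ⟨n - 1, by omega⟩ 1) (Pi.single ⟨n - 1, by omega⟩ 1)

theorem Em_symm (hn : 0 < n) : (Em hn F)ᵀ = Em hn F := by
  rw [Em, transpose_vecMulVec]

theorem Em_mulVec (hn : 0 < n) (b : W) :
    Em hn F *ᵥ b = b ⟨n - 1, by omega⟩ • (Pi.single ⟨n - 1, by omega⟩ 1 : W) := by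
  rw [Em, vecMulVec_mulVec]
  simp [single_one_dotProduct]

/-- The regular unipotent element. -/
noncomputable def uG (hn : 0 < n) (F : Type*) [Field F] : Matrix.symplecticGroup (Fin n) F :=
  iotaG (Am n F) (Bm n F) Bm_T_mul * rG (Em hn F) (Em_symm hn)

theorem uG_act (hn : 0 < n) (a b : W) :
    (uG hn F).1 *ᵥ pr a b = pr (Am n F *ᵥ (a + Em hn F *ᵥ b)) (Bm n F *ᵥ b) := by
  change ((iotaG (Am n F) (Bm n F) Bm_T_mul).1 * (rG (Em hn F) (Em_symm hn)).1) *ᵥ pr a b = _
  rw [← mulVec_mulVec, rG_act, iotaG_act]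

theorem Am_mulVec (x : W) : Am n F *ᵥ x = x + shiftM n F *ᵥ x := by
  rw [Am, add_mulVec, one_mulVec]

/-- The action of `N = u - 1`. -/
theorem N_act (hn : 0 < n) (a b : W) :
    ((uG hn F).1 - 1) *ᵥ pr a b =
      pr (shiftM n F *ᵥ a + Am n F *ᵥ (Em hn F *ᵥ b)) ((Bm n F - 1) *ᵥ b) := by
  rw [sub_mulVec, one_mulVec, uG_act]
  ext i
  cases i with
  | inl i =>
    simp only [pr_inl, Pi.sub_apply, mulVec_add]
    rw [Am_mulVec a]
    simp only [Pi.add_apply]
    ring
  | inr i =>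
    simp [sub_mulVec]

theorem N_nil (hn : 0 < n) : IsNilpotent ((uG hn F).1 - 1) := by
  refine ⟨n + n, ?_⟩
  have h1 : ∀ k (a b : W), ∃ a', (((uG hn F).1 - 1) ^ k) *ᵥ pr a b = pr a' (((Bm n F - 1) ^ k) *ᵥ b) := by
    intro k
    induction k with
    | zero =>
      intro a b
      exact ⟨a, by simp⟩
    | succ k ih =>
      intro a b
      obtain ⟨a', ha'⟩ := ih a b
      refine ⟨shiftM n F *ᵥ a' + Am n F *ᵥ (Em hn F *ᵥ ((Bm n F - 1) ^ k *ᵥ b)), ?_⟩
      rw [pow_succ', ← mulVec_mulVec, ha', N_act, pow_succ' (Bm n F - 1)]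
      congr 1
      rw [mulVec_mulVec]
  have h2 : ∀ k (a : W), (((uG hn F).1 - 1) ^ k) *ᵥ pr a 0 = pr ((shiftM n F ^ k) *ᵥ a) 0 := by
    intro k
    induction k with
    | zero =>
      intro a
      simp
    | succ k ih =>
      intro a
      rw [pow_succ', ← mulVec_mulVec, ih, N_act, mulVec_zero, mulVec_zero, mulVec_zero, add_zero, mulVec_mulVec, ← pow_succ']
  apply mat_ext_mulVec
  intro x
  rw [zero_mulVec, ← pr_eta x]
  generalize x ∘ Sum.inl = a
  generalize x ∘ Sum.inr = b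
  obtain ⟨a', ha'⟩ := h1 n a b
  rw [pow_add, ← mulVec_mulVec, ha', B_sub_one_pow, zero_mulVec, h2, shift_pow_zero, zero_mulVec]
  ext i
  cases i <;> rfl

/-- The basis vectors. -/
def eV (i : Fin n) (F : Type*) [Field F] : Fin n ⊕ Fin n → F := pr (Pi.single i 1) 0
def fV (i : Fin n) (F : Type*) [Field F] : Fin n ⊕ Fin n → F := pr 0 (Pi.single i 1)

theorem Am_single_zero (hn : 0 < n) : Am n F *ᵥ (Pi.single ⟨0, hn⟩ 1) = Pi.single ⟨0, hn⟩ 1 := by
  rw [Am_mulVec]
  have : shiftM n F *ᵥ (Pi.single ⟨0, hn⟩ 1 : W) = 0 := by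
    ext i
    rw [shift_apply, Finset.sum_eq_zero]
    · rfl
    · intro j _
      by_cases h : (j : ℕ) = i + 1
      · rw [if_pos h, Pi.single_apply, if_neg]
        intro h1
        rw [h1] at h
        simp at h
      · rw [if_neg h]
  rw [this, add_zero]

theorem Am_single_succ {k : ℕ} (hk : k + 1 < n) :
    Am n F *ᵥ (Pi.single ⟨k + 1, hk⟩ 1) = Pi.single ⟨k + 1, hk⟩ 1 + Pi.single ⟨k, by omega⟩ 1 := by
  rw [Am_mulVec]
  congr 1
  ext i
  rw [shift_apply, Finset.sum_eq_single (⟨k + 1, hk⟩ : Fin n)]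
  · by_cases h : (i : ℕ) = k
    · have : i = ⟨k, by omega⟩ := Fin.ext h
      rw [this]
      simp
    · have h1 : ¬ k + 1 = (i : ℕ) + 1 := by omega
      have h2 : i ≠ ⟨k, by omega⟩ := fun h3 => h (by rw [h3])
      rw [if_neg (by simpa using h1), Pi.single_apply, if_neg h2]
  · intro j _ hj
    by_cases h : (j : ℕ) = i + 1
    · rw [if_pos h, Pi.single_apply, if_neg hj]
    · rw [if_neg h]
  · simp

/-- The fixed vectors of `u`. -/
theorem u_fixed (hn : 0 < n) (x : V) (hx : (uG hn F).1 *ᵥ x = x) : ∃ l : F, x = l • eV ⟨0, hn⟩ F := by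
  have hN : ((uG hn F).1 - 1) *ᵥ x = 0 := by
    rw [sub_mulVec, one_mulVec, hx, sub_self]
  rw [← pr_eta x] at hN ⊢
  generalize hA : x ∘ Sum.inl = a at hN ⊢
  generalize hB : x ∘ Sum.inr = b at hN ⊢
  rw [N_act] at hN
  have h1 : ∀ i, (shiftM n F *ᵥ a + Am n F *ᵥ (Em hn F *ᵥ b)) i = 0 := fun i => congrFun hN (Sum.inl i)
  have h2 : ∀ i, ((Bm n F - 1) *ᵥ b) i = 0 := fun i => congrFun hN (Sum.inr i)
  -- the second block
  have hb1 : Bm n F *ᵥ b = b := by
    ext i
    have := h2 i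
    rw [sub_mulVec, one_mulVec, Pi.sub_apply] at this
    exact sub_eq_zero.1 this
  have hb2 : (Am n F)ᵀ *ᵥ b = b := by
    nth_rw 1 [← hb1]
    rw [mulVec_mulVec, AT_mul_B, one_mulVec]
  have hb3 : (shiftM n F)ᵀ *ᵥ b = 0 := by
    rw [Am_T_eq, add_mulVec] at hb2
    have h5 : (1 : M) *ᵥ b + (shiftM n F)ᵀ *ᵥ b = b := hb2
    rw [one_mulVec] at h5
    exact add_eq_left.1 h5
  have hb4 : ∀ k (hk : k + 1 < n), b ⟨k, by omega⟩ = 0 := by
    intro k hk
    have := congrFun hb3 ⟨k + 1, hk⟩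
    rwa [shiftT_succ] at this
  -- the last coordinate
  set ℓ : Fin n := ⟨n - 1, by omega⟩ with hℓ
  have hblast : b ℓ = 0 := by
    have h3 := h1 ℓ
    rw [Pi.add_apply, shift_last _ ℓ (by simp [hℓ]; omega), zero_add, Em_mulVec, mulVec_smul, Pi.smul_apply, Am_mulVec,
      Pi.add_apply, shift_last _ ℓ (by simp [hℓ]; omega), add_zero] at h3
    simpa [← hℓ] using h3
  have hb5 : b = 0 := by
    ext i
    by_cases hi : (i : ℕ) + 1 < n
    · exact hb4 i hi
    · have : i = ℓ := Fin.ext (by simp [hℓ]; have := i.2; omega)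
      rw [this, hblast]
      rfl
  -- the first block
  have ha1 : shiftM n F *ᵥ a = 0 := by
    ext i
    have h3 := h1 i
    rw [hb5, mulVec_zero, mulVec_zero, add_zero] at h3
    exact h3
  have ha2 : ∀ k (hk : k + 1 < n), a ⟨k + 1, hk⟩ = 0 := by
    intro k hk
    have := congrFun ha1 ⟨k, by omega⟩
    rwa [shift_succ] at this
  refine ⟨a ⟨0, hn⟩, ?_⟩
  rw [hb5, eV, pr_smul, smul_zero]
  congr 1
  ext i
  by_cases hi : (i : ℕ) = 0
  · have : i = ⟨0, hn⟩ := Fin.ext hi
    subst this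
    simp
  · obtain ⟨k, hk⟩ : ∃ k, (i : ℕ) = k + 1 := ⟨i - 1, by omega⟩
    have h3 : i = ⟨k + 1, by have := i.2; omega⟩ := Fin.ext hk
    have h4 : i ≠ ⟨0, hn⟩ := fun h5 => hi (by rw [h5])
    rw [h3, ha2]
    rw [← h3]
    simp [h4]

theorem u_fix_e0 (hn : 0 < n) : (uG hn F).1 *ᵥ eV ⟨0, hn⟩ F = eV ⟨0, hn⟩ F := by
  rw [eV, uG_act, mulVec_zero, add_zero, Am_single_zero, mulVec_zero]

/-- A nilpotent map with one dimensional kernel has a full Jordan block. -/
theorem pow_ne_zero_of_ker {X : Type*} [AddCommGroup X] [Module F X] [FiniteDimensional F X] (L : Module.End F X)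
    (hL : finrank F (LinearMap.ker L) ≤ 1) (k : ℕ) : finrank F (LinearMap.ker (L ^ k)) ≤ k := by
  induction k with
  | zero =>
    have : LinearMap.ker ((L : Module.End F X) ^ 0) = ⊥ := by
      rw [pow_zero]
      exact LinearMap.ker_id
    rw [this]
    simp
  | succ k ih =>
    set K := LinearMap.ker (L ^ (k + 1)) with hK
    let f : K →ₗ[F] X := (L ^ k).comp K.subtype
    have h1 := LinearMap.finrank_range_add_finrank_ker f
    have h2 : LinearMap.range f ≤ LinearMap.ker L := by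
      rintro _ ⟨z, rfl⟩
      rw [LinearMap.mem_ker]
      have := LinearMap.mem_ker.1 z.2
      rw [pow_succ'] at this
      exact this
    have h3 : finrank F (LinearMap.range f) ≤ 1 :=
      le_trans (Submodule.finrank_mono h2) hL
    have h4 : finrank F (LinearMap.ker f) ≤ finrank F (LinearMap.ker (L ^ k)) := by
      let g : LinearMap.ker f →ₗ[F] LinearMap.ker (L ^ k) :=
        LinearMap.codRestrict _ (K.subtype.comp (LinearMap.ker f).subtype) (by
          intro z
          exact LinearMap.mem_ker.2 (LinearMap.mem_ker.1 z.2))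
      apply LinearMap.finrank_le_finrank_of_injective (f := g)
      intro z z' hz
      apply Subtype.ext
      apply Subtype.ext
      exact congrArg (fun w : LinearMap.ker (L ^ k) => (w : X)) hz
    omega

theorem N_pow_ne (hn : 0 < n) : ((uG hn F).1 - 1) ^ (2 * n - 1) ≠ 0 := by
  intro h0
  set N : Matrix (Fin n ⊕ Fin n) (Fin n ⊕ Fin n) F := (uG hn F).1 - 1 with hN
  set L : Module.End F (Fin n ⊕ Fin n → F) := Matrix.toLin' N with hL
  have hker : finrank F (LinearMap.ker L) ≤ 1 := by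
    have h1 : LinearMap.ker L ≤ Submodule.span F {eV ⟨0, hn⟩ F} := by
      intro y hy
      have h2 : N *ᵥ y = 0 := LinearMap.mem_ker.1 hy
      rw [hN, sub_mulVec, one_mulVec] at h2
      obtain ⟨l, hl⟩ := u_fixed hn y (sub_eq_zero.1 h2)
      rw [hl]
      exact Submodule.smul_mem _ _ (Submodule.mem_span_singleton_self _)
    refine le_trans (Submodule.finrank_mono h1) ?_
    have := finrank_span_le_card (R := F) ({eV ⟨0, hn⟩ F} : Set (Fin n ⊕ Fin n → F))
    simpa using this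
  have h1 := pow_ne_zero_of_ker L hker (2 * n - 1)
  have h2 : L ^ (2 * n - 1) = 0 := by
    rw [hL, ← Matrix.toLin'_pow, h0, map_zero]
  rw [h2, LinearMap.ker_zero, finrank_top] at h1
  rw [finrank_fintype_fun_eq_card] at h1
  simp at h1
  omega

end Cfsg.Agent.Lib.Known.Sp3
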