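import Cfsg.Agent.Lib.Known.Sp3b

/-!
# Witt's lemma for tuples, conjugates, and the closure over the field of two elements
-/

set_option autoImplicit false
set_option linter.unusedVariables false
set_option linter.unusedSectionVars false
set_option linter.unusedSimpArgs false

namespace Cfsg.Agent.Lib.Known.Sp3

open Matrix Module Cfsg.Agent.Lib.Classical Cfsg.Agent.Lib.KnownSimple

variable {m : ℕ} {F : Type*} [Field F]

local notation "V" => (Fin m ⊕ Fin m → F)
local notation "ω" => Cfsg.sympForm m F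
local notation "SpG" => Matrix.symplecticGroup (Fin m) F

/-- Witt's lemma for linearly independent tuples with the same Gram matrix. -/
theorem exists_sp_map {k : ℕ} {s s' : Fin k → (Fin m ⊕ Fin m → F)} (hs : LinearIndependent F s)
    (hs' : LinearIndependent F s') (hG : ∀ i j, ω (s' i) (s' j) = ω (s i) (s j)) :
    ∃ t : SpG, ∀ i, t.1 *ᵥ s i = s' i := by
  classical
  let b := Module.Basis.span hs
  let b' := Module.Basis.span hs'
  let φ := b.equiv b' (Equiv.refl _)
  have hb : ∀ i, ((b i : Submodule.span F (Set.range s)) : V) = s i := by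
    intro i
    simp [b, Module.Basis.span_apply]
  have hb' : ∀ i, ((b' i : Submodule.span F (Set.range s')) : V) = s' i := by
    intro i
    simp [b', Module.Basis.span_apply]
  have hφ : ∀ i, φ (b i) = b' i := by
    intro i
    simp [φ]
  obtain ⟨g, hg, hgx⟩ := witt_alt (sympBil m F) sympBil_nondeg (sympBil_alt m) _ _ φ (by
    intro x x'
    let L₁ : Submodule.span F (Set.range s) →ₗ[F] Submodule.span F (Set.range s) →ₗ[F] F :=
      (sympBil m F).compl₁₂ ((Submodule.span F (Set.range s')).subtype ∘ₗ φ.toLinearMap)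
        ((Submodule.span F (Set.range s')).subtype ∘ₗ φ.toLinearMap)
    let L₂ : Submodule.span F (Set.range s) →ₗ[F] Submodule.span F (Set.range s) →ₗ[F] F :=
      (sympBil m F).compl₁₂ (Submodule.span F (Set.range s)).subtype (Submodule.span F (Set.range s)).subtype
    have hL : L₁ = L₂ := by
      apply b.ext
      intro i
      apply b.ext
      intro j
      simp only [L₁, L₂, LinearMap.compl₁₂_apply, LinearMap.comp_apply, Submodule.subtype_apply,
        LinearEquiv.coe_coe, hφ, hb, hb', sympBil_apply]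
      exact hG i j
    exact LinearMap.congr_fun₂ hL x x')
  refine ⟨(spEquivPres m).symm ⟨g, hg⟩, fun i => ?_⟩
  have h1 := hgx (b i)
  rw [hφ, hb, hb'] at h1
  rw [← h1]
  change LinearMap.toMatrix' (g : (Fin m ⊕ Fin m → F) →ₗ[F] (Fin m ⊕ Fin m → F)) *ᵥ s i = g (s i)
  rw [LinearMap.toMatrix'_mulVec]
  rfl

/-! ### Conjugates -/

theorem conj_nil (u h : SpG) (hnil : IsNilpotent (u.1 - 1)) : IsNilpotent ((h * u * h⁻¹).1 - 1) := by
  have hinv : (h⁻¹).1 * h.1 = 1 := congrArg Subtype.val (inv_mul_cancel h)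
  have hinv2 : h.1 * (h⁻¹).1 = 1 := congrArg Subtype.val (mul_inv_cancel h)
  have key : ∀ k : ℕ, ((h * u * h⁻¹).1 - 1) ^ k = h.1 * (u.1 - 1) ^ k * (h⁻¹).1 := by
    intro k
    induction k with
    | zero => simp [hinv2]
    | succ k ih =>
      rw [pow_succ, ih, pow_succ]
      have h1 : (h * u * h⁻¹).1 - 1 = h.1 * (u.1 - 1) * (h⁻¹).1 := by
        rw [mul_sub, sub_mul, mul_one, hinv2]
        rfl
      rw [h1]
      calc h.1 * (u.1 - 1) ^ k * (h⁻¹).1 * (h.1 * (u.1 - 1) * (h⁻¹).1)
          = h.1 * (u.1 - 1) ^ k * ((h⁻¹).1 * h.1) * (u.1 - 1) * (h⁻¹).1 := by simp only [mul_assoc]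
        _ = _ := by rw [hinv, mul_one, mul_assoc h.1]
  obtain ⟨k, hk⟩ := hnil
  exact ⟨k, by rw [key, hk, mul_zero, zero_mul]⟩

theorem conj_act (u h : SpG) (y : V) : (h * u * h⁻¹).1 *ᵥ (h.1 *ᵥ y) = h.1 *ᵥ (u.1 *ᵥ y) := by
  change (h.1 * u.1 * (h⁻¹).1) *ᵥ (h.1 *ᵥ y) = _
  rw [← mulVec_mulVec, ← mulVec_mulVec, sp_inv_mulVec_mulVec]

theorem conj_fix {u h : SpG} {e : V} (hfix : ∀ y, u.1 *ᵥ y = y → ∃ l : F, y = l • e) (y : V)
    (hy : (h * u * h⁻¹).1 *ᵥ y = y) : ∃ l : F, y = l • (h.1 *ᵥ e) := by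
  have h1 : u.1 *ᵥ ((h⁻¹).1 *ᵥ y) = (h⁻¹).1 *ᵥ y := by
    have h2 := conj_act u h ((h⁻¹).1 *ᵥ y)
    rw [sp_mulVec_inv_mulVec, hy] at h2
    have h3 := congrArg (fun z => (h⁻¹).1 *ᵥ z) h2
    simp only [sp_inv_mulVec_mulVec] at h3
    exact h3.symm
  obtain ⟨l, hl⟩ := hfix _ h1
  refine ⟨l, ?_⟩
  rw [← mulVec_smul, ← hl, sp_mulVec_inv_mulVec]

/-! ### The field of two elements -/

theorem f2_cases [Fintype F] (hF : Fintype.card F = 2) (a : F) : a = 0 ∨ a = 1 := by
  by_cases ha : a = 0
  · exact Or.inl ha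
  · right
    have := FiniteField.pow_card_sub_one_eq_one a ha
    rw [hF] at this
    simpa using this

theorem f2_add_self [Fintype F] (hF : Fintype.card F = 2) (a : F) : a + a = 0 := by
  have h1 : (1 : F) + 1 = 0 := by
    rcases f2_cases hF ((1 : F) + 1) with h | h
    · exact h
    · exfalso
      have : (1 : F) = 0 := by
        have h2 : (1 : F) + 1 - 1 = 1 - 1 := by rw [h]
        simpa using h2
      exact one_ne_zero this
  have : a + a = a * (1 + 1) := by ring
  rw [this, h1, mul_zero]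

theorem f2_vec_add_self [Fintype F] (hF : Fintype.card F = 2) (x : V) : x + x = 0 := by
  ext i
  exact f2_add_self hF _

variable {H : Subgroup (Matrix.symplecticGroup (Fin m) F)}

theorem f2_plane {x y : V} (hx : x ∈ OF H) (hy : y ∈ OF H) (hxy : ω y x ≠ 0) : y + x ∈ OF H := by
  have := OF_plane hx hy hxy 1
  rwa [one_smul] at this

theorem f2_F1 [Fintype F] (hF : Fintype.card F = 2) {W : Submodule F V} (hW : ∀ w ∈ W, w ∈ OF H) {z w w₀ : V}
    (hz : z ∈ OF H) (hw : w ∈ W) (hw₀ : w₀ ∈ W) (h1 : ω z w₀ ≠ 0) (h2 : ω w w₀ = 0) : z + w ∈ OF H := by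
  by_cases h : ω z w = 0
  · have h3 : z + (w + w₀) ∈ OF H := by
      apply f2_plane (hW _ (W.add_mem hw hw₀)) hz
      rw [sympForm_add_right, h, zero_add]
      exact h1
    have h4 : z + (w + w₀) + w₀ ∈ OF H := by
      apply f2_plane (hW _ hw₀) h3
      rw [sympForm_add_left, sympForm_add_left, h2, sympForm_self, add_zero, add_zero]
      exact h1
    have h5 : z + (w + w₀) + w₀ = z + w + (w₀ + w₀) := by abel
    rw [h5, f2_vec_add_self hF, add_zero] at h4
    exact h4
  · exact f2_plane (hW _ hw) hz h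

/-- The closure over the field of two elements. -/
theorem top_of_F2 [Fintype F] (hF : Fintype.card F = 2) {e b e' : V} (he0 : e ≠ 0) (hb0 : b ≠ 0) (hbe : b ≠ e)
    (he : e ∈ OF H) (hb : b ∈ OF H) (hc : e + b ∈ OF H) (heb : ω e b = 0)
    {u v : SpG} (hu : u ∈ H) (hv : v ∈ H) (hue : u.1 *ᵥ e = e)
    (hfixu : ∀ y, u.1 *ᵥ y = y → ∃ l : F, y = l • e) (hnilu : IsNilpotent (u.1 - 1))
    (hve : v.1 *ᵥ e' = e') (hfixv : ∀ y, v.1 *ᵥ y = y → ∃ l : F, y = l • e') (hnilv : IsNilpotent (v.1 - 1))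
    (hee : ω e e' ≠ 0) : H = ⊤ := by
  classical
  apply eq_top_of_OF
  haveI : Finite (Fin m ⊕ Fin m → F) := inferInstance
  have hcs := f2_cases hF
  have hvv := f2_vec_add_self (m := m) hF
  have hss := f2_add_self hF
  -- the span of the orbit is everything
  set X := Submodule.span F (OF H) with hX
  have hXinv : ∀ g ∈ H, ∀ y ∈ ort X, g.1 *ᵥ y ∈ ort X := by
    intro g hg y hy
    rw [mem_ort] at hy ⊢
    intro x hx
    rw [form_inv]
    exact hy _ (span_invariant (H.inv_mem hg) hx)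
  have hfixed : ∀ (Y : Submodule F V), Y ≠ ⊥ → (∀ y ∈ Y, u.1 *ᵥ y ∈ Y) → e ∈ Y := by
    intro Y hne hY
    obtain ⟨y, hy, hy0, hyf⟩ := exists_fixed_of_nil hnilu Y hY hne
    obtain ⟨l, rfl⟩ := hfixu y hyf
    have hl : l ≠ 0 := by
      rintro rfl
      simp at hy0
    have := Y.smul_mem l⁻¹ hy
    rwa [smul_smul, inv_mul_cancel₀ hl, one_smul] at this
  have hfixed' : ∀ (Y : Submodule F V), Y ≠ ⊥ → (∀ y ∈ Y, v.1 *ᵥ y ∈ Y) → e' ∈ Y := by
    intro Y hne hY
    obtain ⟨y, hy, hy0, hyf⟩ := exists_fixed_of_nil hnilv Y hY hne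
    obtain ⟨l, rfl⟩ := hfixv y hyf
    have hl : l ≠ 0 := by
      rintro rfl
      simp at hy0
    have := Y.smul_mem l⁻¹ hy
    rwa [smul_smul, inv_mul_cancel₀ hl, one_smul] at this
  have hXtop : X = ⊤ := by
    apply ort_bot_imp
    by_contra hne
    have h1 := hfixed' (ort X) hne (hXinv v hv)
    exact hee ((mem_ort.1 h1) e (Submodule.subset_span he))
  have hspan : ∀ t : V, t ≠ 0 → ∃ y ∈ OF H, ω y t ≠ 0 := by
    intro t ht
    by_contra hcon
    push Not at hcon
    apply ht
    apply form_right_zero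
    intro x
    have hx : x ∈ X := by
      rw [hXtop]
      trivial
    induction hx using Submodule.span_induction with
    | mem x h => exact hcon x h
    | zero => simp [Cfsg.sympForm]
    | add x y _ _ hx hy => rw [sympForm_add_left, hx, hy, add_zero]
    | smul a x _ hx => rw [sympForm_smul_left, hx, mul_zero]
  -- a maximal subspace
  let P : Submodule F V → Prop := fun W => e ∈ W ∧ b ∈ W ∧ ∀ w ∈ W, w ∈ OF H
  have hP0 : P (Submodule.span F {e, b}) := by
    refine ⟨Submodule.subset_span (by simp), Submodule.subset_span (by simp), ?_⟩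
    intro w hw
    obtain ⟨l, l', rfl⟩ := Submodule.mem_span_pair.1 hw
    rcases hcs l with rfl | rfl <;> rcases hcs l' with rfl | rfl
    · simpa using OF_smul he 0
    · simpa using hb
    · simpa using he
    · simpa using hc
  haveI : Finite (Submodule F V) := Finite.of_injective (fun W => (W : Set V)) SetLike.coe_injective
  haveI : Nonempty {W // P W} := ⟨⟨_, hP0⟩⟩
  obtain ⟨⟨W, hWe, hWb, hWO⟩, hmax⟩ := Finite.exists_max (fun W : {W // P W} => finrank F W.1)
  -- maximality
  have hmaxz : ∀ z, z ∉ W → (∀ w ∈ W, z + w ∈ OF H) → False := by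
    intro z hz hzw
    have hP' : P (W ⊔ Submodule.span F {z}) := by
      refine ⟨Submodule.mem_sup_left hWe, Submodule.mem_sup_left hWb, ?_⟩
      intro x hx
      obtain ⟨w, hw, y, hy, rfl⟩ := Submodule.mem_sup.1 hx
      obtain ⟨l, rfl⟩ := Submodule.mem_span_singleton.1 hy
      rcases hcs l with rfl | rfl
      · rw [zero_smul, add_zero]
        exact hWO w hw
      · rw [one_smul, add_comm]
        exact hzw w hw
    have h3 := hmax ⟨_, hP'⟩
    have h4 : W < W ⊔ Submodule.span F {z} := by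
      refine lt_of_le_of_ne le_sup_left ?_
      intro h5
      apply hz
      rw [h5]
      exact Submodule.mem_sup_right (Submodule.mem_span_singleton_self z)
    exact absurd (Submodule.finrank_lt_finrank_of_lt h4) (not_lt.2 h3)
  -- non-degeneracy
  have hnd : ∀ r ∈ W, r ≠ 0 → ∃ w ∈ W, ω r w ≠ 0 := by
    intro r hr hr0
    by_contra hcon
    push Not at hcon
    obtain ⟨y, hy, hyr⟩ := hspan r hr0
    have hy1 : y ∉ W := by
      intro h
      apply hyr
      rw [sympForm_swap, hcon y h, neg_zero]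
    refine hmaxz y hy1 (fun w hw => f2_F1 hF hWO hy hw hr hyr ?_)
    rw [sympForm_swap, hcon w hw, neg_zero]
  -- the complement
  have hcomp : ∀ z : V, ∃ w₁ ∈ W, z + w₁ ∈ ort W := by
    intro z
    have hnd' : ((sympBil m F).restrict W).Nondegenerate := by
      constructor
      · rintro ⟨x, hx⟩ hx2
        by_contra hx0
        obtain ⟨w, hw, hxw⟩ := hnd x hx (fun h => hx0 (Subtype.ext h))
        exact hxw (hx2 ⟨w, hw⟩)
      · rintro ⟨x, hx⟩ hx2
        by_contra hx0
        obtain ⟨w, hw, hxw⟩ := hnd x hx (fun h => hx0 (Subtype.ext h))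
        apply hxw
        rw [sympForm_swap]
        have := hx2 ⟨w, hw⟩
        have h3 : ω w x = 0 := this
        rw [h3, neg_zero]
    have hc := (sympBil m F).isCompl_orthogonal_of_restrict_nondegenerate sympBil_refl hnd'
    have hz : z ∈ W ⊔ ort W := by
      have : W ⊔ ort W = ⊤ := hc.sup_eq_top
      rw [this]
      trivial
    obtain ⟨w, hw, y, hy, rfl⟩ := Submodule.mem_sup.1 hz
    refine ⟨w, hw, ?_⟩
    have : w + y + w = y + (w + w) := by abel
    rw [this, hvv, add_zero]
    exact hy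
  have hinf : ∀ r ∈ W, r ∈ ort W → r = 0 := by
    intro r hr hr2
    by_contra hr0
    obtain ⟨w, hw, hrw⟩ := hnd r hr hr0
    apply hrw
    rw [sympForm_swap, (mem_ort.1 hr2) w hw, neg_zero]
  -- separation
  have hsep : ∀ a ∈ W, ∀ d ∈ W, a ≠ 0 → a ≠ d → ∃ w₀ ∈ W, ω a w₀ ≠ 0 ∧ ω d w₀ = 0 := by
    intro a ha d hd ha0 had
    obtain ⟨w₁, hw₁, h1⟩ := hnd a ha ha0
    by_cases h2 : ω d w₁ = 0
    · exact ⟨w₁, hw₁, h1, h2⟩
    have had' : a + d ≠ 0 := by
      intro h
      apply had
      have : a = a + (d + d) := by rw [hvv, add_zero]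
      rw [this, ← add_assoc, h, zero_add]
    obtain ⟨w₂, hw₂, h3⟩ := hnd _ (W.add_mem ha hd) had'
    rw [sympForm_add_left] at h3
    have h1' : ω a w₁ = 1 := (hcs _).resolve_left h1
    have h2' : ω d w₁ = 1 := (hcs _).resolve_left h2
    rcases hcs (ω a w₂) with h4 | h4 <;> rcases hcs (ω d w₂) with h5 | h5
    · exact absurd (by rw [h4, h5, add_zero]) h3
    · refine ⟨w₁ + w₂, W.add_mem hw₁ hw₂, ?_, ?_⟩
      · rw [sympForm_add_right, h1', h4, add_zero]
        exact one_ne_zero
      · rw [sympForm_add_right, h2', h5]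
        exact hss 1
    · exact ⟨w₂, hw₂, by rw [h4]; exact one_ne_zero, h5⟩
    · exact absurd (by rw [h4, h5]; exact hss 1) h3
  -- the auxiliary vector
  have hchoose : ∀ a ∈ W, a ≠ 0 → ∃ d ∈ W, d ≠ 0 ∧ a ≠ d ∧ ω a d = 0 := by
    intro a ha ha0
    by_cases h1 : a = e
    · refine ⟨b, hWb, hb0, ?_, ?_⟩
      · rw [h1]
        exact hbe.symm
      · rw [h1, heb]
    by_cases h2 : a = b
    · refine ⟨e, hWe, he0, ?_, ?_⟩
      · rw [h2]
        exact hbe
      · rw [h2, sympForm_swap, heb, neg_zero]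
    rcases hcs (ω a e) with h3 | h3
    · exact ⟨e, hWe, he0, h1, h3⟩
    rcases hcs (ω a b) with h4 | h4
    · exact ⟨b, hWb, hb0, h2, h4⟩
    refine ⟨e + b, W.add_mem hWe hWb, ?_, ?_, ?_⟩
    · intro h5
      apply hbe
      have : b = (e + b) + e := by
        have : e + b + e = b + (e + e) := by abel
        rw [this, hvv, add_zero]
      rw [this, h5, zero_add]
    · intro h5
      rw [h5, sympForm_add_left, sympForm_self, zero_add, sympForm_swap, heb, neg_zero] at h3
      exact zero_ne_one h3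
    · rw [sympForm_add_right, h3, h4]
      exact hss 1
  -- the dichotomy
  have hdich : ∀ z ∈ OF H, z ∈ W ∨ z ∈ ort W := by
    intro z hz
    by_contra hcon
    push Not at hcon
    obtain ⟨hz1, hz2⟩ := hcon
    obtain ⟨w₁, hw₁, ht⟩ := hcomp z
    set t := z + w₁ with htdef
    have hzt : z = t + w₁ := by
      rw [htdef, add_assoc, hvv, add_zero]
    have hw₁0 : w₁ ≠ 0 := by
      intro h
      apply hz2
      rw [hzt, h, add_zero]
      exact ht
    have htW : t ∉ W := by
      intro h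
      apply hz1
      rw [hzt]
      exact W.add_mem h hw₁
    have ht0 : t ≠ 0 := by
      intro h
      apply htW
      rw [h]
      exact W.zero_mem
    have ht1 : ∀ w ∈ W, ω w t = 0 := mem_ort.1 ht
    have ht2 : ∀ w ∈ W, ω t w = 0 := by
      intro w hw
      rw [sympForm_swap, ht1 w hw, neg_zero]
    -- first step
    have hi : ∀ w' ∈ W, w' ≠ 0 → t + w' ∈ OF H := by
      intro w' hw' hw'0
      have h1 : w₁ ≠ w₁ + w' := by
        intro h
        apply hw'0
        have : w₁ + w' = w₁ + 0 := by rw [add_zero]; exact h.symm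
        exact add_left_cancel this
      obtain ⟨w₀, hw₀, h2, h3⟩ := hsep w₁ hw₁ _ (W.add_mem hw₁ hw') hw₁0 h1
      have h4 : ω z w₀ ≠ 0 := by
        rw [hzt, sympForm_add_left, ht2 w₀ hw₀, zero_add]
        exact h2
      have h5 := f2_F1 hF hWO hz (W.add_mem hw₁ hw') hw₀ h4 h3
      have h6 : z + (w₁ + w') = t + w' := by rw [htdef]; abel
      rwa [h6] at h5
    -- a vector not orthogonal to `t`
    obtain ⟨y, hy, hyt⟩ := hspan t ht0
    obtain ⟨y', hy', hy't, hy'W⟩ : ∃ y' ∈ OF H, ω y' t ≠ 0 ∧ y' ∉ ort W := by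
      by_cases hyW : y ∈ ort W
      · have hye : ω y e = 0 := by
          rw [sympForm_swap, (mem_ort.1 hyW) e hWe, neg_zero]
        refine ⟨y + (t + e), f2_plane (hi e hWe he0) hy ?_, ?_, ?_⟩
        · rw [sympForm_add_right, hye, add_zero]
          exact hyt
        · rw [sympForm_add_left, sympForm_add_left, sympForm_self, ht1 e hWe, add_zero, add_zero]
          exact hyt
        · intro h
          obtain ⟨w, hw, hew⟩ := hnd e hWe he0
          have h1 := (mem_ort.1 h) w hw
          rw [sympForm_add_right, sympForm_add_right, (mem_ort.1 hyW) w hw, ht1 w hw, zero_add, zero_add] at h1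
          apply hew
          rw [sympForm_swap, h1, neg_zero]
      · exact ⟨y, hy, hyt, hyW⟩
    obtain ⟨a, ha, hay⟩ := hcomp y'
    have ha0 : a ≠ 0 := by
      intro h
      apply hy'W
      rw [h, add_zero] at hay
      exact hay
    have hy'w : ∀ w ∈ W, ω y' w = ω a w := by
      intro w hw
      have h1 : ω (y' + a) w = 0 := by
        rw [sympForm_swap, (mem_ort.1 hay) w hw, neg_zero]
      rw [sympForm_add_left] at h1
      have h2 : ω y' w = ω y' w + (ω y' w + ω a w) := by rw [h1, add_zero]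
      rw [h2, ← add_assoc, hss, zero_add]
    obtain ⟨d, hd, hd0, had, hadz⟩ := hchoose a ha ha0
    obtain ⟨w₀, hw₀, h1, h2⟩ := hsep a ha d hd ha0 had
    have hy'd : y' + d ∈ OF H := by
      refine f2_F1 hF hWO hy' hd hw₀ ?_ h2
      rw [hy'w w₀ hw₀]
      exact h1
    have h3 : y' + t ∈ OF H := by
      have h4 := f2_plane (hi d hd hd0) hy'd (by
        rw [sympForm_add_left, sympForm_add_right y' t d, sympForm_add_right d t d, hy'w d hd, hadz, ht1 d hd, sympForm_self,
          add_zero, add_zero, add_zero]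
        exact hy't)
      have h5 : y' + d + (t + d) = y' + t + (d + d) := by abel
      rw [h5, hvv, add_zero] at h4
      exact h4
    have htO : t ∈ OF H := by
      have h4 := f2_plane hy' h3 (by
        rw [sympForm_add_left, sympForm_self, zero_add]
        exact form_swap_ne hy't)
      have h5 : y' + t + y' = t + (y' + y') := by abel
      rw [h5, hvv, add_zero] at h4
      exact h4
    refine hmaxz t htW (fun w hw => ?_)
    by_cases hw0 : w = 0
    · rw [hw0, add_zero]
      exact htO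
    · exact hi w hw hw0
  -- invariance
  obtain ⟨z₁, hz₁, hz₁e⟩ : ∃ z₁ ∈ W, ω z₁ e ≠ 0 := by
    obtain ⟨w, hw, hew⟩ := hnd e hWe he0
    exact ⟨w, hw, form_swap_ne hew⟩
  have hinvW : ∀ g ∈ H, g.1 *ᵥ e = e → ∀ z ∈ W, g.1 *ᵥ z ∈ W := by
    intro g hg hge
    have h1 : ∀ z ∈ W, ω z e ≠ 0 → g.1 *ᵥ z ∈ W := by
      intro z hz hze
      rcases hdich _ (OF_conj hg (hWO z hz)) with h | h
      · exact h
      · exfalso
        have h3 := (mem_ort.1 h) e hWe
        rw [← hge, sp_form] at h3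
        exact form_swap_ne hze h3
    intro z hz
    by_cases hze : ω z e = 0
    · have h3 : ω (z + z₁) e ≠ 0 := by
        rw [sympForm_add_left, hze, zero_add]
        exact hz₁e
      have h4 := h1 _ (W.add_mem hz hz₁) h3
      rw [mulVec_add] at h4
      have h5 := W.sub_mem h4 (h1 z₁ hz₁ hz₁e)
      rwa [add_sub_cancel_right] at h5
    · exact h1 z hz hze
  have hue' : (u⁻¹).1 *ᵥ e = e := by
    nth_rw 1 [← hue]
    rw [sp_inv_mulVec_mulVec]
  have hort : ∀ y ∈ ort W, u.1 *ᵥ y ∈ ort W := by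
    intro y hy
    rw [mem_ort] at hy ⊢
    intro w hw
    rw [form_inv]
    exact hy _ (hinvW _ (H.inv_mem hu) hue' w hw)
  have hbot : ort W = ⊥ := by
    by_contra hne
    have h1 := hfixed (ort W) hne hort
    exact hz₁e ((mem_ort.1 h1) z₁ hz₁)
  have htop := ort_bot_imp hbot
  intro x
  exact hWO x (by rw [htop]; trivial)

end Cfsg.Agent.Lib.Known.Sp3
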