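import Cfsg.Agent.Lib.Known.Sp3c

/-!
# Three conjugate regular unipotent elements generate `Sp_{2n}`, `n ≥ 3`
-/

set_option autoImplicit false
set_option linter.unusedVariables false
set_option linter.unusedSectionVars false
set_option linter.unusedSimpArgs false

namespace Cfsg.Agent.Lib.Known.Sp3

open Matrix Module Cfsg.Agent.Lib.Classical Cfsg.Agent.Lib.KnownSimple

variable {n : ℕ} {F : Type*} [Field F]

local notation "V" => (Fin n ⊕ Fin n → F)
local notation "W" => (Fin n → F)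
local notation "ω" => Cfsg.sympForm n F
local notation "SpG" => Matrix.symplecticGroup (Fin n) F
local notation "M" => Matrix (Fin n) (Fin n) F

theorem B_AT (z : W) : Bm n F *ᵥ ((Am n F)ᵀ *ᵥ z) = z := by
  rw [mulVec_mulVec, B_mul_AT, one_mulVec]

theorem AT_B (z : W) : (Am n F)ᵀ *ᵥ (Bm n F *ᵥ z) = z := by
  rw [mulVec_mulVec, AT_mul_B, one_mulVec]

theorem AT_single {k : ℕ} (hk : k + 1 < n) :
    (Am n F)ᵀ *ᵥ (Pi.single ⟨k, by omega⟩ 1) = Pi.single ⟨k, by omega⟩ 1 + Pi.single ⟨k + 1, hk⟩ 1 := by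
  rw [Am_T_eq, add_mulVec, one_mulVec]
  congr 1
  ext i
  rw [shiftT_apply, Finset.sum_eq_single (⟨k, by omega⟩ : Fin n)]
  · by_cases h : (i : ℕ) = k + 1
    · have : i = ⟨k + 1, hk⟩ := Fin.ext h
      rw [this]
      simp
    · have h2 : i ≠ ⟨k + 1, hk⟩ := fun h3 => h (by rw [h3])
      rw [if_neg (by simpa using h), Pi.single_apply, if_neg h2]
  · intro j _ hj
    by_cases h : (i : ℕ) = j + 1
    · rw [if_pos h, Pi.single_apply, if_neg hj]
    · rw [if_neg h]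
  · simp

/-- The general assembly, fields with at least three elements. -/
theorem assemble_large [Fintype F] (hcard : 3 ≤ Fintype.card F) (hn : 0 < n) {g h : SpG} {c₀ : F} (hc₀ : c₀ ≠ 0)
    (hrel : g * uG hn F * g⁻¹ = uG hn F * sympTr (eV ⟨0, hn⟩ F) c₀) (k : Fˣ) (hk : ∀ x : Fˣ, x ∈ Subgroup.zpowers k)
    (hword : (h * uG hn F * h⁻¹ * uG hn F * (h * uG hn F * h⁻¹)).1 *ᵥ eV ⟨0, hn⟩ F = (k : F) • eV ⟨0, hn⟩ F ∨
      (h * uG hn F * h⁻¹ * uG hn F * ((h * uG hn F * h⁻¹) * (h * uG hn F * h⁻¹))).1 *ᵥ eV ⟨0, hn⟩ F =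
        (k : F) • eV ⟨0, hn⟩ F)
    (hee : ω (eV ⟨0, hn⟩ F) (h.1 *ᵥ eV ⟨0, hn⟩ F) ≠ 0) :
    Subgroup.closure ({uG hn F, g * uG hn F * g⁻¹, h * uG hn F * h⁻¹} : Set SpG) = ⊤ := by
  set u := uG hn F with hu
  set H := Subgroup.closure ({u, g * u * g⁻¹, h * u * h⁻¹} : Set SpG) with hH
  have huH : u ∈ H := Subgroup.subset_closure (by simp)
  have hgH : g * u * g⁻¹ ∈ H := Subgroup.subset_closure (by simp)
  have hvH : h * u * h⁻¹ ∈ H := Subgroup.subset_closure (by simp)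
  have hT : sympTr (eV ⟨0, hn⟩ F) c₀ ∈ H := by
    have h1 : sympTr (eV ⟨0, hn⟩ F) c₀ = u⁻¹ * (g * u * g⁻¹) := by
      rw [hrel, inv_mul_cancel_left]
    rw [h1]
    exact H.mul_mem (H.inv_mem huH) hgH
  have he : eV ⟨0, hn⟩ F ∈ OF H := by
    rcases hword with hw | hw
    · exact mem_OF_of_scale hc₀ hT (H.mul_mem (H.mul_mem hvH huH) hvH) k hk hw
    · exact mem_OF_of_scale hc₀ hT (H.mul_mem (H.mul_mem hvH huH) (H.mul_mem hvH hvH)) k hk hw
  have he0 : eV ⟨0, hn⟩ F ≠ 0 := by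
    intro h0
    have := congrFun h0 (Sum.inl ⟨0, hn⟩)
    simp [eV] at this
  have hue : u.1 *ᵥ eV ⟨0, hn⟩ F = eV ⟨0, hn⟩ F := u_fix_e0 hn
  apply top_of_OF hcard he0 he huH hvH hue (u_fixed hn) (N_nil hn) (e' := h.1 *ᵥ eV ⟨0, hn⟩ F)
  · rw [conj_act, hue]
  · exact conj_fix (u_fixed hn)
  · exact conj_nil u h (N_nil hn)
  · exact hee

section Three

set_option quotPrecheck false
local notation "i0" => (⟨0, by omega⟩ : Fin n)
local notation "i1" => (⟨1, by omega⟩ : Fin n)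
local notation "i2" => (⟨2, by omega⟩ : Fin n)
local notation "iL" => (⟨n - 1, by omega⟩ : Fin n)

/-- The symmetric matrix of the second generator. -/
def S0 (hn3 : 3 ≤ n) (F : Type*) [Field F] : Matrix (Fin n) (Fin n) F :=
  vecMulVec (Pi.single i1 1) (Pi.single i1 1) - vecMulVec (Pi.single i0 1) (Pi.single i2 1) -
    vecMulVec (Pi.single i2 1) (Pi.single i0 1)

variable (hn3 : 3 ≤ n)

theorem S0_symm : (S0 hn3 F)ᵀ = S0 hn3 F := by
  simp only [S0, transpose_sub, transpose_vecMulVec]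
  abel

theorem A_S0_AT : Am n F * S0 hn3 F * (Am n F)ᵀ = S0 hn3 F + vecMulVec (Pi.single i0 1) (Pi.single i0 1) := by
  have h0 : Am n F *ᵥ (Pi.single i0 1) = Pi.single i0 1 := Am_single_zero (by omega)
  have h1 : Am n F *ᵥ (Pi.single i1 1) = Pi.single i1 1 + Pi.single i0 1 := Am_single_succ (k := 0) (by omega)
  have h2 : Am n F *ᵥ (Pi.single i2 1) = Pi.single i2 1 + Pi.single i1 1 := Am_single_succ (k := 1) (by omega)
  have key : ∀ x y : W, Am n F * vecMulVec x y * (Am n F)ᵀ = vecMulVec (Am n F *ᵥ x) (Am n F *ᵥ y) := by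
    intro x y
    rw [Matrix.mul_vecMulVec, Matrix.vecMulVec_mul, vecMul_transpose]
  simp only [S0, Matrix.mul_sub, Matrix.sub_mul, key, h0, h1, h2, add_vecMulVec, vecMulVec_add]
  abel

theorem S0_rel_vec (b : W) :
    Am n F *ᵥ (S0 hn3 F *ᵥ b) = S0 hn3 F *ᵥ (Bm n F *ᵥ b) + b i0 • (Pi.single i0 1 : W) := by
  have h1 : b = (Am n F)ᵀ *ᵥ (Bm n F *ᵥ b) := (AT_B b).symm
  generalize hz : Bm n F *ᵥ b = z at h1 ⊢
  rw [h1, mulVec_mulVec, mulVec_mulVec, A_S0_AT, add_mulVec, vecMulVec_mulVec]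
  congr 1
  have h2 : ((Am n F)ᵀ *ᵥ z) i0 = z i0 := by
    rw [Am_T_eq, add_mulVec, one_mulVec, Pi.add_apply, shiftT_zero (by omega), add_zero]
  rw [h2]
  simp [single_one_dotProduct]

/-- The second generator. -/
theorem g_rel : rG (S0 hn3 F) (S0_symm hn3) * uG (by omega) F * (rG (S0 hn3 F) (S0_symm hn3))⁻¹ =
    uG (by omega) F * sympTr (eV i0 F) (-1) := by
  rw [mul_inv_eq_iff_eq_mul]
  apply Subtype.ext
  apply mat_ext_mulVec
  intro x
  rw [← pr_eta x]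
  generalize x ∘ Sum.inl = a
  generalize x ∘ Sum.inr = b
  change ((rG (S0 hn3 F) (S0_symm hn3)).1 * (uG (by omega) F).1) *ᵥ pr a b =
    ((uG (by omega) F).1 * (sympTr (eV i0 F) (-1)).1 * (rG (S0 hn3 F) (S0_symm hn3)).1) *ᵥ pr a b
  rw [← mulVec_mulVec, ← mulVec_mulVec, ← mulVec_mulVec, uG_act, rG_act, rG_act, sympTr_act, eV, form_pr]
  have h3 : (-1 * (b ⬝ᵥ (Pi.single i0 1 : W) - (a + S0 hn3 F *ᵥ b) ⬝ᵥ (0 : W))) • pr (Pi.single i0 1 : W) (0 : W) =
      pr (-(b i0) • (Pi.single i0 1 : W)) 0 := by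
    rw [pr_smul, smul_zero]
    congr 2
    simp [dotProduct_single]
  rw [h3, pr_add, add_zero, uG_act]
  congr 1
  have h4 := S0_rel_vec hn3 (F := F) b
  have h5 : Am n F *ᵥ (Pi.single i0 1 : W) = Pi.single i0 1 := Am_single_zero (by omega)
  simp only [mulVec_add, mulVec_smul, h4, h5]
  rw [neg_smul]
  abel

/-- The vectors of the frame. -/
theorem exists_h3 (l : F) (hl : l ≠ 0) :
    ∃ (h : SpG) (x z : V), (uG (by omega) F).1 *ᵥ z = x ∧ h.1 *ᵥ x = eV i0 F ∧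
      h.1 *ᵥ ((uG (by omega) F).1 *ᵥ x) = eV i2 F ∧ h.1 *ᵥ z = l⁻¹ • (eV i2 F + eV i1 F) ∧ ω x (eV i0 F) = 1 := by
  have hn0 : 0 < n := by omega
  have hn1 : 1 < n := by omega
  have hn2 : 2 < n := by omega
  have h01 : i0 ≠ i1 := by simp [Fin.ext_iff]
  have h02 : i0 ≠ i2 := by simp [Fin.ext_iff]
  have h12 : i1 ≠ i2 := by simp [Fin.ext_iff]
  have h0L : i0 ≠ iL := by simp [Fin.ext_iff]; omega
  have h1L : i1 ≠ iL := by simp [Fin.ext_iff]; omega
  have hA0 : (Am n F)ᵀ *ᵥ (Pi.single i0 1) = Pi.single i0 1 + Pi.single i1 1 := AT_single (k := 0) (by omega)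
  have hA1 : (Am n F)ᵀ *ᵥ (Pi.single i1 1) = Pi.single i1 1 + Pi.single i2 1 := AT_single (k := 1) (by omega)
  set b₀ : W := Pi.single i0 1 + Pi.single i1 1 with hb₀
  set b' : W := (Am n F)ᵀ *ᵥ b₀ with hb'
  have hb'2 : b' = b₀ + (Pi.single i1 1 + Pi.single i2 1) := by
    rw [hb', hb₀, mulVec_add, hA0, hA1]
  have hEb₀ : Em hn0 F *ᵥ b₀ = 0 := by
    rw [Em_mulVec]
    have : b₀ iL = 0 := by
      rw [hb₀]
      simp [Pi.single_apply, h0L.symm, h1L.symm]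
    rw [this, zero_smul]
  have hx : (uG hn0 F).1 *ᵥ pr 0 b₀ = pr 0 (Pi.single i0 1) := by
    rw [uG_act, hEb₀, add_zero, mulVec_zero]
    congr 1
    change Bm n F *ᵥ b₀ = _
    rw [← hA0, B_AT]
  have hz : (uG hn0 F).1 *ᵥ pr (-(Em hn0 F *ᵥ b')) b' = pr 0 b₀ := by
    rw [uG_act, neg_add_cancel, mulVec_zero, hb', B_AT]
  -- orthogonality facts
  have hEform : ∀ c : W, c iL = 0 → c ⬝ᵥ (Em hn0 F *ᵥ b') = 0 := by
    intro c hc
    rw [Em_mulVec, dotProduct_smul, dotProduct_single, hc]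
    simp
  have hb₀L : b₀ iL = 0 := by
    rw [hb₀]
    simp [Pi.single_apply, h0L.symm, h1L.symm]
  have he0L : (Pi.single i0 1 : W) iL = 0 := by
    simp [Pi.single_apply, h0L.symm]
  have hb₀0 : b₀ i0 = 1 := by
    rw [hb₀]
    simp [Pi.single_apply, h01.symm, h01]
  have hb₀1 : b₀ i1 = 1 := by
    rw [hb₀]
    simp [Pi.single_apply, h01.symm, h01]
  have hb₀2 : b₀ i2 = 0 := by
    rw [hb₀]
    simp [Pi.single_apply, h02.symm, h12.symm]
  have hb'0 : b' i0 = 1 := by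
    rw [hb'2, Pi.add_apply, hb₀0]
    simp [Pi.single_apply, h01, h02]
  have hb'1 : b' i1 = 1 + 1 := by
    rw [hb'2, Pi.add_apply, hb₀1]
    simp [Pi.single_apply, h12]
  have hb'2' : b' i2 = 1 := by
    rw [hb'2, Pi.add_apply, hb₀2]
    simp [Pi.single_apply, h12.symm]
  let a' : Fin 3 → W := ![Pi.single i0 1, Pi.single i2 1, l⁻¹ • (Pi.single i2 1 + Pi.single i1 1)]
  let s : Fin 3 → V := ![pr 0 b₀, pr 0 (Pi.single i0 1), pr (-(Em hn0 F *ᵥ b')) b']
  let s' : Fin 3 → V := fun i => pr (a' i) 0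
  have hH0 : ∀ c c' : W, ω (pr 0 c) (pr 0 c') = 0 := by
    intro c c'
    rw [form_pr]
    simp
  have hH1 : ∀ c : W, c iL = 0 → ω (pr 0 c) (pr (-(Em hn0 F *ᵥ b')) b') = 0 := by
    intro c hc
    rw [form_pr, dotProduct_neg, hEform c hc]
    simp
  have hH1' : ∀ c : W, c iL = 0 → ω (pr (-(Em hn0 F *ᵥ b')) b') (pr 0 c) = 0 := by
    intro c hc
    rw [sympForm_swap, hH1 c hc, neg_zero]
  have hR : ∀ i j, ω (s i) (s j) = 0 := by
    intro i j
    fin_cases i <;> fin_cases j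
    · exact hH0 _ _
    · exact hH0 _ _
    · exact hH1 _ hb₀L
    · exact hH0 _ _
    · exact hH0 _ _
    · exact hH1 _ he0L
    · exact hH1' _ hb₀L
    · exact hH1' _ he0L
    · exact sympForm_self _
  have hG : ∀ i j, ω (s' i) (s' j) = ω (s i) (s j) := by
    intro i j
    rw [hR]
    change ω (pr (a' i) 0) (pr (a' j) 0) = 0
    rw [form_pr]
    simp
  have hli : LinearIndependent F s := by
    rw [Fintype.linearIndependent_iff]
    intro g hg
    rw [Fin.sum_univ_three] at hg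
    have h2 : g 0 * b₀ i2 + g 1 * (Pi.single i0 1 : W) i2 + g 2 * b' i2 = 0 := congrFun hg (Sum.inr ⟨2, hn2⟩)
    have h1 : g 0 * b₀ i1 + g 1 * (Pi.single i0 1 : W) i1 + g 2 * b' i1 = 0 := congrFun hg (Sum.inr ⟨1, hn1⟩)
    have h0 : g 0 * b₀ i0 + g 1 * (Pi.single i0 1 : W) i0 + g 2 * b' i0 = 0 := congrFun hg (Sum.inr ⟨0, hn0⟩)
    rw [hb₀2, hb'2', Pi.single_apply, if_neg h02.symm] at h2
    rw [hb₀1, hb'1, Pi.single_apply, if_neg h01.symm] at h1
    rw [hb₀0, hb'0, Pi.single_apply, if_pos rfl] at h0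
    have g2 : g 2 = 0 := by linear_combination h2
    have g0 : g 0 = 0 := by
      rw [g2] at h1
      linear_combination h1
    have g1 : g 1 = 0 := by
      rw [g2, g0] at h0
      linear_combination h0
    intro i
    fin_cases i
    · exact g0
    · exact g1
    · exact g2
  have hli' : LinearIndependent F s' := by
    rw [Fintype.linearIndependent_iff]
    intro g hg
    rw [Fin.sum_univ_three] at hg
    have hl' : l⁻¹ ≠ 0 := inv_ne_zero hl
    have h2 : g 0 * (Pi.single i0 1 : W) i2 + g 1 * (Pi.single i2 1 : W) i2 +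
        g 2 * (l⁻¹ * ((Pi.single i2 1 : W) i2 + (Pi.single i1 1 : W) i2)) = 0 := congrFun hg (Sum.inl ⟨2, hn2⟩)
    have h1 : g 0 * (Pi.single i0 1 : W) i1 + g 1 * (Pi.single i2 1 : W) i1 +
        g 2 * (l⁻¹ * ((Pi.single i2 1 : W) i1 + (Pi.single i1 1 : W) i1)) = 0 := congrFun hg (Sum.inl ⟨1, hn1⟩)
    have h0 : g 0 * (Pi.single i0 1 : W) i0 + g 1 * (Pi.single i2 1 : W) i0 +
        g 2 * (l⁻¹ * ((Pi.single i2 1 : W) i0 + (Pi.single i1 1 : W) i0)) = 0 := congrFun hg (Sum.inl ⟨0, hn0⟩)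
    simp only [Pi.single_apply, if_true, if_neg h02, if_neg h02.symm, if_neg h01, if_neg h01.symm, if_neg h12,
      if_neg h12.symm] at h2 h1 h0
    have g2 : g 2 = 0 := by
      have : g 2 * l⁻¹ = 0 := by linear_combination h1
      exact (mul_eq_zero.1 this).resolve_right hl'
    have g0 : g 0 = 0 := by
      rw [g2] at h0
      linear_combination h0
    have g1 : g 1 = 0 := by
      rw [g2] at h2
      linear_combination h2
    intro i
    fin_cases i
    · exact g0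
    · exact g1
    · exact g2
  obtain ⟨h, hh⟩ := exists_sp_map hli hli' hG
  refine ⟨h, pr 0 b₀, pr (-(Em hn0 F *ᵥ b')) b', hz, hh 0, ?_, ?_, ?_⟩
  · rw [hx]
    exact hh 1
  · have := hh 2
    rw [eV, eV, pr_add, pr_smul, add_zero, smul_zero]
    exact this
  · rw [eV, form_pr, hb₀]
    simp [dotProduct_single, Pi.single_apply, h01.symm]

theorem u_eV_succ (hn : 0 < n) {k : ℕ} (hk : k + 1 < n) :
    (uG hn F).1 *ᵥ eV ⟨k + 1, hk⟩ F = eV ⟨k + 1, hk⟩ F + eV ⟨k, by omega⟩ F := by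
  rw [eV, eV, uG_act, mulVec_zero, add_zero, mulVec_zero, Am_single_succ, pr_add, add_zero]

/-- The case `n ≥ 3`. -/
theorem sp_ge3 [Fintype F] : ∃ g h : SpG, Subgroup.closure ({uG (by omega) F, g * uG (by omega) F * g⁻¹,
    h * uG (by omega) F * h⁻¹} : Set SpG) = ⊤ := by
  classical
  have hn0 : 0 < n := by omega
  obtain ⟨k, hk⟩ := IsCyclic.exists_generator (α := Fˣ)
  obtain ⟨h, x, z, hzx, hx, hux, hzh, hxe⟩ := exists_h3 hn3 (k : F) k.ne_zero
  have hue2 : (uG hn0 F).1 *ᵥ eV i2 F = eV i2 F + eV i1 F := u_eV_succ hn0 (k := 1) (by omega)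
  have hue1 : (uG hn0 F).1 *ᵥ eV i1 F = eV i1 F + eV i0 F := u_eV_succ hn0 (k := 0) (by omega)
  have hv0 : (h * uG hn0 F * h⁻¹).1 *ᵥ eV i0 F = eV i2 F := by
    rw [← hx, conj_act, hux]
  have hv1 : (h * uG hn0 F * h⁻¹).1 *ᵥ (eV i2 F + eV i1 F) = (k : F) • eV i0 F := by
    have h1 : eV i2 F + eV i1 F = (k : F) • (h.1 *ᵥ z) := by
      rw [hzh, smul_smul, mul_inv_cancel₀ k.ne_zero, one_smul]
    rw [h1, mulVec_smul, conj_act, hzx, hx]
  have hee : ω (eV i0 F) (h.1 *ᵥ eV i0 F) ≠ 0 := by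
    have h1 : ω (eV i0 F) (h.1 *ᵥ eV i0 F) = ω (h.1 *ᵥ x) (h.1 *ᵥ eV i0 F) := by rw [hx]
    rw [h1, sp_form, hxe]
    exact one_ne_zero
  refine ⟨rG (S0 hn3 F) (S0_symm hn3), h, ?_⟩
  have hrel := g_rel hn3 (F := F)
  by_cases hc : Fintype.card F = 2
  · have hneg : (-1 : F) = 1 := by
      have := f2_add_self hc (1 : F)
      linear_combination (-1 : F) * this
    set u := uG hn0 F with hu
    set H := Subgroup.closure ({u, rG (S0 hn3 F) (S0_symm hn3) * u * (rG (S0 hn3 F) (S0_symm hn3))⁻¹,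
      h * u * h⁻¹} : Set SpG) with hH
    have huH : u ∈ H := Subgroup.subset_closure (by simp)
    have hgH : rG (S0 hn3 F) (S0_symm hn3) * u * (rG (S0 hn3 F) (S0_symm hn3))⁻¹ ∈ H :=
      Subgroup.subset_closure (by simp)
    have hvH : h * u * h⁻¹ ∈ H := Subgroup.subset_closure (by simp)
    have hT : sympTr (eV i0 F) 1 ∈ H := by
      have h1 : sympTr (eV i0 F) (-1) = u⁻¹ * (rG (S0 hn3 F) (S0_symm hn3) * u * (rG (S0 hn3 F) (S0_symm hn3))⁻¹) := by
        rw [hrel, inv_mul_cancel_left]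
      rw [← hneg, h1]
      exact H.mul_mem (H.inv_mem huH) hgH
    have he : eV i0 F ∈ OF H := by
      intro c
      rcases f2_cases hc c with rfl | rfl
      · rw [sympTr_zero_param]
        exact H.one_mem
      · exact hT
    have hb : eV i2 F ∈ OF H := by
      rw [← hv0]
      exact OF_conj hvH he
    have hc' : eV i0 F + eV i2 F ∈ OF H := by
      have h1 := OF_conj huH (OF_conj huH hb)
      rw [hue2, mulVec_add, hue2, hue1] at h1
      have h2 : eV i2 F + eV i1 F + (eV i1 F + eV i0 F) = eV i0 F + eV i2 F + (eV i1 F + eV i1 F) := by abel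
      rw [h2, f2_vec_add_self hc, add_zero] at h1
      exact h1
    have hne02 : (⟨0, hn0⟩ : Fin n) ≠ ⟨2, by omega⟩ := by simp [Fin.ext_iff]
    have he0 : eV i0 F ≠ 0 := by
      intro h0
      have := congrFun h0 (Sum.inl ⟨0, hn0⟩)
      simp [eV] at this
    have hb0 : eV i2 F ≠ 0 := by
      intro h0
      have h3 : (2 : ℕ) < n := by omega
      have := congrFun h0 (Sum.inl ⟨2, h3⟩)
      simp [eV] at this
    have hbe : eV i2 F ≠ eV i0 F := by
      intro h0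
      have h3 : (2 : ℕ) < n := by omega
      have := congrFun h0 (Sum.inl ⟨2, h3⟩)
      simp [eV, Pi.single_apply, Fin.ext_iff] at this
    have heb : ω (eV i0 F) (eV i2 F) = 0 := by
      rw [eV, eV, form_pr]
      simp
    exact top_of_F2 hc he0 hb0 hbe he hb hc' heb huH hvH (u_fix_e0 hn0) (u_fixed hn0) (N_nil hn0)
      (e' := h.1 *ᵥ eV i0 F) (by rw [conj_act, u_fix_e0 hn0]) (conj_fix (u_fixed hn0)) (conj_nil u h (N_nil hn0)) hee
  · have hcard : 3 ≤ Fintype.card F := by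
      have := Fintype.one_lt_card (α := F)
      omega
    refine assemble_large hcard hn0 (neg_ne_zero.2 one_ne_zero) hrel k hk (Or.inl ?_) hee
    change ((h * uG hn0 F * h⁻¹).1 * (uG hn0 F).1 * (h * uG hn0 F * h⁻¹).1) *ᵥ eV i0 F = _
    rw [← mulVec_mulVec, ← mulVec_mulVec, hv0, hue2, hv1]

end Three

end Cfsg.Agent.Lib.Known.Sp3
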