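import Cfsg.Agent.Lib.Known.Sp3d

/-!
# Three conjugate regular unipotent elements generate `Sp_4(q)`, `q ≥ 3`
-/

set_option autoImplicit false
set_option linter.unusedVariables false
set_option linter.unusedSectionVars false
set_option linter.unusedSimpArgs false

namespace Cfsg.Agent.Lib.Known.Sp3

open Matrix Module Cfsg.Agent.Lib.Classical Cfsg.Agent.Lib.KnownSimple

variable {F : Type*} [Field F]

local notation "V2" => (Fin 2 ⊕ Fin 2 → F)
local notation "ω" => Cfsg.sympForm 2 F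
local notation "SpG" => Matrix.symplecticGroup (Fin 2) F

/-- Coordinates on the four dimensional space. -/
def vv (a0 a1 b0 b1 : F) : Fin 2 ⊕ Fin 2 → F := pr ![a0, a1] ![b0, b1]

theorem vv_eta (x : V2) : x = vv (x (Sum.inl 0)) (x (Sum.inl 1)) (x (Sum.inr 0)) (x (Sum.inr 1)) := by
  ext i
  rcases i with i | i <;> fin_cases i <;> rfl

theorem vv_smul (l a0 a1 b0 b1 : F) : l • vv a0 a1 b0 b1 = vv (l * a0) (l * a1) (l * b0) (l * b1) := by
  ext i
  rcases i with i | i <;> fin_cases i <;> rfl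

theorem form_vv (a0 a1 b0 b1 c0 c1 d0 d1 : F) :
    ω (vv a0 a1 b0 b1) (vv c0 c1 d0 d1) = b0 * c0 + b1 * c1 - a0 * d0 - a1 * d1 := by
  rw [vv, vv, form_pr]
  simp [dotProduct, Fin.sum_univ_two]
  ring

theorem eV0_vv : eV (⟨0, by norm_num⟩ : Fin 2) F = vv 1 0 0 0 := by
  ext i
  rcases i with i | i <;> fin_cases i <;> simp [eV, vv]

theorem A2 (x0 x1 : F) : Am 2 F *ᵥ ![x0, x1] = ![x0 + x1, x1] := by
  rw [Am_mulVec]
  ext i
  fin_cases i
  · have := shift_succ (n := 2) (F := F) (k := 0) (by norm_num) ![x0, x1]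
    simp only [Pi.add_apply]
    change x0 + (shiftM 2 F *ᵥ ![x0, x1]) ⟨0, by norm_num⟩ = x0 + x1
    rw [this]
    rfl
  · have := shift_last (n := 2) (F := F) ![x0, x1] ⟨1, by norm_num⟩ (by norm_num)
    simp only [Pi.add_apply]
    change x1 + (shiftM 2 F *ᵥ ![x0, x1]) ⟨1, by norm_num⟩ = x1
    rw [this, add_zero]

theorem AT2 (x0 x1 : F) : (Am 2 F)ᵀ *ᵥ ![x0, x1] = ![x0, x0 + x1] := by
  rw [Am_T_eq, add_mulVec, one_mulVec]
  ext i
  fin_cases i
  · have := shiftT_zero (n := 2) (F := F) (by norm_num) ![x0, x1]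
    simp only [Pi.add_apply]
    change x0 + ((shiftM 2 F)ᵀ *ᵥ ![x0, x1]) ⟨0, by norm_num⟩ = x0
    rw [this, add_zero]
  · have := shiftT_succ (n := 2) (F := F) (k := 0) (by norm_num) ![x0, x1]
    simp only [Pi.add_apply]
    change x1 + ((shiftM 2 F)ᵀ *ᵥ ![x0, x1]) ⟨1, by norm_num⟩ = x0 + x1
    rw [this, add_comm]
    rfl

theorem B2 (b0 b1 : F) : Bm 2 F *ᵥ ![b0, b1] = ![b0, b1 - b0] := by
  have h1 : ![b0, b1] = (Am 2 F)ᵀ *ᵥ ![b0, b1 - b0] := by
    rw [AT2, add_sub_cancel]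
  rw [h1, B_AT]

theorem E2 (hn : 0 < 2) (b0 b1 : F) : Em hn F *ᵥ ![b0, b1] = ![0, b1] := by
  rw [Em_mulVec]
  ext i
  fin_cases i <;> simp [Pi.single_apply, Fin.ext_iff]

/-- The action of `u` in coordinates. -/
theorem u2_act (hn : 0 < 2) (a0 a1 b0 b1 : F) :
    (uG hn F).1 *ᵥ vv a0 a1 b0 b1 = vv (a0 + a1 + b1) (a1 + b1) b0 (b1 - b0) := by
  rw [vv, uG_act, E2, B2, vv]
  congr 1
  have h1 : ![a0, a1] + ![0, b1] = ![a0, a1 + b1] := by
    ext i
    fin_cases i <;> simp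
  rw [h1, A2]
  ext i
  fin_cases i <;> simp <;> ring

/-- The second generator. -/
noncomputable def g2 (ζ : F) : SpG :=
  iotaG !![1, ζ; 0, 1] !![1, 0; -ζ, 1] (by
    ext i j
    fin_cases i <;> fin_cases j <;> simp [Matrix.mul_apply, Fin.sum_univ_two, transpose_apply]) *
  rG !![0, 0; 0, ζ] (by
    ext i j
    fin_cases i <;> fin_cases j <;> simp [transpose_apply])

theorem g2_act (ζ a0 a1 b0 b1 : F) :
    (g2 ζ).1 *ᵥ vv a0 a1 b0 b1 = vv (a0 + ζ * a1 + ζ ^ 2 * b1) (a1 + ζ * b1) b0 (b1 - ζ * b0) := by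
  change ((iotaG _ _ _).1 * (rG _ _).1) *ᵥ vv a0 a1 b0 b1 = _
  rw [← mulVec_mulVec, vv, rG_act, iotaG_act, vv]
  congr 1
  · ext i
    fin_cases i <;> simp [mulVec, dotProduct, Fin.sum_univ_two] <;> ring
  · ext i
    fin_cases i <;> simp [mulVec, dotProduct, Fin.sum_univ_two] <;> ring

theorem T2_act (c a0 a1 b0 b1 : F) :
    (sympTr (vv 1 0 0 0) c).1 *ᵥ vv a0 a1 b0 b1 = vv (a0 + c * b0) a1 b0 b1 := by
  rw [sympTr_act, form_vv, vv_smul]
  ext i
  rcases i with i | i <;> fin_cases i <;> simp [vv]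

theorem g2_rel (hn : 0 < 2) (ζ : F) :
    g2 ζ * uG hn F * (g2 ζ)⁻¹ = uG hn F * sympTr (eV ⟨0, hn⟩ F) (ζ - ζ ^ 2) := by
  rw [mul_inv_eq_iff_eq_mul]
  apply Subtype.ext
  apply mat_ext_mulVec
  intro x
  rw [vv_eta x]
  generalize x (Sum.inl 0) = a0
  generalize x (Sum.inl 1) = a1
  generalize x (Sum.inr 0) = b0
  generalize x (Sum.inr 1) = b1
  change ((g2 ζ).1 * (uG hn F).1) *ᵥ vv a0 a1 b0 b1 =
    ((uG hn F).1 * (sympTr (eV ⟨0, hn⟩ F) (ζ - ζ ^ 2)).1 * (g2 ζ).1) *ᵥ vv a0 a1 b0 b1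
  have he : eV (⟨0, hn⟩ : Fin 2) F = vv 1 0 0 0 := eV0_vv
  rw [he, ← mulVec_mulVec, ← mulVec_mulVec, ← mulVec_mulVec, u2_act, g2_act, g2_act, T2_act, u2_act]
  congr 1 <;> ring

/-- An element different from zero and one. -/
theorem exists_ne_zero_one [Fintype F] (hcard : 3 ≤ Fintype.card F) : ∃ ζ : F, ζ ≠ 0 ∧ ζ ≠ 1 := by
  classical
  by_contra hcon
  push Not at hcon
  have h1 : (Finset.univ : Finset F) ⊆ {0, 1} := by
    intro x _
    by_cases hx : x = 0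
    · simp [hx]
    · simp [hcon x hx]
  have h2 := Finset.card_le_card h1
  have h3 : ({0, 1} : Finset F).card ≤ 2 := Finset.card_le_two
  rw [Finset.card_univ] at h2
  omega

/-- A common part of the two small cases. -/
theorem exists_triple {x y z : V2} {y' z' : V2}
    (hu : (uG (by norm_num) F).1 *ᵥ z = x)
    (hli : LinearIndependent F (![x, y, z] : Fin 3 → V2)) (hli' : LinearIndependent F (![vv 1 0 0 0, y', z'] : Fin 3 → V2))
    (hG : ∀ i j, ω ((![vv 1 0 0 0, y', z'] : Fin 3 → V2) i) ((![vv 1 0 0 0, y', z'] : Fin 3 → V2) j) =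
      ω ((![x, y, z] : Fin 3 → V2) i) ((![x, y, z] : Fin 3 → V2) j)) :
    ∃ h : SpG, h.1 *ᵥ x = vv 1 0 0 0 ∧ h.1 *ᵥ y = y' ∧ h.1 *ᵥ z = z' := by
  obtain ⟨h, hh⟩ := exists_sp_map hli hli' hG
  exact ⟨h, hh 0, hh 1, hh 2⟩

theorem gram_of (p01 p02 p12 : Prop) (x0 x1 x2 y0 y1 y2 : V2)
    (h01 : ω y0 y1 = ω x0 x1) (h02 : ω y0 y2 = ω x0 x2) (h12 : ω y1 y2 = ω x1 x2) :
    ∀ i j, ω ((![y0, y1, y2] : Fin 3 → V2) i) ((![y0, y1, y2] : Fin 3 → V2) j) =
      ω ((![x0, x1, x2] : Fin 3 → V2) i) ((![x0, x1, x2] : Fin 3 → V2) j) := by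
  intro i j
  fin_cases i <;> fin_cases j
  · exact (sympForm_self _).trans (sympForm_self _).symm
  · exact h01
  · exact h02
  · change ω y1 y0 = ω x1 x0
    rw [sympForm_swap, h01, ← sympForm_swap]
  · exact (sympForm_self _).trans (sympForm_self _).symm
  · exact h12
  · change ω y2 y0 = ω x2 x0
    rw [sympForm_swap, h02, ← sympForm_swap]
  · change ω y2 y1 = ω x2 x1
    rw [sympForm_swap, h12, ← sympForm_swap]
  · exact (sympForm_self _).trans (sympForm_self _).symm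

/-- The case of characteristic two (in fact any square generator). -/
theorem sp2_square [Fintype F] (hcard : 3 ≤ Fintype.card F) (k : Fˣ) (hk : ∀ x : Fˣ, x ∈ Subgroup.zpowers k)
    (α : F) (hα : (k : F) = α ^ 2) :
    ∃ g h : SpG, Subgroup.closure ({uG (by norm_num) F, g * uG (by norm_num) F * g⁻¹,
      h * uG (by norm_num) F * h⁻¹} : Set SpG) = ⊤ := by
  have hn : 0 < 2 := by norm_num
  obtain ⟨ζ, hζ0, hζ1⟩ := exists_ne_zero_one (F := F) hcard
  have hc₀ : ζ - ζ ^ 2 ≠ 0 := by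
    have : ζ - ζ ^ 2 = ζ * (1 - ζ) := by ring
    rw [this]
    exact mul_ne_zero hζ0 (sub_ne_zero.2 hζ1.symm)
  set l : F := (k : F) with hl
  have hl0 : l ≠ 0 := k.ne_zero
  have hα0 : α ≠ 0 := by
    rintro rfl
    apply hl0
    rw [hα]
    simp
  set l' : F := l⁻¹ with hl'
  have hll : l' * l = 1 := inv_mul_cancel₀ hl0
  have hl'0 : l' ≠ 0 := inv_ne_zero hl0
  have hz : (uG hn F).1 *ᵥ vv 0 (-1) 1 1 = vv 0 0 1 0 := by
    rw [u2_act]
    congr 1 <;> ring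
  have hux : (uG hn F).1 *ᵥ vv 0 0 1 0 = vv 0 0 1 (-1) := by
    rw [u2_act]
    congr 1 <;> ring
  have huy : (uG hn F).1 *ᵥ vv 0 0 0 α = vv α α 0 α := by
    rw [u2_act]
    congr 1 <;> ring
  have hli : LinearIndependent F (![vv 0 0 1 0, vv 0 0 1 (-1), vv 0 (-1) 1 1] : Fin 3 → V2) := by
    rw [Fintype.linearIndependent_iff]
    intro g hg
    rw [Fin.sum_univ_three] at hg
    have h1 : g 0 * 0 + g 1 * 0 + g 2 * (-1) = 0 := congrFun hg (Sum.inl 1)
    have h2 : g 0 * 1 + g 1 * 1 + g 2 * 1 = 0 := congrFun hg (Sum.inr 0)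
    have h3 : g 0 * 0 + g 1 * (-1) + g 2 * 1 = 0 := congrFun hg (Sum.inr 1)
    have g2 : g 2 = 0 := by linear_combination -h1
    have g1 : g 1 = 0 := by linear_combination -h3 + g2
    have g0 : g 0 = 0 := by linear_combination h2 - g1 - g2
    intro i
    fin_cases i
    · exact g0
    · exact g1
    · exact g2
  have hli' : LinearIndependent F (![vv 1 0 0 0, vv 0 0 0 α, vv (l' * α) (l' * α) (l' * 0) (l' * α)] : Fin 3 → V2) := by
    rw [Fintype.linearIndependent_iff]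
    intro g hg
    rw [Fin.sum_univ_three] at hg
    have h1 : g 0 * 0 + g 1 * 0 + g 2 * (l' * α) = 0 := congrFun hg (Sum.inl 1)
    have h2 : g 0 * 1 + g 1 * 0 + g 2 * (l' * α) = 0 := congrFun hg (Sum.inl 0)
    have h3 : g 0 * 0 + g 1 * α + g 2 * (l' * α) = 0 := congrFun hg (Sum.inr 1)
    have hne : l' * α ≠ 0 := mul_ne_zero hl'0 hα0
    have g2 : g 2 = 0 := by
      have : g 2 * (l' * α) = 0 := by linear_combination h1
      exact (mul_eq_zero.1 this).resolve_right hne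
    have g1 : g 1 = 0 := by
      rw [g2] at h3
      have : g 1 * α = 0 := by linear_combination h3
      exact (mul_eq_zero.1 this).resolve_right hα0
    have g0 : g 0 = 0 := by
      rw [g2] at h2
      linear_combination h2
    intro i
    fin_cases i
    · exact g0
    · exact g1
    · exact g2
  have hG := gram_of True True True (vv 0 0 1 0) (vv 0 0 1 (-1)) (vv 0 (-1) 1 1) (vv 1 0 0 0) (vv 0 0 0 α)
    (vv (l' * α) (l' * α) (l' * 0) (l' * α)) (by rw [form_vv, form_vv]; ring) (by rw [form_vv, form_vv]; ring) (by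
      rw [form_vv, form_vv]
      have : l' * α ^ 2 = 1 := by rw [← hα]; exact hll
      linear_combination this)
  obtain ⟨h, hx, hy, hzz⟩ := exists_triple hz hli hli' hG
  have he : eV (⟨0, hn⟩ : Fin 2) F = vv 1 0 0 0 := eV0_vv
  refine ⟨g2 ζ, h, ?_⟩
  refine assemble_large hcard hn hc₀ (g2_rel hn ζ) k hk (Or.inl ?_) ?_
  · rw [he]
    change ((h * uG hn F * h⁻¹).1 * (uG hn F).1 * (h * uG hn F * h⁻¹).1) *ᵥ vv 1 0 0 0 = _
    have hv0 : (h * uG hn F * h⁻¹).1 *ᵥ vv 1 0 0 0 = vv 0 0 0 α := by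
      rw [← hx, conj_act, hux, hy]
    have hv1 : (h * uG hn F * h⁻¹).1 *ᵥ vv α α 0 α = l • vv 1 0 0 0 := by
      have h1 : vv α α 0 α = l • (h.1 *ᵥ vv 0 (-1) 1 1) := by
        rw [hzz, vv_smul]
        congr 1
        · rw [← mul_assoc, mul_comm l, hll, one_mul]
        · rw [← mul_assoc, mul_comm l, hll, one_mul]
        · ring
        · rw [← mul_assoc, mul_comm l, hll, one_mul]
      rw [h1, mulVec_smul, conj_act, hz, hx]
    rw [← mulVec_mulVec, ← mulVec_mulVec, hv0, huy, hv1]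
  · rw [he]
    have h1 : ω (vv 1 0 0 0) (h.1 *ᵥ vv 1 0 0 0) = ω (h.1 *ᵥ vv 0 0 1 0) (h.1 *ᵥ vv 1 0 0 0) := by rw [hx]
    rw [h1, sp_form, form_vv]
    norm_num

/-- A generator different from `-2`. -/
theorem exists_gen_ne [Fintype F] (h2 : (2 : F) ≠ 0) : ∃ k : Fˣ, (∀ x : Fˣ, x ∈ Subgroup.zpowers k) ∧ (k : F) ≠ -2 := by
  obtain ⟨k, hk⟩ := IsCyclic.exists_generator (α := Fˣ)
  by_cases h : (k : F) = -2
  · refine ⟨k⁻¹, ?_, ?_⟩
    · intro x
      rw [Subgroup.zpowers_inv]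
      exact hk x
    · intro h3
      rw [Units.val_inv_eq_inv_val] at h3
      have h4 : (k : F) * (k : F)⁻¹ = 1 := mul_inv_cancel₀ k.ne_zero
      rw [h3, h] at h4
      have h5 : (k : F) = 1 := by
        rw [h]
        linear_combination (-1 : F) * h4
      have h6 : k = 1 := Units.ext h5
      have h7 := hk (-1)
      rw [h6, Subgroup.zpowers_one_eq_bot, Subgroup.mem_bot] at h7
      have h8 : ((-1 : Fˣ) : F) = ((1 : Fˣ) : F) := by rw [h7]
      simp only [Units.val_neg, Units.val_one] at h8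
      apply h2
      linear_combination (-1 : F) * h8
  · exact ⟨k, hk, h⟩

/-- The case of odd characteristic. -/
theorem sp2_odd [Fintype F] (hcard : 3 ≤ Fintype.card F) (h2 : (2 : F) ≠ 0) :
    ∃ g h : SpG, Subgroup.closure ({uG (by norm_num) F, g * uG (by norm_num) F * g⁻¹,
      h * uG (by norm_num) F * h⁻¹} : Set SpG) = ⊤ := by
  have hn : 0 < 2 := by norm_num
  obtain ⟨ζ, hζ0, hζ1⟩ := exists_ne_zero_one (F := F) hcard
  have hc₀ : ζ - ζ ^ 2 ≠ 0 := by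
    have : ζ - ζ ^ 2 = ζ * (1 - ζ) := by ring
    rw [this]
    exact mul_ne_zero hζ0 (sub_ne_zero.2 hζ1.symm)
  obtain ⟨k, hk, hk2⟩ := exists_gen_ne h2
  set l : F := (k : F) with hl
  have hl0 : l ≠ 0 := k.ne_zero
  set l' : F := l⁻¹ with hl'
  have hll : l' * l = 1 := inv_mul_cancel₀ hl0
  have hl'0 : l' ≠ 0 := inv_ne_zero hl0
  have h2l : 2 * (2 + l) ≠ 0 := by
    apply mul_ne_zero h2
    intro h3
    apply hk2
    linear_combination h3
  obtain ⟨g₀, hg⟩ : ∃ g₀ : F, 2 * (2 + l) * g₀ = 1 := ⟨_, mul_inv_cancel₀ h2l⟩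
  have hg0 : g₀ ≠ 0 := by
    rintro rfl
    simp at hg
  obtain ⟨β, hβdef⟩ : ∃ β : F, β = 1 - 4 * g₀ := ⟨_, rfl⟩
  have hβ : β = 2 * g₀ * l := by
    rw [hβdef]
    linear_combination -hg
  have hβ0 : β ≠ 0 := by
    rw [hβ]
    exact mul_ne_zero (mul_ne_zero h2 hg0) hl0
  have hlβ : l' * β = 2 * g₀ := by
    rw [hβ]
    linear_combination 2 * g₀ * hll
  have h2g : 2 * g₀ ≠ 0 := mul_ne_zero h2 hg0
  obtain ⟨γ, hγ⟩ : ∃ γ : F, 2 * g₀ * γ = 2 - 3 * g₀ := ⟨(2 * g₀)⁻¹ * (2 - 3 * g₀), by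
    rw [← mul_assoc, mul_inv_cancel₀ h2g, one_mul]⟩
  have hz : (uG hn F).1 *ᵥ vv (-g₀) (g₀ - 1) 1 1 = vv 0 g₀ 1 0 := by
    rw [u2_act]
    congr 1 <;> ring
  have hux : (uG hn F).1 *ᵥ vv 0 g₀ 1 0 = vv g₀ g₀ 1 (-1) := by
    rw [u2_act]
    congr 1 <;> ring
  have huux : (uG hn F).1 *ᵥ vv g₀ g₀ 1 (-1) = vv (2 * g₀ - 1) (g₀ - 1) 1 (-2) := by
    rw [u2_act]
    congr 1 <;> ring
  have huy : (uG hn F).1 *ᵥ vv 0 γ β 0 = vv γ γ β (-β) := by
    rw [u2_act]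
    congr 1 <;> ring
  have hli : LinearIndependent F (![vv 0 g₀ 1 0, vv (2 * g₀ - 1) (g₀ - 1) 1 (-2), vv (-g₀) (g₀ - 1) 1 1] : Fin 3 → V2) := by
    rw [Fintype.linearIndependent_iff]
    intro g hg
    rw [Fin.sum_univ_three] at hg
    have h1 : g 0 * 0 + g 1 * (2 * g₀ - 1) + g 2 * (-g₀) = 0 := congrFun hg (Sum.inl 0)
    have h2 : g 0 * 1 + g 1 * 1 + g 2 * 1 = 0 := congrFun hg (Sum.inr 0)
    have h3 : g 0 * 0 + g 1 * (-2) + g 2 * 1 = 0 := congrFun hg (Sum.inr 1)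
    have g1 : g 1 = 0 := by linear_combination -h1 - g₀ * h3
    have g2 : g 2 = 0 := by linear_combination h3 + 2 * g1
    have g0 : g 0 = 0 := by linear_combination h2 - g1 - g2
    intro i
    fin_cases i
    · exact g0
    · exact g1
    · exact g2
  have hli' : LinearIndependent F (![vv 1 0 0 0, vv 0 γ β 0, vv (l' * γ) (l' * γ) (l' * β) (l' * -β)] : Fin 3 → V2) := by
    rw [Fintype.linearIndependent_iff]
    intro g hg
    rw [Fin.sum_univ_three] at hg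
    have h1 : g 0 * 0 + g 1 * 0 + g 2 * (l' * -β) = 0 := congrFun hg (Sum.inr 1)
    have h2 : g 0 * 1 + g 1 * 0 + g 2 * (l' * γ) = 0 := congrFun hg (Sum.inl 0)
    have h3 : g 0 * 0 + g 1 * β + g 2 * (l' * β) = 0 := congrFun hg (Sum.inr 0)
    have hne : l' * β ≠ 0 := mul_ne_zero hl'0 hβ0
    have g2 : g 2 = 0 := by
      have : g 2 * (l' * β) = 0 := by linear_combination (-1 : F) * h1
      exact (mul_eq_zero.1 this).resolve_right hne
    have g1 : g 1 = 0 := by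
      rw [g2] at h3
      have : g 1 * β = 0 := by linear_combination h3
      exact (mul_eq_zero.1 this).resolve_right hβ0
    have g0 : g 0 = 0 := by
      rw [g2] at h2
      linear_combination h2
    intro i
    fin_cases i
    · exact g0
    · exact g1
    · exact g2
  have hG := gram_of True True True (vv 0 g₀ 1 0) (vv (2 * g₀ - 1) (g₀ - 1) 1 (-2)) (vv (-g₀) (g₀ - 1) 1 1) (vv 1 0 0 0)
    (vv 0 γ β 0) (vv (l' * γ) (l' * γ) (l' * β) (l' * -β)) (by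
      rw [form_vv, form_vv, hβdef]
      ring) (by
      rw [form_vv, form_vv]
      linear_combination (-1 : F) * hlβ) (by
      rw [form_vv, form_vv]
      linear_combination 2 * γ * hlβ + 2 * hγ)
  obtain ⟨h, hx, hy, hzz⟩ := exists_triple hz hli hli' hG
  have he : eV (⟨0, hn⟩ : Fin 2) F = vv 1 0 0 0 := eV0_vv
  refine ⟨g2 ζ, h, ?_⟩
  refine assemble_large hcard hn hc₀ (g2_rel hn ζ) k hk (Or.inr ?_) ?_
  · rw [he]
    change ((h * uG hn F * h⁻¹).1 * (uG hn F).1 * ((h * uG hn F * h⁻¹).1 * (h * uG hn F * h⁻¹).1)) *ᵥ vv 1 0 0 0 = _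
    have hv0 : (h * uG hn F * h⁻¹).1 *ᵥ vv 1 0 0 0 = h.1 *ᵥ vv g₀ g₀ 1 (-1) := by
      rw [← hx, conj_act, hux]
    have hv0' : (h * uG hn F * h⁻¹).1 *ᵥ (h.1 *ᵥ vv g₀ g₀ 1 (-1)) = vv 0 γ β 0 := by
      rw [conj_act, huux, hy]
    have hv1 : (h * uG hn F * h⁻¹).1 *ᵥ vv γ γ β (-β) = l • vv 1 0 0 0 := by
      have h1 : vv γ γ β (-β) = l • (h.1 *ᵥ vv (-g₀) (g₀ - 1) 1 1) := by
        rw [hzz, vv_smul]
        congr 1 <;> rw [← mul_assoc, mul_comm l, hll, one_mul]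
      rw [h1, mulVec_smul, conj_act, hz, hx]
    rw [← mulVec_mulVec, ← mulVec_mulVec, ← mulVec_mulVec, hv0, hv0', huy, hv1]
  · rw [he]
    have h1 : ω (vv 1 0 0 0) (h.1 *ᵥ vv 1 0 0 0) = ω (h.1 *ᵥ vv 0 g₀ 1 0) (h.1 *ᵥ vv 1 0 0 0) := by rw [hx]
    rw [h1, sp_form, form_vv]
    norm_num

theorem sp2_main [Fintype F] (hcard : 3 ≤ Fintype.card F) :
    ∃ g h : SpG, Subgroup.closure ({uG (by norm_num) F, g * uG (by norm_num) F * g⁻¹,
      h * uG (by norm_num) F * h⁻¹} : Set SpG) = ⊤ := by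
  by_cases h2 : (2 : F) = 0
  · obtain ⟨k, hk⟩ := IsCyclic.exists_generator (α := Fˣ)
    have hc : ringChar F = 2 := by
      have h3 : ringChar F ∣ 2 := (CharP.cast_eq_zero_iff F (ringChar F) 2).1 (by exact_mod_cast h2)
      rcases (Nat.dvd_prime Nat.prime_two).1 h3 with h | h
      · exact absurd h (CharP.ringChar_ne_one)
      · exact h
    obtain ⟨α, hα⟩ := FiniteField.isSquare_of_char_two hc (k : F)
    exact sp2_square hcard k hk α (by rw [hα]; ring)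
  · exact sp2_odd hcard h2

end Cfsg.Agent.Lib.Known.Sp3
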