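import Mathlib
import Cfsg.Prelude.Def_Sz

set_option autoImplicit false

/-! Explicit elements of the Suzuki group: the unipotent `S(a,c)`, the torus `D(λ)`, the Weyl
element `w`, and the classification of the generating set of `Sz F e`. -/

namespace Cfsg.Agent.Lib.Known

open Matrix Cfsg.Lie

namespace SzB

variable {F : Type*} [Field F]

/-- The unipotent matrix `S(a,c)`. -/
def szS (σ : F →+* F) (a c : F) : Matrix (Fin 4) (Fin 4) F :=
  !![1, 0, 0, 0; a, 1, 0, 0; c, σ a, 1, 0; a * c + a ^ 2 * σ a + σ c, c + a * σ a, a, 1]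

/-- The antidiagonal matrix. -/
def szWm : Matrix (Fin 4) (Fin 4) F :=
  !![0, 0, 0, 1; 0, 0, 1, 0; 0, 1, 0, 0; 1, 0, 0, 0]

/-- The torus. -/
def szDm (σ : F →+* F) (l : F) : Matrix (Fin 4) (Fin 4) F :=
  !![l, 0, 0, 0; 0, σ l * l⁻¹, 0, 0; 0, 0, l * (σ l)⁻¹, 0; 0, 0, 0, l⁻¹]

theorem szWm_mul : (szWm : Matrix (Fin 4) (Fin 4) F) * szWm = 1 := by
  ext i j
  fin_cases i <;> fin_cases j <;> simp [szWm, Matrix.mul_apply, Fin.sum_univ_four]

/-- The invertible antidiagonal matrix. -/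
def szW : GL (Fin 4) F := ⟨szWm, szWm, szWm_mul, szWm_mul⟩

/-- The relations of the symplectic group for the matrix `g`. -/
def SpRel (g : Matrix (Fin 4) (Fin 4) F) : Prop := gᵀ * szWm * g = szWm

theorem spRel_iff_entries (g : Matrix (Fin 4) (Fin 4) F) :
    SpRel g ↔ ∀ i j, g 0 i * g 3 j + g 1 i * g 2 j + g 2 i * g 1 j + g 3 i * g 0 j = szWm i j := by
  unfold SpRel
  have h : ∀ i j, (gᵀ * szWm * g : Matrix (Fin 4) (Fin 4) F) i j = g 0 i * g 3 j + g 1 i * g 2 j + g 2 i * g 1 j + g 3 i * g 0 j := by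
    intro i j
    simp only [Matrix.mul_apply, Fin.sum_univ_four, Matrix.transpose_apply, szWm]
    simp
    ring
  constructor
  · intro hg i j
    rw [← h, hg]
  · intro hg
    ext i j
    rw [h, hg]

theorem spRel_of_mem {g : GL (Fin 4) F} (hg : g ∈ Sp4 F) : SpRel (g : Matrix (Fin 4) (Fin 4) F) := by
  rw [spRel_iff_entries]
  intro i j
  have h := hg (Pi.single i 1) (Pi.single j 1)
  simp only [Units.coeHom_apply, altForm4, Matrix.mulVec_single_one] at h
  simp only [Matrix.col_apply] at h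
  rw [h]
  fin_cases i <;> fin_cases j <;> simp [szWm]

theorem altForm4_eq (x y : Fin 4 → F) : altForm4 x y = x ⬝ᵥ (szWm *ᵥ y) := by
  simp [altForm4, szWm, Matrix.mulVec, dotProduct, Fin.sum_univ_four]

theorem mem_of_spRel {g : GL (Fin 4) F} (hg : SpRel (g : Matrix (Fin 4) (Fin 4) F)) : g ∈ Sp4 F := by
  intro u v
  simp only [Units.coeHom_apply]
  rw [altForm4_eq, altForm4_eq]
  have hg' := hg
  unfold SpRel at hg'
  conv_rhs => rw [← hg']
  rw [← Matrix.vecMul_transpose, ← Matrix.dotProduct_mulVec, Matrix.mulVec_mulVec, Matrix.mulVec_mulVec]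

theorem spRel_transpose {g : Matrix (Fin 4) (Fin 4) F} (hg : SpRel g) : SpRel gᵀ := by
  unfold SpRel at *
  rw [Matrix.transpose_transpose]
  have h1 : (szWm * gᵀ * szWm) * g = 1 := by
    rw [Matrix.mul_assoc, Matrix.mul_assoc, ← Matrix.mul_assoc gᵀ, hg, szWm_mul]
  have h2 : g * (szWm * gᵀ * szWm) = 1 := mul_eq_one_comm.mp h1
  calc g * szWm * gᵀ = g * (szWm * gᵀ * szWm) * szWm := by
        rw [Matrix.mul_assoc g _ szWm, Matrix.mul_assoc _ szWm szWm, szWm_mul, Matrix.mul_one, Matrix.mul_assoc]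
    _ = szWm := by rw [h2, Matrix.one_mul]

variable (σ : F →+* F) (hσ : ∀ x, σ (σ x) = x ^ 2) (h2 : (2 : F) = 0)

include hσ h2 in
theorem szS_mul (a c a' c' : F) :
    szS σ a c * szS σ a' c' = szS σ (a + a') (c + c' + σ a * a') := by
  have hn : ∀ x : F, -x = x := fun x => by linear_combination -x * h2
  ext i j
  fin_cases i <;> fin_cases j <;>
    simp [szS, Matrix.mul_apply, Fin.sum_univ_four, hσ, map_add, map_mul] <;>
    first
      | ring1
      | linear_combination (-a * σ a * a' - σ a * a' ^ 2 - a ^ 2 * σ a' - a * a' * σ a') * h2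
      | linear_combination (- σ a * a') * h2

theorem szS_zero : szS σ 0 0 = 1 := by
  ext i j
  fin_cases i <;> fin_cases j <;> simp [szS]

include hσ h2 in
theorem szS_mul_inv (a c : F) : szS σ a c * szS σ a (c + a * σ a) = 1 := by
  rw [szS_mul σ hσ h2]
  have : a + a = 0 := by linear_combination a * h2
  have h' : c + (c + a * σ a) + σ a * a = 0 := by linear_combination (c + a * σ a) * h2
  rw [this, h', szS_zero]

include hσ h2 in
theorem szS_inv_mul (a c : F) : szS σ a (c + a * σ a) * szS σ a c = 1 := by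
  rw [szS_mul σ hσ h2]
  have : a + a = 0 := by linear_combination a * h2
  have h' : c + a * σ a + c + σ a * a = 0 := by linear_combination (c + a * σ a) * h2
  rw [this, h', szS_zero]

/-- `S(a,c)` as an invertible matrix. -/
def szSU (hσ : ∀ x, σ (σ x) = x ^ 2) (h2 : (2 : F) = 0) (a c : F) : GL (Fin 4) F :=
  ⟨szS σ a c, szS σ a (c + a * σ a), szS_mul_inv σ hσ h2 a c, szS_inv_mul σ hσ h2 a c⟩

/-- The generating set of the Suzuki group. -/
def szA (σ : F →+* F) : Set (GL (Fin 4) F) :=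
  {g | g ∈ Sp4 F ∧ star4 (g : Matrix (Fin 4) (Fin 4) F) = (g : Matrix (Fin 4) (Fin 4) F).map σ}

/-- A minor. -/
def mnr (g : Matrix (Fin 4) (Fin 4) F) (k l i j : Fin 4) : F := g k i * g l j - g l i * g k j

theorem cauchy_binet (g h : Matrix (Fin 4) (Fin 4) F) (k l i j : Fin 4) :
    mnr (g * h) k l i j =
      mnr g k l 0 1 * mnr h 0 1 i j + mnr g k l 0 2 * mnr h 0 2 i j + mnr g k l 1 3 * mnr h 1 3 i j +
      mnr g k l 2 3 * mnr h 2 3 i j + mnr g k l 0 3 * mnr h 0 3 i j + mnr g k l 1 2 * mnr h 1 2 i j := by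
  simp only [mnr, Matrix.mul_apply, Fin.sum_univ_four]
  ring

include h2 in
theorem star4_mul_of {g h : Matrix (Fin 4) (Fin 4) F}
    (Rg : ∀ k l : Fin 4, k + l ≠ 3 → g k 0 * g l 3 + g k 1 * g l 2 + g k 2 * g l 1 + g k 3 * g l 0 = 0)
    (Rh : ∀ i j : Fin 4, i + j ≠ 3 → h 0 i * h 3 j + h 1 i * h 2 j + h 2 i * h 1 j + h 3 i * h 0 j = 0) :
    star4 (g * h) = star4 g * star4 h := by
  have key : ∀ p r : Fin 4, mnr g (pairOf p).1 (pairOf p).2 0 3 * mnr h 0 3 (pairOf r).1 (pairOf r).2 +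
      mnr g (pairOf p).1 (pairOf p).2 1 2 * mnr h 1 2 (pairOf r).1 (pairOf r).2 = 0 := by
    intro p r
    have hp : (pairOf p).1 + (pairOf p).2 ≠ 3 := by
      fin_cases p <;> decide
    have hr : (pairOf r).1 + (pairOf r).2 ≠ 3 := by
      fin_cases r <;> decide
    generalize (pairOf p).1 = k at *
    generalize (pairOf p).2 = l at *
    generalize (pairOf r).1 = i at *
    generalize (pairOf r).2 = j at *
    have R1 := Rg k l hp
    have R2 := Rh i j hr
    simp only [mnr]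
    set A := g l 0 * g k 3 + g l 1 * g k 2 with hA
    set B := h 3 i * h 0 j + h 2 i * h 1 j with hB
    set ν := g k 0 * g l 3 - g l 0 * g k 3 with hν
    set μ := h 0 i * h 3 j - h 3 i * h 0 j with hμ
    set μ' := h 1 i * h 2 j - h 2 i * h 1 j with hμ'
    linear_combination μ' * R1 - (ν + 2 * A) * R2 + (ν * μ + ν * B + A * μ + 2 * A * B) * h2
  ext p r
  have e : ∀ (M : Matrix (Fin 4) (Fin 4) F) (p r : Fin 4),
      star4 M p r = mnr M (pairOf p).1 (pairOf p).2 (pairOf r).1 (pairOf r).2 := fun _ _ _ => rfl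
  rw [e, Matrix.mul_apply, Fin.sum_univ_four]
  simp only [e]
  rw [cauchy_binet]
  have e0 : pairOf 0 = (0, 1) := rfl
  have e1 : pairOf 1 = (0, 2) := rfl
  have e2 : pairOf 2 = (1, 3) := rfl
  have e3 : pairOf 3 = (2, 3) := rfl
  rw [e0, e1, e2, e3]
  linear_combination key p r

theorem szWm_apply_eq (i j : Fin 4) (h : i + j ≠ 3) : (szWm : Matrix (Fin 4) (Fin 4) F) i j = 0 := by
  revert i j
  intro i j h
  fin_cases i <;> fin_cases j <;> simp_all [szWm] <;> exact absurd rfl h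

theorem rel_col {g : Matrix (Fin 4) (Fin 4) F} (hg : SpRel g) (i j : Fin 4) (h : i + j ≠ 3) :
    g 0 i * g 3 j + g 1 i * g 2 j + g 2 i * g 1 j + g 3 i * g 0 j = 0 := by
  rw [(spRel_iff_entries g).mp hg, szWm_apply_eq i j h]

theorem rel_row {g : Matrix (Fin 4) (Fin 4) F} (hg : SpRel g) (k l : Fin 4) (h : k + l ≠ 3) :
    g k 0 * g l 3 + g k 1 * g l 2 + g k 2 * g l 1 + g k 3 * g l 0 = 0 := by
  have := rel_col (spRel_transpose hg) k l h
  simpa using this

include h2 in
theorem szA_mul {g h : GL (Fin 4) F} (hg : g ∈ szA σ) (hh : h ∈ szA σ) : g * h ∈ szA σ := by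
  refine ⟨(Sp4 F).mul_mem hg.1 hh.1, ?_⟩
  rw [Units.val_mul, star4_mul_of h2 (rel_row (spRel_of_mem hg.1)) (rel_col (spRel_of_mem hh.1)), hg.2, hh.2]
  rw [Matrix.map_mul]

include hσ h2 in
theorem szSU_mem (a c : F) : szSU σ hσ h2 a c ∈ szA σ := by
  refine ⟨mem_of_spRel ?_, ?_⟩
  · rw [spRel_iff_entries]
    have hn : ∀ x : F, -x = x := fun x => by linear_combination -x * h2
    intro i j
    fin_cases i <;> fin_cases j <;> simp [szSU, szS, szWm] <;>
      first
        | linear_combination (a) * h2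
        | linear_combination (σ a) * h2
        | linear_combination (c + a * σ a) * h2
        | linear_combination (2 * a * c + a ^ 2 * σ a + σ c) * h2
  · have hn : ∀ x : F, -x = x := fun x => by linear_combination -x * h2
    have hs : ∀ x y : F, x - y = x + y := fun x y => by linear_combination -y * h2
    ext i j
    fin_cases i <;> fin_cases j <;>
      simp [star4, pairOf, szSU, szS, hσ, hn, hs, map_add, map_mul] <;>
      first
        | ring1
        | linear_combination (a * c + a ^ 2 * σ a) * h2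
        | linear_combination (a * c * σ a) * h2
        | linear_combination (a * c) * h2

include h2 in
theorem szW_mem : (szW : GL (Fin 4) F) ∈ szA σ := by
  refine ⟨mem_of_spRel ?_, ?_⟩
  · rw [spRel_iff_entries]
    intro i j
    fin_cases i <;> fin_cases j <;> simp [szW, szWm]
  · have hn : ∀ x : F, -x = x := fun x => by linear_combination -x * h2
    ext i j
    fin_cases i <;> fin_cases j <;> simp [star4, pairOf, szW, szWm, hn]

include hσ in
theorem szDm_mul (l : Fˣ) : szDm σ l * szDm σ (l⁻¹ : Fˣ) = 1 := by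
  have h1 : (l : F) ≠ 0 := l.ne_zero
  have h3 : σ (l : F) ≠ 0 := (map_ne_zero σ).mpr h1
  ext i j
  fin_cases i <;> fin_cases j <;>
    simp [szDm, Matrix.mul_apply, Fin.sum_univ_four, h1, h3] <;> field_simp

/-- The torus element. -/
def szDU (hσ : ∀ x, σ (σ x) = x ^ 2) (l : Fˣ) : GL (Fin 4) F :=
  ⟨szDm σ l, szDm σ (l⁻¹ : Fˣ), szDm_mul σ hσ l, by simpa using szDm_mul σ hσ l⁻¹⟩

include hσ in
theorem szDU_mem (l : Fˣ) : szDU σ hσ l ∈ szA σ := by
  have h1 : (l : F) ≠ 0 := l.ne_zero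
  have h3 : σ (l : F) ≠ 0 := (map_ne_zero σ).mpr h1
  refine ⟨mem_of_spRel ?_, ?_⟩
  · rw [spRel_iff_entries]
    intro i j
    fin_cases i <;> fin_cases j <;> simp [szDU, szDm, szWm, h1, h3] <;> field_simp
  · ext i j
    fin_cases i <;> fin_cases j <;> simp [star4, pairOf, szDU, szDm, hσ, h1, h3, map_mul] <;> field_simp

/-- The star relations. -/
theorem szA_star {g : GL (Fin 4) F} (hg : g ∈ szA σ) (p r : Fin 4) :
    mnr (g : Matrix (Fin 4) (Fin 4) F) (pairOf p).1 (pairOf p).2 (pairOf r).1 (pairOf r).2 =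
      σ ((g : Matrix (Fin 4) (Fin 4) F) p r) :=
  congrFun (congrFun hg.2 p) r

theorem sprel_col' {g : GL (Fin 4) F} (hg : g ∈ szA σ) (i j : Fin 4) :
    (g : Matrix (Fin 4) (Fin 4) F) 0 i * (g : Matrix (Fin 4) (Fin 4) F) 3 j +
      (g : Matrix (Fin 4) (Fin 4) F) 1 i * (g : Matrix (Fin 4) (Fin 4) F) 2 j +
      (g : Matrix (Fin 4) (Fin 4) F) 2 i * (g : Matrix (Fin 4) (Fin 4) F) 1 j +
      (g : Matrix (Fin 4) (Fin 4) F) 3 i * (g : Matrix (Fin 4) (Fin 4) F) 0 j = szWm i j :=
  (spRel_iff_entries _).mp (spRel_of_mem hg.1) i j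

theorem sprel_row' {g : GL (Fin 4) F} (hg : g ∈ szA σ) (k l : Fin 4) :
    (g : Matrix (Fin 4) (Fin 4) F) k 0 * (g : Matrix (Fin 4) (Fin 4) F) l 3 +
      (g : Matrix (Fin 4) (Fin 4) F) k 1 * (g : Matrix (Fin 4) (Fin 4) F) l 2 +
      (g : Matrix (Fin 4) (Fin 4) F) k 2 * (g : Matrix (Fin 4) (Fin 4) F) l 1 +
      (g : Matrix (Fin 4) (Fin 4) F) k 3 * (g : Matrix (Fin 4) (Fin 4) F) l 0 = szWm k l := by
  have := (spRel_iff_entries _).mp (spRel_transpose (spRel_of_mem hg.1)) k l
  simpa using this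

/-- Elements of `szA` with trivial first row and column are diagonal. -/
theorem eq_szD_of_mem {k : GL (Fin 4) F} (hk : k ∈ szA σ) (l : Fˣ)
    (h00 : (k : Matrix (Fin 4) (Fin 4) F) 0 0 = l)
    (h10 : (k : Matrix (Fin 4) (Fin 4) F) 1 0 = 0) (h20 : (k : Matrix (Fin 4) (Fin 4) F) 2 0 = 0)
    (h30 : (k : Matrix (Fin 4) (Fin 4) F) 3 0 = 0)
    (h01 : (k : Matrix (Fin 4) (Fin 4) F) 0 1 = 0) (h02 : (k : Matrix (Fin 4) (Fin 4) F) 0 2 = 0) :
    k = szDU σ hσ l := by
  have hl : (l : F) ≠ 0 := l.ne_zero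
  have hsl : σ (l : F) ≠ 0 := (map_ne_zero σ).mpr hl
  have S00 := szA_star σ hk 0 0
  have S01 := szA_star σ hk 0 1
  have S02 := szA_star σ hk 0 2
  have S10 := szA_star σ hk 1 0
  have S11 := szA_star σ hk 1 1
  simp only [mnr, pairOf, Matrix.cons_val] at S00 S01 S02 S10 S11
  have C1 := sprel_col' σ hk 0 1
  have C2 := sprel_col' σ hk 0 2
  have C3 := sprel_col' σ hk 0 3
  have R1 := sprel_row' σ hk 0 1
  have R2 := sprel_row' σ hk 0 2
  simp only [szWm] at C1 C2 C3 R1 R2
  simp at C1 C2 C3 R1 R2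
  set m := (k : Matrix (Fin 4) (Fin 4) F) with hm
  simp only [h00, h10, h20, h30, h01, h02, map_zero, zero_mul, mul_zero, add_zero, sub_zero, zero_add] at S00 S01 S02 S10 S11 C1 C2 C3 R1 R2
  have e11 : m 1 1 = σ l * (l : F)⁻¹ := by
    field_simp
    linear_combination S00
  have e12 : m 1 2 = 0 := by
    simpa [hl] using S01
  have e21 : m 2 1 = 0 := by
    simpa [hl] using S10
  have h11ne : m 1 1 ≠ 0 := by
    rw [e11]
    exact mul_ne_zero hsl (inv_ne_zero hl)
  have e03 : m 0 3 = 0 := by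
    have : m 1 1 * m 0 3 = 0 := by
      have := S02
      simpa using this
    simpa [h11ne] using this
  have e22 : m 2 2 = l * (σ l)⁻¹ := by
    have h : (l : F) * m 2 2 = σ (σ l * (l : F)⁻¹) := by
      rw [← e11]
      exact S11
    rw [map_mul, hσ, map_inv₀] at h
    field_simp
    field_simp at h
    linear_combination h
  have e31 : m 3 1 = 0 := by
    simpa [hl] using C1
  have e32 : m 3 2 = 0 := by
    simpa [hl] using C2
  have e33 : m 3 3 = (l : F)⁻¹ := by
    field_simp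
    linear_combination C3
  have e13 : m 1 3 = 0 := by
    simpa [hl] using R1
  have e23 : m 2 3 = 0 := by
    simpa [hl] using R2
  apply Units.ext
  ext i j
  fin_cases i <;> fin_cases j <;> simp [szDU, szDm] <;> first | assumption | skip

/-- Elements of `szA` with nonzero corner are products of the standard elements. -/
theorem mem_of_corner (H : Subgroup (GL (Fin 4) F)) (hS : ∀ a c, szSU σ hσ h2 a c ∈ H)
    (hD : ∀ l : Fˣ, szDU σ hσ l ∈ H) (hw : (szW : GL (Fin 4) F) ∈ H)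
    {g : GL (Fin 4) F} (hg : g ∈ szA σ) (h0 : (g : Matrix (Fin 4) (Fin 4) F) 0 0 ≠ 0) : g ∈ H := by
  set x := (g : Matrix (Fin 4) (Fin 4) F) 0 0 with hx
  set a := (g : Matrix (Fin 4) (Fin 4) F) 1 0 / x with ha
  set c := (g : Matrix (Fin 4) (Fin 4) F) 2 0 / x with hc
  set u := szSU σ hσ h2 a (c + a * σ a) with hu
  set h := u * g with hh
  have huA : u ∈ szA σ := szSU_mem σ hσ h2 _ _
  have hhA : h ∈ szA σ := szA_mul σ h2 huA hg
  have hm : (h : Matrix (Fin 4) (Fin 4) F) = szS σ a (c + a * σ a) * (g : Matrix (Fin 4) (Fin 4) F) := rfl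
  have e1 : (g : Matrix (Fin 4) (Fin 4) F) 1 0 = a * x := by
    rw [ha]; field_simp
  have e2 : (g : Matrix (Fin 4) (Fin 4) F) 2 0 = c * x := by
    rw [hc]; field_simp
  have h00 : (h : Matrix (Fin 4) (Fin 4) F) 0 0 = x := by
    rw [hm]; simp [szS, Matrix.mul_apply, Fin.sum_univ_four, hx]
  have h10 : (h : Matrix (Fin 4) (Fin 4) F) 1 0 = 0 := by
    rw [hm]
    simp only [szS, Matrix.mul_apply, Fin.sum_univ_four]
    simp [← hx, e1]
    linear_combination (a * x) * h2
  have h20 : (h : Matrix (Fin 4) (Fin 4) F) 2 0 = 0 := by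
    rw [hm]
    simp only [szS, Matrix.mul_apply, Fin.sum_univ_four]
    simp [← hx, e1, e2]
    linear_combination (x * c + x * a * σ a) * h2
  have S00 := szA_star σ hhA 0 0
  have S20 := szA_star σ hhA 2 0
  simp only [mnr, pairOf, Matrix.cons_val] at S00 S20
  simp only [h00, h10, h20, map_zero, zero_mul, sub_zero, zero_sub] at S00 S20
  have h11ne : (h : Matrix (Fin 4) (Fin 4) F) 1 1 ≠ 0 := by
    intro h0'
    rw [h0', mul_zero] at S00
    exact (map_ne_zero σ).mpr h0 S00.symm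
  have h30 : (h : Matrix (Fin 4) (Fin 4) F) 3 0 = 0 := by
    have : (h : Matrix (Fin 4) (Fin 4) F) 3 0 * (h : Matrix (Fin 4) (Fin 4) F) 1 1 = 0 := by
      simpa using S20
    simpa [h11ne] using this
  -- now the first row
  set a' := (h : Matrix (Fin 4) (Fin 4) F) 0 1 / x with ha'
  set c' := (h : Matrix (Fin 4) (Fin 4) F) 0 2 / x with hc'
  set v := szW * szSU σ hσ h2 a' c' * szW with hv
  have hvA : v ∈ szA σ := szA_mul σ h2 (szA_mul σ h2 (szW_mem σ h2) (szSU_mem σ hσ h2 _ _)) (szW_mem σ h2)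
  have hvm : (v : Matrix (Fin 4) (Fin 4) F) = !![1, a', c' + a' * σ a', a' * c' + a' ^ 2 * σ a' + σ c';
      0, 1, σ a', c'; 0, 0, 1, a'; 0, 0, 0, 1] := by
    rw [hv]
    ext i j
    fin_cases i <;> fin_cases j <;>
      simp [szW, szWm, szSU, szS, Matrix.mul_apply, Fin.sum_univ_four]
  set k := h * v with hk
  have hkA : k ∈ szA σ := szA_mul σ h2 hhA hvA
  have hkm : (k : Matrix (Fin 4) (Fin 4) F) = (h : Matrix (Fin 4) (Fin 4) F) * (v : Matrix (Fin 4) (Fin 4) F) := rfl
  have hxu : (Units.mk0 x h0 : F) = x := rfl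
  have e1' : (h : Matrix (Fin 4) (Fin 4) F) 0 1 = a' * x := by
    rw [ha']; field_simp
  have e2' : (h : Matrix (Fin 4) (Fin 4) F) 0 2 = c' * x := by
    rw [hc']; field_simp
  have hk' : k = szDU σ hσ (Units.mk0 x h0) := by
    apply eq_szD_of_mem σ hσ hkA
    · rw [hkm, hvm]; simp [Matrix.mul_apply, Fin.sum_univ_four, h00]
    · rw [hkm, hvm]; simp [Matrix.mul_apply, Fin.sum_univ_four, h10]
    · rw [hkm, hvm]; simp [Matrix.mul_apply, Fin.sum_univ_four, h20]
    · rw [hkm, hvm]; simp [Matrix.mul_apply, Fin.sum_univ_four, h30]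
    · rw [hkm, hvm]
      simp [Matrix.mul_apply, Fin.sum_univ_four, h00]
      rw [e1']
      linear_combination (x * a') * h2
    · rw [hkm, hvm]
      simp [Matrix.mul_apply, Fin.sum_univ_four, h00]
      rw [e1', e2']
      linear_combination (x * c' + x * a' * σ a') * h2
  have hg' : g = u⁻¹ * k * v⁻¹ := by
    rw [hk, hh]; group
  rw [hg', hk']
  have huH : u ∈ H := hS _ _
  have hvH : v ∈ H := H.mul_mem (H.mul_mem hw (hS _ _)) hw
  exact H.mul_mem (H.mul_mem (H.inv_mem huH) (hD _)) (H.inv_mem hvH)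

/-- Elements of `szA` are products of the standard elements. -/
theorem mem_of_szA (H : Subgroup (GL (Fin 4) F)) (hS : ∀ a c, szSU σ hσ h2 a c ∈ H)
    (hD : ∀ l : Fˣ, szDU σ hσ l ∈ H) (hw : (szW : GL (Fin 4) F) ∈ H)
    {g : GL (Fin 4) F} (hg : g ∈ szA σ) : g ∈ H := by
  by_cases h0 : (g : Matrix (Fin 4) (Fin 4) F) 0 0 = 0
  · -- use the Weyl element
    have hwg : szW * g ∈ szA σ := szA_mul σ h2 (szW_mem σ h2) hg
    have e : ((szW * g : GL (Fin 4) F) : Matrix (Fin 4) (Fin 4) F) 0 0 = (g : Matrix (Fin 4) (Fin 4) F) 3 0 := by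
      change ((szWm : Matrix (Fin 4) (Fin 4) F) * (g : Matrix (Fin 4) (Fin 4) F)) 0 0 = _
      simp [szWm, Matrix.mul_apply, Fin.sum_univ_four]
    have h30 : (g : Matrix (Fin 4) (Fin 4) F) 3 0 ≠ 0 := by
      intro h30
      have S00 := szA_star σ hg 0 0
      have S10 := szA_star σ hg 1 0
      have S20 := szA_star σ hg 2 0
      have S30 := szA_star σ hg 3 0
      simp only [mnr, pairOf, Matrix.cons_val] at S00 S10 S20 S30
      simp only [h0, h30, map_zero, zero_mul, sub_zero, zero_sub, mul_zero] at S00 S10 S20 S30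
      have h20 : (g : Matrix (Fin 4) (Fin 4) F) 2 0 = 0 := by
        by_contra hne
        have h31 : (g : Matrix (Fin 4) (Fin 4) F) 3 1 = 0 := by
          simpa [hne] using S30
        rw [h31, mul_zero] at S20
        exact hne ((map_eq_zero σ).mp S20.symm)
      have h10 : (g : Matrix (Fin 4) (Fin 4) F) 1 0 = 0 := by
        rw [h20] at S10
        simp only [zero_mul, neg_zero] at S10
        exact (map_eq_zero σ).mp S10.symm
      -- the first column vanishes
      have hdet : ((g : Matrix (Fin 4) (Fin 4) F) * ((g⁻¹ : GL (Fin 4) F) : Matrix (Fin 4) (Fin 4) F)) = 1 := by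
        rw [← Units.val_mul, mul_inv_cancel, Units.val_one]
      have h1 : (((g⁻¹ : GL (Fin 4) F) : Matrix (Fin 4) (Fin 4) F) * (g : Matrix (Fin 4) (Fin 4) F)) 0 0 = 1 := by
        rw [← Units.val_mul, inv_mul_cancel, Units.val_one]
        simp
      rw [Matrix.mul_apply, Fin.sum_univ_four, h0, h10, h20, h30] at h1
      simp at h1
    have := mem_of_corner σ hσ h2 H hS hD hw hwg (by rw [e]; exact h30)
    have h' : g = szW⁻¹ * (szW * g) := by group
    rw [h']
    exact H.mul_mem (H.inv_mem hw) this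
  · exact mem_of_corner σ hσ h2 H hS hD hw hg h0

omit hσ h2

/-- The data for the Suzuki group. -/
structure SzData (F : Type*) [Field F] (e : ℕ) where
  /-- The field automorphism. -/
  σ : F →+* F
  hσe : ∀ x, σ x = x ^ e
  hσ : ∀ x, σ (σ x) = x ^ 2
  h2 : (2 : F) = 0

variable {e : ℕ} (D : SzData F e)

theorem szA_le : szA D.σ ⊆ {g | g ∈ Sz F e} := by
  intro g hg
  refine Subgroup.subset_closure ⟨hg.1, ?_⟩
  rw [hg.2]
  congr 1
  funext x
  exact D.hσe x

/-- `S(a,c)` in the group. -/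
def gS (a c : F) : ↥(Sz F e) :=
  ⟨szSU D.σ D.hσ D.h2 a c, szA_le D (szSU_mem D.σ D.hσ D.h2 a c)⟩

/-- `D(l)` in the group. -/
def gD (l : Fˣ) : ↥(Sz F e) :=
  ⟨szDU D.σ D.hσ l, szA_le D (szDU_mem D.σ D.hσ l)⟩

/-- `w` in the group. -/
def gW : ↥(Sz F e) :=
  ⟨szW, szA_le D (szW_mem D.σ D.h2)⟩

theorem gS_val (a c : F) : (((gS D a c : ↥(Sz F e)) : GL (Fin 4) F) : Matrix (Fin 4) (Fin 4) F) = szS D.σ a c := rfl
theorem gD_val (l : Fˣ) : (((gD D l : ↥(Sz F e)) : GL (Fin 4) F) : Matrix (Fin 4) (Fin 4) F) = szDm D.σ l := rfl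
theorem gW_val : (((gW D : ↥(Sz F e)) : GL (Fin 4) F) : Matrix (Fin 4) (Fin 4) F) = szWm := rfl

theorem gS_mul (a c a' c' : F) : gS D a c * gS D a' c' = gS D (a + a') (c + c' + D.σ a * a') :=
  Subtype.ext (Units.ext (szS_mul D.σ D.hσ D.h2 a c a' c'))

theorem gS_zero : gS D 0 0 = 1 :=
  Subtype.ext (Units.ext (szS_zero D.σ))

theorem gW_mul_self : gW D * gW D = 1 :=
  Subtype.ext (Units.ext szWm_mul)

theorem gD_mul (l l' : Fˣ) : gD D l * gD D l' = gD D (l * l') := by
  apply Subtype.ext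
  apply Units.ext
  change szDm D.σ l * szDm D.σ l' = szDm D.σ (l * l' : Fˣ)
  have h1 : (l : F) ≠ 0 := l.ne_zero
  have h3 : D.σ (l : F) ≠ 0 := (map_ne_zero D.σ).mpr h1
  have h1' : (l' : F) ≠ 0 := l'.ne_zero
  have h3' : D.σ (l' : F) ≠ 0 := (map_ne_zero D.σ).mpr h1'
  ext i j
  fin_cases i <;> fin_cases j <;>
    simp [szDm, Matrix.mul_apply, Fin.sum_univ_four, h1, h3, h1', h3', map_mul] <;> field_simp

theorem gD_one : gD D 1 = 1 := by
  apply Subtype.ext
  apply Units.ext
  change szDm D.σ ((1 : Fˣ) : F) = 1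
  ext i j
  fin_cases i <;> fin_cases j <;> simp [szDm]

theorem gD_pow (l : Fˣ) (n : ℕ) : gD D l ^ n = gD D (l ^ n) := by
  induction n with
  | zero => simp [gD_one]
  | succ n ih => rw [pow_succ, ih, gD_mul, pow_succ]

/-- The key relation in the rank one group. -/
theorem gW_rel (b : Fˣ) (s : Fˣ) (hs : (s : F) = D.σ b) (r : F) (hr : r = b * (D.σ b)⁻¹) :
    gW D * gS D 0 b = gS D r 0 * gD D s * (gW D * gS D r (r * D.σ r) * gW D) := by
  apply Subtype.ext
  apply Units.ext
  change szWm * szS D.σ 0 b = szS D.σ r 0 * szDm D.σ s * (szWm * szS D.σ r (r * D.σ r) * szWm)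
  have h1 : (b : F) ≠ 0 := b.ne_zero
  have h3 : D.σ (b : F) ≠ 0 := (map_ne_zero D.σ).mpr h1
  have hσr : D.σ r = D.σ b * ((b : F) ^ 2)⁻¹ := by
    rw [hr, map_mul, map_inv₀, D.hσ]
  rw [hs]
  ext i j
  fin_cases i <;> fin_cases j <;>
    simp [szDm, szS, szWm, Matrix.mul_apply, Fin.sum_univ_four, D.hσ, map_mul, map_inv₀, hσr, hr, h1, h3] <;>
    field_simp <;> ring_nf <;> (try simp [D.h2]) <;>
    first
      | linear_combination (-1 : F) * D.h2
      | linear_combination (2 : F) * D.h2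
      | linear_combination (-2 : F) * D.h2
      | linear_combination (-3 : F) * D.h2

/-- The action of the torus on `Q`. -/
theorem gD_gS (l : Fˣ) (a : F) :
    gD D l * gS D a 0 = gS D (a * D.σ l * ((l : F) ^ 2)⁻¹) 0 * gD D l := by
  apply Subtype.ext
  apply Units.ext
  change szDm D.σ l * szS D.σ a 0 = szS D.σ (a * D.σ l * ((l : F) ^ 2)⁻¹) 0 * szDm D.σ l
  have h1 : (l : F) ≠ 0 := l.ne_zero
  have h3 : D.σ (l : F) ≠ 0 := (map_ne_zero D.σ).mpr h1
  ext i j
  fin_cases i <;> fin_cases j <;>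
    simp [szDm, szS, Matrix.mul_apply, Fin.sum_univ_four, D.hσ, map_mul, map_inv₀, h1, h3] <;>
    field_simp

/-- The action of the torus on the centre of `Q`. -/
theorem gD_gS0 (l : Fˣ) (c : F) :
    gD D l * gS D 0 c = gS D 0 (c * (D.σ l)⁻¹) * gD D l := by
  apply Subtype.ext
  apply Units.ext
  change szDm D.σ l * szS D.σ 0 c = szS D.σ 0 (c * (D.σ l)⁻¹) * szDm D.σ l
  have h1 : (l : F) ≠ 0 := l.ne_zero
  have h3 : D.σ (l : F) ≠ 0 := (map_ne_zero D.σ).mpr h1
  ext i j
  fin_cases i <;> fin_cases j <;>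
    simp [szDm, szS, Matrix.mul_apply, Fin.sum_univ_four, D.hσ, map_mul, map_inv₀, h1, h3] <;>
    field_simp

/-- The group is generated by the standard elements. -/
theorem eq_top_of_standard (H : Subgroup ↥(Sz F e)) (hS : ∀ a c, gS D a c ∈ H)
    (hD : ∀ l : Fˣ, gD D l ∈ H) (hw : gW D ∈ H) : H = ⊤ := by
  have hle : Sz F e ≤ H.map (Sz F e).subtype := by
    refine (Subgroup.closure_le _).mpr ?_
    intro g hg
    have hg' : g ∈ szA D.σ := by
      refine ⟨hg.1, ?_⟩
      rw [hg.2]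
      congr 1
      funext x
      exact (D.hσe x).symm
    exact mem_of_szA D.σ D.hσ D.h2 _
      (fun a c => Subgroup.mem_map_of_mem _ (hS a c))
      (fun l => Subgroup.mem_map_of_mem _ (hD l))
      (Subgroup.mem_map_of_mem _ hw) hg'
  rw [eq_top_iff]
  intro g _
  obtain ⟨x, hx, hxg⟩ := hle g.2
  have : x = g := Subtype.ext hxg
  rwa [← this]

/-- A homomorphism which kills the centre of `Q` is trivial. -/
theorem trivial_of_center [Finite F] (hq : ∃ x : F, x ≠ 0 ∧ x ≠ 1) {K : Type*} [Group K]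
    (φ : ↥(Sz F e) →* K) (h : ∀ c, φ (gS D 0 c) = 1) : ∀ g, φ g = 1 := by
  have hs0 : ∀ a c, φ (gS D a c) = φ (gS D a 0) := by
    intro a c
    have e1 : gS D a c = gS D a 0 * gS D 0 c := by
      rw [gS_mul]
      congr 1
      · simp
      · simp
    rw [e1, map_mul, h, mul_one]
  have hsadd : ∀ a b, φ (gS D a 0) * φ (gS D b 0) = φ (gS D (a + b) 0) := by
    intro a b
    rw [← map_mul, gS_mul, hs0]
  have hs0' : φ (gS D 0 0) = 1 := h 0
  have hss : ∀ a, φ (gS D a 0) * φ (gS D a 0) = 1 := by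
    intro a
    rw [hsadd]
    have : a + a = 0 := by linear_combination a * D.h2
    rw [this, hs0']
  have hW2 : φ (gW D) * φ (gW D) = 1 := by
    rw [← map_mul, gW_mul_self, map_one]
  -- the torus relation
  have hrel : ∀ b s : Fˣ, (s : F) = D.σ b → φ (gD D s) * φ (gW D) = 1 := by
    intro b s hs
    set r : F := b * (D.σ b)⁻¹ with hr
    have h1 := congrArg φ (gW_rel D b s hs r hr)
    simp only [map_mul, h, mul_one] at h1
    rw [hs0 r (r * D.σ r)] at h1
    set W := φ (gW D)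
    set t := φ (gD D s)
    set u := φ (gS D r 0)
    -- `W = u t W u W`
    have hu : u * u = 1 := hss r
    have h3 : t * W * u = u := by
      calc t * W * u = (u * u) * (t * W * u) * (W * W) := by simp [hu, hW2]
        _ = u * (u * t * (W * u * W)) * W := by group
        _ = u * W * W := by rw [← h1]
        _ = u := by rw [mul_assoc, hW2, mul_one]
    have h4 : t * W = 1 := mul_eq_right.mp h3
    exact h4
  have hW1 : φ (gW D) = 1 := by
    have := hrel 1 1 (by simp)
    rwa [gD_one, map_one, one_mul] at this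
  have hσsurj : Function.Surjective D.σ := Finite.injective_iff_surjective.mp D.σ.injective
  have hD1 : ∀ l : Fˣ, φ (gD D l) = 1 := by
    intro l
    obtain ⟨b, hb⟩ := hσsurj (l : F)
    have hb0 : b ≠ 0 := by
      rintro rfl
      rw [map_zero] at hb
      exact l.ne_zero hb.symm
    have := hrel (Units.mk0 b hb0) l (by simpa using hb.symm)
    rwa [hW1, mul_one] at this
  -- surjectivity of the exponent map
  let ψ : Fˣ →* Fˣ :=
    { toFun := fun l => Units.map (D.σ : F →* F) l * (l ^ 2)⁻¹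
      map_one' := by simp
      map_mul' := by
        intro x y
        simp only [map_mul, mul_pow, mul_inv]
        exact mul_mul_mul_comm _ _ _ _ }
  have hψinj : Function.Injective ψ := by
    rw [injective_iff_map_eq_one]
    intro l hl
    have h0 : (l : F) ≠ 0 := l.ne_zero
    have e1 : D.σ (l : F) = (l : F) ^ 2 := by
      have := congrArg (fun u : Fˣ => (u : F)) hl
      simp [ψ] at this
      field_simp at this
      exact this
    have e2 : ((l : F) ^ 2) ^ 2 = (l : F) ^ 2 := by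
      have := D.hσ (l : F)
      rw [e1, map_pow, e1] at this
      exact this
    have e3 : (l : F) ^ 2 = 1 := by
      have h5 : (l : F) ^ 2 ≠ 0 := pow_ne_zero 2 h0
      exact mul_left_cancel₀ h5 (by rw [mul_one, ← sq]; exact e2)
    have e4 : ((l : F) + 1) ^ 2 = 0 := by
      linear_combination e3 + (l : F) * D.h2 + D.h2
    have e5 : (l : F) + 1 = 0 := by simpa using e4
    apply Units.ext
    simp only [Units.val_one]
    linear_combination e5 - D.h2
  have hψsurj : Function.Surjective ψ := Finite.injective_iff_surjective.mp hψinj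
  have hs1 : ∀ a : Fˣ, φ (gS D a 0) = φ (gS D 1 0) := by
    intro a
    obtain ⟨l, hl⟩ := hψsurj a
    have e1 := congrArg φ (gD_gS D l 1)
    simp only [map_mul, hD1, one_mul, mul_one] at e1
    rw [e1]
    have ha : D.σ (l : F) * ((l : F) ^ 2)⁻¹ = (a : F) := by
      rw [← hl]
      simp [ψ]
    rw [ha]
  obtain ⟨x, hx0, hx1⟩ := hq
  have hs11 : φ (gS D 1 0) = 1 := by
    have hx1' : x + 1 ≠ 0 := by
      intro h0
      apply hx1
      linear_combination h0 - D.h2
    have e1 := hs1 (Units.mk0 x hx0)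
    have e2 := hs1 (Units.mk0 (x + 1) hx1')
    simp only [Units.val_mk0] at e1 e2
    have e3 := hsadd x 1
    rw [e2, e1] at e3
    exact mul_left_cancel (a := φ (gS D 1 0)) (by rw [e3, mul_one])
  have hsall : ∀ a c, φ (gS D a c) = 1 := by
    intro a c
    rw [hs0]
    by_cases ha : a = 0
    · rw [ha, hs0']
    · rw [← hs11]
      exact hs1 (Units.mk0 a ha)
  intro g
  have := eq_top_of_standard D φ.ker (fun a c => hsall a c) (fun l => hD1 l) hW1
  have hg : g ∈ φ.ker := by rw [this]; trivial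
  exact hg

end SzB
end Cfsg.Agent.Lib.Known
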