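import Mathlib
import Cfsg.Prelude.Def_Sz

set_option autoImplicit false

/-! Dominant-entry ping-pong for explicit unitriangular matrices of the Suzuki group. -/

namespace Cfsg.Agent.Lib.Known

open Polynomial Matrix

namespace SzLaw

section Generic
variable {R : Type*} [CommRing R]

/-- The lower unitriangular Suzuki matrix. -/
def LM (a b : R) : Matrix (Fin 4) (Fin 4) R :=
  !![1, 0, 0, 0; a, 1, 0, 0; 0, b, 1, 0; a ^ 2 * b, a * b, a, 1]

/-- Its inverse in characteristic two. -/
def LI (a b : R) : Matrix (Fin 4) (Fin 4) R :=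
  !![1, 0, 0, 0; a, 1, 0, 0; a * b, b, 1, 0; a ^ 2 * b, 0, a, 1]

/-- The upper unitriangular Suzuki matrix. -/
def UM (a b : R) : Matrix (Fin 4) (Fin 4) R :=
  !![1, a, 0, a ^ 2 * b; 0, 1, b, a * b; 0, 0, 1, a; 0, 0, 0, 1]

/-- Its inverse in characteristic two. -/
def UI (a b : R) : Matrix (Fin 4) (Fin 4) R :=
  !![1, a, a * b, a ^ 2 * b; 0, 1, b, 0; 0, 0, 1, a; 0, 0, 0, 1]

theorem LM_mul_LI (h2 : (2 : R) = 0) (a b : R) : LM a b * LI a b = 1 := by
  ext i j
  fin_cases i <;> fin_cases j <;>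
    simp [LM, LI, Matrix.mul_apply, Fin.sum_univ_four, Matrix.one_apply] <;>
    first
      | linear_combination (a * b) * h2
      | linear_combination (a) * h2
      | linear_combination (b) * h2
      | linear_combination (a ^ 2 * b) * h2
      | linear_combination (2 * a ^ 2 * b) * h2
      | ring_nf

theorem LI_mul_LM (h2 : (2 : R) = 0) (a b : R) : LI a b * LM a b = 1 := by
  ext i j
  fin_cases i <;> fin_cases j <;>
    simp [LM, LI, Matrix.mul_apply, Fin.sum_univ_four, Matrix.one_apply] <;>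
    first
      | linear_combination (a * b) * h2
      | linear_combination (a) * h2
      | linear_combination (b) * h2
      | linear_combination (a ^ 2 * b) * h2
      | linear_combination (2 * a ^ 2 * b) * h2
      | ring_nf

theorem UM_mul_UI (h2 : (2 : R) = 0) (a b : R) : UM a b * UI a b = 1 := by
  ext i j
  fin_cases i <;> fin_cases j <;>
    simp [UM, UI, Matrix.mul_apply, Fin.sum_univ_four, Matrix.one_apply] <;>
    first
      | linear_combination (a * b) * h2
      | linear_combination (a) * h2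
      | linear_combination (b) * h2
      | linear_combination (a ^ 2 * b) * h2
      | linear_combination (2 * a ^ 2 * b) * h2
      | ring_nf

theorem UI_mul_UM (h2 : (2 : R) = 0) (a b : R) : UI a b * UM a b = 1 := by
  ext i j
  fin_cases i <;> fin_cases j <;>
    simp [UM, UI, Matrix.mul_apply, Fin.sum_univ_four, Matrix.one_apply] <;>
    first
      | linear_combination (a * b) * h2
      | linear_combination (a) * h2
      | linear_combination (b) * h2
      | linear_combination (a ^ 2 * b) * h2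
      | linear_combination (2 * a ^ 2 * b) * h2
      | ring_nf

/-- Merged lower letters. -/
theorem LI_mul_LM' (a b a' b' : R) : LI a b * LM a' b' =
    !![1, 0, 0, 0; a + a', 1, 0, 0; b * (a + a'), b + b', 1, 0;
      a ^ 2 * b + a' ^ 2 * b', (a + a') * b', a + a', 1] := by
  ext i j
  fin_cases i <;> fin_cases j <;>
    simp [LM, LI, Matrix.mul_apply, Fin.sum_univ_four] <;> ring

/-- Merged upper letters. -/
theorem UM_mul_UI' (a b a' b' : R) : UM a b * UI a' b' =
    !![1, a + a', (a + a') * b', a ^ 2 * b + a' ^ 2 * b';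
      0, 1, b + b', (a + a') * b; 0, 0, 1, a + a'; 0, 0, 0, 1] := by
  ext i j
  fin_cases i <;> fin_cases j <;>
    simp [UM, UI, Matrix.mul_apply, Fin.sum_univ_four] <;> ring

end Generic

section Dom
variable {F : Type*} [Field F]

/-- An entry which strictly dominates all the others in degree. -/
def Dom (M : Matrix (Fin 4) (Fin 4) F[X]) (i j : Fin 4) : Prop :=
  ∀ k l, (k, l) ≠ (i, j) → natDegree (M k l) < natDegree (M i j)

/-- The product of matrices with composable dominant entries. -/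
theorem Dom.mul {N M : Matrix (Fin 4) (Fin 4) F[X]} {k i j : Fin 4}
    (hN : Dom N k i) (hM : Dom M i j) : Dom (N * M) k j := by
  set dN := natDegree (N k i) with hdN
  set dM := natDegree (M i j) with hdM
  have hNlt : ∀ p l, (p, l) ≠ (k, i) → natDegree (N p l) < dN := hN
  have hMlt : ∀ l q, (l, q) ≠ (i, j) → natDegree (M l q) < dM := hM
  have hNle : ∀ p l, natDegree (N p l) ≤ dN := by
    intro p l
    by_cases h : (p, l) = (k, i)
    · obtain ⟨rfl, rfl⟩ := Prod.mk.inj h
      exact le_rfl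
    · exact (hNlt p l h).le
  have hMle : ∀ l q, natDegree (M l q) ≤ dM := by
    intro l q
    by_cases h : (l, q) = (i, j)
    · obtain ⟨rfl, rfl⟩ := Prod.mk.inj h
      exact le_rfl
    · exact (hMlt l q h).le
  -- the degrees are positive
  have hdNpos : 0 < dN := by
    obtain ⟨p, hp⟩ : ∃ p : Fin 4, p ≠ k := by
      by_cases h : k = 0
      · exact ⟨1, by rw [h]; decide⟩
      · exact ⟨0, fun h' => h h'.symm⟩
    have := hNlt p i (by simp [hp])
    omega
  have hdMpos : 0 < dM := by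
    obtain ⟨p, hp⟩ : ∃ p : Fin 4, p ≠ i := by
      by_cases h : i = 0
      · exact ⟨1, by rw [h]; decide⟩
      · exact ⟨0, fun h' => h h'.symm⟩
    have := hMlt p j (by simp [hp])
    omega
  have hNne : N k i ≠ 0 := by
    intro h0
    rw [hdN, h0, natDegree_zero] at hdNpos
    omega
  have hMne : M i j ≠ 0 := by
    intro h0
    rw [hdM, h0, natDegree_zero] at hdMpos
    omega
  have hterm : natDegree (N k i * M i j) = dN + dM := natDegree_mul hNne hMne
  -- all other terms are smaller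
  have hoff : ∀ p q l, (p, q, l) ≠ (k, j, i) → natDegree (N p l * M l q) < dN + dM := by
    intro p q l hne
    refine lt_of_le_of_lt natDegree_mul_le ?_
    by_cases h1 : (p, l) = (k, i)
    · obtain ⟨rfl, rfl⟩ := Prod.mk.inj h1
      have h3 : (l, q) ≠ (l, j) := by
        intro h
        apply hne
        have : q = j := (Prod.mk.inj h).2
        rw [this]
      have := hMlt l q h3
      have h4 := hNle p l
      omega
    · have := hNlt p l h1
      have h4 := hMle l q
      omega
  have hmain : natDegree ((N * M) k j) = dN + dM := by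
    rw [Matrix.mul_apply, ← Finset.add_sum_erase _ _ (Finset.mem_univ i)]
    have hrest : natDegree (∑ x ∈ Finset.univ.erase i, N k x * M x j) < dN + dM := by
      have hpos : 0 < dN + dM := by omega
      have : natDegree (∑ x ∈ Finset.univ.erase i, N k x * M x j) ≤ dN + dM - 1 := by
        apply natDegree_sum_le_of_forall_le
        intro x hx
        have hxi : x ≠ i := Finset.ne_of_mem_erase hx
        have := hoff k j x (by
          intro h
          apply hxi
          have := (Prod.mk.inj (Prod.mk.inj h).2).2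
          exact this)
        omega
      omega
    rw [natDegree_add_eq_left_of_natDegree_lt (by rw [hterm]; exact hrest), hterm]
  intro p q hpq
  rw [hmain]
  have hpos : 0 < dN + dM := by omega
  have : natDegree ((N * M) p q) ≤ dN + dM - 1 := by
    rw [Matrix.mul_apply]
    apply natDegree_sum_le_of_forall_le
    intro x _
    have := hoff p q x (by
      intro h
      apply hpq
      have h1 := Prod.mk.inj h
      have h2 := Prod.mk.inj h1.2
      rw [h1.1, h2.1])
    omega
  omega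

/-- A bound on the degrees of all entries. -/
def Bd (M : Matrix (Fin 4) (Fin 4) F[X]) (n : ℕ) : Prop := ∀ i j, natDegree (M i j) ≤ n

theorem Bd.mul {N M : Matrix (Fin 4) (Fin 4) F[X]} {n m : ℕ} (hN : Bd N n) (hM : Bd M m) :
    Bd (N * M) (n + m) := by
  intro i j
  rw [Matrix.mul_apply]
  apply natDegree_sum_le_of_forall_le
  intro x _
  refine natDegree_mul_le.trans ?_
  have := hN i x
  have := hM x j
  omega

theorem Bd.one : Bd (1 : Matrix (Fin 4) (Fin 4) F[X]) 0 := by
  intro i j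
  rw [Matrix.one_apply]
  split_ifs <;> simp

end Dom

section Letters
variable {F : Type*} [Field F]

theorem natDegree_xx (A B : ℕ) : natDegree ((X : F[X]) ^ A + X ^ B) ≤ max A B := by
  refine (natDegree_add_le _ _).trans ?_
  simp

theorem natDegree_xx_eq (A B : ℕ) (h : A ≠ B) : natDegree ((X : F[X]) ^ A + X ^ B) = max A B := by
  rcases lt_or_gt_of_ne h with h1 | h1
  · rw [natDegree_add_eq_right_of_natDegree_lt (by simpa using h1), natDegree_X_pow, max_eq_right h1.le]
  · rw [natDegree_add_eq_left_of_natDegree_lt (by simpa using h1), natDegree_X_pow, max_eq_left h1.le]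

/-- Degree of the sums in the merged entries. -/
theorem dom_LM (A B : ℕ) (hA : 0 < A) (hB : 0 < B) :
    Dom (LM ((X : F[X]) ^ A) (X ^ B)) 3 0 := by
  intro k l hkl
  have e : natDegree (((X : F[X]) ^ A) ^ 2 * X ^ B) = 2 * A + B := by
    rw [← pow_mul, ← pow_add, natDegree_X_pow]; ring
  have e2 : natDegree (((X : F[X]) ^ A) * X ^ B) = A + B := by
    rw [← pow_add, natDegree_X_pow]
  fin_cases k <;> fin_cases l <;> simp [LM, e, e2, natDegree_X_pow] at hkl ⊢ <;> omega

theorem dom_LI (A B : ℕ) (hA : 0 < A) (hB : 0 < B) :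
    Dom (LI ((X : F[X]) ^ A) (X ^ B)) 3 0 := by
  intro k l hkl
  have e : natDegree (((X : F[X]) ^ A) ^ 2 * X ^ B) = 2 * A + B := by
    rw [← pow_mul, ← pow_add, natDegree_X_pow]; ring
  have e2 : natDegree (((X : F[X]) ^ A) * X ^ B) = A + B := by
    rw [← pow_add, natDegree_X_pow]
  fin_cases k <;> fin_cases l <;> simp [LI, e, e2, natDegree_X_pow] at hkl ⊢ <;> omega

theorem dom_UM (A B : ℕ) (hA : 0 < A) (hB : 0 < B) :
    Dom (UM ((X : F[X]) ^ A) (X ^ B)) 0 3 := by
  intro k l hkl
  have e : natDegree (((X : F[X]) ^ A) ^ 2 * X ^ B) = 2 * A + B := by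
    rw [← pow_mul, ← pow_add, natDegree_X_pow]; ring
  have e2 : natDegree (((X : F[X]) ^ A) * X ^ B) = A + B := by
    rw [← pow_add, natDegree_X_pow]
  fin_cases k <;> fin_cases l <;> simp [UM, e, e2, natDegree_X_pow] at hkl ⊢ <;> omega

theorem dom_UI (A B : ℕ) (hA : 0 < A) (hB : 0 < B) :
    Dom (UI ((X : F[X]) ^ A) (X ^ B)) 0 3 := by
  intro k l hkl
  have e : natDegree (((X : F[X]) ^ A) ^ 2 * X ^ B) = 2 * A + B := by
    rw [← pow_mul, ← pow_add, natDegree_X_pow]; ring
  have e2 : natDegree (((X : F[X]) ^ A) * X ^ B) = A + B := by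
    rw [← pow_add, natDegree_X_pow]
  fin_cases k <;> fin_cases l <;> simp [UI, e, e2, natDegree_X_pow] at hkl ⊢ <;> omega

/-- The degrees in the merged letters. -/
theorem merged_degs (A A' B B' : ℕ) (hA : 0 < A) (hA' : 0 < A') (hB : 0 < B) (hB' : 0 < B')
    (hne : A ≠ A') (hmono : A < A' → B ≤ B') (hmono' : A' < A → B' ≤ B) :
    let a : F[X] := X ^ A
    let b : F[X] := X ^ B
    let a' : F[X] := X ^ A'
    let b' : F[X] := X ^ B'
    let D := natDegree (a ^ 2 * b + a' ^ 2 * b')
    natDegree (a + a') < D ∧ natDegree (b * (a + a')) < D ∧ natDegree (b + b') < D ∧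
      natDegree ((a + a') * b') < D ∧ natDegree ((a + a') * b) < D ∧ 0 < D := by
  intro a b a' b' D
  have e1 : a ^ 2 * b = X ^ (2 * A + B) := by
    change ((X : F[X]) ^ A) ^ 2 * X ^ B = _
    rw [← pow_mul, ← pow_add]; ring_nf
  have e2 : a' ^ 2 * b' = X ^ (2 * A' + B') := by
    change ((X : F[X]) ^ A') ^ 2 * X ^ B' = _
    rw [← pow_mul, ← pow_add]; ring_nf
  have hD : D = max (2 * A + B) (2 * A' + B') := by
    change natDegree (a ^ 2 * b + a' ^ 2 * b') = _
    rw [e1, e2]
    apply natDegree_xx_eq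
    rcases lt_or_gt_of_ne hne with h | h
    · have := hmono h
      omega
    · have := hmono' h
      omega
  have hs : natDegree (a + a') ≤ max A A' := natDegree_xx A A'
  have hs2 : natDegree (b + b') ≤ max B B' := natDegree_xx B B'
  have hb : natDegree b = B := natDegree_X_pow B
  have hb' : natDegree b' = B' := natDegree_X_pow B'
  have hm1 : natDegree (b * (a + a')) ≤ B + max A A' := natDegree_mul_le.trans (by omega)
  have hm2 : natDegree ((a + a') * b') ≤ max A A' + B' := natDegree_mul_le.trans (by omega)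
  have hm3 : natDegree ((a + a') * b) ≤ max A A' + B := natDegree_mul_le.trans (by omega)
  rcases lt_or_gt_of_ne hne with h | h
  · have := hmono h
    omega
  · have := hmono' h
    omega

theorem dom_LI_LM (A A' B B' : ℕ) (hA : 0 < A) (hA' : 0 < A') (hB : 0 < B) (hB' : 0 < B')
    (hne : A ≠ A') (hmono : A < A' → B ≤ B') (hmono' : A' < A → B' ≤ B) :
    Dom (LI ((X : F[X]) ^ A) (X ^ B) * LM (X ^ A') (X ^ B')) 3 0 := by
  obtain ⟨h1, h2, h3, h4, h5, h6⟩ := merged_degs (F := F) A A' B B' hA hA' hB hB' hne hmono hmono'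
  rw [LI_mul_LM']
  intro k l hkl
  fin_cases k <;> fin_cases l <;> simp at hkl ⊢ <;> first | omega | assumption

theorem dom_UM_UI (A A' B B' : ℕ) (hA : 0 < A) (hA' : 0 < A') (hB : 0 < B) (hB' : 0 < B')
    (hne : A ≠ A') (hmono : A < A' → B ≤ B') (hmono' : A' < A → B' ≤ B) :
    Dom (UM ((X : F[X]) ^ A) (X ^ B) * UI (X ^ A') (X ^ B')) 0 3 := by
  obtain ⟨h1, h2, h3, h4, h5, h6⟩ := merged_degs (F := F) A A' B B' hA hA' hB hB' hne hmono hmono'
  rw [UM_mul_UI']
  intro k l hkl
  fin_cases k <;> fin_cases l <;> simp at hkl ⊢ <;> first | omega | assumption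

theorem bd_all (A B : ℕ) :
    Bd (LM ((X : F[X]) ^ A) (X ^ B)) (2 * A + B) ∧ Bd (LI ((X : F[X]) ^ A) (X ^ B)) (2 * A + B) ∧
      Bd (UM ((X : F[X]) ^ A) (X ^ B)) (2 * A + B) ∧ Bd (UI ((X : F[X]) ^ A) (X ^ B)) (2 * A + B) := by
  have e : natDegree (((X : F[X]) ^ A) ^ 2 * X ^ B) = 2 * A + B := by
    rw [← pow_mul, ← pow_add, natDegree_X_pow]; ring
  have e2 : natDegree (((X : F[X]) ^ A) * X ^ B) = A + B := by
    rw [← pow_add, natDegree_X_pow]
  refine ⟨?_, ?_, ?_, ?_⟩ <;> intro k l <;> fin_cases k <;> fin_cases l <;>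
    simp [LM, LI, UM, UI, e, e2, natDegree_X_pow] <;> omega

/-- The word in the polynomial matrices. -/
noncomputable def preL (F : Type*) [Field F] (θ : ℕ) (x : ℕ × Bool) : Matrix (Fin 4) (Fin 4) F[X] :=
  cond x.2 (LM (X ^ (x.1 + 1)) (X ^ ((x.1 + 1) * θ))) (UI (X ^ (x.1 + 1)) (X ^ ((x.1 + 1) * θ)))

/-- Second half of a letter. -/
noncomputable def sufL (F : Type*) [Field F] (θ : ℕ) (x : ℕ × Bool) : Matrix (Fin 4) (Fin 4) F[X] :=
  cond x.2 (UM (X ^ (x.1 + 1)) (X ^ ((x.1 + 1) * θ))) (LI (X ^ (x.1 + 1)) (X ^ ((x.1 + 1) * θ)))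

/-- The word matrix. -/
noncomputable def wordM (F : Type*) [Field F] (θ : ℕ) (L : List (ℕ × Bool)) : Matrix (Fin 4) (Fin 4) F[X] :=
  (L.map fun x => preL F θ x * sufL F θ x).prod

/-- A bound for the degrees of a word. -/
def wordBd (L : List (ℕ × Bool)) : ℕ := (L.map fun x => 2 * (x.1 + 1)).sum

theorem bd_wordM (θ : ℕ) (L : List (ℕ × Bool)) : Bd (wordM F θ L) (wordBd L * (2 + θ)) := by
  induction L with
  | nil =>
    simpa [wordM, wordBd] using Bd.one
  | cons l L ih =>
    have h : wordBd (l :: L) * (2 + θ) =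
        ((2 * (l.1 + 1) + (l.1 + 1) * θ) + (2 * (l.1 + 1) + (l.1 + 1) * θ)) + wordBd L * (2 + θ) := by
      simp only [wordBd, List.map_cons, List.sum_cons]
      ring
    rw [h]
    simp only [wordM, List.map_cons, List.prod_cons]
    refine Bd.mul (Bd.mul ?_ ?_) ih
    all_goals
      obtain ⟨k, e⟩ := l
      obtain ⟨h1, h2, h3, h4⟩ := bd_all (F := F) (k + 1) ((k + 1) * θ)
      cases e <;> simpa [preL, sufL] using by assumption

/-- The dominance along a reduced word. -/
theorem dom_suf (θ : ℕ) (hθ : 0 < θ) (l : ℕ × Bool) (L : List (ℕ × Bool)) (hL : FreeGroup.IsReduced (l :: L)) :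
    ∃ j, Dom (sufL F θ l * wordM F θ L) (cond l.2 0 3) j := by
  have hpos : ∀ k : ℕ, 0 < (k + 1) * θ := fun k => Nat.mul_pos (Nat.succ_pos k) hθ
  have hmono : ∀ k k' : ℕ, k + 1 < k' + 1 → (k + 1) * θ ≤ (k' + 1) * θ :=
    fun k k' h => Nat.mul_le_mul_right θ h.le
  induction L generalizing l with
  | nil =>
    obtain ⟨k, e⟩ := l
    cases e
    · refine ⟨0, ?_⟩
      simpa [sufL, wordM] using dom_LI (F := F) (k + 1) ((k + 1) * θ) (Nat.succ_pos k) (hpos k)
    · refine ⟨3, ?_⟩
      simpa [sufL, wordM] using dom_UM (F := F) (k + 1) ((k + 1) * θ) (Nat.succ_pos k) (hpos k)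
  | cons m L ih =>
    rw [FreeGroup.isReduced_cons_cons] at hL
    obtain ⟨j, hj⟩ := ih m hL.2
    refine ⟨j, ?_⟩
    obtain ⟨k, e⟩ := l
    obtain ⟨k', e'⟩ := m
    have hr : k = k' → e = e' := hL.1
    have hw : wordM F θ ((k', e') :: L) = preL F θ (k', e') * (sufL F θ (k', e') * wordM F θ L) := by
      simp only [wordM, List.map_cons, List.prod_cons, mul_assoc]
    rw [hw, ← mul_assoc]
    refine Dom.mul ?_ hj
    cases e <;> cases e'
    · -- `LI k * UI k'`
      simp only [sufL, preL, cond_false]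
      exact Dom.mul (dom_LI _ _ (Nat.succ_pos k) (hpos k)) (dom_UI _ _ (Nat.succ_pos k') (hpos k'))
    · -- `LI k * LM k'`
      simp only [sufL, preL, cond_false, cond_true]
      have hne : k + 1 ≠ k' + 1 := fun h => by simpa using hr (by omega)
      exact dom_LI_LM _ _ _ _ (Nat.succ_pos k) (Nat.succ_pos k') (hpos k) (hpos k') hne
        (hmono k k') (hmono k' k)
    · -- `UM k * UI k'`
      simp only [sufL, preL, cond_false, cond_true]
      have hne : k + 1 ≠ k' + 1 := fun h => by simpa using hr (by omega)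
      exact dom_UM_UI _ _ _ _ (Nat.succ_pos k) (Nat.succ_pos k') (hpos k) (hpos k') hne
        (hmono k k') (hmono k' k)
    · -- `UM k * LM k'`
      simp only [sufL, preL, cond_true]
      exact Dom.mul (dom_UM _ _ (Nat.succ_pos k) (hpos k)) (dom_LM _ _ (Nat.succ_pos k') (hpos k'))

/-- A nonempty reduced word has a dominant entry. -/
theorem dom_word (θ : ℕ) (hθ : 0 < θ) (L : List (ℕ × Bool)) (hL : FreeGroup.IsReduced L) (hne : L ≠ []) :
    ∃ i j, Dom (wordM F θ L) i j := by
  obtain ⟨l, L', rfl⟩ := List.exists_cons_of_ne_nil hne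
  obtain ⟨j, hj⟩ := dom_suf (F := F) θ hθ l L' hL
  refine ⟨cond l.2 3 0, j, ?_⟩
  have hw : wordM F θ (l :: L') = preL F θ l * (sufL F θ l * wordM F θ L') := by
    simp only [wordM, List.map_cons, List.prod_cons, mul_assoc]
  rw [hw]
  refine Dom.mul ?_ hj
  obtain ⟨k, e⟩ := l
  have hpos : 0 < (k + 1) * θ := Nat.mul_pos (Nat.succ_pos k) hθ
  cases e
  · simpa [preL] using dom_UI (F := F) (k + 1) ((k + 1) * θ) (Nat.succ_pos k) hpos
  · simpa [preL] using dom_LM (F := F) (k + 1) ((k + 1) * θ) (Nat.succ_pos k) hpos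

end Letters

section Sz
variable {F : Type*} [Field F]

/-- `LM` as an invertible matrix. -/
def szL (h2 : (2 : F) = 0) (a b : F) : GL (Fin 4) F where
  val := LM a b
  inv := LI a b
  val_inv := LM_mul_LI h2 a b
  inv_val := LI_mul_LM h2 a b

/-- `UM` as an invertible matrix. -/
def szU (h2 : (2 : F) = 0) (a b : F) : GL (Fin 4) F where
  val := UM a b
  inv := UI a b
  val_inv := UM_mul_UI h2 a b
  inv_val := UI_mul_UM h2 a b

theorem szL_mem (h2 : (2 : F) = 0) (e : ℕ) (he : 0 < e) (hθ : ∀ x : F, (x ^ e) ^ e = x ^ 2) (a : F) :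
    szL h2 a (a ^ e) ∈ Cfsg.Lie.Sz F e := by
  refine Subgroup.subset_closure ⟨?_, ?_⟩
  · intro u v
    simp only [Units.coeHom_apply, Cfsg.Lie.altForm4]
    simp [szL, LM, Matrix.mulVec, dotProduct, Fin.sum_univ_four]
    linear_combination (u 0 * v 0 * a ^ 2 * a ^ e + u 0 * v 1 * a * a ^ e + u 0 * v 2 * a
      + u 1 * v 0 * a * a ^ e + u 1 * v 1 * a ^ e + u 2 * v 0 * a) * h2
  · ext i j
    have hn : ∀ x : F, -x = x := fun x => by linear_combination -x * h2
    have hc : (a ^ 2) ^ e = (a ^ e) ^ 2 := by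
      rw [← pow_mul, ← pow_mul, mul_comm]
    fin_cases i <;> fin_cases j <;>
      simp [Cfsg.Lie.star4, Cfsg.Lie.pairOf, szL, LM, mul_pow, hθ, he.ne', hn, hc] <;> ring1

theorem szU_mem (h2 : (2 : F) = 0) (e : ℕ) (he : 0 < e) (hθ : ∀ x : F, (x ^ e) ^ e = x ^ 2) (a : F) :
    szU h2 a (a ^ e) ∈ Cfsg.Lie.Sz F e := by
  refine Subgroup.subset_closure ⟨?_, ?_⟩
  · intro u v
    simp only [Units.coeHom_apply, Cfsg.Lie.altForm4]
    simp [szU, UM, Matrix.mulVec, dotProduct, Fin.sum_univ_four]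
    linear_combination (2 * u 3 * v 3 * a ^ 2 * a ^ e + u 2 * v 3 * a * a ^ e + u 1 * v 3 * a
      + u 3 * v 2 * a * a ^ e + u 2 * v 2 * a ^ e + u 3 * v 1 * a) * h2
  · ext i j
    have hn : ∀ x : F, -x = x := fun x => by linear_combination -x * h2
    have hc : (a ^ 2) ^ e = (a ^ e) ^ 2 := by
      rw [← pow_mul, ← pow_mul, mul_comm]
    fin_cases i <;> fin_cases j <;>
      simp [Cfsg.Lie.star4, Cfsg.Lie.pairOf, szU, UM, mul_pow, hθ, he.ne', hn, hc] <;> ring1

end Sz

/-- Main theorem. -/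
theorem exists_no_law_sz (w : FreeGroup ℕ) (hw : w ≠ 1) :
    ∃ N : ℕ, ∀ (F : Type*) [Field F] [Fintype F] (m : ℕ), 1 ≤ m → N ≤ m →
      Fintype.card F = 2 ^ (2 * m + 1) →
      ∃ f : ℕ → ↥(Cfsg.Lie.Sz F (2 ^ (m + 1))), FreeGroup.lift f w ≠ 1 := by
  classical
  set L := w.toWord with hL
  have hLne : L ≠ [] := by
    intro h
    apply hw
    have := FreeGroup.mk_toWord (x := w)
    rw [← this, ← hL, h]
    rfl
  refine ⟨4 * wordBd L + 2, ?_⟩
  intro F _ _ m _ hmN hcard
  set θ := 2 ^ (m + 1) with hθdef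
  have hθpos : 0 < θ := by positivity
  have hθbig : 4 * wordBd L + 2 < θ := by
    have : m + 1 < 2 ^ (m + 1) := Nat.lt_two_pow_self
    omega
  have hqθ : 2 * Fintype.card F = θ * θ := by
    rw [hcard, hθdef, ← pow_add, ← pow_succ']
    congr 1
    ring
  haveI : Fact (Nat.Prime 2) := ⟨Nat.prime_two⟩
  have hchar : CharP F 2 := by
    obtain ⟨p, hp⟩ := CharP.exists F
    obtain ⟨n, hpprime, hcard'⟩ := FiniteField.card F p
    have hdvd : p ∣ 2 ^ (2 * m + 1) := by
      rw [← hcard, hcard']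
      exact dvd_pow_self p n.ne_zero
    have hp2 : p = 2 := (Nat.prime_dvd_prime_iff_eq hpprime Nat.prime_two).mp
      (hpprime.dvd_of_dvd_pow hdvd)
    rwa [hp2] at hp
  have h2 : (2 : F) = 0 := by
    simpa using CharP.cast_eq_zero F 2
  have hθθ : ∀ x : F, (x ^ θ) ^ θ = x ^ 2 := by
    intro x
    rw [← pow_mul, ← hqθ, mul_comm 2, pow_mul, FiniteField.pow_card]
  obtain ⟨i, j, hij⟩ := dom_word (F := F) θ hθpos L FreeGroup.isReduced_toWord hLne
  set M := wordM F θ L with hM
  set P : F[X] := M i j - (if i = j then 1 else 0) with hP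
  have hMpos : 0 < natDegree (M i j) := by
    obtain ⟨p, hp⟩ : ∃ p : Fin 4, p ≠ i := by
      by_cases h : i = 0
      · exact ⟨1, by rw [h]; decide⟩
      · exact ⟨0, fun h' => h h'.symm⟩
    have := hij p j (by simp [hp])
    omega
  have hP0 : P ≠ 0 := by
    intro h0
    have h1 : M i j = if i = j then 1 else 0 := sub_eq_zero.mp h0
    rw [h1] at hMpos
    split_ifs at hMpos <;> simp at hMpos
  have hbd : natDegree P ≤ wordBd L * (2 + θ) := by
    refine (natDegree_sub_le _ _).trans (max_le (bd_wordM θ L i j) ?_)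
    split_ifs <;> simp
  have hlt : natDegree P < Fintype.card F := by
    refine lt_of_le_of_lt hbd ?_
    have : 2 * (wordBd L * (2 + θ)) < 2 * Fintype.card F := by
      rw [hqθ]
      nlinarith
    omega
  obtain ⟨τ, hτ⟩ : ∃ τ : F, P.eval τ ≠ 0 := by
    by_contra hall
    push Not at hall
    have h1 : (Finset.univ : Finset F) ⊆ P.roots.toFinset := by
      intro a _
      rw [Multiset.mem_toFinset, mem_roots hP0]
      exact hall a
    have h2 := Finset.card_le_card h1
    have h3 := Multiset.toFinset_card_le P.roots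
    have h4 := P.card_roots'
    rw [Finset.card_univ] at h2
    omega
  -- the substitution
  let α : ℕ → F := fun k => τ ^ (k + 1)
  let f : ℕ → ↥(Cfsg.Lie.Sz F θ) := fun k =>
    ⟨szL h2 (α k) (α k ^ θ), szL_mem h2 θ hθpos hθθ (α k)⟩ *
      ⟨szU h2 (α k) (α k ^ θ), szU_mem h2 θ hθpos hθθ (α k)⟩
  refine ⟨f, ?_⟩
  let φ : ↥(Cfsg.Lie.Sz F θ) →* Matrix (Fin 4) (Fin 4) F :=
    (Units.coeHom (Matrix (Fin 4) (Fin 4) F)).comp (Subgroup.subtype _)
  let ev : Matrix (Fin 4) (Fin 4) F[X] →+* Matrix (Fin 4) (Fin 4) F :=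
    (evalRingHom τ).mapMatrix
  have hev : ∀ (a b : F[X]), ev (LM a b) = LM (a.eval τ) (b.eval τ) ∧
      ev (LI a b) = LI (a.eval τ) (b.eval τ) ∧ ev (UM a b) = UM (a.eval τ) (b.eval τ) ∧
      ev (UI a b) = UI (a.eval τ) (b.eval τ) := by
    intro a b
    refine ⟨?_, ?_, ?_, ?_⟩ <;> ext p q <;> fin_cases p <;> fin_cases q <;> simp [ev, LM, LI, UM, UI]
  have hlift : φ (FreeGroup.lift f w) = ev M := by
    conv_lhs => rw [← FreeGroup.mk_toWord (x := w), FreeGroup.lift_mk]
    rw [← hL, hM, wordM, map_list_prod, map_list_prod, List.map_map, List.map_map]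
    congr 1
    apply List.map_congr_left
    rintro ⟨k, e⟩ _
    have hpw : τ ^ ((k + 1) * θ) = α k ^ θ := by
      simp only [α, pow_mul]
    cases e
    · simp only [Function.comp, cond_false, preL, sufL, map_mul, map_inv]
      obtain ⟨-, h1, -, -⟩ := hev ((X : F[X]) ^ (k + 1)) (X ^ ((k + 1) * θ))
      obtain ⟨-, -, -, h2'⟩ := hev ((X : F[X]) ^ (k + 1)) (X ^ ((k + 1) * θ))
      rw [h1, h2']
      simp only [eval_pow, eval_X, hpw]
      simp only [f, _root_.mul_inv_rev, map_mul, φ]
      rfl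
    · simp only [Function.comp, cond_true, preL, sufL, map_mul]
      obtain ⟨h1, -, h2', -⟩ := hev ((X : F[X]) ^ (k + 1)) (X ^ ((k + 1) * θ))
      rw [h1, h2']
      simp only [eval_pow, eval_X, hpw]
      simp only [f, map_mul, φ]
      rfl
  intro h1
  rw [h1, map_one] at hlift
  apply hτ
  have e1 : ev M i j = (M i j).eval τ := by
    simp [ev]
  rw [hP, eval_sub, ← e1, ← hlift, Matrix.one_apply]
  split_ifs <;> simp

end SzLaw
end Cfsg.Agent.Lib.Known
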