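import Mathlib
import Cfsg.Agent.Lib.Known.SzBasic
import Cfsg.Agent.Lib.Known.FourierRep

set_option autoImplicit false

/-! The lower bound for nontrivial representations of the Suzuki groups. -/

namespace Cfsg.Agent.Lib.Known

open Matrix Cfsg.Lie

namespace SzB

variable {F : Type*} [Field F] [Fintype F] [DecidableEq F] {e : ℕ} (D : SzData F e)
variable {V : Type*} [AddCommGroup V] [Module ℂ V] [FiniteDimensional ℂ V]
variable (ρ : Representation ℂ ↥(Sz F e) V)

/-- The action of the centre of `Q`. -/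
noncomputable def zz (c : F) : Module.End ℂ V := ρ (gS D 0 c)

theorem zz_add (a b : F) : zz D ρ (a + b) = zz D ρ a * zz D ρ b := by
  unfold zz
  rw [← map_mul, gS_mul]
  simp

theorem zz_zero : zz D ρ 0 = 1 := by
  unfold zz
  rw [gS_zero, map_one]

/-- The characters of the centre. -/
noncomputable def chi (ψ : AddChar F ℂ) (x a : F) : ℂ := ψ (x * a)

/-- The projector onto an isotypic component of the centre. -/
noncomputable def pp (ψ : AddChar F ℂ) (x : F) : Module.End ℂ V := fP (zz D ρ) (chi ψ) x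

theorem chi_add (ψ : AddChar F ℂ) (x a b : F) : chi ψ x (a + b) = chi ψ x a * chi ψ x b := by
  simp only [chi, mul_add, AddChar.map_add_eq_mul]

theorem z_mul_pp (ψ : AddChar F ℂ) (c x : F) : zz D ρ c * pp D ρ ψ x = ψ (x * c) • pp D ρ ψ x :=
  z_mul_fP (zz D ρ) (zz_add D ρ) (chi ψ) (chi_add ψ) c x

theorem card_ne (F : Type*) [Fintype F] : (Fintype.card F : ℂ) ≠ 0 ∨ IsEmpty F := by
  rcases isEmpty_or_nonempty F with h | h
  · exact Or.inr h
  · exact Or.inl (Nat.cast_ne_zero.mpr Fintype.card_ne_zero)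

theorem card_ne' : (Fintype.card F : ℂ) ≠ 0 := Nat.cast_ne_zero.mpr Fintype.card_ne_zero

theorem pp_mul_pp (ψ : AddChar F ℂ) (hψ : ψ.IsPrimitive) (x x' : F) :
    pp D ρ ψ x * pp D ρ ψ x' = if x = x' then pp D ρ ψ x' else 0 := by
  refine fP_mul_fP (zz D ρ) (zz_add D ρ) (chi ψ) (chi_add ψ) ?_ card_ne' x x'
  intro u u'
  have h : ∀ a : F, chi ψ u (-a) * chi ψ u' a = ψ (a * (u' - u)) := by
    intro a
    simp only [chi]
    rw [← AddChar.map_add_eq_mul]
    congr 1
    ring
  simp only [h]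
  rw [AddChar.sum_mulShift (u' - u) hψ]
  by_cases huu : u = u'
  · simp [huu]
  · rw [if_neg huu, if_neg (sub_ne_zero.mpr (Ne.symm huu))]
    simp

theorem sum_pp (ψ : AddChar F ℂ) (hψ : ψ.IsPrimitive) :
    ∑ x, pp D ρ ψ x = 1 := by
  refine sum_fP (zz D ρ) (chi ψ) ?_ card_ne' (zz_zero D ρ)
  intro a
  have h : ∀ x : F, chi ψ x (-a) = ψ (x * (-a)) := fun x => rfl
  simp only [h]
  rw [AddChar.sum_mulShift (-a) hψ]
  simp

/-- The torus permutes the projectors. -/
theorem gD_mul_pp (ψ : AddChar F ℂ) (l : Fˣ) (x : F) :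
    ρ (gD D l) * pp D ρ ψ x = pp D ρ ψ (x * D.σ l) * ρ (gD D l) := by
  have hl : D.σ (l : F) ≠ 0 := (map_ne_zero D.σ).mpr l.ne_zero
  unfold pp fP
  rw [mul_smul_comm, smul_mul_assoc]
  congr 1
  rw [Finset.mul_sum, Finset.sum_mul]
  let τ : F ≃ F := (Equiv.mulRight₀ (D.σ (l : F))⁻¹ (inv_ne_zero hl))
  refine Fintype.sum_equiv τ _ _ fun a => ?_
  rw [mul_smul_comm, smul_mul_assoc]
  have e1 : zz D ρ (τ a) * ρ (gD D l) = ρ (gD D l) * zz D ρ a := by
    unfold zz
    rw [← map_mul, ← map_mul, gD_gS0]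
    rfl
  rw [e1]
  congr 1
  have hτ : τ a = a * (D.σ (l : F))⁻¹ := rfl
  simp only [chi]
  rw [hτ]
  congr 1
  field_simp

theorem gS_mul_zz (a c c' : F) : ρ (gS D a c) * zz D ρ c' = zz D ρ c' * ρ (gS D a c) := by
  unfold zz
  rw [← map_mul, ← map_mul, gS_mul, gS_mul]
  congr 2
  · simp
  · simp
    ring

/-- The unipotent elements commute with the projectors. -/
theorem gS_mul_pp (ψ : AddChar F ℂ) (a c x : F) :
    ρ (gS D a c) * pp D ρ ψ x = pp D ρ ψ x * ρ (gS D a c) := by
  unfold pp fP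
  rw [mul_smul_comm, smul_mul_assoc]
  congr 1
  rw [Finset.mul_sum, Finset.sum_mul]
  refine Finset.sum_congr rfl fun c' _ => ?_
  rw [mul_smul_comm, smul_mul_assoc, gS_mul_zz]

/-- The basic commutator relation. -/
theorem gS_comm (x y : F) :
    gS D y 0 * gS D x 0 * gS D y (y * D.σ y) = gS D x 0 * gS D 0 (D.σ y * x + D.σ x * y) := by
  simp only [gS_mul]
  congr 1
  · linear_combination y * D.h2
  · simp
    linear_combination (y * D.σ y) * D.h2

/-- The bilinear form. -/
def ff (x y : F) : F := D.σ y * x + D.σ x * y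

theorem ff_add (x x' y : F) : ff D (x + x') y = ff D x y + ff D x' y := by
  simp only [ff, map_add]
  ring

/-- The radical of the commutator form. -/
noncomputable def radS (ψ : AddChar F ℂ) (u : F) : AddSubgroup F where
  carrier := {x | ∀ y, ψ (u * ff D x y) = 1}
  zero_mem' := by
    intro y
    simp [ff]
  add_mem' := by
    intro a b ha hb y
    rw [ff_add, mul_add, AddChar.map_add_eq_mul, ha, hb, one_mul]
  neg_mem' := by
    intro a ha y
    have hn : -a = a := by linear_combination -a * D.h2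
    rw [hn]
    exact ha y

/-- The radical has at most two elements. -/
theorem radS_sub (ψ : AddChar F ℂ) (hψ : ψ.IsPrimitive) (hψσ : ∀ x, ψ (D.σ x) = ψ x) (u : F) (hu : u ≠ 0)
    (x : F) (hx : x ∈ radS D ψ u) : x = 0 ∨ x = u * (D.σ u)⁻¹ := by
  have hσsurj : Function.Surjective D.σ := Finite.injective_iff_surjective.mp D.σ.injective
  have hsu : D.σ u ≠ 0 := (map_ne_zero D.σ).mpr hu
  have h1 : ∀ z, ψ ((u * x + D.σ u * x ^ 2) * z ^ 2) = 1 := by
    intro z
    have h2 := hx (D.σ z)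
    have h3 : u * ff D x (D.σ z) = u * x * z ^ 2 + u * D.σ x * D.σ z := by
      simp only [ff, D.hσ]
      ring
    rw [h3, AddChar.map_add_eq_mul] at h2
    have h4 : ψ (u * D.σ x * D.σ z) = ψ (D.σ u * x ^ 2 * z ^ 2) := by
      rw [← hψσ (u * D.σ x * D.σ z)]
      simp only [map_mul, D.hσ]
    rw [h4, ← AddChar.map_add_eq_mul] at h2
    rw [← h2]
    congr 1
    ring
  have h5 : u * x + D.σ u * x ^ 2 = 0 := by
    by_contra hne
    apply hψ hne
    ext w
    simp only [AddChar.one_apply, AddChar.mulShift_apply]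
    obtain ⟨v, hv⟩ := hσsurj w
    obtain ⟨t, ht⟩ := hσsurj v
    rw [← hv, ← ht, D.hσ]
    exact h1 t
  by_cases h0 : x = 0
  · exact Or.inl h0
  · refine Or.inr ?_
    have h6 : x * (u + D.σ u * x) = 0 := by linear_combination h5
    have h7 : u + D.σ u * x = 0 := (mul_eq_zero.mp h6).resolve_left h0
    field_simp
    linear_combination -u * D.h2 + h7 + (0 : F) * x

theorem card_radS_le (ψ : AddChar F ℂ) (hψ : ψ.IsPrimitive) (hψσ : ∀ x, ψ (D.σ x) = ψ x) (u : F) (hu : u ≠ 0) :
    Nat.card (radS D ψ u) ≤ 2 := by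
  have h : ((radS D ψ u : AddSubgroup F) : Set F) ⊆ {0, u * (D.σ u)⁻¹} := by
    intro x hx
    exact radS_sub D ψ hψ hψσ u hu x hx
  have h1 := Set.ncard_le_ncard h (Set.toFinite _)
  have h2 : ({0, u * (D.σ u)⁻¹} : Set F).ncard ≤ 2 := by
    have := Set.ncard_insert_le (0 : F) {u * (D.σ u)⁻¹}
    simpa using this
  have h3 : Nat.card (radS D ψ u) = Set.ncard ((radS D ψ u : AddSubgroup F) : Set F) :=
    Nat.card_coe_set_eq _
  omega

/-- The restriction to the range of a projector of a commuting operator. -/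
noncomputable def resW (P R : Module.End ℂ V) (h : R * P = P * R) :
    Module.End ℂ (LinearMap.range P) :=
  R.restrict (by
    rintro _ ⟨v, rfl⟩
    exact ⟨R v, by
      have := congrArg (fun T : Module.End ℂ V => T v) h
      simpa using this.symm⟩)

theorem resW_apply (P R : Module.End ℂ V) (h : R * P = P * R) (w : LinearMap.range P) :
    ((resW P R h w : LinearMap.range P) : V) = R w := rfl

/-- The dimension bound on an isotypic component. -/
theorem card_le_sq (ψ : AddChar F ℂ) (hψ : ψ.IsPrimitive) (hψσ : ∀ x, ψ (D.σ x) = ψ x) (u : F) (hu : u ≠ 0)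
    (hne : pp D ρ ψ u ≠ 0) :
    Fintype.card F ≤ 2 * (Module.finrank ℂ (LinearMap.range (pp D ρ ψ u)) *
      Module.finrank ℂ (LinearMap.range (pp D ρ ψ u))) := by
  classical
  set P := pp D ρ ψ u with hP
  set Rd := radS D ψ u with hRd
  -- index set
  let ι := F ⧸ Rd
  let rep : ι → F := Quotient.out
  have hrep : ∀ i j : ι, i ≠ j → rep i + rep j ∉ Rd := by
    intro i j hij hmem
    apply hij
    have h1 : -(rep i) + rep j ∈ Rd := by
      have hn : -(rep i) = rep i := by linear_combination -(rep i) * D.h2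
      rw [hn]
      exact hmem
    have h2 : (QuotientAddGroup.mk (rep i) : F ⧸ Rd) = QuotientAddGroup.mk (rep j) :=
      QuotientAddGroup.eq.mpr h1
    have h3 : ∀ k : ι, (QuotientAddGroup.mk (rep k) : F ⧸ Rd) = k := fun k => Quotient.out_eq k
    rw [← h3 i, ← h3 j, h2]
  let A : ι → Module.End ℂ (LinearMap.range P) := fun i =>
    resW P (ρ (gS D (rep i) 0)) (gS_mul_pp D ρ ψ _ _ _)
  let B : F → Module.End ℂ (LinearMap.range P) := fun y =>
    resW P (ρ (gS D y 0)) (gS_mul_pp D ρ ψ _ _ _)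
  let B' : F → Module.End ℂ (LinearMap.range P) := fun y =>
    resW P (ρ (gS D y (y * D.σ y))) (gS_mul_pp D ρ ψ _ _ _)
  let lam : ι → F → ℂ := fun i y => ψ (u * ff D (rep i) y)
  have hwne : ∃ w : LinearMap.range P, (w : V) ≠ 0 := by
    by_contra hall
    push Not at hall
    apply hne
    ext v
    have := hall ⟨P v, v, rfl⟩
    simpa using this
  have hA : ∀ i, A i ≠ 0 := by
    intro i h0
    obtain ⟨w, hw⟩ := hwne
    have h1 : ρ (gS D (rep i) 0) (w : V) = 0 := by
      have := congrArg (fun T : Module.End ℂ (LinearMap.range P) => ((T w : LinearMap.range P) : V)) h0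
      simpa [A, resW_apply] using this
    have h2 : (ρ (gS D (rep i) ((rep i) * D.σ (rep i))) * ρ (gS D (rep i) 0)) (w : V) = 0 := by
      rw [Module.End.mul_apply, h1, map_zero]
    rw [← map_mul, gS_mul] at h2
    have h3 : rep i + rep i = 0 := by linear_combination (rep i) * D.h2
    have h4 : rep i * D.σ (rep i) + 0 + D.σ (rep i) * rep i = 0 := by
      linear_combination (rep i * D.σ (rep i)) * D.h2
    rw [h3, h4, gS_zero, map_one] at h2
    exact hw h2
  have hrel : ∀ y i, B y * A i * B' y = lam i y • A i := by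
    intro y i
    ext w
    change (ρ (gS D y 0) (ρ (gS D (rep i) 0) (ρ (gS D y (y * D.σ y)) (w : V)))) =
      lam i y • ρ (gS D (rep i) 0) (w : V)
    have h1 : ρ (gS D y 0) * ρ (gS D (rep i) 0) * ρ (gS D y (y * D.σ y)) =
        ρ (gS D (rep i) 0) * zz D ρ (ff D (rep i) y) := by
      unfold zz ff
      simp only [← map_mul]
      rw [gS_comm]
    have h2 := congrArg (fun T : Module.End ℂ V => T (w : V)) h1
    simp only [Module.End.mul_apply] at h2
    rw [h2]
    obtain ⟨v, hv⟩ := w.2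
    have h3 := congrArg (fun T : Module.End ℂ V => T v) (z_mul_pp D ρ ψ (ff D (rep i) y) u)
    simp only [Module.End.mul_apply, LinearMap.smul_apply] at h3
    rw [← hv, ← hP] at *
    rw [h3, map_smul]
  have hd : ∀ i j, i ≠ j → ∃ y, lam i y ≠ lam j y := by
    intro i j hij
    have h1 := hrep i j hij
    have h2 : ¬ ∀ y, ψ (u * ff D (rep i + rep j) y) = 1 := h1
    push Not at h2
    obtain ⟨y, hy⟩ := h2
    refine ⟨y, fun h3 => hy ?_⟩
    rw [ff_add, mul_add, AddChar.map_add_eq_mul]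
    change lam i y * lam j y = 1
    rw [← h3]
    change ψ _ * ψ _ = 1
    rw [← AddChar.map_add_eq_mul]
    have : u * ff D (rep i) y + u * ff D (rep i) y = 0 := by
      linear_combination (u * ff D (rep i) y) * D.h2
    rw [this, AddChar.map_zero_eq_one]
  have hbound := card_le_finrank_sq A B B' lam hA hrel hd
  have hcard : Nat.card F = Nat.card Rd * Nat.card ι := by
    have := AddSubgroup.card_mul_index Rd
    rw [AddSubgroup.index_eq_card] at this
    exact this.symm
  have hR := card_radS_le D ψ hψ hψσ u hu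
  rw [Nat.card_eq_fintype_card] at hcard
  rw [hcard]
  exact Nat.mul_le_mul hR hbound

/-- The main bound for a nontrivial representation. -/
theorem sz_rep_bound (hq : ∃ x : F, x ≠ 0 ∧ x ≠ 1) (ψ : AddChar F ℂ) (hψ : ψ.IsPrimitive)
    (hψσ : ∀ x, ψ (D.σ x) = ψ x) (hρ : ∃ g, ρ g ≠ 1) :
    ∃ n, Fintype.card F ≤ 2 * (n * n) ∧ (Fintype.card F - 1) * n ≤ Module.finrank ℂ V := by
  classical
  have hex : ∃ u : F, u ≠ 0 ∧ pp D ρ ψ u ≠ 0 := by
    by_contra hall
    push Not at hall
    have h1 : pp D ρ ψ 0 = 1 := by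
      rw [← sum_pp D ρ ψ hψ, Finset.sum_eq_single (0 : F)]
      · intro b _ hb
        exact hall b hb
      · simp
    have h2 : ∀ c, zz D ρ c = 1 := by
      intro c
      have := z_mul_pp D ρ ψ c 0
      rw [h1] at this
      simpa using this
    obtain ⟨g, hg⟩ := hρ
    have h3 := trivial_of_center D hq (MonoidHom.toHomUnits ρ) (by
      intro c
      apply Units.ext
      have := h2 c
      unfold zz at this
      simpa using this) g
    apply hg
    have := congrArg Units.val h3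
    simpa using this
  obtain ⟨u, hu, hne⟩ := hex
  refine ⟨Module.finrank ℂ (LinearMap.range (pp D ρ ψ u)), card_le_sq D ρ ψ hψ hψσ u hu hne, ?_⟩
  have hσsurj : Function.Surjective D.σ := Finite.injective_iff_surjective.mp D.σ.injective
  have hle : ∀ x : F, x ≠ 0 → Module.finrank ℂ (LinearMap.range (pp D ρ ψ u)) ≤
      Module.finrank ℂ (LinearMap.range (pp D ρ ψ x)) := by
    intro x hx
    obtain ⟨b, hb⟩ := hσsurj (x * u⁻¹)
    have hb0 : b ≠ 0 := by
      rintro rfl
      rw [map_zero] at hb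
      exact mul_ne_zero hx (inv_ne_zero hu) hb.symm
    let l : Fˣ := Units.mk0 b hb0
    refine finrank_range_le_of_conj _ _ (ρ (gD D l)) (ρ (gD D l⁻¹)) ?_ ?_
    · rw [← map_mul, gD_mul, inv_mul_cancel, gD_one, map_one]
    · rw [gD_mul_pp]
      congr 2
      change u * D.σ b = x
      rw [hb]
      field_simp
  have horth := sum_finrank_range_le (fun x => pp D ρ ψ x) (pp_mul_pp D ρ ψ hψ)
  calc (Fintype.card F - 1) * Module.finrank ℂ (LinearMap.range (pp D ρ ψ u))
      = ∑ x ∈ Finset.univ.erase (0 : F), Module.finrank ℂ (LinearMap.range (pp D ρ ψ u)) := by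
        rw [Finset.sum_const, Finset.card_erase_of_mem (Finset.mem_univ _), Finset.card_univ, smul_eq_mul]
    _ ≤ ∑ x ∈ Finset.univ.erase (0 : F), Module.finrank ℂ (LinearMap.range (pp D ρ ψ x)) :=
        Finset.sum_le_sum fun x hx => hle x (Finset.ne_of_mem_erase hx)
    _ ≤ ∑ x, Module.finrank ℂ (LinearMap.range (pp D ρ ψ x)) :=
        Finset.sum_le_sum_of_subset (Finset.subset_univ _)
    _ ≤ Module.finrank ℂ V := horth

end SzB

/-- An irreducible representation of dimension at least two is nontrivial. -/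
theorem exists_ne_one_of_irreducible {G : Type*} [Group G] {k : ℕ} (ρ : Representation ℂ G (Fin k → ℂ))
    (hρ : ρ.IsIrreducible) (hk : 2 ≤ k) : ∃ g, ρ g ≠ 1 := by
  by_contra hall
  push Not at hall
  have hk0 : 0 < k := by omega
  let v : Fin k → ℂ := Pi.single ⟨0, hk0⟩ 1
  have hv : v ≠ 0 := by
    intro h
    have := congrFun h ⟨0, hk0⟩
    simp [v] at this
  let S : Subrepresentation ρ :=
    { toSubmodule := Submodule.span ℂ {v}
      apply_mem_toSubmodule := by
        intro g w hw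
        rw [hall g]
        exact hw }
  have hS := hρ.eq_bot_or_eq_top S
  rcases hS with h | h
  · have h1 : Submodule.span ℂ {v} = ⊥ := congrArg Subrepresentation.toSubmodule h
    exact hv (Submodule.span_singleton_eq_bot.mp h1)
  · have h1 : Submodule.span ℂ {v} = ⊤ := congrArg Subrepresentation.toSubmodule h
    have h2 := finrank_span_singleton (K := ℂ) hv
    rw [h1, finrank_top, Module.finrank_fin_fun] at h2
    omega

namespace SzB

/-- The existence of the field data. -/
theorem exists_data (F : Type*) [Field F] [Fintype F] (m : ℕ) (hF : Fintype.card F = 2 ^ (2 * m + 1)) :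
    ∃ D : SzData F (2 ^ (m + 1)), ∃ ψ : AddChar F ℂ, ψ.IsPrimitive ∧ ∀ x, ψ (D.σ x) = ψ x := by
  classical
  haveI hfact : Fact (Nat.Prime 2) := ⟨Nat.prime_two⟩
  have hchar : CharP F 2 := by
    obtain ⟨p, hp⟩ := CharP.exists F
    obtain ⟨n, hpprime, hcard'⟩ := FiniteField.card F p
    have hdvd : p ∣ 2 ^ (2 * m + 1) := by
      rw [← hF, hcard']
      exact dvd_pow_self p n.ne_zero
    have hp2 : p = 2 := (Nat.prime_dvd_prime_iff_eq hpprime Nat.prime_two).mp
      (hpprime.dvd_of_dvd_pow hdvd)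
    rwa [hp2] at hp
  have h2 : (2 : F) = 0 := by
    simpa using CharP.cast_eq_zero F 2
  haveI : ExpChar F 2 := ExpChar.prime Nat.prime_two
  let σ : F →+* F := iterateFrobenius F 2 (m + 1)
  have hσe : ∀ x, σ x = x ^ 2 ^ (m + 1) := fun x => iterateFrobenius_def 2 (m + 1) x
  have hσ : ∀ x, σ (σ x) = x ^ 2 := by
    intro x
    rw [hσe, hσe, ← pow_mul]
    have : 2 ^ (m + 1) * 2 ^ (m + 1) = Fintype.card F * 2 := by
      rw [hF, ← pow_add, ← pow_succ]
      congr 1
      ring
    rw [this, pow_mul, FiniteField.pow_card]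
  refine ⟨⟨σ, hσe, hσ, h2⟩, ?_⟩
  letI : Algebra (ZMod 2) F := ZMod.algebra F 2
  let tr := Algebra.trace (ZMod 2) F
  have htrsurj : Function.Surjective tr := Algebra.trace_surjective (ZMod 2) F
  have htr2 : ∀ x, tr (x ^ 2) = tr x := by
    intro x
    have := Algebra.trace_eq_of_algEquiv (FiniteField.frobeniusAlgEquiv (ZMod 2) F 2) x
    simpa using this
  have htrσ : ∀ (k : ℕ) (x : F), tr (x ^ 2 ^ k) = tr x := by
    intro k
    induction k with
    | zero => simp
    | succ k ih =>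
      intro x
      rw [pow_succ, pow_mul, htr2, ih]
  let ψ : AddChar F ℂ := (ZMod.stdAddChar (N := 2)).compAddMonoidHom tr.toAddMonoidHom
  have hψ1 : ψ ≠ 1 := by
    intro h
    obtain ⟨b, hb⟩ := htrsurj 1
    have h1 : ψ b = 1 := by rw [h]; simp
    have h3 : ZMod.stdAddChar (N := 2) 1 = 1 := by
      rw [← hb]
      exact h1
    have h4 : ZMod.stdAddChar (N := 2) 1 = ZMod.stdAddChar (N := 2) 0 := by
      rw [h3, AddChar.map_zero_eq_one]
    have := ZMod.injective_stdAddChar h4
    exact one_ne_zero this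
  refine ⟨ψ, AddChar.IsPrimitive.of_ne_one hψ1, ?_⟩
  intro x
  change ZMod.stdAddChar (tr (σ x)) = ZMod.stdAddChar (tr x)
  rw [hσe, htrσ]

end SzB

/-- The degree bound. -/
theorem sz_irreducible_bound {F : Type*} [Field F] [Fintype F] (m : ℕ) (hm : 1 ≤ m)
    (hF : Fintype.card F = 2 ^ (2 * m + 1)) (k : ℕ)
    (ρ : Representation ℂ (Cfsg.Lie.Sz F (2 ^ (m + 1))) (Fin k → ℂ)) (hρ : ρ.IsIrreducible) (hk : 2 ≤ k) :
    2 ^ m * (2 ^ (2 * m + 1) - 1) ≤ k := by
  classical
  obtain ⟨D, ψ, hψ, hψσ⟩ := SzB.exists_data F m hF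
  have hq : ∃ x : F, x ≠ 0 ∧ x ≠ 1 := by
    by_contra hall
    push Not at hall
    have h1 : (Finset.univ : Finset F) ⊆ {0, 1} := by
      intro x _
      by_cases h : x = 0
      · simp [h]
      · simp [hall x h]
    have h2 := Finset.card_le_card h1
    have h3 : ({0, 1} : Finset F).card ≤ 2 := Finset.card_le_two
    rw [Finset.card_univ, hF] at h2
    have h4 : 2 ^ (2 * 1 + 1) ≤ 2 ^ (2 * m + 1) := Nat.pow_le_pow_right (by norm_num) (by omega)
    omega
  obtain ⟨n, hn1, hn2⟩ := SzB.sz_rep_bound D ρ hq ψ hψ hψσ (exists_ne_one_of_irreducible ρ hρ hk)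
  rw [hF] at hn1 hn2
  rw [Module.finrank_fin_fun] at hn2
  have hn : 2 ^ m ≤ n := by
    by_contra hlt
    push Not at hlt
    have h1 : n * n < 2 ^ m * 2 ^ m := Nat.mul_self_lt_mul_self hlt
    have h2 : 2 ^ (2 * m + 1) = 2 * (2 ^ m * 2 ^ m) := by
      rw [pow_succ, two_mul, pow_add]
      ring
    omega
  calc 2 ^ m * (2 ^ (2 * m + 1) - 1) ≤ n * (2 ^ (2 * m + 1) - 1) := Nat.mul_le_mul_right _ hn
    _ = (2 ^ (2 * m + 1) - 1) * n := Nat.mul_comm _ _
    _ ≤ k := hn2

end Cfsg.Agent.Lib.Known
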