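import Cfsg.Agent.Lib.Known.PSU3c
import Cfsg.Agent.Lib.Known.RU6
import Cfsg.Agent.Lib.Classical.UnitTr

/-!
# `SU₃(q)`: a hyperbolic frame, the Sylow subgroup and generation
-/

set_option autoImplicit false
set_option linter.unusedVariables false
set_option linter.unusedSectionVars false
set_option linter.unusedSimpArgs false

namespace Cfsg.Agent.Lib.Known.UT

open Matrix Cfsg.Agent.Lib.Classical Cfsg.Agent.Lib.Known.PSU3

variable {F : Type*} [Field F] [Fintype F] {q : ℕ}

local notation "M3" => Matrix (Fin 3) (Fin 3) F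
local notation "SU3" => Cfsg.SU 3 F q

/-- The Gram matrix of a hyperbolic frame. -/
def JJ (F : Type*) [Field F] : Matrix (Fin 3) (Fin 3) F := !![0, 0, 1; 0, 1, 0; 1, 0, 0]

/-- Isometries of determinant one of the hyperbolic Hermitian form. -/
structure IsJ (hF : Fintype.card F = q ^ 2) (D : Matrix (Fin 3) (Fin 3) F) : Prop where
  det : D.det = 1
  uni : D.transpose * JJ F * D.map (frobQ hF) = JJ F

/-- A change of basis to the hyperbolic frame. -/
structure Bas (hF : Fintype.card F = q ^ 2) (P P' : Matrix (Fin 3) (Fin 3) F) : Prop where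
  mul : P * P' = 1
  gram : P.transpose * P.map (frobQ hF) = JJ F

section

variable (hF : Fintype.card F = q ^ 2)

theorem IsJ.mul {D D' : M3} (h : IsJ hF D) (h' : IsJ hF D') : IsJ hF (D * D') := by
  refine ⟨by rw [Matrix.det_mul, h.det, h'.det, one_mul], ?_⟩
  rw [Matrix.transpose_mul, Matrix.map_mul]
  calc D'.transpose * D.transpose * JJ F * (D.map (frobQ hF) * D'.map (frobQ hF))
      = D'.transpose * (D.transpose * JJ F * D.map (frobQ hF)) * D'.map (frobQ hF) := by
        simp only [Matrix.mul_assoc]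
    _ = JJ F := by rw [h.uni, h'.uni]

variable {hF}

theorem Bas.mul' {P P' : M3} (B : Bas hF P P') : P' * P = 1 := mul_eq_one_comm.1 B.mul

/-- The element of `SU₃` attached to a hyperbolic isometry. -/
def mkJ {P P' : M3} (B : Bas hF P P') (D : M3) (h : IsJ hF D) : SU3 :=
  mkSU hF (P * D * P') (by rw [det_conj P P' D B.mul, h.det])
    (conj_unitary hF P P' D B.mul (by rw [B.gram]; exact h.uni))

theorem matOf_mkJ {P P' : M3} (B : Bas hF P P') (D : M3) (h : IsJ hF D) :
    matOf (mkJ B D h) = P * D * P' := rfl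

theorem matOf_mul (x y : SU3) : matOf (x * y) = matOf x * matOf y := rfl

theorem matOf_inv_mul (x : SU3) : matOf x⁻¹ * matOf x = 1 := by
  rw [← matOf_mul, inv_mul_cancel]
  rfl

/-- Membership of the conjugate in a subgroup. -/
def Hs (H : Subgroup SU3) (P P' D : M3) : Prop := ∃ x ∈ H, matOf x = P * D * P'

variable {H : Subgroup (Cfsg.SU 3 F q)} {P P' : Matrix (Fin 3) (Fin 3) F}

theorem Hs.mul (B : Bas hF P P') {D D' : M3} (h : Hs H P P' D) (h' : Hs H P P' D') :
    Hs H P P' (D * D') := by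
  obtain ⟨x, hx, ex⟩ := h
  obtain ⟨y, hy, ey⟩ := h'
  refine ⟨x * y, H.mul_mem hx hy, ?_⟩
  rw [matOf_mul, ex, ey]
  calc P * D * P' * (P * D' * P') = P * D * (P' * P) * D' * P' := by simp only [Matrix.mul_assoc]
    _ = _ := by rw [B.mul']; simp only [Matrix.mul_assoc, Matrix.mul_one]

theorem Hs.one (B : Bas hF P P') : Hs H P P' 1 :=
  ⟨1, H.one_mem, by rw [Matrix.mul_one, B.mul]; rfl⟩

theorem Hs.inv (B : Bas hF P P') {D D' : M3} (h : Hs H P P' D) (hD : D' * D = 1) : Hs H P P' D' := by
  obtain ⟨x, hx, ex⟩ := h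
  refine ⟨x⁻¹, H.inv_mem hx, ?_⟩
  have h1 := matOf_inv_mul x
  have h2 : matOf x⁻¹ * (P * D * P') = 1 := by rw [← ex]; exact h1
  have h3 : (P * D' * P') * (P * D * P') = 1 := by
    calc (P * D' * P') * (P * D * P') = P * D' * (P' * P) * D * P' := by simp only [Matrix.mul_assoc]
      _ = P * (D' * D) * P' := by rw [B.mul']; simp only [Matrix.mul_assoc, Matrix.mul_one]
      _ = 1 := by rw [hD, Matrix.mul_one, B.mul]
  have h4 : (P * D * P') * matOf x⁻¹ = 1 := mul_eq_one_comm.1 h2
  calc matOf x⁻¹ = ((P * D' * P') * (P * D * P')) * matOf x⁻¹ := by rw [h3, Matrix.one_mul]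
    _ = (P * D' * P') * ((P * D * P') * matOf x⁻¹) := by rw [Matrix.mul_assoc]
    _ = P * D' * P' := by rw [h4, Matrix.mul_one]

theorem su_matrix (x : SU3) (hq : q ≠ 0) : (matOf x).transpose * (matOf x).map (frobQ hF) = 1 := by
  have h := gu_matrix (F := F) (n := 3) (q := q) (matOf x) (fun u v => x.2 u v) hq
  have e : (matOf x).map (frobQ hF) = (matOf x).map (fun y => y ^ q) := by
    ext i j
    simp [frobQ_apply]
  rw [e, h]

/-- Every element in the image is a hyperbolic isometry. -/
theorem Hs.isJ (B : Bas hF P P') {D : M3} (h : Hs H P P' D) : IsJ hF D := by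
  have hq : q ≠ 0 := by
    have := two_le_q hF
    omega
  obtain ⟨x, hx, ex⟩ := h
  have hD : D = P' * matOf x * P := by
    rw [ex]
    calc D = (P' * P) * D * (P' * P) := by rw [B.mul']; simp
      _ = _ := by simp only [Matrix.mul_assoc]
  have hx1 := su_matrix (hF := hF) x hq
  refine ⟨?_, ?_⟩
  · have h1 : (P * D * P').det = D.det := det_conj P P' D B.mul
    rw [← ex] at h1
    rw [← h1]
    exact x.1.2
  · have e0 : P'.transpose * JJ F * P'.map (frobQ hF) = 1 := by
      rw [← B.gram]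
      have h2 : (P * P').transpose * (P * P').map (frobQ hF) = 1 := by
        rw [B.mul]
        simp
      rw [Matrix.transpose_mul, Matrix.map_mul] at h2
      calc P'.transpose * (P.transpose * P.map (frobQ hF)) * P'.map (frobQ hF)
          = P'.transpose * P.transpose * (P.map (frobQ hF) * P'.map (frobQ hF)) := by
            simp only [Matrix.mul_assoc]
        _ = 1 := h2
    rw [hD, Matrix.transpose_mul, Matrix.transpose_mul, Matrix.map_mul, Matrix.map_mul]
    calc P.transpose * ((matOf x).transpose * P'.transpose) * JJ F *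
          (P'.map (frobQ hF) * (matOf x).map (frobQ hF) * P.map (frobQ hF))
        = P.transpose * (matOf x).transpose * (P'.transpose * JJ F * P'.map (frobQ hF)) *
          (matOf x).map (frobQ hF) * P.map (frobQ hF) := by simp only [Matrix.mul_assoc]
      _ = P.transpose * ((matOf x).transpose * (matOf x).map (frobQ hF)) * P.map (frobQ hF) := by
          rw [e0]; simp only [Matrix.mul_assoc, Matrix.mul_one]
      _ = JJ F := by rw [hx1, Matrix.mul_one, B.gram]

end

/-! ### The Sylow subgroup -/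

section

variable (hF : Fintype.card F = q ^ 2)

/-- The upper unitriangular hyperbolic isometries. -/
noncomputable def Um (x y : F) : M3 := !![1, x, y; 0, 1, -frobQ hF x; 0, 0, 1]

theorem Um_mul (x y x' y' : F) : Um hF x y * Um hF x' y' = Um hF (x + x') (y + y' - x * frobQ hF x') := by
  ext i j
  fin_cases i <;> fin_cases j <;>
    simp [Um, Matrix.mul_apply, Fin.sum_univ_three, map_add] <;> ring

theorem Um_zero : Um hF (0 : F) 0 = 1 := by
  ext i j
  fin_cases i <;> fin_cases j <;> simp [Um]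

theorem Um_det (x y : F) : (Um hF x y).det = 1 := by
  simp [Um, Matrix.det_fin_three]

theorem isJ_Um {x y : F} (h : y + frobQ hF y + x * frobQ hF x = 0) : IsJ hF (Um hF x y) := by
  refine ⟨Um_det hF x y, ?_⟩
  have hh := frobQ_frobQ hF
  ext i j
  fin_cases i <;> fin_cases j <;>
    simp [Um, JJ, Matrix.mul_apply, Fin.sum_univ_three, hh] <;>
    first
      | linear_combination h
      | ring

variable {hF}

theorem IsJ.Um_trace {x y : F} (h : IsJ hF (Um hF x y)) : y + frobQ hF y + x * frobQ hF x = 0 := by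
  have h1 := congrFun (congrFun h.uni 2) 2
  have hh := frobQ_frobQ hF
  simp [Um, JJ, Matrix.mul_apply, Fin.sum_univ_three, hh] at h1
  linear_combination h1

/-- Upper unitriangular elements are of the form `Um`. -/
theorem eq_Um_of_isJ {D : M3} (h : IsJ hF D) (h10 : D 1 0 = 0) (h20 : D 2 0 = 0) (h21 : D 2 1 = 0)
    (h00 : D 0 0 = 1) (h11 : D 1 1 = 1) (h22 : D 2 2 = 1) : D = Um hF (D 0 1) (D 0 2) := by
  have h1 := congrFun (congrFun h.uni 1) 2
  have hh := frobQ_frobQ hF
  simp [JJ, Matrix.mul_apply, Fin.sum_univ_three, h10, h20, h21, h00, h11, h22] at h1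
  have e : D 1 2 = - frobQ hF (D 0 1) := by
    have h2 := congrArg (frobQ hF) h1
    rw [map_add, hh, map_zero] at h2
    linear_combination h2
  ext i j
  fin_cases i <;> fin_cases j <;> simp [Um, h10, h20, h21, h00, h11, h22, e]

variable {H : Subgroup (Cfsg.SU 3 F q)} {P P' : Matrix (Fin 3) (Fin 3) F}

theorem Um_inv {x y : F} (h : y + frobQ hF y + x * frobQ hF x = 0) :
    Um hF (-x) (frobQ hF y) * Um hF x y = 1 := by
  rw [Um_mul, ← Um_zero (hF := hF)]
  congr 1
  · ring
  · linear_combination h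

/-- The additive group of parameters reached inside a subgroup. -/
def Sset (hF : Fintype.card F = q ^ 2) (B : Bas hF P P') (H : Subgroup SU3) : AddSubgroup F where
  carrier := {x | ∃ y, Hs H P P' (Um hF x y)}
  zero_mem' := ⟨0, by rw [Um_zero]; exact Hs.one B⟩
  add_mem' := by
    rintro a b ⟨y, hy⟩ ⟨y', hy'⟩
    refine ⟨y + y' - a * frobQ hF b, ?_⟩
    rw [← Um_mul]
    exact Hs.mul B hy hy'
  neg_mem' := by
    rintro a ⟨y, hy⟩
    exact ⟨_, Hs.inv B hy (Um_inv (IsJ.Um_trace (Hs.isJ B hy)))⟩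

theorem mem_Sset (B : Bas hF P P') {x : F} : x ∈ Sset hF B H ↔ ∃ y, Hs H P P' (Um hF x y) := Iff.rfl

/-- Conjugating by an upper triangular element. -/
theorem Sset_smul (B : Bas hF P P') {a b c d e f : F} (ha : a ≠ 0) (hd : d ≠ 0) (hf : f ≠ 0)
    (hW : Hs H P P' !![a, b, c; 0, d, e; 0, 0, f]) {x : F} (hx : x ∈ Sset hF B H) :
    (a / d) * x ∈ Sset hF B H := by
  obtain ⟨y, hy⟩ := hx
  set W : M3 := !![a, b, c; 0, d, e; 0, 0, f] with hWdef
  set W' : M3 := !![a⁻¹, -b * (a * d)⁻¹, (b * e - c * d) * (a * d * f)⁻¹; 0, d⁻¹, -e * (d * f)⁻¹; 0, 0, f⁻¹] with hW'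
  have h1 : W' * W = 1 := by
    ext i j
    fin_cases i <;> fin_cases j <;>
      simp [hWdef, hW', Matrix.mul_apply, Fin.sum_univ_three] <;> field_simp <;> ring
  have h2 : Hs H P P' W' := Hs.inv B hW h1
  have h3 : Hs H P P' (W * Um hF x y * W') := Hs.mul B (Hs.mul B hW hy) h2
  have hJ := Hs.isJ B h3
  have h4 := eq_Um_of_isJ hJ (by
      simp [hWdef, hW', Um, Matrix.mul_apply, Fin.sum_univ_three]) (by
      simp [hWdef, hW', Um, Matrix.mul_apply, Fin.sum_univ_three]) (by
      simp [hWdef, hW', Um, Matrix.mul_apply, Fin.sum_univ_three]) (by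
      simp [hWdef, hW', Um, Matrix.mul_apply, Fin.sum_univ_three]; field_simp) (by
      simp [hWdef, hW', Um, Matrix.mul_apply, Fin.sum_univ_three]; field_simp) (by
      simp [hWdef, hW', Um, Matrix.mul_apply, Fin.sum_univ_three]; field_simp)
  have h5 : (W * Um hF x y * W') 0 1 = (a / d) * x := by
    simp [hWdef, hW', Um, Matrix.mul_apply, Fin.sum_univ_three]
    field_simp
    ring
  rw [h5] at h4
  rw [h4] at h3
  exact ⟨_, h3⟩

/-- All of the Sylow subgroup is reached once the parameters are. -/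
theorem all_Um (B : Bas hF P P') {y₀ : F} (hu : Hs H P P' (Um hF 1 y₀))
    (hS : ∀ x : F, x ∈ Sset hF B H) (x y : F) (h : y + frobQ hF y + x * frobQ hF x = 0) :
    Hs H P P' (Um hF x y) := by
  have hσ := frobQ_frobQ hF
  have ht0 : y₀ + frobQ hF y₀ + 1 = 0 := by
    have := IsJ.Um_trace (Hs.isJ B hu)
    rwa [map_one, mul_one] at this
  -- the central elements
  have hZ : ∀ z : F, z + frobQ hF z = 0 → Hs H P P' (Um hF 0 z) := by
    intro z hz
    obtain ⟨b, hb⟩ := hS (z * y₀)
    have ha1 := Hs.inv B hb (Um_inv (IsJ.Um_trace (Hs.isJ B hb)))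
    have hu1 := Hs.inv B hu (Um_inv (IsJ.Um_trace (Hs.isJ B hu)))
    have h1 := Hs.mul B (Hs.mul B (Hs.mul B hb hu) ha1) hu1
    have e : Um hF (z * y₀) b * Um hF 1 y₀ * Um hF (-(z * y₀)) (frobQ hF b) * Um hF (-1) (frobQ hF y₀) = Um hF 0 z := by
      have htb := IsJ.Um_trace (Hs.isJ B hb)
      have hzz : frobQ hF z = -z := by linear_combination hz
      simp only [Um_mul, map_add, map_neg, map_mul, hσ, map_one, hzz, mul_one, one_mul]
      congr 1
      · ring
      · rw [map_mul, hzz] at htb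
        linear_combination htb + ht0 - z * ht0
    rwa [e] at h1
  obtain ⟨y₁, hy₁⟩ := hS x
  have ht1 := IsJ.Um_trace (Hs.isJ B hy₁)
  have h1 := Hs.mul B hy₁ (hZ (y - y₁) (by rw [map_sub]; linear_combination h - ht1))
  have e : Um hF x y₁ * Um hF 0 (y - y₁) = Um hF x y := by
    rw [Um_mul]
    congr 1
    · ring
    · rw [map_zero]; ring
  rwa [e] at h1

end

end Cfsg.Agent.Lib.Known.UT
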