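import Cfsg.Agent.Lib.Known.UT1

/-!
# `SU₃(q)`: generation from the Sylow subgroup and a second point
-/

set_option autoImplicit false
set_option linter.unusedVariables false
set_option linter.unusedSectionVars false
set_option linter.unusedSimpArgs false

namespace Cfsg.Agent.Lib.Known.UT

open Matrix Cfsg.Agent.Lib.Classical Cfsg.Agent.Lib.Known.PSU3 Cfsg.Agent.Lib.Known.RU

variable {F : Type*} [Field F] [Fintype F] {q : ℕ}

local notation "M3" => Matrix (Fin 3) (Fin 3) F
local notation "SU3" => Cfsg.SU 3 F q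
local notation "hh" => Cfsg.hermForm 3 F q

variable {hF : Fintype.card F = q ^ 2} {H : Subgroup (Cfsg.SU 3 F q)} {P P' : Matrix (Fin 3) (Fin 3) F}

theorem hh_P (B : Bas hF P P') (a b : Fin 3 → F) :
    hh (P *ᵥ a) (P *ᵥ b) = a 0 * frobQ hF (b 2) + a 1 * frobQ hF (b 1) + a 2 * frobQ hF (b 0) := by
  have key : ∀ x y : Fin 3 → F, hh x y = x ⬝ᵥ (fun i => frobQ hF (y i)) := by
    intro x y
    simp [herm_apply, dotProduct, frobQ_apply]
  rw [key]
  have h1 : (fun i => frobQ hF ((P *ᵥ b) i)) = P.map (frobQ hF) *ᵥ (fun i => frobQ hF (b i)) := by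
    funext i
    simp [mulVec, dotProduct, map_sum, map_mul]
  rw [h1, Matrix.dotProduct_mulVec, ← Matrix.vecMul_transpose, Matrix.vecMul_vecMul, B.gram]
  simp [vecMul, dotProduct, JJ, Fin.sum_univ_three, Matrix.vec3_dotProduct]
  ring

theorem ue_one {s : F} (H' : UV q (0 : Fin 3 → F) 0 s) : ue hF H' = 1 := by
  apply su_ext
  intro x
  rw [ue_mulVec]
  simp

/-- A generation criterion: the Sylow subgroup and a point outside. -/
theorem core_top (B : Bas hF P P') (hq3 : 3 ≤ q)
    (hall : ∀ x y : F, y + frobQ hF y + x * frobQ hF x = 0 → Hs H P P' (Um hF x y))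
    {V₀ : M3} (hV : Hs H P P' V₀) (hγ : V₀ 2 0 ≠ 0) : H = ⊤ := by
  have hσ := frobQ_frobQ hF
  have hq0 : q ≠ 0 := by omega
  rw [eq_top_iff, ← rootT_eq_top hF (n := 3) (le_refl _) (by
    rintro ⟨-, h⟩
    omega), rootT, Subgroup.closure_le]
  rintro g ⟨v, w, s, Hv, rfl, rfl⟩
  show ue hF Hv ∈ H
  by_cases hv0 : v = 0
  · subst hv0
    rw [ue_one]
    exact H.one_mem
  set e : Fin 3 → F := P *ᵥ ![1, 0, 0] with he
  -- the central elements
  have hee : hh e e = 0 := by
    rw [he, hh_P B]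
    simp
  have hZ : ∀ (s' : F) (Hz : UV q e 0 s'), ue hF Hz ∈ H := by
    intro s' Hz
    have hs' : s' + frobQ hF s' = 0 := by
      have := Hz.sw
      rw [herm_apply] at this
      simpa [frobQ_apply, hq0] using this
    obtain ⟨x, hx, ex⟩ := hall 0 s' (by rw [zero_mul, add_zero]; exact hs')
    have : x = ue hF Hz := by
      apply su_ext
      intro y
      rw [ue_mulVec]
      change matOf x *ᵥ y = _
      rw [ex]
      set z : Fin 3 → F := P' *ᵥ y with hz
      have hy : y = P *ᵥ z := by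
        rw [hz, Matrix.mulVec_mulVec, B.mul, Matrix.one_mulVec]
      have h1 : hh y e = z 2 := by
        rw [hy, he, hh_P B]
        simp
      rw [h1, ← Matrix.mulVec_mulVec, ← hz, ← Matrix.mulVec_mulVec]
      have h2 : Um hF 0 s' *ᵥ z = z + (z 2 * s') • ![1, 0, 0] := by
        ext i
        fin_cases i <;> simp [Um, mulVec, dotProduct, Fin.sum_univ_three] <;> ring
      rw [h2, Matrix.mulVec_add, Matrix.mulVec_smul, ← hy, ← he]
      have h3 : hh y 0 = 0 := by
        rw [herm_apply]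
        simp [hq0]
      rw [h3]
      simp [smul_smul, mul_comm]
    rw [← this]
    exact hx
  -- moving the point `e`
  have hmove : ∃ h ∈ H, ∃ κ : F, κ ≠ 0 ∧ ((h : SU3).1 : Matrix.SpecialLinearGroup (Fin 3) F).1 *ᵥ e = κ • v := by
    set w₀ : Fin 3 → F := P' *ᵥ v with hw₀
    have hvw : v = P *ᵥ w₀ := by
      rw [hw₀, Matrix.mulVec_mulVec, B.mul, Matrix.one_mulVec]
    have hiso : w₀ 0 * frobQ hF (w₀ 2) + w₀ 1 * frobQ hF (w₀ 1) + w₀ 2 * frobQ hF (w₀ 0) = 0 := by
      rw [← hh_P B, ← hvw]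
      exact Hv.vv
    by_cases hw2 : w₀ 2 = 0
    · have hw1 : w₀ 1 = 0 := by
        rw [hw2, map_zero, mul_zero, zero_add, zero_mul, add_zero] at hiso
        rcases mul_eq_zero.1 hiso with h | h
        · exact h
        · exact (map_eq_zero _).1 h
      have hw0 : w₀ 0 ≠ 0 := by
        intro h0
        apply hv0
        rw [hvw]
        have : w₀ = 0 := by
          ext i
          fin_cases i
          · exact h0
          · exact hw1
          · exact hw2
        rw [this, Matrix.mulVec_zero]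
      refine ⟨1, H.one_mem, (w₀ 0)⁻¹, inv_ne_zero hw0, ?_⟩
      have e1 : v = w₀ 0 • e := by
        rw [hvw, he, ← Matrix.mulVec_smul]
        congr 1
        ext i
        fin_cases i
        · simp
        · simpa using hw1
        · simpa using hw2
      rw [e1, smul_smul, inv_mul_cancel₀ hw0, one_smul]
      exact Matrix.one_mulVec _
    · -- the general case
      obtain ⟨V, hVH, eV⟩ := hV
      have hVJ : IsJ hF V₀ := Hs.isJ B ⟨V, hVH, eV⟩
      have hiso2 : V₀ 0 0 * frobQ hF (V₀ 2 0) + V₀ 1 0 * frobQ hF (V₀ 1 0) + V₀ 2 0 * frobQ hF (V₀ 0 0) = 0 := by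
        have := congrFun (congrFun hVJ.uni 0) 0
        simp [JJ, Matrix.mul_apply, Fin.sum_univ_three] at this
        linear_combination this
      set γ := V₀ 2 0 with hγdef
      set A := V₀ 0 0 / γ with hA
      set B₁ := V₀ 1 0 / γ with hB₁
      set A' := w₀ 0 / w₀ 2 with hA'
      set B' := w₀ 1 / w₀ 2 with hB'
      have hγσ : frobQ hF γ ≠ 0 := (map_ne_zero _).2 hγ
      have hwσ : frobQ hF (w₀ 2) ≠ 0 := (map_ne_zero _).2 hw2
      have iA : A + frobQ hF A + B₁ * frobQ hF B₁ = 0 := by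
        rw [hA, hB₁, map_div₀, map_div₀]
        field_simp
        linear_combination hiso2
      have iA' : A' + frobQ hF A' + B' * frobQ hF B' = 0 := by
        rw [hA', hB', map_div₀, map_div₀]
        field_simp
        linear_combination hiso
      set xa := frobQ hF (B₁ - B') with hxa
      set ya := A' - A - xa * B₁ with hya
      have hσxa : frobQ hF xa = B₁ - B' := by rw [hxa, hσ]
      have htr : ya + frobQ hF ya + xa * frobQ hF xa = 0 := by
        rw [hσxa, hya, map_sub, map_sub, map_mul, hσxa, hxa, map_sub]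
        linear_combination iA' - iA
      obtain ⟨h, hh1, eh⟩ := Hs.mul B (hall xa ya htr) ⟨V, hVH, eV⟩
      refine ⟨h, hh1, γ / w₀ 2, div_ne_zero hγ hw2, ?_⟩
      change matOf h *ᵥ e = _
      rw [eh, he, hvw]
      have e1 : (P * (Um hF xa ya * V₀) * P') *ᵥ (P *ᵥ ![1, 0, 0]) = P *ᵥ ((Um hF xa ya * V₀) *ᵥ ![1, 0, 0]) := by
        rw [Matrix.mulVec_mulVec, Matrix.mulVec_mulVec]
        congr 1
        rw [Matrix.mul_assoc, B.mul', Matrix.mul_one]
      rw [e1, ← Matrix.mulVec_smul]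
      congr 1
      ext i
      have hγ0 : γ ≠ 0 := hγ
      have e00 : V₀ 0 0 = A * γ := by rw [hA]; field_simp
      have e10 : V₀ 1 0 = B₁ * γ := by rw [hB₁]; field_simp
      have ew0 : γ / w₀ 2 * w₀ 0 = γ * A' := by rw [hA']; field_simp
      have ew1 : γ / w₀ 2 * w₀ 1 = γ * B' := by rw [hB']; field_simp
      fin_cases i
      · simp [Um, Matrix.mul_apply, mulVec, dotProduct, Fin.sum_univ_three]
        rw [← hγdef, ew0, hya]
        linear_combination e00 + xa * e10
      · simp [Um, Matrix.mul_apply, mulVec, dotProduct, Fin.sum_univ_three]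
        rw [← hγdef, ew1, hσxa]
        linear_combination e10
      · simp [Um, Matrix.mul_apply, mulVec, dotProduct, Fin.sum_univ_three]
        rw [← hγdef]
        field_simp
  obtain ⟨h, hhH, κ, hκ, hκe⟩ := hmove
  have hs0 : s + frobQ hF s = 0 := by
    have := Hv.sw
    rw [herm_apply] at this
    simpa [frobQ_apply, hq0] using this
  have hκσ : frobQ hF κ ≠ 0 := (map_ne_zero _).2 hκ
  have Hz : UV q e 0 (s * (κ * frobQ hF κ)⁻¹) := by
    refine ⟨hee, ?_, ?_⟩
    · rw [herm_apply]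
      simp [hq0]
    · have e0 : hh 0 0 = 0 := by
        rw [herm_apply]
        simp [hq0]
      rw [e0, add_zero, ← frobQ_apply hF, map_mul, map_inv₀, map_mul, hσ]
      field_simp
      rw [mul_zero]
      exact hs0
  have e2 := ue_conj hF Hz h
  have e3 : ue hF Hv = h * ue hF Hz * h⁻¹ := by
    rw [e2]
    apply su_ext
    intro y
    rw [ue_mulVec, ue_mulVec, Matrix.mulVec_zero, hκe]
    have h0 : hh y 0 = 0 := by
      rw [herm_apply]
      simp [hq0]
    rw [herm_smul_right, h0, zero_smul, zero_smul, zero_add, zero_add, ← frobQ_apply hF κ]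
    simp only [smul_smul]
    congr 2
    field_simp
  rw [e3]
  exact H.mul_mem (H.mul_mem hhH (hZ _ Hz)) (H.inv_mem hhH)

/-- The inverse in `SU₃` of a conjugated matrix. -/
theorem matOf_inv_of (B : Bas hF P P') {x : SU3} {D D' : M3} (ex : matOf x = P * D * P') (hD : D' * D = 1) :
    matOf x⁻¹ = P * D' * P' := by
  have h1 := matOf_inv_mul x
  have h2 : matOf x⁻¹ * (P * D * P') = 1 := by rw [← ex]; exact h1
  have h3 : (P * D' * P') * (P * D * P') = 1 := by
    calc (P * D' * P') * (P * D * P') = P * D' * (P' * P) * D * P' := by simp only [Matrix.mul_assoc]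
      _ = P * (D' * D) * P' := by rw [B.mul']; simp only [Matrix.mul_assoc, Matrix.mul_one]
      _ = 1 := by rw [hD, Matrix.mul_one, B.mul]
  have h4 : (P * D * P') * matOf x⁻¹ = 1 := mul_eq_one_comm.1 h2
  calc matOf x⁻¹ = ((P * D' * P') * (P * D * P')) * matOf x⁻¹ := by rw [h3, Matrix.one_mul]
    _ = (P * D' * P') * ((P * D * P') * matOf x⁻¹) := by rw [Matrix.mul_assoc]
    _ = P * D' * P' := by rw [h4, Matrix.mul_one]

/-- The main criterion for two conjugate regular unipotent generators. -/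
theorem exists_gen (B : Bas hF P P') (hq3 : 3 ≤ q) {y₀ : F} (ht : y₀ + frobQ hF y₀ + 1 = 0)
    {g₀ g₀' : M3} (hg : IsJ hF g₀) (hgg : g₀' * g₀ = 1) (hγ : (g₀ * Um hF 1 y₀ * g₀') 2 0 ≠ 0)
    {a b c d e f : F} (ha : a ≠ 0) (hd : d ≠ 0) (hf : f ≠ 0)
    (hW : ∀ H : Subgroup (Cfsg.SU 3 F q), Hs H P P' (Um hF 1 y₀) → Hs H P P' (g₀ * Um hF 1 y₀ * g₀') →
      Hs H P P' !![a, b, c; 0, d, e; 0, 0, f])
    (hr : Subfield.closure {a / d} = ⊤) :
    ∃ u g : SU3, (IsNilpotent (matOf u - 1) ∧ (matOf u - 1) ^ (3 - 1) ≠ 0) ∧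
      Subgroup.closure ({u, g * u * g⁻¹} : Set SU3) = ⊤ := by
  have htu : y₀ + frobQ hF y₀ + 1 * frobQ hF 1 = 0 := by
    rw [map_one, mul_one]
    exact ht
  set u : SU3 := mkJ B (Um hF 1 y₀) (isJ_Um hF htu) with hu
  set g : SU3 := mkJ B g₀ hg with hg'
  refine ⟨u, g, ⟨?_, ?_⟩, ?_⟩
  · have e1 : matOf u - 1 = P * (Um hF 1 y₀ - 1) * P' := by
      rw [hu, matOf_mkJ, Matrix.mul_sub, Matrix.sub_mul, Matrix.mul_one, B.mul]
    rw [e1]
    refine ⟨3, ?_⟩
    rw [conj_pow P P' _ B.mul']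
    have : (Um hF 1 y₀ - 1) ^ 3 = 0 := by
      ext i j
      fin_cases i <;> fin_cases j <;>
        simp [Um, pow_succ, Matrix.mul_apply, Fin.sum_univ_three]
    rw [this, Matrix.mul_zero, Matrix.zero_mul]
  · have e1 : matOf u - 1 = P * (Um hF 1 y₀ - 1) * P' := by
      rw [hu, matOf_mkJ, Matrix.mul_sub, Matrix.sub_mul, Matrix.mul_one, B.mul]
    rw [e1, conj_pow P P' _ B.mul']
    intro h0
    have h1 : (Um hF 1 y₀ - 1) ^ (3 - 1) = 0 := by
      calc (Um hF 1 y₀ - 1) ^ (3 - 1) = (P' * P) * (Um hF 1 y₀ - 1) ^ (3 - 1) * (P' * P) := by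
            rw [B.mul']; simp
        _ = P' * (P * (Um hF 1 y₀ - 1) ^ (3 - 1) * P') * P := by simp only [Matrix.mul_assoc]
        _ = 0 := by rw [h0]; simp
    have h2 := congrFun (congrFun h1 0) 2
    simp [Um, pow_succ, Matrix.mul_apply, Fin.sum_univ_three] at h2
  · set H := Subgroup.closure ({u, g * u * g⁻¹} : Set SU3) with hH
    have hU : Hs H P P' (Um hF 1 y₀) := ⟨u, Subgroup.subset_closure (by simp), rfl⟩
    have hV : Hs H P P' (g₀ * Um hF 1 y₀ * g₀') := by
      refine ⟨g * u * g⁻¹, Subgroup.subset_closure (by simp), ?_⟩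
      rw [matOf_mul, matOf_mul, matOf_inv_of B (x := g) (D := g₀) (D' := g₀') rfl hgg]
      rw [hg', hu, matOf_mkJ, matOf_mkJ]
      calc P * g₀ * P' * (P * Um hF 1 y₀ * P') * (P * g₀' * P')
          = P * g₀ * (P' * P) * Um hF 1 y₀ * (P' * P) * g₀' * P' := by simp only [Matrix.mul_assoc]
        _ = _ := by rw [B.mul']; simp only [Matrix.mul_assoc, Matrix.mul_one]
    have hS : ∀ x : F, x ∈ Sset hF B H := by
      intro x
      refine addSub_top hr (Sset hF B H) ⟨y₀, hU⟩ ?_ x
      intro b hb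
      exact Sset_smul B ha hd hf (hW H hU hV) hb
    exact core_top B hq3 (fun x y h => all_Um B hU hS x y h) hV hγ

end Cfsg.Agent.Lib.Known.UT
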