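import Cfsg.Agent.Lib.Known.UT2
import Cfsg.Agent.Lib.Known.RU13

/-!
# `SU₃(q)`: two conjugate regular unipotent generators, the generic family
-/

set_option autoImplicit false
set_option linter.unusedVariables false
set_option linter.unusedSectionVars false
set_option linter.unusedSimpArgs false

namespace Cfsg.Agent.Lib.Known.UT

open Matrix Cfsg.Agent.Lib.Classical Cfsg.Agent.Lib.Known.PSU3 Cfsg.Agent.Lib.Known.RU

variable {F : Type*} [Field F] [Fintype F] {q : ℕ}

local notation "M3" => Matrix (Fin 3) (Fin 3) F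
local notation "SU3" => Cfsg.SU 3 F q

/-- A power of a generator generates the field, under an arithmetic condition. -/
theorem closure_pow_of_arith' (e : ℕ) (he : 0 < e) {a : F}
    (ha : ∀ x : F, x ≠ 0 → ∃ k : ℕ, x = a ^ (k + 1))
    (hcond : ∀ t d : ℕ, 2 ≤ t → 2 ≤ d → t ^ d = Fintype.card F → Fintype.card F - 1 ∣ e * (t - 1) → False)
    (hq : 2 < Fintype.card F) : Subfield.closure {a ^ e} = ⊤ := by
  classical
  by_contra hne
  set K := Subfield.closure {a ^ e} with hK
  have ha0 : a ≠ 0 := by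
    rintro rfl
    obtain ⟨k, hk⟩ := ha 1 one_ne_zero
    rw [zero_pow (Nat.succ_ne_zero k)] at hk
    exact one_ne_zero hk
  haveI : Fintype K := Fintype.ofFinite K
  set t := Fintype.card K with ht
  have ht2 : 2 ≤ t := Fintype.one_lt_card
  have hcard : Fintype.card F = t ^ Module.finrank K F := Module.card_eq_pow_finrank
  set d := Module.finrank K F with hd
  have hd0 : d ≠ 0 := by
    intro h0
    rw [h0, pow_zero] at hcard
    omega
  have hd1 : d ≠ 1 := by
    intro h1
    rw [h1, pow_one] at hcard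
    apply hne
    have hb : Function.Bijective (Subtype.val : K → F) := by
      rw [Fintype.bijective_iff_injective_and_card]
      exact ⟨Subtype.val_injective, hcard.symm⟩
    rw [eq_top_iff]
    intro x _
    obtain ⟨y, hy⟩ := hb.2 x
    rw [← hy]
    exact y.2
  have hd2 : 2 ≤ d := by omega
  have hr : (⟨a ^ e, Subfield.subset_closure (Set.mem_singleton _)⟩ : K) ≠ 0 := by
    intro h
    have := congrArg Subtype.val h
    exact pow_ne_zero e ha0 this
  have h1 := FiniteField.pow_card_sub_one_eq_one _ hr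
  have h2 : (a ^ e) ^ (t - 1) = 1 := by
    have := congrArg Subtype.val h1
    simpa using this
  rw [← pow_mul] at h2
  exact hcond t d ht2 hd2 hcard.symm (card_sub_one_dvd ha h2)

/-- The arithmetic for the norm-one elements. -/
theorem arith_unitary {q t d : ℕ} (hq : 3 ≤ q) (h5 : q ≠ 5) (h8 : q ≠ 8) (ht : 2 ≤ t) (hd : 2 ≤ d)
    (htd : t ^ d = q ^ 2) (hdvd : q ^ 2 - 1 ∣ (3 * (q - 1)) * (t - 1)) : False := by
  obtain ⟨q', rfl⟩ : ∃ q', q = q' + 1 := ⟨q - 1, by omega⟩
  obtain ⟨t', rfl⟩ : ∃ t', t = t' + 1 := ⟨t - 1, by omega⟩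
  have e1 : (q' + 1) ^ 2 - 1 = q' * (q' + 2) := by
    have : (q' + 1) ^ 2 = q' * (q' + 2) + 1 := by ring
    omega
  rw [e1] at hdvd
  simp only [Nat.add_sub_cancel] at hdvd
  have hq'0 : 0 < q' := by omega
  have h2 : q' + 2 ∣ 3 * t' := by
    have e2 : 3 * q' * t' = q' * (3 * t') := by ring
    rw [e2] at hdvd
    exact Nat.dvd_of_mul_dvd_mul_left hq'0 hdvd
  have ht'0 : 0 < t' := by omega
  have hle : q' + 2 ≤ 3 * t' := Nat.le_of_dvd (by omega) h2
  by_cases hd2 : d = 2
  · subst hd2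
    have : t' + 1 = q' + 1 := by
      exact Nat.pow_left_injective (n := 2) (by omega) htd
    have e3 : t' = q' := by omega
    subst e3
    have h6 : t' + 2 ∣ 6 := by
      have e4 : 3 * t' + 6 = 3 * (t' + 2) := by ring
      have : t' + 2 ∣ 3 * t' + 6 := by
        rw [e4]
        exact Dvd.intro_left _ rfl
      exact (Nat.dvd_add_right h2).1 this
    have : t' + 2 ≤ 6 := Nat.le_of_dvd (by norm_num) h6
    have h7 : t' = 2 ∨ t' = 3 ∨ t' = 4 := by omega
    rcases h7 with h | h | h
    · subst h; omega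
    · subst h; norm_num at h6
    · subst h; omega
  · have hd3 : 3 ≤ d := by omega
    have h3 : (t' + 1) ^ 3 ≤ (q' + 1) ^ 2 := by
      rw [← htd]
      exact Nat.pow_le_pow_right (by omega) hd3
    have hq1 : q' + 1 ≤ 3 * t' - 1 := by omega
    by_cases ht7 : t' + 1 ≤ 6
    · have hh : t' = 1 ∨ t' = 2 ∨ t' = 3 ∨ t' = 4 ∨ t' = 5 := by omega
      rcases hh with h | h | h | h | h <;> subst h
      · omega
      · have : q' + 1 ≤ 5 := by omega
        have : (q' + 1) ^ 2 ≤ 25 := by nlinarith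
        norm_num at h3
        omega
      · have : q' + 1 ≤ 8 := by omega
        have h64 : 64 ≤ (q' + 1) ^ 2 := by norm_num at h3; omega
        have : 8 ≤ q' + 1 := by nlinarith
        omega
      · have : q' + 1 ≤ 11 := by omega
        have : (q' + 1) ^ 2 ≤ 121 := by nlinarith
        norm_num at h3
        omega
      · have : q' + 1 ≤ 14 := by omega
        have : (q' + 1) ^ 2 ≤ 196 := by nlinarith
        norm_num at h3
        omega
    · have h9 : (q' + 1) ^ 2 ≤ (3 * t' - 1) ^ 2 := Nat.pow_le_pow_left hq1 2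
      obtain ⟨t'', rfl⟩ : ∃ t'', t' = t'' + 1 := ⟨t' - 1, by omega⟩
      have e5 : 3 * (t'' + 1) - 1 = 3 * t'' + 2 := by omega
      rw [e5] at h9
      have : 6 ≤ t'' + 1 := by omega
      nlinarith [this, h3, h9, sq_nonneg (t'' : ℕ)]

/-- Existence of a hyperbolic frame. -/
theorem exists_bas (hF : Fintype.card F = q ^ 2) {la : F} (hla : la * frobQ hF la = 1) (hla1 : la ≠ 1) :
    ∃ P P' : M3, Bas hF P P' := by
  have hσ := frobQ_frobQ hF
  obtain ⟨a, ha⟩ := exists_norm_eq (frobQ hF) (frobQ_ne_id hF) hσ (-1 : F) (neg_ne_zero.2 one_ne_zero)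
    (by rw [map_neg, map_one])
  have hd : 1 - la ≠ 0 := sub_ne_zero.2 (Ne.symm hla1)
  have hdσ : 1 - frobQ hF la ≠ 0 := by
    intro h
    apply hd
    have := congrArg (frobQ hF) h
    rw [map_sub, map_one, hσ, map_zero] at this
    exact this
  set κ := (1 - la)⁻¹ with hκ
  have hκσ : frobQ hF κ = (1 - frobQ hF la)⁻¹ := by
    rw [hκ, map_inv₀, map_sub, map_one]
  set P : M3 := !![1, 0, κ; a, 0, κ * a * la; 0, 1, 0] with hP
  have hgram : P.transpose * P.map (frobQ hF) = JJ F := by
    have hκ1 : κ * (1 - la) = 1 := inv_mul_cancel₀ hd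
    have hκ2 : frobQ hF κ * (1 - frobQ hF la) = 1 := by rw [hκσ]; exact inv_mul_cancel₀ hdσ
    ext i j
    fin_cases i <;> fin_cases j <;>
      simp [hP, JJ, Matrix.mul_apply, Fin.sum_univ_three, map_mul] <;>
      first
        | linear_combination ha
        | linear_combination hκ2 + frobQ hF κ * frobQ hF la * ha
        | linear_combination hκ1 + κ * la * ha
        | linear_combination κ * frobQ hF κ * (a * frobQ hF a) * hla + κ * frobQ hF κ * ha
        | ring1
  have hdet : P.det ≠ 0 := by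
    intro h0
    have h1 := congrArg Matrix.det hgram
    rw [Matrix.det_mul, Matrix.det_transpose, h0, zero_mul] at h1
    simp [JJ, Matrix.det_fin_three] at h1
  refine ⟨P, P⁻¹, Matrix.mul_nonsing_inv P (isUnit_iff_ne_zero.2 hdet), hgram⟩

/-! ### The generic family -/

section

variable (hF : Fintype.card F = q ^ 2)

/-- The Weyl element. -/
def wJ (F : Type*) [Field F] : Matrix (Fin 3) (Fin 3) F := !![0, 0, 1; 0, -1, 0; 1, 0, 0]

theorem wJ_mul : wJ F * wJ F = 1 := by
  ext i j
  fin_cases i <;> fin_cases j <;> simp [wJ, Matrix.mul_apply, Fin.sum_univ_three]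

theorem isJ_wJ : IsJ hF (wJ F) := by
  refine ⟨by simp [wJ, Matrix.det_fin_three], ?_⟩
  ext i j
  fin_cases i <;> fin_cases j <;> simp [wJ, JJ, Matrix.mul_apply, Fin.sum_univ_three]

/-- A diagonal element over the subfield. -/
theorem isJ_diag {x z : F} (hx : frobQ hF x * z = 1) (hw : x * z = 1) : IsJ hF !![x, 0, 0; 0, 1, 0; 0, 0, z] := by
  refine ⟨by simp [Matrix.det_fin_three]; linear_combination hw, ?_⟩
  have hz : x * frobQ hF z = 1 := by
    have := congrArg (frobQ hF) hx
    rw [map_mul, frobQ_frobQ, map_one] at this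
    exact this
  ext i j
  fin_cases i <;> fin_cases j <;> simp [JJ, Matrix.mul_apply, Fin.sum_univ_three, hx, hz] <;>
    first
      | linear_combination hz
      | linear_combination hx
      | ring1

variable {hF}

/-- The generic family of two conjugate regular unipotent elements. -/
theorem generic_family (hq3 : 3 ≤ q) {la : F} (hσ : frobQ hF la = la⁻¹) (hla : la ≠ 0) (hs : 1 + la ≠ 0)
    (hla1 : la ≠ 1) (hr : Subfield.closure {la ^ 3} = ⊤) :
    ∃ u g : SU3, (IsNilpotent (matOf u - 1) ∧ (matOf u - 1) ^ (3 - 1) ≠ 0) ∧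
      Subgroup.closure ({u, g * u * g⁻¹} : Set SU3) = ⊤ := by
  obtain ⟨P, P', B⟩ := exists_bas hF (la := la) (by rw [hσ]; exact mul_inv_cancel₀ hla) hla1
  set s := 1 + la with hsdef
  have hσs : frobQ hF s = s / la := by
    rw [hsdef, map_add, map_one, hσ]
    field_simp
    ring
  set x := -s ^ 2 / la with hx
  set y := -s ^ 3 / la with hy
  set y₀ := -(2 * la ^ 2 + la + 1) / s ^ 3 with hy₀
  set c := -1 / s ^ 3 with hc
  set d := -la ^ 3 / s ^ 7 with hd
  have hx0 : x ≠ 0 := by
    rw [hx]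
    exact div_ne_zero (neg_ne_zero.2 (pow_ne_zero _ hs)) hla
  have hσx : frobQ hF x = x := by
    rw [hx, map_div₀, map_neg, map_pow, hσs, hσ]
    field_simp
  have hσc : frobQ hF c = -la ^ 3 / s ^ 3 := by
    rw [hc, map_div₀, map_neg, map_pow, hσs, map_one]
    field_simp
  have hσd : frobQ hF d = -la ^ 4 / s ^ 7 := by
    rw [hd, map_div₀, map_neg, map_pow, map_pow, hσs, hσ]
    field_simp
  have hσy₀ : frobQ hF y₀ = -la * (la ^ 2 + la + 2) / s ^ 3 := by
    rw [hy₀, map_div₀, map_neg, map_add, map_add, map_mul, map_pow, map_pow, hσs, hσ, map_one]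
    have : frobQ hF 2 = 2 := map_ofNat _ 2
    rw [this]
    field_simp
    ring
  have ht : y₀ + frobQ hF y₀ + 1 = 0 := by
    rw [hσy₀, hy₀]
    field_simp
    rw [hsdef]
    ring
  have htc : d + frobQ hF d + c * frobQ hF c = 0 := by
    rw [hσd, hσc, hd, hc]
    field_simp
    rw [hsdef]
    ring
  set T : M3 := !![x, 0, 0; 0, 1, 0; 0, 0, x⁻¹] with hT
  set T' : M3 := !![x⁻¹, 0, 0; 0, 1, 0; 0, 0, x] with hT'
  have hTT : T' * T = 1 := by
    ext i j
    fin_cases i <;> fin_cases j <;> simp [hT, hT', Matrix.mul_apply, Fin.sum_univ_three, hx0]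
  have hTJ : IsJ hF T := isJ_diag hF (by rw [hσx]; exact mul_inv_cancel₀ hx0) (mul_inv_cancel₀ hx0)
  have hg : IsJ hF (wJ F * T * Um hF c d) := ((isJ_wJ hF).mul hF hTJ).mul hF (isJ_Um hF htc)
  set a := Um hF c d with ha
  set a' := Um hF (-c) (frobQ hF d) with ha'
  have haa : a' * a = 1 := Um_inv htc
  have hgg : (a' * T' * wJ F) * (wJ F * T * a) = 1 := by
    calc (a' * T' * wJ F) * (wJ F * T * a) = a' * (T' * (wJ F * wJ F) * T) * a := by
          simp only [Matrix.mul_assoc]
      _ = a' * (T' * T) * a := by rw [wJ_mul, Matrix.mul_one]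
      _ = 1 := by rw [hTT, Matrix.mul_one, haa]
  set L : M3 := !![1, 0, 0; x, 1, 0; y, -x, 1] with hL
  have hconj : a * Um hF 1 y₀ * a' = Um hF 1 (-la / s) := by
    rw [ha, ha', Um_mul, Um_mul]
    congr 1
    · ring
    · rw [map_one, map_neg, hσc, hσd, hc, hd, hy₀]
      field_simp
      rw [hsdef]
      ring
  have hV : (wJ F * T * a) * Um hF 1 y₀ * (a' * T' * wJ F) = L := by
    calc (wJ F * T * a) * Um hF 1 y₀ * (a' * T' * wJ F)
        = wJ F * T * (a * Um hF 1 y₀ * a') * T' * wJ F := by simp only [Matrix.mul_assoc]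
      _ = L := by
        rw [hconj]
        ext i j
        fin_cases i <;> fin_cases j <;>
          simp [wJ, hT, hT', Um, hL, Matrix.mul_apply, Fin.sum_univ_three, hx0, map_one]
        rw [hx, hy]
        field_simp
  have hy0 : y ≠ 0 := by
    rw [hy]
    exact div_ne_zero (neg_ne_zero.2 (pow_ne_zero _ hs)) hla
  refine exists_gen (a := la) (b := 1 - x * y₀) (c := y₀) (d := (la ^ 2)⁻¹) (e := x * y₀ - 1) (f := la) B hq3 ht hg hgg ?_
    hla (inv_ne_zero (pow_ne_zero _ hla)) hla ?_ ?_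
  · rw [hV]
    simpa [hL] using hy0
  · intro H hU hV'
    rw [hV] at hV'
    have h1 := Hs.mul B (Hs.mul B hV' hU) hV'
    have e : L * Um hF 1 y₀ * L = !![la, 1 - x * y₀, y₀; 0, (la ^ 2)⁻¹, x * y₀ - 1; 0, 0, la] := by
      ext i j
      fin_cases i <;> fin_cases j <;>
        simp [hL, Um, Matrix.mul_apply, Fin.sum_univ_three, map_one] <;>
        first
          | ring1
          | (rw [hx, hy, hy₀]; field_simp; rw [hsdef]; ring1)
          | (rw [hx, hy₀]; field_simp; rw [hsdef]; ring1)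
    rwa [e] at h1
  · have : la / (la ^ 2)⁻¹ = la ^ 3 := by
      field_simp
    rw [this]
    exact hr

/-- The generic case, `q ≠ 5, 8`. -/
theorem generic_case (hF : Fintype.card F = q ^ 2) (hq3 : 3 ≤ q) (h5 : q ≠ 5) (h8 : q ≠ 8) :
    ∃ u g : SU3, (IsNilpotent (matOf u - 1) ∧ (matOf u - 1) ^ (3 - 1) ≠ 0) ∧
      Subgroup.closure ({u, g * u * g⁻¹} : Set SU3) = ⊤ := by
  obtain ⟨a, ha⟩ := exists_primitive F
  have ha0 : a ≠ 0 := by
    rintro rfl
    obtain ⟨k, hk⟩ := ha 1 one_ne_zero
    rw [zero_pow (Nat.succ_ne_zero k)] at hk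
    exact one_ne_zero hk
  have hq' : q ^ 2 - 1 = (q - 1) * (q + 1) := by
    obtain ⟨q', rfl⟩ : ∃ q', q = q' + 1 := ⟨q - 1, by omega⟩
    simp only [Nat.add_sub_cancel]
    have : (q' + 1) ^ 2 = q' * (q' + 1 + 1) + 1 := by ring
    omega
  set la := a ^ (q - 1) with hla
  have hla0 : la ≠ 0 := pow_ne_zero _ ha0
  have hpow : la ^ (q + 1) = 1 := by
    rw [hla, ← pow_mul, ← hq', ← hF]
    exact FiniteField.pow_card_sub_one_eq_one a ha0
  have hσ : frobQ hF la = la⁻¹ := by
    rw [frobQ_apply]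
    apply eq_inv_of_mul_eq_one_left
    rw [← hpow, pow_succ]
  have hd : ∀ m : ℕ, la ^ m = 1 → q + 1 ∣ m := by
    intro m hm
    rw [hla, ← pow_mul] at hm
    have := card_sub_one_dvd ha hm
    rw [hF, hq'] at this
    exact Nat.dvd_of_mul_dvd_mul_left (by omega) this
  have hla1 : la ≠ 1 := by
    intro h
    have := hd 1 (by rw [pow_one, h])
    have := Nat.le_of_dvd (by norm_num) this
    omega
  have hs : 1 + la ≠ 0 := by
    intro h
    have h1 : la = -1 := by linear_combination h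
    have := hd 2 (by rw [h1]; ring)
    have := Nat.le_of_dvd (by norm_num) this
    omega
  refine generic_family hq3 hσ hla0 hs hla1 ?_
  rw [hla, ← pow_mul]
  apply closure_pow_of_arith' _ _ ha
  · intro t d ht hd2 htd hdvd
    rw [hF] at htd hdvd
    have e : (q - 1) * 3 * (t - 1) = 3 * (q - 1) * (t - 1) := by ring
    rw [e] at hdvd
    exact arith_unitary hq3 h5 h8 ht hd2 htd hdvd
  · rw [hF]
    nlinarith
  · have : 0 < q - 1 := by omega
    omega

end

end Cfsg.Agent.Lib.Known.UT
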