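import Cfsg.Agent.Lib.Known.UT3

/-!
# `SU₃(q)`: two conjugate regular unipotent generators, `q = 5` and `q = 8`
-/

set_option autoImplicit false
set_option linter.unusedVariables false
set_option linter.unusedSectionVars false
set_option linter.unusedSimpArgs false

namespace Cfsg.Agent.Lib.Known.UT

open Matrix Cfsg.Agent.Lib.Classical Cfsg.Agent.Lib.Known.PSU3 Cfsg.Agent.Lib.Known.RU

variable {F : Type*} [Field F] [Fintype F] {q : ℕ}

local notation "M3" => Matrix (Fin 3) (Fin 3) F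
local notation "SU3" => Cfsg.SU 3 F q

/-- Generators of small fields. -/
theorem closure_of_card25 (h : Fintype.card F = 25) {r : F} (hr : r ^ 5 ≠ r) : Subfield.closure {r} = ⊤ := by
  classical
  by_contra hne
  set K := Subfield.closure {r} with hK
  haveI : Fintype K := Fintype.ofFinite K
  set t := Fintype.card K with ht
  have ht2 : 2 ≤ t := Fintype.one_lt_card
  have hcard : Fintype.card F = t ^ Module.finrank K F := Module.card_eq_pow_finrank
  set d := Module.finrank K F with hd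
  have hd0 : d ≠ 0 := by
    intro h0
    rw [h0, pow_zero] at hcard
    omega
  have hd1 : d ≠ 1 := by
    intro h1
    rw [h1, pow_one] at hcard
    apply hne
    have hb : Function.Bijective (Subtype.val : K → F) := by
      rw [Fintype.bijective_iff_injective_and_card]
      exact ⟨Subtype.val_injective, hcard.symm⟩
    rw [eq_top_iff]
    intro x _
    obtain ⟨y, hy⟩ := hb.2 x
    rw [← hy]
    exact y.2
  have hrK : r ^ t = r := by
    have := FiniteField.pow_card (⟨r, Subfield.subset_closure (Set.mem_singleton _)⟩ : K)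
    simpa using congrArg Subtype.val this
  have hd2 : 2 ≤ d := by omega
  have h25 : t ^ d = 25 := by rw [← hcard, h]
  have hdle : d ≤ 4 := by
    by_contra hc
    have : 2 ^ 5 ≤ t ^ d := (Nat.pow_le_pow_right (by omega) (by omega : 5 ≤ d)).trans' (Nat.pow_le_pow_left ht2 5)
    omega
  have ht5 : t ≤ 5 := by
    have : t ^ 2 ≤ t ^ d := Nat.pow_le_pow_right (by omega) hd2
    nlinarith
  have : t = 5 := by
    interval_cases d <;> interval_cases t <;> first | rfl | (norm_num at h25) | omega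
  rw [this] at hrK
  exact hr hrK

theorem closure_of_card64 (h : Fintype.card F = 64) {r : F} (hr4 : r ^ 4 ≠ r) (hr8 : r ^ 8 ≠ r) :
    Subfield.closure {r} = ⊤ := by
  classical
  by_contra hne
  set K := Subfield.closure {r} with hK
  haveI : Fintype K := Fintype.ofFinite K
  set t := Fintype.card K with ht
  have ht2 : 2 ≤ t := Fintype.one_lt_card
  have hcard : Fintype.card F = t ^ Module.finrank K F := Module.card_eq_pow_finrank
  set d := Module.finrank K F with hd
  have hd0 : d ≠ 0 := by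
    intro h0
    rw [h0, pow_zero] at hcard
    omega
  have hd1 : d ≠ 1 := by
    intro h1
    rw [h1, pow_one] at hcard
    apply hne
    have hb : Function.Bijective (Subtype.val : K → F) := by
      rw [Fintype.bijective_iff_injective_and_card]
      exact ⟨Subtype.val_injective, hcard.symm⟩
    rw [eq_top_iff]
    intro x _
    obtain ⟨y, hy⟩ := hb.2 x
    rw [← hy]
    exact y.2
  have hrK : r ^ t = r := by
    have := FiniteField.pow_card (⟨r, Subfield.subset_closure (Set.mem_singleton _)⟩ : K)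
    simpa using congrArg Subtype.val this
  have hd2 : 2 ≤ d := by omega
  have h64 : t ^ d = 64 := by rw [← hcard, h]
  have hdle : d ≤ 6 := by
    by_contra hc
    have : 2 ^ 7 ≤ t ^ d := (Nat.pow_le_pow_right (by omega) (by omega : 7 ≤ d)).trans' (Nat.pow_le_pow_left ht2 7)
    omega
  have ht8 : t ≤ 8 := by
    have : t ^ 2 ≤ t ^ d := Nat.pow_le_pow_right (by omega) hd2
    nlinarith
  have : t = 8 ∨ t = 4 ∨ t = 2 := by
    interval_cases d <;> interval_cases t <;> first | omega | (norm_num at h64)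
  rcases this with h1 | h1 | h1
  · rw [h1] at hrK
    exact hr8 hrK
  · rw [h1] at hrK
    exact hr4 hrK
  · rw [h1] at hrK
    apply hr4
    calc r ^ 4 = (r ^ 2) ^ 2 := by ring
      _ = r := by rw [hrK, hrK]

section

variable {hF : Fintype.card F = q ^ 2}

theorem isJ_diag3 {t0 t1 t2 : F} (h02 : t0 * frobQ hF t2 = 1) (h11 : t1 * frobQ hF t1 = 1)
    (hdet : t0 * t1 * t2 = 1) : IsJ hF !![t0, 0, 0; 0, t1, 0; 0, 0, t2] := by
  have h20 : t2 * frobQ hF t0 = 1 := by
    have := congrArg (frobQ hF) h02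
    rw [map_mul, frobQ_frobQ, map_one, mul_comm] at this
    exact this
  refine ⟨by simp [Matrix.det_fin_three]; exact hdet, ?_⟩
  ext i j
  fin_cases i <;> fin_cases j <;> simp [JJ, Matrix.mul_apply, Fin.sum_univ_three, h02, h11, h20]

/-- A criterion with explicit Bruhat data. -/
theorem special_family (hq3 : 3 ≤ q) {P P' : M3} (B : Bas hF P P') {y₀ c d t0 t1 t2 s0 s1 s2 y₁ x xb y : F}
    (ht : y₀ + frobQ hF y₀ + 1 = 0) (htc : d + frobQ hF d + c * frobQ hF c = 0)
    (h02 : t0 * frobQ hF t2 = 1) (h11 : t1 * frobQ hF t1 = 1) (hdet : t0 * t1 * t2 = 1)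
    (hs0 : s0 * t0 = 1) (hs1 : s1 * t1 = 1) (hs2 : s2 * t2 = 1)
    (hconj : Um hF c d * Um hF 1 y₀ * Um hF (-c) (frobQ hF d) = Um hF 1 y₁)
    (hV : wJ F * !![t0, 0, 0; 0, t1, 0; 0, 0, t2] * Um hF 1 y₁ * !![s0, 0, 0; 0, s1, 0; 0, 0, s2] * wJ F
      = !![1, 0, 0; xb, 1, 0; y, -x, 1])
    (hγ : y ≠ 0)
    {a b c' d' e f : F} (ha : a ≠ 0) (hd : d' ≠ 0) (hf : f ≠ 0)
    (hW : ∀ H : Subgroup (Cfsg.SU 3 F q), Hs H P P' (Um hF 1 y₀) → Hs H P P' !![1, 0, 0; xb, 1, 0; y, -x, 1] →
      Hs H P P' !![a, b, c'; 0, d', e; 0, 0, f])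
    (hr : Subfield.closure {a / d'} = ⊤) :
    ∃ u g : SU3, (IsNilpotent (matOf u - 1) ∧ (matOf u - 1) ^ (3 - 1) ≠ 0) ∧
      Subgroup.closure ({u, g * u * g⁻¹} : Set SU3) = ⊤ := by
  set T : M3 := !![t0, 0, 0; 0, t1, 0; 0, 0, t2] with hT
  set T' : M3 := !![s0, 0, 0; 0, s1, 0; 0, 0, s2] with hT'
  have hTT : T' * T = 1 := by
    ext i j
    fin_cases i <;> fin_cases j <;> simp [hT, hT', Matrix.mul_apply, Fin.sum_univ_three, hs0, hs1, hs2]
  have hg : IsJ hF (wJ F * T * Um hF c d) := ((isJ_wJ hF).mul hF (isJ_diag3 h02 h11 hdet)).mul hF (isJ_Um hF htc)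
  set a₁ := Um hF c d with ha₁
  set a' := Um hF (-c) (frobQ hF d) with ha'
  have haa : a' * a₁ = 1 := Um_inv htc
  have hgg : (a' * T' * wJ F) * (wJ F * T * a₁) = 1 := by
    calc (a' * T' * wJ F) * (wJ F * T * a₁) = a' * (T' * (wJ F * wJ F) * T) * a₁ := by
          simp only [Matrix.mul_assoc]
      _ = a' * (T' * T) * a₁ := by rw [wJ_mul, Matrix.mul_one]
      _ = 1 := by rw [hTT, Matrix.mul_one, haa]
  have hV' : (wJ F * T * a₁) * Um hF 1 y₀ * (a' * T' * wJ F) = !![1, 0, 0; xb, 1, 0; y, -x, 1] := by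
    calc (wJ F * T * a₁) * Um hF 1 y₀ * (a' * T' * wJ F)
        = wJ F * T * (a₁ * Um hF 1 y₀ * a') * T' * wJ F := by simp only [Matrix.mul_assoc]
      _ = _ := by rw [hconj]; exact hV
  refine exists_gen (a := a) (b := b) (c := c') (d := d') (e := e) (f := f) B hq3 ht hg hgg ?_ ha hd hf ?_ hr
  · rw [hV']
    simpa using hγ
  · intro H hU hV''
    rw [hV'] at hV''
    exact hW H hU hV''

/-- The field with 64 elements. -/
theorem exists_g64 (hF : Fintype.card F = 8 ^ 2) : (2 : F) = 0 ∧ ∃ g : F, g ^ 6 + g ^ 3 + 1 = 0 := by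
  have h2 : (2 : F) = 0 := by
    have h := Nat.cast_card_eq_zero F
    rw [hF] at h
    have h' : (2 : F) ^ 6 = 0 := by
      norm_num at h ⊢
      exact h
    exact pow_eq_zero_iff (by norm_num) |>.1 h'
  refine ⟨h2, ?_⟩
  obtain ⟨a, ha⟩ := exists_primitive F
  have ha0 : a ≠ 0 := by
    rintro rfl
    obtain ⟨k, hk⟩ := ha 1 one_ne_zero
    rw [zero_pow (Nat.succ_ne_zero k)] at hk
    exact one_ne_zero hk
  have hcard : Fintype.card F = 64 := by rw [hF]; norm_num
  have ha63 : a ^ 63 = 1 := by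
    have := FiniteField.pow_card_sub_one_eq_one a ha0
    rwa [hcard] at this
  refine ⟨a ^ 7, ?_⟩
  set g := a ^ 7 with hgdef
  have hg3 : g ^ 3 ≠ 1 := by
    intro h
    rw [hgdef, ← pow_mul] at h
    have := card_sub_one_dvd ha h
    rw [hcard] at this
    norm_num at this
  have h1 : (g ^ 3 - 1) * (g ^ 6 + g ^ 3 + 1) = 0 := by
    have : g ^ 9 = 1 := by
      rw [hgdef, ← pow_mul]
      exact ha63
    linear_combination this
  rcases mul_eq_zero.1 h1 with h | h
  · exact absurd (sub_eq_zero.1 h) hg3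
  · exact h

set_option maxHeartbeats 8000000 in
/-- The case `q = 8`. -/
theorem case8 (hF : Fintype.card F = 8 ^ 2) :
    ∃ u g : Cfsg.SU 3 F 8, (IsNilpotent (matOf u - 1) ∧ (matOf u - 1) ^ (3 - 1) ≠ 0) ∧
      Subgroup.closure ({u, g * u * g⁻¹} : Set (Cfsg.SU 3 F 8)) = ⊤ := by
  obtain ⟨h2, g, hg⟩ := exists_g64 hF
  have hcard : Fintype.card F = 64 := by rw [hF]; norm_num
  have hσg : frobQ hF g = g ^ 5 + g ^ 2 := by
    rw [frobQ_apply]
    linear_combination g ^ 2 * hg - (g ^ 5 + g ^ 2) * h2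
  have hg1 : g ≠ 1 := by
    rintro rfl
    have : (1 : F) = 0 := by linear_combination hg - h2
    exact one_ne_zero this
  obtain ⟨P, P', B⟩ := exists_bas hF (la := g) (by rw [hσg]; linear_combination hg - h2) hg1
  refine special_family (hF := hF) (by norm_num) B (y₀ := 1 + g + g ^ 2 + g ^ 3 + g ^ 5) (c := g ^ 2) (d := g ^ 3)
    (t0 := 1 + g ^ 5) (t1 := g ^ 4) (t2 := g + g ^ 2 + g ^ 3 + g ^ 4) (s0 := 1 + g + g ^ 2 + g ^ 3 + g ^ 4)
    (s1 := g ^ 5) (s2 := 1 + g ^ 4) (y₁ := 1 + g ^ 3 + g ^ 4 + g ^ 5) (x := g + g ^ 5) (xb := g ^ 2 + g ^ 4 + g ^ 5)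
    (y := g ^ 5) (a := 1 + g ^ 2 + g ^ 4) (b := 0) (c' := 1 + g ^ 4) (d' := g ^ 5) (e := 0) (f := g + g ^ 3)
    ?_ ?_ ?_ ?_ ?_ ?_ ?_ ?_ ?_ ?_ ?_ ?_ ?_ ?_ ?_ ?_
  · simp only [map_add, map_pow, map_one, hσg]
    grind
  · simp only [map_add, map_pow, map_one, hσg]
    grind
  · simp only [map_add, map_pow, map_one, hσg]
    grind
  · simp only [map_add, map_pow, map_one, hσg]
    grind
  · grind
  · grind
  · grind
  · grind
  · rw [Um_mul, Um_mul]
    congr 1
    · ring
    · simp only [map_add, map_pow, map_one, map_neg, hσg]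
      grind
  · ext i j
    fin_cases i <;> fin_cases j <;>
      simp [wJ, Um, Matrix.mul_apply, Fin.sum_univ_three, map_one] <;> grind
  · intro h
    have : g ≠ 0 := by
      intro h0
      rw [h0] at hg
      norm_num at hg
    exact pow_ne_zero _ this h
  · intro h
    have : (1 : F) = 0 := by grind
    exact one_ne_zero this
  · intro h
    have : (1 : F) = 0 := by grind
    exact one_ne_zero this
  · intro h
    have : (1 : F) = 0 := by grind
    exact one_ne_zero this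
  · intro H hU hL
    have h1 := Hs.mul B (Hs.mul B (Hs.mul B (Hs.mul B (Hs.mul B hL hU) hU) hL) hU) hL
    have e : (!![1, 0, 0; g ^ 2 + g ^ 4 + g ^ 5, 1, 0; g ^ 5, -(g + g ^ 5), 1] : M3) * Um hF 1 (1 + g + g ^ 2 + g ^ 3 + g ^ 5) *
        Um hF 1 (1 + g + g ^ 2 + g ^ 3 + g ^ 5) * !![1, 0, 0; g ^ 2 + g ^ 4 + g ^ 5, 1, 0; g ^ 5, -(g + g ^ 5), 1] *
        Um hF 1 (1 + g + g ^ 2 + g ^ 3 + g ^ 5) * !![1, 0, 0; g ^ 2 + g ^ 4 + g ^ 5, 1, 0; g ^ 5, -(g + g ^ 5), 1] =
        !![1 + g ^ 2 + g ^ 4, 0, 1 + g ^ 4; 0, g ^ 5, 0; 0, 0, g + g ^ 3] := by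
      ext i j
      fin_cases i <;> fin_cases j <;>
        simp [Um, Matrix.mul_apply, Fin.sum_univ_three, map_one] <;> grind
    rwa [e] at h1
  · have hd : g ^ 5 ≠ 0 := by
      intro h
      have : (1 : F) = 0 := by grind
      exact one_ne_zero this
    have e : (1 + g ^ 2 + g ^ 4) / g ^ 5 = 1 + g ^ 2 + g ^ 3 + g ^ 4 + g ^ 5 := by
      rw [div_eq_iff hd]
      grind
    rw [e]
    apply closure_of_card64 hcard
    · intro h
      have : (1 : F) = 0 := by
        linear_combination ((1)*g^2 + (1)*g^3 + (1)*g^4) * h + ((1)*1 + (1)*g^3 + (1)*g^4 + (1)*g^6 + (1)*g^9 + (1)*g^11 + (1)*g^12 + (1)*g^15 + (1)*g^16 + (1)*g^17 + (1)*g^18) * hg - ((1)*g^3 + (2)*g^4 + (3)*g^5 + (9)*g^6 + (14)*g^7 + (23)*g^8 + (38)*g^9 + (51)*g^10 + (68)*g^11 + (83)*g^12 + (94)*g^13 + (102)*g^14 + (103)*g^15 + (96)*g^16 + (83)*g^17 + (67)*g^18 + (48)*g^19 + (31)*g^20 + (18)*g^21 + (8)*g^22 + (3)*g^23 + (1)*g^24) * h2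
      exact one_ne_zero this
    · intro h
      have : (1 : F) = 0 := by
        linear_combination ((1)*g + (1)*g^2 + (1)*g^5) * h + ((1)*1 + (1)*g^6 + (1)*g^8 + (1)*g^10 + (1)*g^11 + (1)*g^12 + (1)*g^13 + (1)*g^15 + (1)*g^18 + (1)*g^19 + (1)*g^21 + (1)*g^22 + (1)*g^25 + (1)*g^26 + (1)*g^27 + (1)*g^30 + (1)*g^31 + (1)*g^32 + (1)*g^33 + (1)*g^35 + (1)*g^39) * hg - ((4)*g^3 + (7)*g^4 + (21)*g^5 + (50)*g^6 + (105)*g^7 + (214)*g^8 + (403)*g^9 + (725)*g^10 + (1247)*g^11 + (2045)*g^12 + (3221)*g^13 + (4880)*g^14 + (7103)*g^15 + (9987)*g^16 + (13525)*g^17 + (17695)*g^18 + (22371)*g^19 + (27308)*g^20 + (32255)*g^21 + (36801)*g^22 + (40594)*g^23 + (43283)*g^24 + (44561)*g^25 + (44312)*g^26 + (42499)*g^27 + (39293)*g^28 + (34984)*g^29 + (29941)*g^30 + (24607)*g^31 + (19371)*g^32 + (14577)*g^33 + (10456)*g^34 + (7121)*g^35 + (4587)*g^36 + (2777)*g^37 + (1570)*g^38 + (821)*g^39 + (390)*g^40 + (166)*g^41 + (61)*g^42 + (18)*g^43 + (4)*g^44 + (1)*g^45) * h2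
      exact one_ne_zero this

/-- The case `q = 5`. -/
theorem case5 (hF : Fintype.card F = 5 ^ 2) :
    ∃ u g : Cfsg.SU 3 F 5, (IsNilpotent (matOf u - 1) ∧ (matOf u - 1) ^ (3 - 1) ≠ 0) ∧
      Subgroup.closure ({u, g * u * g⁻¹} : Set (Cfsg.SU 3 F 5)) = ⊤ := by
  have h5 : (5 : F) = 0 := by
    have h := Nat.cast_card_eq_zero F
    rw [hF] at h
    have h' : (5 : F) ^ 2 = 0 := by
      norm_num at h ⊢
      exact h
    exact pow_eq_zero_iff (by norm_num) |>.1 h'
  have hcard : Fintype.card F = 25 := by rw [hF]; norm_num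
  have h20 : (2 : F) ≠ 0 := by
    intro h
    have : (1 : F) = 0 := by linear_combination h5 - 2 * h
    exact one_ne_zero this
  obtain ⟨g, hg⟩ : ∃ g : F, g ^ 2 = 2 := by
    obtain ⟨a, ha⟩ := exists_primitive F
    have ha0 : a ≠ 0 := by
      rintro rfl
      obtain ⟨k, hk⟩ := ha 1 one_ne_zero
      rw [zero_pow (Nat.succ_ne_zero k)] at hk
      exact one_ne_zero hk
    have ha24 : a ^ 24 = 1 := by
      have := FiniteField.pow_card_sub_one_eq_one a ha0
      rwa [hcard] at this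
    set e := a ^ 3 with he
    have he4 : e ^ 4 ≠ 1 := by
      intro h
      rw [he, ← pow_mul] at h
      have := card_sub_one_dvd ha h
      rw [hcard] at this
      norm_num at this
    have he8 : (e ^ 4 - 1) * (e ^ 4 + 1) = 0 := by
      have : e ^ 8 = 1 := by
        rw [he, ← pow_mul]
        exact ha24
      linear_combination this
    have he4' : e ^ 4 + 1 = 0 := by
      rcases mul_eq_zero.1 he8 with h | h
      · exact absurd (sub_eq_zero.1 h) he4
      · exact h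
    refine ⟨e + e ^ 7, ?_⟩
    linear_combination (2 * e ^ 4 - 2 + e ^ 10 - e ^ 6 + e ^ 2) * he4'
  have hσg : frobQ hF g = -g := by
    rw [frobQ_apply]
    linear_combination (g ^ 3 + 2 * g) * hg + g * h5
  obtain ⟨P, P', B⟩ := exists_bas hF (la := -1) (by rw [map_neg, map_one]; ring) (by
    intro h
    apply h20
    linear_combination -h)
  have hdet : (1 + 3 * g) * (3 + 3 * g) * (2 + g) = 1 := by
    linear_combination (9 * g + 30) * hg + (13 + 9 * g) * h5
  refine special_family (hF := hF) (by norm_num) B (y₀ := 2 + g) (c := g) (d := 1)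
    (t0 := -g) (t1 := -1) (t2 := 3 * g) (s0 := 2 * g) (s1 := -1) (s2 := g) (y₁ := 2 + 4 * g)
    (x := g) (xb := -g) (y := 1 + 2 * g) (a := 1 + 3 * g) (b := 4 * g) (c' := 2 + g) (d' := 3 + 3 * g)
    (e := 2 + 3 * g) (f := 2 + g) ?_ ?_ ?_ ?_ ?_ ?_ ?_ ?_ ?_ ?_ ?_ ?_ ?_ ?_ ?_ ?_
  · simp only [map_add, map_ofNat, hσg]
    linear_combination h5
  · simp only [map_one, hσg]
    linear_combination -hg
  · simp only [map_mul, map_ofNat, hσg]
    grind
  · simp only [map_neg, map_one]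
    ring
  · grind
  · grind
  · ring
  · grind
  · rw [Um_mul, Um_mul]
    congr 1
    · ring
    · simp only [map_one, map_neg, hσg]
      grind
  · ext i j
    fin_cases i <;> fin_cases j <;>
      simp [wJ, Um, Matrix.mul_apply, Fin.sum_univ_three, map_one] <;> grind
  · intro h
    have h1 : (2 : F) * (2 + 4 * g - 2 * g * 0) = 0 := by grind
    grind
  · intro h
    rw [h] at hdet
    simp at hdet
  · intro h
    rw [h] at hdet
    simp at hdet
  · intro h
    rw [h] at hdet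
    simp at hdet
  · intro H hU hL
    have hL' : Hs H P P' (!![1, 0, 0; g, 1, 0; 1 - 2 * g, g, 1] : M3) := by
      refine Hs.inv B hL ?_
      ext i j
      fin_cases i <;> fin_cases j <;>
        simp [Matrix.mul_apply, Fin.sum_univ_three] <;> grind
    have h1 := Hs.mul B (Hs.mul B (Hs.mul B hL hU) hL') hL'
    have e : (!![1, 0, 0; -g, 1, 0; 1 + 2 * g, -g, 1] : M3) * Um hF 1 (2 + g) *
        !![1, 0, 0; g, 1, 0; 1 - 2 * g, g, 1] * !![1, 0, 0; g, 1, 0; 1 - 2 * g, g, 1] =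
        !![1 + 3 * g, 4 * g, 2 + g; 0, 3 + 3 * g, 2 + 3 * g; 0, 0, 2 + g] := by
      ext i j
      fin_cases i <;> fin_cases j <;>
        simp [Um, Matrix.mul_apply, Fin.sum_univ_three, map_one] <;> grind
    rwa [e] at h1
  · have hd : 3 + 3 * g ≠ 0 := by
      intro h
      rw [h] at hdet
      simp at hdet
    have e : (1 + 3 * g) / (3 + 3 * g) = g := by
      rw [div_eq_iff hd]
      linear_combination -3 * hg - h5
    rw [e]
    apply closure_of_card25 hcard
    intro h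
    have h3 : (2 : F) * g = 0 := by
      linear_combination -h + (g ^ 3 + 2 * g) * hg + g * h5
    rcases mul_eq_zero.1 h3 with h4 | h4
    · exact h20 h4
    · rw [h4] at hg
      apply h20
      linear_combination -hg

/-- Two conjugate regular unipotent generators. -/
theorem main (hF : Fintype.card F = q ^ 2) (hq3 : 3 ≤ q) :
    ∃ u g : SU3, (IsNilpotent (matOf u - 1) ∧ (matOf u - 1) ^ (3 - 1) ≠ 0) ∧
      Subgroup.closure ({u, g * u * g⁻¹} : Set SU3) = ⊤ := by
  by_cases h5 : q = 5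
  · subst h5
    exact case5 hF
  by_cases h8 : q = 8
  · subst h8
    exact case8 hF
  exact generic_case hF hq3 h5 h8

end

end Cfsg.Agent.Lib.Known.UT
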