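import Cfsg.Agent.Lib.Known.Weil1

/-!
# The Weil characters of `SL_n(q)`
-/

set_option autoImplicit false
set_option linter.unusedVariables false
set_option linter.unusedSectionVars false
set_option linter.unusedSimpArgs false

namespace Cfsg.Agent.Lib.Known.Weil

open Matrix Cfsg Cfsg.Agent.Lib.Char Cfsg.Agent.Lib.Known
open scoped ComplexConjugate

variable {F : Type*} [Field F] [Fintype F] [DecidableEq F] (m : ℕ)

/-- The Weil function. -/
noncomputable def W (l : MulChar F ℂ) (g : SLm F m) : ℂ :=
  ((Fintype.card F : ℂ) - 1)⁻¹ * ∑ c : F, l c * ((fixS m g c).card : ℂ)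

theorem qsub_ne_zero : ((Fintype.card F : ℂ) - 1) ≠ 0 := by
  have h : 2 ≤ Fintype.card F := Fintype.one_lt_card
  have h2 : ((Fintype.card F - 1 : ℕ) : ℂ) ≠ 0 := by
    have : Fintype.card F - 1 ≠ 0 := by omega
    exact_mod_cast this
  rwa [Nat.cast_sub (by omega), Nat.cast_one] at h2

theorem card_SLm_ne_zero : ((Fintype.card (SLm F m) : ℕ) : ℂ) ≠ 0 := by
  exact_mod_cast Fintype.card_ne_zero

theorem sum_mulChar (l : MulChar F ℂ) [Decidable (l = 1)] : ∑ c : F, l c = if l = 1 then ((Fintype.card F : ℂ) - 1) else 0 := by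
  classical
  split_ifs with h
  · subst h
    rw [MulChar.sum_one_eq_card_units, Fintype.card_units, Nat.cast_sub Fintype.card_pos]
    simp
  · exact MulChar.sum_eq_zero_of_ne_one h

theorem sum_mulChar_conj (l μ : MulChar F ℂ) [Decidable (l = μ)] :
    ∑ c : F, l c * conj (μ c) = if l = μ then ((Fintype.card F : ℂ) - 1) else 0 := by
  classical
  rw [← sum_units_mulChar_mul_conj l μ]
  symm
  apply sum_units_eq_sum (fun a => l a * conj (μ a))
  simp [MulChar.map_nonunit l not_isUnit_zero]

/-- The second moment, in `ℂ`. -/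
theorem moment2 (c c' : F) (hc : c ≠ 0) (hc' : c' ≠ 0) :
    ∑ g : SLm F m, ((fixS m g c).card : ℂ) * ((fixS m g c').card : ℂ) =
      (Fintype.card (SLm F m) : ℂ) * (1 + if c = c' then ((Fintype.card F : ℂ) - 1) else 0) := by
  have h := sum_card_fixS_mul (F := F) m hc hc'
  have h2 := congrArg (Nat.cast : ℕ → ℂ) h
  push_cast at h2
  rw [h2]
  split_ifs with hcc
  · rw [Nat.cast_sub Fintype.card_pos]
    simp
    ring
  · simp

/-- The first moment, in `ℂ`. -/
theorem moment1 (c : F) (hc : c ≠ 0) :
    ∑ g : SLm F m, ((fixS m g c).card : ℂ) = (Fintype.card (SLm F m) : ℂ) := by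
  have h := sum_card_fixS (F := F) m hc
  have h2 := congrArg (Nat.cast : ℕ → ℂ) h
  push_cast at h2
  exact h2

/-- Inner product of Weil functions. -/
theorem inner_W (l μ : MulChar F ℂ) [Decidable (l = 1)] [Decidable (μ = 1)] [Decidable (l = μ)] :
    classInner (W m l) (W m μ) = (if l = 1 then 1 else 0) * (if μ = 1 then 1 else 0) + if l = μ then 1 else 0 := by
  classical
  have hq := qsub_ne_zero (F := F)
  have hG := card_SLm_ne_zero (F := F) m
  set κ : ℂ := ((Fintype.card F : ℂ) - 1) with hκ
  have hconjκ : conj κ = κ := by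
    simp [hκ]
  have h1 : ∀ g : SLm F m, W m l g * conj (W m μ g) =
      κ⁻¹ * κ⁻¹ * ∑ c : F, ∑ c' : F, l c * conj (μ c') * (((fixS m g c).card : ℂ) * ((fixS m g c').card : ℂ)) := by
    intro g
    simp only [W, map_mul, map_inv₀, map_sum, map_natCast]
    rw [show conj ((Fintype.card F : ℂ) - 1) = κ from hconjκ]
    rw [mul_mul_mul_comm, Finset.sum_mul_sum]
    congr 1
    apply Finset.sum_congr rfl
    intro c _
    apply Finset.sum_congr rfl
    intro c' _
    ring
  rw [classInner, Nat.card_eq_fintype_card]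
  simp only [h1]
  rw [← Finset.mul_sum, Finset.sum_comm]
  have h2 : ∀ c : F, ∑ g : SLm F m, ∑ c' : F, l c * conj (μ c') * (((fixS m g c).card : ℂ) * ((fixS m g c').card : ℂ)) =
      (Fintype.card (SLm F m) : ℂ) * ∑ c' : F, l c * conj (μ c') * (1 + if c = c' then κ else 0) := by
    intro c
    rw [Finset.sum_comm, Finset.mul_sum]
    apply Finset.sum_congr rfl
    intro c' _
    rw [← Finset.mul_sum]
    by_cases hc : c = 0
    · subst hc
      simp [MulChar.map_nonunit l not_isUnit_zero]
    by_cases hc' : c' = 0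
    · subst hc'
      simp [MulChar.map_nonunit μ not_isUnit_zero]
    rw [moment2 m c c' hc hc']
    ring
  simp only [h2]
  rw [← Finset.mul_sum]
  have h3 : ∑ c : F, ∑ c' : F, l c * conj (μ c') * (1 + if c = c' then κ else 0) =
      (∑ c : F, l c) * (∑ c' : F, conj (μ c')) + κ * ∑ c : F, l c * conj (μ c) := by
    rw [Finset.sum_mul_sum, Finset.mul_sum, ← Finset.sum_add_distrib]
    apply Finset.sum_congr rfl
    intro c _
    have : ∑ c' : F, l c * conj (μ c') * (if c = c' then κ else 0) = κ * (l c * conj (μ c)) := by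
      rw [Finset.sum_eq_single c]
      · simp
        ring
      · intro b _ hb
        simp [hb.symm]
      · simp
    simp only [mul_add, mul_one, Finset.sum_add_distrib, this]
  rw [h3, sum_mulChar_conj l μ, sum_mulChar l]
  have h4 : ∑ c' : F, conj (μ c') = if μ = 1 then κ else 0 := by
    rw [← map_sum, sum_mulChar μ]
    split_ifs
    · exact hconjκ
    · simp
  rw [h4]
  have e1 : (if l = 1 then κ else 0) = κ * (if l = 1 then 1 else 0) := by split_ifs <;> simp
  have e2 : (if μ = 1 then κ else 0) = κ * (if μ = 1 then 1 else 0) := by split_ifs <;> simp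
  have e3 : (if l = μ then ((Fintype.card F : ℂ) - 1) else 0) = κ * (if l = μ then 1 else 0) := by split_ifs <;> simp [hκ]
  rw [e1, e2, e3]
  generalize (if l = 1 then (1 : ℂ) else 0) = A
  generalize (if μ = 1 then (1 : ℂ) else 0) = B
  generalize (if l = μ then (1 : ℂ) else 0) = C
  field_simp

/-- Inner product with the principal character. -/
theorem inner_W_one (l : MulChar F ℂ) [Decidable (l = 1)] :
    classInner (W m l) (fun _ => 1) = if l = 1 then 1 else 0 := by
  classical
  have hq := qsub_ne_zero (F := F)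
  have hG := card_SLm_ne_zero (F := F) m
  rw [classInner, Nat.card_eq_fintype_card]
  simp only [map_one, mul_one, W]
  rw [← Finset.mul_sum, Finset.sum_comm]
  have h2 : ∀ c : F, ∑ g : SLm F m, l c * ((fixS m g c).card : ℂ) = (Fintype.card (SLm F m) : ℂ) * l c := by
    intro c
    rw [← Finset.mul_sum]
    by_cases hc : c = 0
    · subst hc
      simp [MulChar.map_nonunit l not_isUnit_zero]
    rw [moment1 m c hc]
    ring
  simp only [h2]
  rw [← Finset.mul_sum, sum_mulChar l]
  split_ifs
  · field_simp
  · simp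

theorem inner_one_W (l : MulChar F ℂ) [Decidable (l = 1)] :
    classInner (fun _ => (1 : ℂ)) (W m l) = if l = 1 then 1 else 0 := by
  rw [classInner_conj_symm, inner_W_one]
  split_ifs <;> simp

/-- The sum over the characters. -/
theorem sum_W (g : SLm F m) : ∑ l : MulChar F ℂ, W m l g = ((fixS m g 1).card : ℂ) := by
  classical
  have hq := qsub_ne_zero (F := F)
  simp only [W]
  rw [← Finset.mul_sum, Finset.sum_comm]
  have h1 : ∀ c : F, ∑ l : MulChar F ℂ, l c * ((fixS m g c).card : ℂ) =
      if c = 1 then ((Fintype.card F : ℂ) - 1) * ((fixS m g 1).card : ℂ) else 0 := by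
    intro c
    rw [← Finset.sum_mul]
    by_cases hc : c = 0
    · subst hc
      have h0 : ∀ l : MulChar F ℂ, l 0 = 0 := fun l => MulChar.map_nonunit l not_isUnit_zero
      simp [h0]
    have := sum_mulChar_apply (Units.mk0 c hc)
    simp only [Units.val_mk0] at this
    rw [this]
    by_cases h1 : c = 1
    · subst h1
      simp [show Units.mk0 (1 : F) hc = 1 from Units.ext rfl]
    · have h2 : Units.mk0 c hc ≠ 1 := fun h => h1 (congrArg Units.val h)
      simp [h1, h2]
  simp only [h1]
  rw [Finset.sum_ite_eq' Finset.univ (1 : F)]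
  simp only [Finset.mem_univ, if_true]
  field_simp

/-! ## The line stabilizer -/

/-- The first basis vector. -/
def e0 : Fin (m + 3) → F := Pi.single 0 1

/-- The stabilizer of the first coordinate line. -/
def lineStab : Subgroup (SLm F m) where
  carrier := {g | ∃ c : F, actV m g (e0 m) = c • e0 m}
  mul_mem' := by
    rintro a b ⟨c, hc⟩ ⟨d, hd⟩
    refine ⟨d * c, ?_⟩
    rw [actV_mul, hd, actV_smul, hc, smul_smul]
  one_mem' := ⟨1, by rw [actV_one, one_smul]⟩
  inv_mem' := by
    rintro a ⟨c, hc⟩
    have hc0 : c ≠ 0 := by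
      rintro rfl
      rw [zero_smul] at hc
      refine actV_ne_zero m a ?_ hc
      intro h
      have := congrFun h 0
      simp [e0] at this
    refine ⟨c⁻¹, ?_⟩
    have h1 : actV m a⁻¹ (c • e0 m) = e0 m := by
      rw [← hc, ← actV_mul, inv_mul_cancel, actV_one]
    rw [actV_smul] at h1
    rw [← h1, smul_smul, inv_mul_cancel₀ hc0, one_smul, h1]

theorem actV_e0_zero (g : SLm F m) : actV m g (e0 m) 0 = (g : Matrix (Fin (m + 3)) (Fin (m + 3)) F) 0 0 := by
  simp [actV, e0]

theorem mem_lineStab_iff (g : SLm F m) :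
    g ∈ lineStab (F := F) m ↔ actV m g (e0 m) = ((g : Matrix (Fin (m + 3)) (Fin (m + 3)) F) 0 0) • e0 m := by
  constructor
  · rintro ⟨c, hc⟩
    have h1 := congrFun hc 0
    rw [actV_e0_zero] at h1
    simp [e0] at h1
    rw [hc, h1]
  · intro h
    exact ⟨_, h⟩

/-- The first diagonal entry, on the stabilizer. -/
def lineVal : lineStab (F := F) m →* F where
  toFun h := (h.1 : Matrix (Fin (m + 3)) (Fin (m + 3)) F) 0 0
  map_one' := by simp
  map_mul' a b := by
    have ha := (mem_lineStab_iff m a.1).1 a.2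
    have hb := (mem_lineStab_iff m b.1).1 b.2
    have h1 : actV m (a.1 * b.1) (e0 m) = ((b.1 : Matrix (Fin (m + 3)) (Fin (m + 3)) F) 0 0 * (a.1 : Matrix (Fin (m + 3)) (Fin (m + 3)) F) 0 0) • e0 m := by
      rw [actV_mul, hb, actV_smul, ha, smul_smul]
    have h2 : ((a.1 * b.1 : SLm F m) : Matrix (Fin (m + 3)) (Fin (m + 3)) F) 0 0 = (b.1 : Matrix (Fin (m + 3)) (Fin (m + 3)) F) 0 0 * (a.1 : Matrix (Fin (m + 3)) (Fin (m + 3)) F) 0 0 := by
      have h3 := congrFun h1 0
      rw [actV_e0_zero] at h3
      simpa [e0] using h3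
    change ((a.1 * b.1 : SLm F m) : Matrix (Fin (m + 3)) (Fin (m + 3)) F) 0 0 = _
    rw [h2, mul_comm]

/-- The linear character of the stabilizer. -/
noncomputable def lineChar (l : MulChar F ℂ) : lineStab (F := F) m →* ℂˣ :=
  MonoidHom.toHomUnits (l.toMonoidHom.comp (lineVal m))

theorem lineChar_apply (l : MulChar F ℂ) (h : lineStab (F := F) m) :
    (lineChar m l h : ℂ) = l ((h.1 : Matrix (Fin (m + 3)) (Fin (m + 3)) F) 0 0) := rfl

theorem isCharacter_lineInd (l : MulChar F ℂ) :
    IsCharacter (SLm F m) (indFun (lineStab (F := F) m) (fun h => (lineChar m l h : ℂ))) :=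
  isCharacter_indFun _ (IsIrrCharacter.isCharacter (isIrrCharacter_of_monoidHom (lineChar m l)))

theorem e0_mem : e0 (F := F) m ∈ nzV F m := by
  rw [mem_nzV]
  intro h
  have := congrFun h 0
  simp [e0] at this

/-- The value of the extended function. -/
theorem ext_value (l : MulChar F ℂ) (g x : SLm F m) :
    extendByZero (lineStab (F := F) m) (fun h => (lineChar m l h : ℂ)) (x⁻¹ * g * x) =
      ∑ c : F, l c * (if actV m g (actV m x (e0 m)) = c • actV m x (e0 m) then 1 else 0) := by
  classical
  set v := actV m x (e0 m) with hv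
  have hv0 : v ≠ 0 := actV_ne_zero m x ((mem_nzV m).1 (e0_mem m))
  have hmem : ∀ c : F, actV m (x⁻¹ * g * x) (e0 m) = c • e0 m ↔ actV m g v = c • v := by
    intro c
    rw [actV_mul, actV_mul, ← hv]
    constructor
    · intro h
      have := congrArg (actV m x) h
      rwa [← actV_mul, mul_inv_cancel, actV_one, actV_smul] at this
    · intro h
      rw [h, actV_smul, hv, ← actV_mul, inv_mul_cancel, actV_one]
  by_cases h : ∃ c : F, actV m g v = c • v
  · obtain ⟨c, hc⟩ := h
    have hm : x⁻¹ * g * x ∈ lineStab (F := F) m := ⟨c, (hmem c).2 hc⟩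
    rw [extendByZero_of_mem _ _ hm]
    have h00 : ((x⁻¹ * g * x : SLm F m) : Matrix (Fin (m + 3)) (Fin (m + 3)) F) 0 0 = c := by
      have h1 := congrFun ((hmem c).2 hc) 0
      rw [actV_e0_zero] at h1
      simpa [e0] using h1
    rw [lineChar_apply]
    change l (((x⁻¹ * g * x : SLm F m) : Matrix (Fin (m + 3)) (Fin (m + 3)) F) 0 0) = _
    rw [h00, Finset.sum_eq_single c]
    · simp [hc]
    · intro b _ hb
      have : ¬ actV m g v = b • v := by
        intro hh
        rw [hc] at hh
        exact hb (smul_left_injective F hv0 hh).symm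
      simp [this]
    · simp
  · have hm : x⁻¹ * g * x ∉ lineStab (F := F) m := by
      rintro ⟨c, hc⟩
      exact h ⟨c, (hmem c).1 hc⟩
    rw [extendByZero_of_notMem _ _ hm]
    symm
    apply Finset.sum_eq_zero
    intro c _
    have : ¬ actV m g v = c • v := fun hh => h ⟨c, hh⟩
    simp [this]

/-- The number of elements sending `e₀` to a given non-zero vector. -/
noncomputable def N0 : ℕ := (Finset.univ.filter (fun x : SLm F m => actV m x (e0 m) = e0 m)).card

theorem fibre_card {v : Fin (m + 3) → F} (hv : v ∈ nzV F m) :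
    (Finset.univ.filter (fun x : SLm F m => actV m x (e0 m) = v)).card = N0 (F := F) m := by
  have h1 := count_nzV (F := F) m (e0_mem m) hv
  have h2 := count_nzV (F := F) m (e0_mem m) (e0_mem m)
  have hpos : 0 < (nzV F m).card := Finset.card_pos.2 (nzV_nonempty m)
  apply Nat.eq_of_mul_eq_mul_right hpos
  rw [h1, ← h2]
  rfl

theorem N0_ne_zero : N0 (F := F) m ≠ 0 := by
  intro h
  have h2 := count_nzV (F := F) m (e0_mem m) (e0_mem m)
  change N0 m * _ = _ at h2
  rw [h, zero_mul] at h2
  exact Fintype.card_ne_zero h2.symm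

/-- The order of the line stabilizer. -/
theorem card_lineStab : Nat.card (lineStab (F := F) m) = (Fintype.card F - 1) * N0 (F := F) m := by
  classical
  rw [Nat.card_eq_fintype_card, Fintype.card_subtype]
  have hsum : (Finset.univ.filter (fun x : SLm F m => x ∈ lineStab (F := F) m)).card =
      ∑ c ∈ (Finset.univ : Finset Fˣ), (Finset.univ.filter (fun x : SLm F m => actV m x (e0 m) = ((c : Fˣ) : F) • e0 m)).card := by
    rw [← Finset.card_biUnion]
    · congr 1
      ext x
      simp only [Finset.mem_filter, Finset.mem_univ, true_and, Finset.mem_biUnion]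
      constructor
      · rintro ⟨c, hc⟩
        have hc0 : c ≠ 0 := by
          rintro rfl
          rw [zero_smul] at hc
          exact actV_ne_zero m x ((mem_nzV m).1 (e0_mem m)) hc
        exact ⟨Units.mk0 c hc0, hc⟩
      · rintro ⟨c, hc⟩
        exact ⟨_, hc⟩
    · intro a _ b _ hab
      rw [Function.onFun, Finset.disjoint_filter]
      intro x _ h1 h2
      apply hab
      apply Units.ext
      rw [h1] at h2
      exact smul_left_injective F ((mem_nzV m).1 (e0_mem m)) h2
  rw [hsum]
  have h1 : ∀ c : Fˣ, (Finset.univ.filter (fun x : SLm F m => actV m x (e0 m) = ((c : Fˣ) : F) • e0 m)).card = N0 (F := F) m := by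
    intro c
    apply fibre_card
    rw [mem_nzV]
    exact smul_ne_zero c.ne_zero ((mem_nzV m).1 (e0_mem m))
  simp only [h1, Finset.sum_const, Finset.card_univ, Fintype.card_units, smul_eq_mul]

/-- The induced function is the Weil function. -/
theorem lineInd_eq (l : MulChar F ℂ) :
    indFun (lineStab (F := F) m) (fun h => (lineChar m l h : ℂ)) = W m l := by
  classical
  funext g
  rw [indFun_apply]
  simp only [ext_value]
  rw [Finset.sum_comm]
  have h1 : ∀ c : F, ∑ x : SLm F m, l c * (if actV m g (actV m x (e0 m)) = c • actV m x (e0 m) then (1 : ℂ) else 0) =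
      (N0 (F := F) m : ℂ) * (l c * ((fixS m g c).card : ℂ)) := by
    intro c
    rw [← Finset.mul_sum]
    have h2 : ∑ x : SLm F m, (if actV m g (actV m x (e0 m)) = c • actV m x (e0 m) then (1 : ℂ) else 0) =
        ((N0 (F := F) m * (fixS m g c).card : ℕ) : ℂ) := by
      rw [Finset.sum_boole]
      congr 1
      have h3 : (Finset.univ.filter (fun x : SLm F m => actV m g (actV m x (e0 m)) = c • actV m x (e0 m))).card =
          ∑ v ∈ fixS m g c, (Finset.univ.filter (fun x : SLm F m => actV m x (e0 m) = v)).card := by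
        have := Finset.card_eq_sum_card_fiberwise (s := Finset.univ.filter (fun x : SLm F m => actV m g (actV m x (e0 m)) = c • actV m x (e0 m)))
          (t := fixS m g c) (f := fun x => actV m x (e0 m)) (by
            intro x hx
            simp only [Finset.coe_filter, Finset.mem_univ, true_and, Set.mem_setOf_eq] at hx
            simp only [fixS, Finset.coe_filter, Set.mem_setOf_eq, mem_nzV]
            exact ⟨actV_ne_zero m x ((mem_nzV m).1 (e0_mem m)), hx⟩)
        rw [this]
        apply Finset.sum_congr rfl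
        intro v hv
        congr 1
        ext x
        simp only [Finset.mem_filter, Finset.mem_univ, true_and, fixS] at hv ⊢
        constructor
        · exact fun h => h.2
        · intro h
          refine ⟨?_, h⟩
          rw [h]
          exact hv.2
      rw [h3, mul_comm]
      have h4 : ∀ v ∈ fixS m g c, (Finset.univ.filter (fun x : SLm F m => actV m x (e0 m) = v)).card = N0 (F := F) m :=
        fun v hv => fibre_card m (Finset.mem_filter.1 hv).1
      rw [Finset.sum_congr rfl h4, Finset.sum_const, smul_eq_mul]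
    rw [h2]
    push_cast
    ring
  simp only [h1]
  rw [← Finset.mul_sum, card_lineStab, W]
  have hN : (N0 (F := F) m : ℂ) ≠ 0 := by
    exact_mod_cast N0_ne_zero (F := F) m
  have hq := qsub_ne_zero (F := F)
  have hq2 : ((Fintype.card F - 1 : ℕ) : ℂ) = (Fintype.card F : ℂ) - 1 := by
    rw [Nat.cast_sub Fintype.card_pos]
    simp
  rw [Nat.cast_mul, hq2]
  field_simp

theorem isCharacter_W (l : MulChar F ℂ) : IsCharacter (SLm F m) (W m l) := by
  rw [← lineInd_eq]
  exact isCharacter_lineInd m l

open scoped _root_.Classical in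
/-- The irreducible constituents. -/
noncomputable def Wt (l : MulChar F ℂ) : SLm F m → ℂ := if l = 1 then W m 1 - (fun _ => 1) else W m l

theorem isIrr_Wt (l : MulChar F ℂ) : IsIrrCharacter (SLm F m) (Wt m l) := by
  classical
  unfold Wt
  by_cases hl : l = 1
  · rw [if_pos hl]
    have hc : IsCharacter (SLm F m) (W m 1 - fun _ => 1) :=
      isCharacter_sub_one (isCharacter_W m 1) (by rw [inner_W_one]; simp)
    apply isIrrCharacter_of_classInner_self hc
    rw [classInner_sub_left, classInner_sub_right, classInner_sub_right, inner_W, inner_W_one, inner_one_W,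
      classInner_irr_self isIrrCharacter_one]
    simp
  · rw [if_neg hl]
    apply isIrrCharacter_of_classInner_self (isCharacter_W m l)
    rw [inner_W]
    simp [hl]

theorem inner_Wt (l μ : MulChar F ℂ) (h : l ≠ μ) : classInner (Wt m l) (Wt m μ) = 0 := by
  classical
  unfold Wt
  by_cases hl : l = 1
  · have hμ : μ ≠ 1 := fun e => h (hl.trans e.symm)
    rw [if_pos hl, if_neg hμ, classInner_sub_left, inner_W, inner_one_W]
    simp [hμ, hμ.symm]
  · by_cases hμ : μ = 1
    · rw [if_neg hl, if_pos hμ, classInner_sub_right, inner_W, inner_W_one]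
      simp [hl, Ne.symm hl]
    · rw [if_neg hl, if_neg hμ, inner_W]
      simp [hl, hμ, h]

theorem sum_Wt (g : SLm F m) : ∑ l : MulChar F ℂ, Wt m l g = ((fixS m g 1).card : ℂ) - 1 := by
  classical
  have h1 : ∀ l : MulChar F ℂ, Wt m l g = W m l g - if l = 1 then 1 else 0 := by
    intro l
    unfold Wt
    by_cases hl : l = 1
    · subst hl
      simp
    · simp [hl]
  simp only [h1]
  rw [Finset.sum_sub_distrib, sum_W, Finset.sum_ite_eq' Finset.univ (1 : MulChar F ℂ)]
  simp

/-- The decomposition of the permutation character on non-zero vectors. -/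
theorem weil_main (n : ℕ) (hn : 3 ≤ n) :
    ∃ χ : Fin (Fintype.card F - 1) → (Matrix.SpecialLinearGroup (Fin n) F → ℂ),
      (∀ i, Cfsg.IsIrrCharacter (Matrix.SpecialLinearGroup (Fin n) F) (χ i)) ∧ Function.Injective χ ∧
      ∀ g : Matrix.SpecialLinearGroup (Fin n) F,
        (Nat.card {v : Fin n → F // v ≠ 0 ∧ (g : Matrix (Fin n) (Fin n) F).mulVec v = v} : ℂ) = 1 + ∑ i, χ i g := by
  classical
  obtain ⟨m, rfl⟩ : ∃ m, n = m + 3 := ⟨n - 3, by omega⟩
  let ι : Fin (Fintype.card F - 1) ≃ MulChar F ℂ := (Fintype.equivFinOfCardEq card_mulChar).symm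
  refine ⟨fun i => Wt m (ι i), fun i => isIrr_Wt m _, ?_, ?_⟩
  · intro i j hij
    by_contra hne
    have h1 : ι i ≠ ι j := fun e => hne (ι.injective e)
    have h2 := inner_Wt m (ι i) (ι j) h1
    have hij' : Wt m (ι i) = Wt m (ι j) := hij
    rw [← hij', classInner_irr_self (isIrr_Wt m _)] at h2
    exact one_ne_zero h2
  · intro g
    have h1 : ∑ i, Wt m (ι i) g = ∑ l : MulChar F ℂ, Wt m l g := Equiv.sum_comp ι (fun l => Wt m l g)
    rw [h1, sum_Wt]
    have h2 : Nat.card {v : Fin (m + 3) → F // v ≠ 0 ∧ (g : Matrix (Fin (m + 3)) (Fin (m + 3)) F).mulVec v = v} = (fixS m g 1).card := by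
      rw [Nat.card_eq_fintype_card, Fintype.card_subtype]
      congr 1
      ext v
      simp [fixS, mem_nzV, actV]
    rw [h2]
    ring

end Cfsg.Agent.Lib.Known.Weil
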